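import Mathlib
import Cfsg.Prelude.Def_ClassicalGeometry

set_option autoImplicit false

namespace Cfsg.Agent.H03.Block

open Matrix

/-- Two injective homomorphisms to a monoid with the same range identify the groups. -/
theorem equiv_of_range {K L M : Type*} [Group K] [Group L] [Monoid M] (r : K →* M) (s : L →* M)
    (hr : Function.Injective r) (hs : Function.Injective s)
    (h : ∀ x, (∃ k, r k = x) ↔ ∃ l, s l = x) : Nonempty (K ≃* L) := by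
  choose φ hφ using fun k => (h (r k)).mp ⟨k, rfl⟩
  choose ψ hψ using fun l => (h (s l)).mpr ⟨l, rfl⟩
  exact ⟨{ toFun := φ
           invFun := ψ
           left_inv := fun k => hr (by rw [hψ, hφ])
           right_inv := fun l => hs (by rw [hφ, hψ])
           map_mul' := fun a b => hs (by rw [map_mul, hφ, hφ, hφ, map_mul]) }⟩

variable {F : Type*} [Field F] {ι ι₁ ι₂ : Type} [Fintype ι] [Fintype ι₁] [Fintype ι₂]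
  [DecidableEq ι] [DecidableEq ι₁] [DecidableEq ι₂]

/-- The matrix of `Θ ∘ (A × B) ∘ Θ⁻¹`. -/
noncomputable def glue (Θ : ((ι₁ → F) × (ι₂ → F)) ≃ₗ[F] (ι → F)) (A : Matrix ι₁ ι₁ F) (B : Matrix ι₂ ι₂ F) :
    Matrix ι ι F :=
  LinearMap.toMatrix' ((Θ : ((ι₁ → F) × (ι₂ → F)) →ₗ[F] (ι → F)) ∘ₗ (LinearMap.prodMap (toLin' A) (toLin' B)) ∘ₗ
    (Θ.symm : (ι → F) →ₗ[F] ((ι₁ → F) × (ι₂ → F))))

theorem glue_mulVec (Θ : ((ι₁ → F) × (ι₂ → F)) ≃ₗ[F] (ι → F)) (A : Matrix ι₁ ι₁ F) (B : Matrix ι₂ ι₂ F)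
    (a : ι₁ → F) (b : ι₂ → F) : glue Θ A B *ᵥ Θ (a, b) = Θ (A *ᵥ a, B *ᵥ b) := by
  rw [glue, LinearMap.toMatrix'_mulVec]
  simp

theorem glue_one (Θ : ((ι₁ → F) × (ι₂ → F)) ≃ₗ[F] (ι → F)) : glue Θ (1 : Matrix ι₁ ι₁ F) (1 : Matrix ι₂ ι₂ F) = 1 := by
  apply Matrix.mulVec_injective
  funext v
  obtain ⟨⟨a, b⟩, rfl⟩ := Θ.surjective v
  rw [glue_mulVec]
  simp

theorem glue_mul (Θ : ((ι₁ → F) × (ι₂ → F)) ≃ₗ[F] (ι → F)) (A A' : Matrix ι₁ ι₁ F) (B B' : Matrix ι₂ ι₂ F) :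
    glue Θ (A * A') (B * B') = glue Θ A B * glue Θ A' B' := by
  apply Matrix.mulVec_injective
  funext v
  obtain ⟨⟨a, b⟩, rfl⟩ := Θ.surjective v
  rw [glue_mulVec, ← Matrix.mulVec_mulVec (Θ (a, b)) (glue Θ A B) (glue Θ A' B'), glue_mulVec, glue_mulVec, Matrix.mulVec_mulVec, Matrix.mulVec_mulVec]

theorem glue_inj (Θ : ((ι₁ → F) × (ι₂ → F)) ≃ₗ[F] (ι → F)) {A A' : Matrix ι₁ ι₁ F} {B B' : Matrix ι₂ ι₂ F}
    (h : glue Θ A B = glue Θ A' B') : A = A' ∧ B = B' := by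
  constructor
  · apply Matrix.mulVec_injective
    funext a
    have h1 := congrArg (fun M => M *ᵥ Θ (a, 0)) h
    simp only [glue_mulVec] at h1
    exact congrArg Prod.fst (Θ.injective h1)
  · apply Matrix.mulVec_injective
    funext b
    have h1 := congrArg (fun M => M *ᵥ Θ (0, b)) h
    simp only [glue_mulVec] at h1
    exact congrArg Prod.snd (Θ.injective h1)

section main

variable {H H₁ H₂ : Type*} [Group H] [Group H₁] [Group H₂]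
  (ρ : H →* Matrix ι ι F) (ρ₁ : H₁ →* Matrix ι₁ ι₁ F) (ρ₂ : H₂ →* Matrix ι₂ ι₂ F)
  (f : (ι → F) → (ι → F) → F) (f₁ : (ι₁ → F) → (ι₁ → F) → F) (f₂ : (ι₂ → F) → (ι₂ → F) → F)
  (Θ : ((ι₁ → F) × (ι₂ → F)) ≃ₗ[F] (ι → F)) (W : Set (ι → F))

/-- An element stabilising `W` has block form. -/
theorem block_of_stab
    (hρp : ∀ h u v, f (ρ h *ᵥ u) (ρ h *ᵥ v) = f u v)
    (hΘ : ∀ a b a' b', f (Θ (a, b)) (Θ (a', b')) = f₁ a a' + f₂ b b')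
    (hW : ∀ v, v ∈ W ↔ ∃ a, v = Θ (a, 0))
    (h₁0 : ∀ a, f₁ 0 a = 0) (h₂0 : ∀ b, f₂ b 0 = 0)
    (hnd : ∀ a, (∀ a', f₁ a a' = 0) → a = 0) (g : H) (hg : g ∈ Cfsg.stabilizing ρ W) :
    ∃ (A : Matrix ι₁ ι₁ F) (B : Matrix ι₂ ι₂ F), ρ g = glue Θ A B ∧
      (∀ u v, f₁ (A *ᵥ u) (A *ᵥ v) = f₁ u v) ∧ (∀ u v, f₂ (B *ᵥ u) (B *ᵥ v) = f₂ u v) := by
  set M := ρ g with hM
  have hstab : ∀ v, v ∈ W ↔ M *ᵥ v ∈ W := hg
  have hstep1 : ∀ a, ∃ a', M *ᵥ Θ (a, 0) = Θ (a', 0) := by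
    intro a
    exact (hW _).mp ((hstab _).mp ((hW _).mpr ⟨a, rfl⟩))
  have hsurj1 : ∀ a'', ∃ a', M *ᵥ Θ (a', 0) = Θ (a'', 0) := by
    intro a''
    -- the inverse
    have hinv : M *ᵥ (ρ g⁻¹ *ᵥ Θ (a'', 0)) = Θ (a'', 0) := by
      rw [Matrix.mulVec_mulVec, hM, ← map_mul, mul_inv_cancel, map_one, Matrix.one_mulVec]
    have h1 : ρ g⁻¹ *ᵥ Θ (a'', 0) ∈ W := by
      rw [hstab, hinv]
      exact (hW _).mpr ⟨a'', rfl⟩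
    obtain ⟨a', ha'⟩ := (hW _).mp h1
    exact ⟨a', by rw [← ha', hinv]⟩
  have hstep2 : ∀ b, ∃ b', M *ᵥ Θ (0, b) = Θ (0, b') := by
    intro b
    obtain ⟨⟨c, d⟩, hcd⟩ := Θ.surjective (M *ᵥ Θ (0, b))
    have hc : c = 0 := by
      apply hnd
      intro a''
      obtain ⟨a', ha'⟩ := hsurj1 a''
      have h1 := hρp g (Θ (0, b)) (Θ (a', 0))
      rw [← hM, ha', ← hcd, hΘ, hΘ, h₁0, h₂0, h₂0, add_zero, add_zero] at h1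
      exact h1
    exact ⟨d, by rw [← hcd, hc]⟩
  let P₁ : (ι → F) →ₗ[F] (ι₁ → F) := LinearMap.fst F _ _ ∘ₗ (Θ.symm : (ι → F) →ₗ[F] ((ι₁ → F) × (ι₂ → F)))
  let P₂ : (ι → F) →ₗ[F] (ι₂ → F) := LinearMap.snd F _ _ ∘ₗ (Θ.symm : (ι → F) →ₗ[F] ((ι₁ → F) × (ι₂ → F)))
  let I₁ : (ι₁ → F) →ₗ[F] (ι → F) := (Θ : ((ι₁ → F) × (ι₂ → F)) →ₗ[F] (ι → F)) ∘ₗ LinearMap.inl F _ _
  let I₂ : (ι₂ → F) →ₗ[F] (ι → F) := (Θ : ((ι₁ → F) × (ι₂ → F)) →ₗ[F] (ι → F)) ∘ₗ LinearMap.inr F _ _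
  let A : Matrix ι₁ ι₁ F := LinearMap.toMatrix' (P₁ ∘ₗ toLin' M ∘ₗ I₁)
  let B : Matrix ι₂ ι₂ F := LinearMap.toMatrix' (P₂ ∘ₗ toLin' M ∘ₗ I₂)
  have hA : ∀ a, M *ᵥ Θ (a, 0) = Θ (A *ᵥ a, 0) := by
    intro a
    obtain ⟨a', ha'⟩ := hstep1 a
    have : A *ᵥ a = a' := by
      simp only [A, LinearMap.toMatrix'_mulVec, LinearMap.comp_apply, P₁, I₁]
      simp [ha']
    rw [this, ha']
  have hB : ∀ b, M *ᵥ Θ (0, b) = Θ (0, B *ᵥ b) := by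
    intro b
    obtain ⟨b', hb'⟩ := hstep2 b
    have : B *ᵥ b = b' := by
      simp only [B, LinearMap.toMatrix'_mulVec, LinearMap.comp_apply, P₂, I₂]
      simp [hb']
    rw [this, hb']
  refine ⟨A, B, ?_, ?_, ?_⟩
  · apply Matrix.mulVec_injective
    funext v
    obtain ⟨⟨a, b⟩, rfl⟩ := Θ.surjective v
    rw [glue_mulVec]
    have h1 : Θ (a, b) = Θ (a, 0) + Θ (0, b) := by
      rw [← map_add]; simp
    have h2 : Θ (A *ᵥ a, B *ᵥ b) = Θ (A *ᵥ a, 0) + Θ (0, B *ᵥ b) := by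
      rw [← map_add]; simp
    rw [h2, h1, Matrix.mulVec_add, hA, hB]
  · intro u v
    have h1 := hρp g (Θ (u, 0)) (Θ (v, 0))
    rw [← hM, hA, hA, hΘ, hΘ, h₂0, add_zero, add_zero] at h1
    exact h1
  · intro u v
    have h1 := hρp g (Θ (0, u)) (Θ (0, v))
    rw [← hM, hB, hB, hΘ, hΘ, h₁0, zero_add, zero_add] at h1
    exact h1

theorem block_equiv
    (hρi : Function.Injective ρ) (hρ₁i : Function.Injective ρ₁) (hρ₂i : Function.Injective ρ₂)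
    (hρp : ∀ h u v, f (ρ h *ᵥ u) (ρ h *ᵥ v) = f u v)
    (hρs : ∀ M : Matrix ι ι F, IsUnit M → (∀ u v, f (M *ᵥ u) (M *ᵥ v) = f u v) → ∃ h, ρ h = M)
    (hρ₁p : ∀ h u v, f₁ (ρ₁ h *ᵥ u) (ρ₁ h *ᵥ v) = f₁ u v)
    (hρ₁s : ∀ M : Matrix ι₁ ι₁ F, IsUnit M → (∀ u v, f₁ (M *ᵥ u) (M *ᵥ v) = f₁ u v) → ∃ h, ρ₁ h = M)
    (hρ₂p : ∀ h u v, f₂ (ρ₂ h *ᵥ u) (ρ₂ h *ᵥ v) = f₂ u v)
    (hρ₂s : ∀ M : Matrix ι₂ ι₂ F, IsUnit M → (∀ u v, f₂ (M *ᵥ u) (M *ᵥ v) = f₂ u v) → ∃ h, ρ₂ h = M)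
    (hΘ : ∀ a b a' b', f (Θ (a, b)) (Θ (a', b')) = f₁ a a' + f₂ b b')
    (hW : ∀ v, v ∈ W ↔ ∃ a, v = Θ (a, 0))
    (h₁0 : ∀ a, f₁ 0 a = 0) (h₂0 : ∀ b, f₂ b 0 = 0)
    (hnd : ∀ a, (∀ a', f₁ a a' = 0) → a = 0) :
    Nonempty (↥(Cfsg.stabilizing ρ W) ≃* H₁ × H₂) := by
  let s : H₁ × H₂ →* Matrix ι ι F :=
    { toFun := fun p => glue Θ (ρ₁ p.1) (ρ₂ p.2)
      map_one' := by simp [glue_one]
      map_mul' := fun p p' => by simp [glue_mul] }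
  have hs : ∀ p, s p = glue Θ (ρ₁ p.1) (ρ₂ p.2) := fun _ => rfl
  let r : ↥(Cfsg.stabilizing ρ W) →* Matrix ι ι F := ρ.comp (Cfsg.stabilizing ρ W).subtype
  apply equiv_of_range r s
  · intro x y h
    exact Subtype.ext (hρi h)
  · rintro ⟨x₁, x₂⟩ ⟨y₁, y₂⟩ h
    obtain ⟨h1, h2⟩ := glue_inj Θ h
    exact Prod.ext (hρ₁i h1) (hρ₂i h2)
  · intro M
    constructor
    · rintro ⟨g, rfl⟩
      obtain ⟨A, B, hAB, hA, hB⟩ := block_of_stab ρ f f₁ f₂ Θ W hρp hΘ hW h₁0 h₂0 hnd g.1 g.2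
      obtain ⟨A', B', hAB', -, -⟩ := block_of_stab ρ f f₁ f₂ Θ W hρp hΘ hW h₁0 h₂0 hnd g.1⁻¹ (Subgroup.inv_mem _ g.2)
      have h1 : glue Θ (A * A') (B * B') = glue Θ 1 1 := by
        rw [glue_mul, ← hAB, ← hAB', ← map_mul, mul_inv_cancel, map_one, glue_one]
      obtain ⟨h2, h3⟩ := glue_inj Θ h1
      obtain ⟨h₁, hh₁⟩ := hρ₁s A ((Matrix.isUnit_iff_isUnit_det _).mpr (Matrix.isUnit_det_of_right_inverse h2)) hA
      obtain ⟨h₂, hh₂⟩ := hρ₂s B ((Matrix.isUnit_iff_isUnit_det _).mpr (Matrix.isUnit_det_of_right_inverse h3)) hB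
      refine ⟨(h₁, h₂), ?_⟩
      rw [hs]
      simp only [hh₁, hh₂]
      exact hAB.symm
    · rintro ⟨⟨h₁, h₂⟩, rfl⟩
      rw [hs]
      simp only
      set A := ρ₁ h₁ with hA
      set B := ρ₂ h₂ with hB
      have hunit : IsUnit (s (h₁, h₂)) := (Group.isUnit (h₁, h₂)).map s
      have hpres : ∀ u v, f (glue Θ A B *ᵥ u) (glue Θ A B *ᵥ v) = f u v := by
        intro u v
        obtain ⟨⟨a, b⟩, rfl⟩ := Θ.surjective u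
        obtain ⟨⟨a', b'⟩, rfl⟩ := Θ.surjective v
        rw [glue_mulVec, glue_mulVec, hΘ, hΘ, hρ₁p, hρ₂p]
      obtain ⟨h, hh⟩ := hρs _ hunit hpres
      refine ⟨⟨h, ?_⟩, hh⟩
      intro v
      obtain ⟨⟨a, b⟩, rfl⟩ := Θ.surjective v
      show _ ↔ ρ h *ᵥ _ ∈ W
      have hh' : ρ h = glue Θ A B := hh
      rw [hh', glue_mulVec, hW, hW]
      constructor
      · rintro ⟨a', ha'⟩
        have h3 := Θ.injective ha'
        have hb0 : b = 0 := congrArg Prod.snd h3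
        exact ⟨A *ᵥ a, by rw [hb0, Matrix.mulVec_zero]⟩
      · rintro ⟨a', ha'⟩
        have h3 := Θ.injective ha'
        have hb0 : B *ᵥ b = 0 := congrArg Prod.snd h3
        have hb1 : b = 0 := by
          have h4 : ρ₂ h₂⁻¹ *ᵥ (B *ᵥ b) = b := by
            rw [Matrix.mulVec_mulVec, hB, ← map_mul, inv_mul_cancel, map_one, Matrix.one_mulVec]
          rw [← h4, hb0, Matrix.mulVec_zero]
        exact ⟨a, by rw [hb1]⟩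

end main

end Cfsg.Agent.H03.Block
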