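import Mathlib

set_option autoImplicit false

namespace Cfsg.Agent.H03.FL

universe u
variable {H : Type u} [Group H]

/-- `[h, x]`. -/
def br (x : MulAut H) (h : H) : Subgroup H :=
  Subgroup.closure {c : H | ∃ i : ℕ, c = h⁻¹ * (x ^ i) h}

/-- `[S, x]`. -/
def brS (x : MulAut H) (S : Subgroup H) : Subgroup H :=
  Subgroup.closure {c : H | ∃ h ∈ S, ∃ i : ℕ, c = h⁻¹ * (x ^ i) h}

/-- fixed points -/
def Fx (x : MulAut H) : Subgroup H := (x : H →* H).eqLocus (MonoidHom.id H)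

/-- generated by the fixed points of the `[h, x]`. -/
def DD (x : MulAut H) : Subgroup H := ⨆ h : H, br x h ⊓ Fx x

/-- invariant subgroup -/
def Inv (x : MulAut H) (S : Subgroup H) : Prop := ∀ h ∈ S, x h ∈ S

theorem mem_Fx {x : MulAut H} {c : H} : c ∈ Fx x ↔ x c = c := Iff.rfl

theorem pow_mem {x : MulAut H} {S : Subgroup H} (hS : Inv x S) {h : H} (hh : h ∈ S) (i : ℕ) :
    (x ^ i) h ∈ S := by
  induction i with
  | zero => simpa using hh
  | succ n ih => rw [pow_succ', MulAut.mul_apply]; exact hS _ ih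

theorem fix_pow {x : MulAut H} {c : H} (hc : x c = c) (i : ℕ) : (x ^ i) c = c := by
  induction i with
  | zero => simp
  | succ n ih => rw [pow_succ, MulAut.mul_apply, hc, ih]

theorem pow_comm (x : MulAut H) (i : ℕ) (h : H) : (x ^ i) (x h) = x ((x ^ i) h) := by
  rw [← MulAut.mul_apply, ← MulAut.mul_apply, ← pow_succ, ← pow_succ']

theorem pow_succ_apply (x : MulAut H) (i : ℕ) (h : H) : (x ^ (i + 1)) h = x ((x ^ i) h) := by
  rw [pow_succ', MulAut.mul_apply]

theorem br_le {x : MulAut H} {S : Subgroup H} (hS : Inv x S) {h : H} (hh : h ∈ S) : br x h ≤ S := by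
  refine (Subgroup.closure_le _).2 ?_
  rintro _ ⟨i, rfl⟩
  exact S.mul_mem (S.inv_mem hh) (pow_mem hS hh i)

theorem brS_le {x : MulAut H} {S : Subgroup H} (hS : Inv x S) : brS x S ≤ S := by
  refine (Subgroup.closure_le _).2 ?_
  rintro _ ⟨h, hh, i, rfl⟩
  exact S.mul_mem (S.inv_mem hh) (pow_mem hS hh i)

theorem br_le_brS {x : MulAut H} {S : Subgroup H} {h : H} (hh : h ∈ S) : br x h ≤ brS x S := by
  refine Subgroup.closure_mono ?_
  rintro _ ⟨i, rfl⟩
  exact ⟨h, hh, i, rfl⟩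

theorem brS_mono {x : MulAut H} {S T : Subgroup H} (h : S ≤ T) : brS x S ≤ brS x T := by
  refine Subgroup.closure_mono ?_
  rintro _ ⟨g, hg, i, rfl⟩
  exact ⟨g, h hg, i, rfl⟩

theorem gen_mem {x : MulAut H} {S : Subgroup H} {h : H} (hh : h ∈ S) (i : ℕ) :
    h⁻¹ * (x ^ i) h ∈ brS x S := Subgroup.subset_closure ⟨h, hh, i, rfl⟩

theorem gen_mem' {x : MulAut H} (h : H) (i : ℕ) : h⁻¹ * (x ^ i) h ∈ br x h :=
  Subgroup.subset_closure ⟨i, rfl⟩

theorem inv_of_gens {x : MulAut H} {s : Set H} (h : ∀ c ∈ s, x c ∈ Subgroup.closure s) :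
    Inv x (Subgroup.closure s) := by
  have : Subgroup.closure s ≤ (Subgroup.closure s).comap (x : H →* H) :=
    (Subgroup.closure_le _).2 (fun c hc => h c hc)
  intro a ha
  exact this ha

theorem brS_inv {x : MulAut H} {S : Subgroup H} (hS : Inv x S) : Inv x (brS x S) := by
  apply inv_of_gens
  rintro _ ⟨h, hh, i, rfl⟩
  refine Subgroup.subset_closure ⟨x h, hS _ hh, i, ?_⟩
  rw [map_mul, map_inv, pow_comm]

theorem br_inv (x : MulAut H) (h : H) : Inv x (br x h) := by
  apply inv_of_gens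
  rintro _ ⟨i, rfl⟩
  have e : x (h⁻¹ * (x ^ i) h) = (h⁻¹ * (x ^ 1) h)⁻¹ * (h⁻¹ * (x ^ (i + 1)) h) := by
    rw [map_mul, map_inv, pow_one, pow_succ_apply]
    group
  rw [e]
  exact (br x h).mul_mem ((br x h).inv_mem (gen_mem' h 1)) (gen_mem' h (i + 1))

theorem Fx_inv (x : MulAut H) : Inv x (Fx x) := by
  intro h hh
  rw [mem_Fx] at hh ⊢
  rw [hh, hh]

theorem inf_inv {x : MulAut H} {S T : Subgroup H} (hS : Inv x S) (hT : Inv x T) : Inv x (S ⊓ T) :=
  fun h hh => ⟨hS h hh.1, hT h hh.2⟩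

theorem sup_inv {x : MulAut H} {S T : Subgroup H} (hS : Inv x S) (hT : Inv x T) : Inv x (S ⊔ T) := by
  have : S ⊔ T ≤ (S ⊔ T).comap (x : H →* H) := by
    refine sup_le ?_ ?_
    · intro a ha
      exact (le_sup_left : S ≤ S ⊔ T) (hS a ha)
    · intro a ha
      exact (le_sup_right : T ≤ S ⊔ T) (hT a ha)
  intro a ha
  exact this ha

/-- `[S,x]` is normalized by `S`. -/
theorem brS_norm {x : MulAut H} {S : Subgroup H} {y k : H} (hy : y ∈ S)
    (hk : k ∈ brS x S) : y * k * y⁻¹ ∈ brS x S := by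
  have hle : brS x S ≤ (brS x S).comap (MulAut.conj y).toMonoidHom := by
    refine (Subgroup.closure_le _).2 ?_
    rintro _ ⟨h, hh, i, rfl⟩
    show (MulAut.conj y) (h⁻¹ * (x ^ i) h) ∈ brS x S
    have e : (MulAut.conj y) (h⁻¹ * (x ^ i) h) =
        ((h * y⁻¹)⁻¹ * (x ^ i) (h * y⁻¹)) * (y⁻¹⁻¹ * (x ^ i) y⁻¹)⁻¹ := by
      simp only [MulAut.conj_apply, map_mul, map_inv]
      group
    rw [e]
    exact (brS x S).mul_mem (gen_mem (S.mul_mem hh (S.inv_mem hy)) i)
      ((brS x S).inv_mem (gen_mem (S.inv_mem hy) i))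
  exact hle hk

variable [Finite H] {p : ℕ} [hpf : Fact p.Prime]

theorem card_coprime {K : Subgroup H} (hc : (Nat.card H).Coprime p) : (Nat.card K).Coprime p :=
  Nat.Coprime.coprime_dvd_left (Subgroup.card_subgroup_dvd_card K) hc

theorem pow_p_eq_one {c : H} (hc : (Nat.card H).Coprime p) (h : c ^ p = 1) : c = 1 := by
  have h1 : orderOf c ∣ p := orderOf_dvd_of_pow_eq_one h
  have h2 : orderOf c ∣ Nat.card H := orderOf_dvd_natCard c
  have h3 : orderOf c = 1 := Nat.eq_one_of_dvd_coprimes hc h2 h1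
  exact orderOf_eq_one_iff.1 h3

/-- coset version of the coprime fixed point lemma -/
theorem fixed_coset {x : MulAut H} (hxp : x ^ p = 1) (hc : (Nat.card H).Coprime p)
    {K : Subgroup H} (hK : Inv x K) {y : H} (hy : y⁻¹ * x y ∈ K) :
    ∃ k ∈ K, x (y * k) = y * k := by
  classical
  have hstep : ∀ g : H, y⁻¹ * g ∈ K → y⁻¹ * x g ∈ K := by
    intro g hg
    have e : y⁻¹ * x g = (y⁻¹ * x y) * x (y⁻¹ * g) := by
      simp only [map_mul, map_inv]; group
    rw [e]
    exact K.mul_mem hy (hK _ hg)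
  let α := {g : H // y⁻¹ * g ∈ K}
  let f : Function.End α := fun g => ⟨x g.1, hstep g.1 g.2⟩
  have hfi : ∀ (i : ℕ) (g : α), ((f ^ i) g).1 = (x ^ i) g.1 := by
    intro i g
    induction i with
    | zero => rfl
    | succ n ih =>
      rw [pow_succ', pow_succ_apply, ← ih]
      rfl
  have hf : f ^ p ^ 1 = 1 := by
    rw [pow_one]
    funext g
    apply Subtype.ext
    rw [hfi, hxp]
    rfl
  haveI : Finite α := Subtype.finite
  letI : Fintype α := Fintype.ofFinite α
  have hmod0 := Equiv.Perm.card_fixedPoints_modEq (p := p) (n := 1) hf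
  have hcard : Nat.card α = Nat.card K := by
    refine Nat.card_congr ⟨fun g => ⟨y⁻¹ * g.1, g.2⟩, fun k => ⟨y * k.1, by simp [k.2]⟩, ?_, ?_⟩
    · intro g
      apply Subtype.ext
      simp
    · intro k
      apply Subtype.ext
      simp
  have hmod : Nat.card K ≡ Nat.card (Function.fixedPoints f) [MOD p] := by
    rw [← hcard, Nat.card_eq_fintype_card, Nat.card_eq_fintype_card]
    convert hmod0
  have hne : Nat.card (Function.fixedPoints f) ≠ 0 := by
    intro h0
    rw [h0] at hmod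
    have hd : p ∣ Nat.card K := (Nat.modEq_zero_iff_dvd).1 hmod
    have := Nat.Coprime.eq_one_of_dvd (card_coprime (K := K) hc).symm hd
    exact (Fact.out : p.Prime).one_lt.ne' this
  have hpos : 0 < Nat.card (Function.fixedPoints f) := Nat.pos_of_ne_zero hne
  obtain ⟨⟨g, hg⟩⟩ := (Nat.card_pos_iff.1 hpos).1
  refine ⟨y⁻¹ * g.1, g.2, ?_⟩
  have h1 : f g = g := hg
  have h2 : x g.1 = g.1 := congrArg Subtype.val h1
  simpa using h2

/-- decomposition `y = a k`. -/
theorem dec {x : MulAut H} (hxp : x ^ p = 1) (hc : (Nat.card H).Coprime p)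
    {S : Subgroup H} (hS : Inv x S) {y : H} (hy : y ∈ S) :
    ∃ a ∈ S, ∃ k ∈ brS x S, y = a * k ∧ x a = a := by
  have h1 : y⁻¹ * x y ∈ brS x S := by
    have := gen_mem (x := x) hy 1
    rwa [pow_one] at this
  obtain ⟨k, hk, hfix⟩ := fixed_coset hxp hc (brS_inv hS) h1
  refine ⟨y * k, S.mul_mem hy (brS_le hS hk), k⁻¹, (brS x S).inv_mem hk, by group, hfix⟩

theorem brS_idem {x : MulAut H} (hxp : x ^ p = 1) (hc : (Nat.card H).Coprime p)
    {S : Subgroup H} (hS : Inv x S) : brS x (brS x S) = brS x S := by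
  apply le_antisymm (brS_le (brS_inv hS))
  refine (Subgroup.closure_le _).2 ?_
  rintro _ ⟨h, hh, i, rfl⟩
  obtain ⟨a, -, k, hk, rfl, hfix⟩ := dec hxp hc hS hh
  have e : (a * k)⁻¹ * (x ^ i) (a * k) = k⁻¹ * (x ^ i) k := by
    rw [map_mul, fix_pow hfix]; group
  rw [e]
  exact gen_mem hk i

/-- if `r⁻¹ x r` is fixed then `r` is fixed. -/
theorem fix_of_gen_fix {x : MulAut H} (hxp : x ^ p = 1) (hc : (Nat.card H).Coprime p) {r : H}
    (h : x (r⁻¹ * x r) = r⁻¹ * x r) : x r = r := by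
  set c := r⁻¹ * x r with hcdef
  have h1 : x r = r * c := by rw [hcdef]; group
  have h2 : ∀ i : ℕ, (x ^ i) r = r * c ^ i := by
    intro i
    induction i with
    | zero => simp
    | succ n ih =>
      rw [pow_succ_apply, ih, map_mul, h1, map_pow, h, pow_succ']
      group
  have h3 := h2 p
  rw [hxp] at h3
  have h4 : c ^ p = 1 := by
    have : r = r * c ^ p := h3
    exact (mul_eq_left.1 this.symm)
  have h5 := pow_p_eq_one hc h4
  rw [h1, h5, mul_one]

theorem br_idem {x : MulAut H} (hxp : x ^ p = 1) (hc : (Nat.card H).Coprime p) (g : H) :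
    brS x (br x g) = br x g := by
  apply le_antisymm (brS_le (br_inv x g))
  set W := br x g
  set K := brS x W
  set c : ℕ → H := fun i => g⁻¹ * (x ^ i) g with hcdef
  have hcW : ∀ i, c i ∈ W := fun i => gen_mem' g i
  have h1 : ∀ i, (c 1 ^ i)⁻¹ * c i ∈ K := by
    intro i
    induction i with
    | zero =>
      simp [hcdef, K.one_mem]
    | succ n ih =>
      have hk : (c n)⁻¹ * (x ^ 1) (c n) ∈ K := gen_mem (hcW n) 1
      have e : (c 1 ^ (n + 1))⁻¹ * c (n + 1) = ((c 1 ^ n)⁻¹ * c n) * ((c n)⁻¹ * (x ^ 1) (c n)) := by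
        have e2 : (x ^ 1) (c n) = (c 1)⁻¹ * c (n + 1) := by
          simp only [hcdef, pow_one, map_mul, map_inv, pow_succ_apply]
          group
        rw [e2, pow_succ]
        group
      rw [e]
      exact K.mul_mem ih hk
  have h2 : (c 1) ^ p ∈ K := by
    have h3 := h1 p
    have h4 : c p = 1 := by simp [hcdef, hxp]
    rw [h4, mul_one] at h3
    simpa using K.inv_mem h3
  have h5 : c 1 ∈ K := by
    have hco : p.Coprime (orderOf (c 1)) :=
      Nat.Coprime.coprime_dvd_left (orderOf_dvd_natCard (c 1)) hc |>.symm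
    obtain ⟨m, hm⟩ := exists_pow_eq_self_of_coprime hco
    rw [← hm]
    exact K.pow_mem h2 m
  have h6 : ∀ i, c i ∈ K := by
    intro i
    have h7 := K.mul_mem (K.pow_mem h5 i) (h1 i)
    simpa using h7
  refine (Subgroup.closure_le _).2 ?_
  rintro _ ⟨i, rfl⟩
  exact h6 i

end Cfsg.Agent.H03.FL
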