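import Mathlib

set_option autoImplicit false

namespace Cfsg.Agent.H03.FL

universe u v

/-- The abstract computation with the module `M` and the abelian group `U`. -/
theorem abstract_mod {M : Type u} {U : Type v} [AddCommGroup M] [CommGroup U]
    (A : U → (M →+ M)) (hA1 : ∀ m, A 1 m = m) (hAmul : ∀ c d m, A (c * d) m = A c (A d m))
    (σ : U →* U) (hσs : Function.Surjective σ)
    (X : M →+ M) (hcomm : ∀ c m, X (A c m) = A (σ c) (X m))
    (h1 : Function.Surjective (fun c : U => c * σ c))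
    (h2 : Function.Surjective (fun c : U => c⁻¹ * σ c))
    (hσ : ∀ f : U → M, (∀ c, f c = f (σ (σ c))) → ∀ c, f c = f (σ c))
    (hfix : ∀ m, (∀ c, A c m = m) → X m = m)
    (z : M)
    (hR2 : ∀ c, A (σ c)⁻¹ z + A c (X z) = z + X z) :
    ∀ c, A c z = z := by
  have hcm : ∀ c d m, A c (A d m) = A d (A c m) := by
    intro c d m
    rw [← hAmul, ← hAmul, mul_comm]
  have hinv : ∀ c m, A c (A c⁻¹ m) = m := by
    intro c m
    rw [← hAmul, mul_inv_cancel, hA1]
  have hinv' : ∀ c m, A c⁻¹ (A c m) = m := by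
    intro c m
    rw [← hAmul, inv_mul_cancel, hA1]
  set y : U → M := fun d => z - A d z with hy
  -- S1
  have S1 : ∀ c c', A c (y (σ c')⁻¹) = A (σ c)⁻¹ (y (σ c')⁻¹) := by
    intro c c'
    have eq1 := hR2 c
    have eq2 := hR2 c'
    have eq3 := hR2 (c * c')
    have e1 : (σ (c * c'))⁻¹ = (σ c)⁻¹ * (σ c')⁻¹ := by
      rw [map_mul, mul_inv]
    rw [e1, hAmul, hAmul] at eq3
    have e2 : A c' (X z) = z + X z - A (σ c')⁻¹ z := eq_sub_of_add_eq' eq2
    have e3 : A c (X z) = z + X z - A (σ c)⁻¹ z := eq_sub_of_add_eq' eq1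
    rw [e2, map_sub, map_add, e3] at eq3
    simp only [hy, map_sub]
    linear_combination (norm := abel) eq3
  -- S2
  have S2 : ∀ d u, A u (y d) = y d := by
    intro d u
    obtain ⟨c', hc'⟩ := hσs d⁻¹
    have hd : d = (σ c')⁻¹ := by rw [hc', inv_inv]
    obtain ⟨c, rfl⟩ := h1 u
    show A (c * σ c) (y d) = y d
    rw [hAmul, hcm, hd, S1 c c', hinv]
  have S3 : ∀ d, X (y d) = y d := fun d => hfix _ (fun c => S2 d c)
  have S5 : ∀ d d', y (d * d') = y d + y d' := by
    intro d d'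
    have h := S2 d d'
    simp only [hy, map_sub] at h
    simp only [hy, hAmul]
    rw [hcm]
    linear_combination (norm := abel) h
  have S50 : y 1 = 0 := by simp [hy, hA1]
  have S51 : ∀ d, y d⁻¹ = - y d := by
    intro d
    have h := S5 d⁻¹ d
    rw [inv_mul_cancel, S50] at h
    exact (eq_neg_of_add_eq_zero_left h.symm)
  have S6 : ∀ c, X z - A c (X z) = y (σ c) := by
    intro c
    have eq1 := hR2 c
    have e := S51 (σ c)
    have e' : y (σ c) = - y (σ c)⁻¹ := by rw [e, neg_neg]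
    rw [e']
    simp only [hy]
    linear_combination (norm := abel) -eq1
  have S7 : ∀ c, y c = y (σ (σ c)) := by
    intro c
    have h := S3 c
    simp only [hy, map_sub] at h
    rw [hcomm] at h
    have h6 := S6 (σ c)
    rw [h] at h6
    exact h6
  have S8 := hσ y S7
  intro u
  obtain ⟨c, rfl⟩ := h2 u
  have h9 : y (c⁻¹ * σ c) = 0 := by
    rw [S5, S51, ← S8 c]
    abel
  exact (sub_eq_zero.1 h9).symm

/-- purely group theoretic consequence of `e₁ e₂ = e₂ e₁`. -/
theorem r2_calc {G : Type u} [Group G] (c xc w xw xxw z xz : G) (hc : c * xc = xc * c)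
    (hz : z = xw * w⁻¹) (hxz : xz = xxw * xw⁻¹) (hzz : z * xz = xz * z)
    (hcomm : (w⁻¹ * c * xw) * (w⁻¹ * (c * xc) * xxw) = (w⁻¹ * (c * xc) * xxw) * (w⁻¹ * c * xw)) :
    xc⁻¹ * z * xc * (c * xz * c⁻¹) = z * xz := by
  have h0 : w * ((w⁻¹ * c * xw) * (w⁻¹ * (c * xc) * xxw)) * xw⁻¹
      = w * ((w⁻¹ * (c * xc) * xxw) * (w⁻¹ * c * xw)) * xw⁻¹ := by rw [hcomm]
  have h1 : c * z * (c * xc) * xz = (c * xc) * xz * z * c := by
    subst hz hxz
    have e1 : c * (xw * w⁻¹) * (c * xc) * (xxw * xw⁻¹)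
        = w * ((w⁻¹ * c * xw) * (w⁻¹ * (c * xc) * xxw)) * xw⁻¹ := by group
    have e2 : (c * xc) * (xxw * xw⁻¹) * (xw * w⁻¹) * c
        = w * ((w⁻¹ * (c * xc) * xxw) * (w⁻¹ * c * xw)) * xw⁻¹ := by group
    rw [e1, e2, h0]
  have h2 : z * (c * xc) * xz = xc * xz * z * c := by
    have : c * (z * (c * xc) * xz) = c * (xc * xz * z * c) := by
      calc c * (z * (c * xc) * xz) = c * z * (c * xc) * xz := by group
        _ = (c * xc) * xz * z * c := h1
        _ = c * (xc * xz * z * c) := by group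
    exact mul_left_cancel this
  calc xc⁻¹ * z * xc * (c * xz * c⁻¹) = xc⁻¹ * (z * (xc * c) * xz) * c⁻¹ := by group
    _ = xc⁻¹ * (z * (c * xc) * xz) * c⁻¹ := by rw [hc]
    _ = xc⁻¹ * (xc * xz * z * c) * c⁻¹ := by rw [h2]
    _ = xz * z := by group
    _ = z * xz := hzz.symm

end Cfsg.Agent.H03.FL
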