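import Mathlib
import Cfsg.Agent.Lib.H03.FL1
import Cfsg.Agent.Lib.H03.FL2

set_option autoImplicit false

namespace Cfsg.Agent.H03.FL

universe u
variable {H : Type u} [Group H]

open scoped commutatorElement

theorem DD_le_Fx (x : MulAut H) : DD x ≤ Fx x := iSup_le fun _ => inf_le_right

theorem br_inf_le_DD (x : MulAut H) (h : H) : br x h ⊓ Fx x ≤ DD x :=
  le_iSup (fun h => br x h ⊓ Fx x) h

theorem conj_br {x : MulAut H} {a b h : H} (ha : x a = a) (hb : b ∈ br x h) :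
    a * b * a⁻¹ ∈ br x (h * a⁻¹) := by
  have hle : br x h ≤ (br x (h * a⁻¹)).comap (MulAut.conj a).toMonoidHom := by
    refine (Subgroup.closure_le _).2 ?_
    rintro _ ⟨i, rfl⟩
    show (MulAut.conj a) (h⁻¹ * (x ^ i) h) ∈ br x (h * a⁻¹)
    have hai : (x ^ i) a⁻¹ = a⁻¹ := by rw [map_inv, fix_pow ha]
    have e : (MulAut.conj a) (h⁻¹ * (x ^ i) h) = (h * a⁻¹)⁻¹ * (x ^ i) (h * a⁻¹) := by
      rw [map_mul (x ^ i), hai]
      simp only [MulAut.conj_apply]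
      group
    rw [e]
    exact gen_mem' _ i
  exact hle hb

theorem conj_DD {x : MulAut H} {a d : H} (ha : x a = a) (hd : d ∈ DD x) : a * d * a⁻¹ ∈ DD x := by
  have hle : DD x ≤ (DD x).comap (MulAut.conj a).toMonoidHom := by
    refine iSup_le fun h => ?_
    rintro b ⟨hb1, hb2⟩
    show (MulAut.conj a) b ∈ DD x
    rw [MulAut.conj_apply]
    refine br_inf_le_DD x (h * a⁻¹) ⟨conj_br ha hb1, ?_⟩
    have hb2' : x b = b := hb2
    show x (a * b * a⁻¹) = a * b * a⁻¹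
    rw [map_mul, map_mul, map_inv, ha, hb2']
  exact hle hd

theorem central_of {x : MulAut H} (htop : brS x ⊤ = ⊤) {Y : Subgroup H} (hY : Y.Normal)
    (hF : Y ≤ Fx x) {y : H} (hy : y ∈ Y) (g : H) : g * y = y * g := by
  have hle : (⊤ : Subgroup H) ≤ Subgroup.centralizer {y} := by
    rw [← htop]
    refine (Subgroup.closure_le _).2 ?_
    rintro _ ⟨h, -, i, rfl⟩
    rw [SetLike.mem_coe, Subgroup.mem_centralizer_singleton_iff]
    have h1 : h * y * h⁻¹ ∈ Y := hY.conj_mem y hy h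
    have h2 : (x ^ i) (h * y * h⁻¹) = h * y * h⁻¹ := fix_pow (hF h1) i
    have h3 : (x ^ i) y = y := fix_pow (hF hy) i
    rw [map_mul, map_mul, map_inv, h3] at h2
    set u := (x ^ i) h
    calc h⁻¹ * u * y = h⁻¹ * (u * y * u⁻¹) * u := by group
      _ = h⁻¹ * (h * y * h⁻¹) * u := by rw [h2]
      _ = y * (h⁻¹ * u) := by group
  exact Subgroup.mem_centralizer_singleton_iff.1 (hle (Subgroup.mem_top g))

theorem comm_inv {x : MulAut H} {S T : Subgroup H} (hS : Inv x S) (hT : Inv x T) :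
    Inv x ⁅S, T⁆ := by
  have hle : ⁅S, T⁆ ≤ (⁅S, T⁆).comap (x : H →* H) := by
    refine Subgroup.commutator_le.2 ?_
    intro a ha b hb
    show x ⁅a, b⁆ ∈ ⁅S, T⁆
    rw [map_commutatorElement]
    exact Subgroup.commutator_mem_commutator (hS a ha) (hT b hb)
  exact fun a ha => hle ha

theorem normal_of_sup {S A B : Subgroup H} (hsup : A ⊔ B = ⊤)
    (hA : ∀ a ∈ A, ∀ s ∈ S, a * s * a⁻¹ ∈ S) (hB : ∀ a ∈ B, ∀ s ∈ S, a * s * a⁻¹ ∈ S) : S.Normal := by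
  have key : ∀ T : Subgroup H, (∀ a ∈ T, ∀ s ∈ S, a * s * a⁻¹ ∈ S) →
      T ≤ Subgroup.normalizer (S : Set H) := by
    intro T hT a ha
    rw [Subgroup.mem_normalizer_iff]
    intro h
    refine ⟨fun hh => hT a ha h hh, fun hh => ?_⟩
    have := hT a⁻¹ (T.inv_mem ha) _ hh
    simpa [mul_assoc] using this
  have h1 : Subgroup.normalizer (S : Set H) = ⊤ := by
    apply top_le_iff.1
    rw [← hsup]
    exact sup_le (key A hA) (key B hB)
  exact Subgroup.normalizer_eq_top_iff.1 h1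

theorem inf_normal {Y R : Subgroup H} (hRn : R.Normal) (hab : ∀ a ∈ R, ∀ b ∈ R, a * b = b * a)
    (hsup : Y ⊔ R = ⊤) : (Y ⊓ R).Normal := by
  refine normal_of_sup hsup ?_ ?_
  · rintro a ha s ⟨hs1, hs2⟩
    exact ⟨Y.mul_mem (Y.mul_mem ha hs1) (Y.inv_mem ha), hRn.conj_mem s hs2 a⟩
  · rintro a ha s ⟨hs1, hs2⟩
    have : a * s * a⁻¹ = s := by rw [hab a ha s hs2]; group
    rw [this]
    exact ⟨hs1, hs2⟩

section abelian
variable {x : MulAut H} {R : Subgroup H}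

theorem mul_form (hRi : Inv x R) (hab : ∀ a ∈ R, ∀ b ∈ R, a * b = b * a) {s t : H} (hs : s ∈ R)
    (ht : t ∈ R) : (s⁻¹ * x s) * (t⁻¹ * x t) = (s * t)⁻¹ * x (s * t) := by
  have hu : s⁻¹ * x s ∈ R := R.mul_mem (R.inv_mem hs) (hRi s hs)
  have h1 := hab _ hu _ (R.inv_mem ht)
  calc (s⁻¹ * x s) * (t⁻¹ * x t) = ((s⁻¹ * x s) * t⁻¹) * x t := by group
    _ = (t⁻¹ * (s⁻¹ * x s)) * x t := by rw [h1]
    _ = (s * t)⁻¹ * x (s * t) := by rw [map_mul]; group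

theorem gen_form (hRi : Inv x R) (hab : ∀ a ∈ R, ∀ b ∈ R, a * b = b * a) {k : H}
    (hk : k ∈ brS x R) : ∃ s ∈ R, k = s⁻¹ * x s := by
  induction hk using Subgroup.closure_induction with
  | mem c hc =>
    obtain ⟨r, hr, i, rfl⟩ := hc
    induction i with
    | zero => exact ⟨1, R.one_mem, by simp⟩
    | succ n ih =>
      obtain ⟨s, hs, he⟩ := ih
      have hr2 : (x ^ n) r ∈ R := pow_mem hRi hr n
      refine ⟨s * (x ^ n) r, R.mul_mem hs hr2, ?_⟩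
      rw [← mul_form hRi hab hs hr2, ← he, pow_succ_apply]
      group
  | one => exact ⟨1, R.one_mem, by simp⟩
  | mul a b _ _ iha ihb =>
    obtain ⟨s, hs, rfl⟩ := iha
    obtain ⟨t, ht, rfl⟩ := ihb
    exact ⟨s * t, R.mul_mem hs ht, mul_form hRi hab hs ht⟩
  | inv a _ iha =>
    obtain ⟨s, hs, rfl⟩ := iha
    refine ⟨s⁻¹, R.inv_mem hs, ?_⟩
    have h1 := hab _ (R.inv_mem (hRi s hs)) _ hs
    rw [mul_inv_rev, inv_inv, h1, map_inv]

/-- The subgroup `[R,x] (R ∩ D)`. -/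
def R1 (x : MulAut H) (R : Subgroup H) (hRi : Inv x R) (hab : ∀ a ∈ R, ∀ b ∈ R, a * b = b * a) :
    Subgroup H where
  carrier := {g | ∃ k ∈ brS x R, ∃ d ∈ R ⊓ DD x, g = k * d}
  mul_mem' := by
    rintro _ _ ⟨k, hk, d, hd, rfl⟩ ⟨k', hk', d', hd', rfl⟩
    refine ⟨k * k', mul_mem hk hk', d * d', mul_mem hd hd', ?_⟩
    have h1 : d * k' = k' * d := hab _ hd.1 _ (brS_le hRi hk')
    calc k * d * (k' * d') = k * (d * k') * d' := by group
      _ = k * (k' * d) * d' := by rw [h1]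
      _ = k * k' * (d * d') := by group
  one_mem' := ⟨1, one_mem _, 1, one_mem _, by simp⟩
  inv_mem' := by
    rintro _ ⟨k, hk, d, hd, rfl⟩
    refine ⟨k⁻¹, inv_mem hk, d⁻¹, inv_mem hd, ?_⟩
    rw [mul_inv_rev]
    exact hab _ (R.inv_mem hd.1) _ (R.inv_mem (brS_le hRi hk))

theorem mem_R1 {hRi : Inv x R} {hab : ∀ a ∈ R, ∀ b ∈ R, a * b = b * a} {g : H} :
    g ∈ R1 x R hRi hab ↔ ∃ k ∈ brS x R, ∃ d ∈ R ⊓ DD x, g = k * d := Iff.rfl

theorem R1_le {hRi : Inv x R} {hab : ∀ a ∈ R, ∀ b ∈ R, a * b = b * a} : R1 x R hRi hab ≤ R := by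
  rintro _ ⟨k, hk, d, hd, rfl⟩
  exact R.mul_mem (brS_le hRi hk) hd.1

theorem brS_le_R1 {hRi : Inv x R} {hab : ∀ a ∈ R, ∀ b ∈ R, a * b = b * a} :
    brS x R ≤ R1 x R hRi hab := by
  intro k hk
  exact ⟨k, hk, 1, one_mem _, by simp⟩

theorem inf_le_R1 {hRi : Inv x R} {hab : ∀ a ∈ R, ∀ b ∈ R, a * b = b * a} :
    R ⊓ DD x ≤ R1 x R hRi hab := by
  intro d hd
  exact ⟨1, one_mem _, d, hd, by simp⟩

theorem R1_inv {hRi : Inv x R} {hab : ∀ a ∈ R, ∀ b ∈ R, a * b = b * a} :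
    Inv x (R1 x R hRi hab) := by
  rintro _ ⟨k, hk, d, hd, rfl⟩
  have hd' : x d = d := DD_le_Fx x hd.2
  refine ⟨x k, brS_inv hRi k hk, d, hd, ?_⟩
  rw [map_mul, hd']

variable [Finite H] {p : ℕ} [hpf : Fact p.Prime]

theorem gen_fix_one (hxp : x ^ p = 1) (hc : (Nat.card H).Coprime p) (hRi : Inv x R)
    (hab : ∀ a ∈ R, ∀ b ∈ R, a * b = b * a) {k : H} (hk : k ∈ brS x R) (hf : x k = k) : k = 1 := by
  obtain ⟨s, -, rfl⟩ := gen_form hRi hab hk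
  have := fix_of_gen_fix hxp hc hf
  rw [this, inv_mul_cancel]

theorem le_R1 (hxp : x ^ p = 1) (hc : (Nat.card H).Coprime p) {hRi : Inv x R}
    {hab : ∀ a ∈ R, ∀ b ∈ R, a * b = b * a} {Y : Subgroup H} (hYR : Y ≤ R) (hYi : Inv x Y)
    (hYF : Y ⊓ Fx x ≤ DD x) : Y ≤ R1 x R hRi hab := by
  intro y hy
  obtain ⟨a, ha, k, hk, rfl, hax⟩ := dec hxp hc hYi hy
  have hk' : k ∈ brS x R := brS_mono hYR hk
  refine ⟨k, hk', a, ⟨hYR ha, hYF ⟨ha, hax⟩⟩, ?_⟩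
  exact hab _ (hYR ha) _ (brS_le hRi hk')

theorem R1_fix (hxp : x ^ p = 1) (hc : (Nat.card H).Coprime p) {hRi : Inv x R}
    {hab : ∀ a ∈ R, ∀ b ∈ R, a * b = b * a} {a : H} (ha : a ∈ R1 x R hRi hab) (hf : x a = a) :
    a ∈ DD x := by
  obtain ⟨k, hk, d, hd, rfl⟩ := ha
  have hd' : x d = d := DD_le_Fx x hd.2
  rw [map_mul, hd'] at hf
  have hk1 : x k = k := mul_right_cancel hf
  rw [gen_fix_one hxp hc hRi hab hk hk1, one_mul]
  exact hd.2

/-- elements of `H` are moved by `x⁻¹` inside invariant subgroups. -/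
theorem inv_apply_mem (hxp : x ^ p = 1) {S : Subgroup H} (hS : Inv x S) {h : H} (hh : h ∈ S) :
    x⁻¹ h ∈ S := by
  have hp : 0 < p := (Fact.out : p.Prime).pos
  have e : x⁻¹ = x ^ (p - 1) := by
    refine (eq_inv_of_mul_eq_one_left ?_).symm
    rw [← pow_succ, Nat.sub_add_cancel hp, hxp]
  rw [e]
  exact pow_mem hS hh _

theorem pow_surj (hxp : x ^ p = 1) {S : Subgroup H} (hS : Inv x S) (i : ℕ) {h : H} (hh : h ∈ S) :
    ∃ h₁ ∈ S, (x ^ i) h₁ = h := by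
  induction i generalizing h with
  | zero => exact ⟨h, hh, by simp⟩
  | succ n ih =>
    obtain ⟨h₁, h₂, h₃⟩ := ih (inv_apply_mem hxp hS hh)
    refine ⟨h₁, h₂, ?_⟩
    rw [pow_succ_apply, h₃]
    simp

end abelian

end Cfsg.Agent.H03.FL
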