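import Mathlib
import Cfsg.Agent.Lib.H03.FL3

set_option autoImplicit false

namespace Cfsg.Agent.H03.FL

universe u
variable {H : Type u} [Group H]

open scoped commutatorElement

/-- The context of the minimal counterexample. -/
structure Core (x : MulAut H) (p : ℕ) : Prop where
  hxp : x ^ p = 1
  hc : (Nat.card H).Coprime p
  hp2 : p ≠ 2
  hsub : ∀ X : Subgroup H, Inv x X → X ≠ ⊤ → brS x X ⊓ Fx x ≤ DD x
  hkl : ∀ Q : Subgroup H, Q.Normal → Inv x Q → Q ≠ ⊥ → Q ⊓ Fx x ≤ DD x → False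
  htop : brS x ⊤ = ⊤
  hcontra : ¬ Fx x ≤ DD x

/-- A minimal normal invariant subgroup not inside the fixed points. -/
structure MinR (x : MulAut H) (R : Subgroup H) : Prop where
  hRn : R.Normal
  hRi : Inv x R
  hRf : ¬ R ≤ Fx x
  hmin : ∀ S : Subgroup H, S.Normal → Inv x S → S ≤ R → S ≠ R → S ≤ Fx x

variable {x : MulAut H} {R : Subgroup H} {p : ℕ}

theorem core_triv (C : Core x p) (hRi : Inv x R) (hab : ∀ a ∈ R, ∀ b ∈ R, a * b = b * a)
    [Finite H] [Fact p.Prime]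
    {t : H} (ht : ∀ g, g * t * g⁻¹ ∈ R1 x R hRi hab) : t = 1 := by
  have hQi : Inv x (R1 x R hRi hab).normalCore := by
    intro a ha g
    have h1 := R1_inv (hRi := hRi) (hab := hab) _ (ha (x⁻¹ g))
    have e : x (x⁻¹ g * a * (x⁻¹ g)⁻¹) = g * x a * g⁻¹ := by
      simp [map_mul, map_inv]
    rwa [e] at h1
  have hQF : (R1 x R hRi hab).normalCore ⊓ Fx x ≤ DD x := by
    rintro a ⟨ha, hf⟩
    exact R1_fix C.hxp C.hc (Subgroup.normalCore_le _ ha) hf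
  by_contra hne
  have hb : (R1 x R hRi hab).normalCore ≠ ⊥ := by
    intro hb
    have : t ∈ (R1 x R hRi hab).normalCore := ht
    rw [hb, Subgroup.mem_bot] at this
    exact hne this
  exact C.hkl _ inferInstance hQi hb hQF

theorem lemA [Finite H] [Fact p.Prime] (hxp : x ^ p = 1) (hc : (Nat.card H).Coprime p)
    (hRn : R.Normal) (hRi : Inv x R) (g : H) {r : H} (hr : r ∈ R) (i : ℕ) :
    g⁻¹ * (r⁻¹ * (x ^ i) r) * g ∈ brS x (br x g ⊔ R) := by
  set K := brS x (br x g ⊔ R) with hK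
  set r' := g⁻¹ * r * g with hr'def
  set c := g⁻¹ * (x ^ i) g with hcdef
  have hr' : r' ∈ R := hRn.conj_mem' r hr g
  have hcK : c ∈ K := by
    have h1 : c ∈ br x g := gen_mem' g i
    have h2 : brS x (br x g) ≤ K := brS_mono le_sup_left
    rw [br_idem hxp hc g] at h2
    exact h2 h1
  have hxr : (x ^ i) r' ∈ R := pow_mem hRi hr' i
  have hgen : r'⁻¹ * (x ^ i) r' ∈ K := gen_mem ((le_sup_right : R ≤ br x g ⊔ R) hr') i
  have hconj : ((x ^ i) r')⁻¹ * c * (x ^ i) r' ∈ K := by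
    have hy : ((x ^ i) r')⁻¹ ∈ br x g ⊔ R := (le_sup_right : R ≤ br x g ⊔ R) (R.inv_mem hxr)
    have := brS_norm hy hcK
    rwa [inv_inv] at this
  have e : g⁻¹ * (r⁻¹ * (x ^ i) r) * g
      = (r'⁻¹ * (x ^ i) r') * (((x ^ i) r')⁻¹ * c * (x ^ i) r') * c⁻¹ := by
    simp only [hr'def, hcdef, map_mul, map_inv]
    group
  rw [e]
  exact K.mul_mem (K.mul_mem hgen hconj) (K.inv_mem hcK)

theorem lemB [Finite H] [Fact p.Prime] (C : Core x p) (hRn : R.Normal) (hRi : Inv x R)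
    (hab : ∀ a ∈ R, ∀ b ∈ R, a * b = b * a) {g : H} (hX : br x g ⊔ R ≠ ⊤) {s : H}
    (hs : s ∈ brS x R) : g⁻¹ * s * g ∈ R1 x R hRi hab := by
  have hXi : Inv x (br x g ⊔ R) := sup_inv (br_inv x g) hRi
  have h1 : brS x R ≤ (brS x (br x g ⊔ R)).comap (MulAut.conj g⁻¹).toMonoidHom := by
    refine (Subgroup.closure_le _).2 ?_
    rintro _ ⟨r, hr, i, rfl⟩
    show (MulAut.conj g⁻¹) (r⁻¹ * (x ^ i) r) ∈ brS x (br x g ⊔ R)
    rw [MulAut.conj_apply, inv_inv]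
    exact lemA C.hxp C.hc hRn hRi g hr i
  have h2 : g⁻¹ * s * g ∈ brS x (br x g ⊔ R) := by
    have h3 : (MulAut.conj g⁻¹) s ∈ brS x (br x g ⊔ R) := h1 hs
    rwa [MulAut.conj_apply, inv_inv] at h3
  have h3 : g⁻¹ * s * g ∈ R := hRn.conj_mem' s (brS_le hRi hs) g
  have hY : brS x (br x g ⊔ R) ⊓ R ≤ R1 x R hRi hab :=
    le_R1 C.hxp C.hc inf_le_right (inf_inv (brS_inv hXi) hRi) (by
      rintro a ⟨⟨h4, h5⟩, h6⟩
      exact C.hsub _ hXi hX ⟨h4, h6⟩)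
  exact hY ⟨h2, h3⟩

theorem exists_g [Finite H] [Fact p.Prime] (C : Core x p) (M : MinR x R)
    (hab : ∀ a ∈ R, ∀ b ∈ R, a * b = b * a) : ∃ g, br x g ⊔ R = ⊤ := by
  by_contra hno
  push Not at hno
  apply M.hRf
  intro r hr
  have hk : r⁻¹ * x r = 1 := by
    apply core_triv C M.hRi hab
    intro g
    have h1 : r⁻¹ * x r ∈ brS x R := by
      have := gen_mem (x := x) hr 1
      rwa [pow_one] at this
    have := lemB C M.hRn M.hRi hab (hno g⁻¹) h1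
    rwa [inv_inv] at this
  exact (inv_mul_eq_one.1 hk).symm

theorem inf_bot (C : Core x p) (M : MinR x R)
    (hab : ∀ a ∈ R, ∀ b ∈ R, a * b = b * a) {t : H} (ht : br x t ⊔ R = ⊤) : br x t ⊓ R = ⊥ := by
  by_contra hne
  refine C.hkl _ (inf_normal M.hRn hab ht) (inf_inv (br_inv x t) M.hRi) hne ?_
  rintro a ⟨⟨h1, -⟩, h2⟩
  exact br_inf_le_DD x t ⟨h1, h2⟩

/-- elements `h` with `[h, r] ∈ S` for all `r ∈ R`. -/
def TT (R S : Subgroup H) (hRn : R.Normal) : Subgroup H where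
  carrier := {h | ∀ r ∈ R, h * r * h⁻¹ * r⁻¹ ∈ S}
  mul_mem' := by
    intro a b ha hb r hr
    have h1 := ha _ (hRn.conj_mem r hr b)
    have h2 := hb r hr
    have e : a * b * r * (a * b)⁻¹ * r⁻¹
        = (a * (b * r * b⁻¹) * a⁻¹ * (b * r * b⁻¹)⁻¹) * (b * r * b⁻¹ * r⁻¹) := by group
    rw [e]
    exact S.mul_mem h1 h2
  one_mem' := by
    intro r hr
    simp [S.one_mem]
  inv_mem' := by
    intro a ha r hr
    have h1 := ha _ (hRn.conj_mem' r hr a)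
    have h2 := S.inv_mem h1
    have e : a⁻¹ * r * a⁻¹⁻¹ * r⁻¹ = (a * (a⁻¹ * r * a) * a⁻¹ * (a⁻¹ * r * a)⁻¹)⁻¹ := by group
    rw [e]
    exact h2

theorem mem_TT {S : Subgroup H} {hRn : R.Normal} {h : H} :
    h ∈ TT R S hRn ↔ ∀ r ∈ R, h * r * h⁻¹ * r⁻¹ ∈ S := Iff.rfl

theorem conj_brS {d k : H} (hRn : R.Normal) (hd : x d = d) (hk : k ∈ brS x R) :
    d * k * d⁻¹ ∈ brS x R := by
  have hle : brS x R ≤ (brS x R).comap (MulAut.conj d).toMonoidHom := by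
    refine (Subgroup.closure_le _).2 ?_
    rintro _ ⟨r, hr, i, rfl⟩
    show (MulAut.conj d) (r⁻¹ * (x ^ i) r) ∈ brS x R
    have e : (MulAut.conj d) (r⁻¹ * (x ^ i) r)
        = (d * r * d⁻¹)⁻¹ * (x ^ i) (d * r * d⁻¹) := by
      have e1 : (x ^ i) (d * r * d⁻¹) = d * (x ^ i) r * d⁻¹ := by
        rw [map_mul, map_mul, map_inv, fix_pow hd]
      rw [e1, MulAut.conj_apply]
      group
    rw [e]
    exact gen_mem (hRn.conj_mem r hr d) i
  exact hle hk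

end Cfsg.Agent.H03.FL
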