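import Mathlib
import Cfsg.Agent.Lib.H03.FL4

set_option autoImplicit false

namespace Cfsg.Agent.H03.FL

universe u
variable {H : Type u} [Group H]

open scoped commutatorElement

variable {x : MulAut H} {R : Subgroup H} {p : ℕ}

theorem lemD [Finite H] [Fact p.Prime] (C : Core x p) (M : MinR x R)
    (hab : ∀ a ∈ R, ∀ b ∈ R, a * b = b * a) {g : H} (hWR : br x g ⊔ R = ⊤) {W₀ : Subgroup H}
    (h0 : W₀ ≤ br x g) (hnW : ∀ w ∈ br x g, ∀ h ∈ W₀, w * h * w⁻¹ ∈ W₀) (hi : Inv x W₀)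
    (hne : W₀ ≠ br x g) : W₀ = ⊥ := by
  haveI hRnI : R.Normal := M.hRn
  have hbot := inf_bot C M hab hWR
  have hsupne : W₀ ⊔ R ≠ ⊤ := by
    intro hsup
    apply hne
    apply le_antisymm h0
    intro w hw
    have h1 : w ∈ W₀ ⊔ R := hsup ▸ Subgroup.mem_top w
    obtain ⟨a, ha, b, hb, rfl⟩ := Subgroup.mem_sup_of_normal_right.1 h1
    have hb' : b ∈ br x g ⊓ R := by
      refine ⟨?_, hb⟩
      have := (br x g).mul_mem ((br x g).inv_mem (h0 ha)) hw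
      simpa using this
    rw [hbot, Subgroup.mem_bot] at hb'
    rw [hb', mul_one]
    exact ha
  have hXh : ∀ h ∈ W₀, br x h ⊔ R ≠ ⊤ := by
    intro h hh hsup
    apply hsupne
    apply top_le_iff.1
    rw [← hsup]
    exact sup_le_sup_right (br_le hi hh) R
  have hB : ∀ h ∈ W₀, ∀ s ∈ brS x R, h⁻¹ * s * h ∈ R1 x R M.hRi hab :=
    fun h hh s hs => lemB C M.hRn M.hRi hab (hXh h hh) hs
  have hgen : ∀ h ∈ W₀, ∀ i : ℕ, h⁻¹ * (x ^ i) h ∈ TT R (R1 x R M.hRi hab) M.hRn := by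
    intro h hh i r hr
    obtain ⟨r₁, hr₁, rfl⟩ := pow_surj C.hxp M.hRi i hr
    set c := h⁻¹ * (x ^ i) h with hcdef
    have hs : h * r₁ * h⁻¹ ∈ R := M.hRn.conj_mem r₁ hr₁ h
    have h1 := hB h hh _ (gen_mem hs i)
    have e1 : h⁻¹ * ((h * r₁ * h⁻¹)⁻¹ * (x ^ i) (h * r₁ * h⁻¹)) * h
        = r₁⁻¹ * (c * (x ^ i) r₁ * c⁻¹) := by
      simp only [hcdef, map_mul, map_inv]
      group
    rw [e1] at h1
    have h2 : r₁⁻¹ * (x ^ i) r₁ ∈ R1 x R M.hRi hab := brS_le_R1 (gen_mem hr₁ i)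
    have h3 := (R1 x R M.hRi hab).mul_mem ((R1 x R M.hRi hab).inv_mem h2) h1
    have hu : c * (x ^ i) r₁ * c⁻¹ ∈ R := M.hRn.conj_mem _ hr c
    have e2 : (r₁⁻¹ * (x ^ i) r₁)⁻¹ * (r₁⁻¹ * (c * (x ^ i) r₁ * c⁻¹))
        = c * (x ^ i) r₁ * c⁻¹ * ((x ^ i) r₁)⁻¹ := by
      have h4 := hab _ (R.inv_mem hr) _ hu
      calc (r₁⁻¹ * (x ^ i) r₁)⁻¹ * (r₁⁻¹ * (c * (x ^ i) r₁ * c⁻¹))
          = ((x ^ i) r₁)⁻¹ * (c * (x ^ i) r₁ * c⁻¹) := by group
        _ = c * (x ^ i) r₁ * c⁻¹ * ((x ^ i) r₁)⁻¹ := h4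
    rwa [e2] at h3
  have hfix : ∀ d ∈ W₀, x d = d → d ∈ TT R (R1 x R M.hRi hab) M.hRn := by
    intro d hd hdf r hr
    obtain ⟨a, ha, k, hk, rfl, hax⟩ := dec C.hxp C.hc M.hRi hr
    have hdD : d ∈ DD x := br_inf_le_DD x g ⟨h0 hd, hdf⟩
    have hkR : k ∈ R := brS_le M.hRi hk
    have hA : d * a * d⁻¹ ∈ R := M.hRn.conj_mem a ha d
    have hB' : d * k * d⁻¹ ∈ brS x R := conj_brS M.hRn hdf hk
    have h1 : d * a * d⁻¹ * a⁻¹ ∈ R1 x R M.hRi hab := by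
      apply inf_le_R1
      refine ⟨R.mul_mem hA (R.inv_mem ha), ?_⟩
      have e : d * a * d⁻¹ * a⁻¹ = d * (a * d⁻¹ * a⁻¹) := by group
      rw [e]
      exact (DD x).mul_mem hdD (conj_DD hax ((DD x).inv_mem hdD))
    have h2 : d * k * d⁻¹ * k⁻¹ ∈ R1 x R M.hRi hab :=
      brS_le_R1 ((brS x R).mul_mem hB' ((brS x R).inv_mem hk))
    have h3 := (R1 x R M.hRi hab).mul_mem h1 h2
    have hcm := hab a⁻¹ (R.inv_mem ha) _ (R.mul_mem (brS_le M.hRi hB') (R.inv_mem hkR))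
    have e : d * (a * k) * d⁻¹ * (a * k)⁻¹ = d * a * d⁻¹ * a⁻¹ * (d * k * d⁻¹ * k⁻¹) := by
      calc d * (a * k) * d⁻¹ * (a * k)⁻¹
          = d * a * d⁻¹ * ((d * k * d⁻¹ * k⁻¹) * a⁻¹) := by group
        _ = d * a * d⁻¹ * (a⁻¹ * (d * k * d⁻¹ * k⁻¹)) := by rw [← hcm]
        _ = d * a * d⁻¹ * a⁻¹ * (d * k * d⁻¹ * k⁻¹) := by group
    rw [e]
    exact h3
  have hW₀T : W₀ ≤ TT R (R1 x R M.hRi hab) M.hRn := by
    intro h hh
    obtain ⟨a, ha, k, hk, rfl, hax⟩ := dec C.hxp C.hc hi hh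
    refine (TT R (R1 x R M.hRi hab) M.hRn).mul_mem (hfix a ha hax) ?_
    have hle : brS x W₀ ≤ TT R (R1 x R M.hRi hab) M.hRn := by
      refine (Subgroup.closure_le _).2 ?_
      rintro _ ⟨h', hh', i, rfl⟩
      exact hgen h' hh' i
    exact hle hk
  have hcomm : ∀ h ∈ W₀, ∀ r ∈ R, h * r * h⁻¹ * r⁻¹ = 1 := by
    intro h hh r hr
    apply core_triv C M.hRi hab
    intro y
    have ht : h * r * h⁻¹ * r⁻¹ ∈ R :=
      R.mul_mem (M.hRn.conj_mem r hr h) (R.inv_mem hr)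
    have hy : y ∈ br x g ⊔ R := hWR ▸ Subgroup.mem_top y
    obtain ⟨w, hw, r₀, hr₀, rfl⟩ := Subgroup.mem_sup_of_normal_right.1 hy
    have hr₀t : r₀ * (h * r * h⁻¹ * r⁻¹) * r₀⁻¹ = h * r * h⁻¹ * r⁻¹ := by
      rw [hab r₀ hr₀ _ ht]
      group
    have e : w * r₀ * (h * r * h⁻¹ * r⁻¹) * (w * r₀)⁻¹
        = (w * h * w⁻¹) * (w * r * w⁻¹) * (w * h * w⁻¹)⁻¹ * (w * r * w⁻¹)⁻¹ := by
      calc w * r₀ * (h * r * h⁻¹ * r⁻¹) * (w * r₀)⁻¹
          = w * (r₀ * (h * r * h⁻¹ * r⁻¹) * r₀⁻¹) * w⁻¹ := by group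
        _ = w * (h * r * h⁻¹ * r⁻¹) * w⁻¹ := by rw [hr₀t]
        _ = (w * h * w⁻¹) * (w * r * w⁻¹) * (w * h * w⁻¹)⁻¹ * (w * r * w⁻¹)⁻¹ := by group
    rw [e]
    exact hW₀T (hnW w hw h hh) _ (M.hRn.conj_mem r hr w)
  have hnorm : W₀.Normal := by
    refine normal_of_sup hWR hnW ?_
    intro r hr h hh
    have h1 := hcomm h hh r hr
    have h2 : r * h * r⁻¹ = h := by
      have h3 : h * r * h⁻¹ = r := by
        have := mul_inv_eq_one.1 h1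
        exact this
      calc r * h * r⁻¹ = (h * r * h⁻¹) * h * r⁻¹ := by rw [h3]
        _ = h := by group
    rw [h2]
    exact hh
  by_contra hb
  exact C.hkl W₀ hnorm hi hb (fun a ha => br_inf_le_DD x g ⟨h0 ha.1, ha.2⟩)

section WW
variable [Finite H] [Fact p.Prime] (C : Core x p) (M : MinR x R)
  (hab : ∀ a ∈ R, ∀ b ∈ R, a * b = b * a) {g : H} (hWR : br x g ⊔ R = ⊤)

include C M hab hWR

theorem W_ne_bot (hRne : R ≠ ⊤) : br x g ≠ ⊥ := by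
  intro h
  rw [h, bot_sup_eq] at hWR
  exact hRne hWR

theorem W_ab [Group.IsSolvable H] (hRne : R ≠ ⊤) : ∀ a ∈ br x g, ∀ b ∈ br x g, a * b = b * a := by
  have hW := W_ne_bot C M hab hWR hRne
  have hlt := Group.IsSolvable.commutator_lt_of_ne_bot hW
  have hbot : ⁅br x g, br x g⁆ = ⊥ := by
    refine lemD C M hab hWR hlt.le ?_ (comm_inv (br_inv x g) (br_inv x g)) hlt.ne
    intro w hw h hh
    have h1 : ⁅w, h⁆ ∈ ⁅br x g, br x g⁆ := Subgroup.commutator_mem_commutator hw (hlt.le hh)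
    have e : w * h * w⁻¹ = ⁅w, h⁆ * h := by
      rw [commutatorElement_def]
      group
    rw [e]
    exact Subgroup.mul_mem _ h1 hh
  intro a ha b hb
  have h1 : ⁅a, b⁆ ∈ ⁅br x g, br x g⁆ := Subgroup.commutator_mem_commutator ha hb
  rw [hbot, Subgroup.mem_bot] at h1
  exact commutatorElement_eq_one_iff_mul_comm.1 h1

theorem W_fix [Group.IsSolvable H] (hRne : R ≠ ⊤) {c : H} (hc : c ∈ br x g) (hf : x c = c) : c = 1 := by
  have hW := W_ne_bot C M hab hWR hRne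
  have hwab := W_ab C M hab hWR hRne
  have hne : br x g ⊓ Fx x ≠ br x g := by
    intro h
    have hle : br x g ≤ Fx x := inf_eq_left.1 h
    apply hW
    rw [← br_idem C.hxp C.hc g, eq_bot_iff]
    refine (Subgroup.closure_le _).2 ?_
    rintro _ ⟨h', hh', i, rfl⟩
    have : (x ^ i) h' = h' := fix_pow (hle hh') i
    rw [this, inv_mul_cancel]
    exact Subgroup.one_mem _
  have hbot : br x g ⊓ Fx x = ⊥ := by
    refine lemD C M hab hWR inf_le_left ?_ (inf_inv (br_inv x g) (Fx_inv x)) hne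
    intro w hw h hh
    have e : w * h * w⁻¹ = h := by
      rw [hwab w hw h hh.1]
      group
    rw [e]
    exact hh
  have : c ∈ br x g ⊓ Fx x := ⟨hc, hf⟩
  rwa [hbot, Subgroup.mem_bot] at this

theorem W_br [Group.IsSolvable H] (hRne : R ≠ ⊤) {t : H} (ht : t ∈ br x g) (ht1 : t ≠ 1) :
    br x t = br x g := by
  by_contra hne
  have hwab := W_ab C M hab hWR hRne
  have hle : br x t ≤ br x g := br_le (br_inv x g) ht
  have hbot : br x t = ⊥ := by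
    refine lemD C M hab hWR hle ?_ (br_inv x t) hne
    intro w hw h hh
    have e : w * h * w⁻¹ = h := by
      rw [hwab w hw h (hle hh)]
      group
    rw [e]
    exact hh
  have h1 : t⁻¹ * (x ^ 1) t ∈ br x t := gen_mem' t 1
  rw [hbot, Subgroup.mem_bot, pow_one] at h1
  exact ht1 (W_fix C M hab hWR hRne ht (inv_mul_eq_one.1 h1).symm)

theorem Y_sup [Group.IsSolvable H] (hRne : R ≠ ⊤) {t w : H} (ht : t ∈ br x g) (ht1 : t ≠ 1)
    (hw : w ∈ R) : br x (t * w) ⊔ R = ⊤ := by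
  have hle : br x g ≤ br x (t * w) ⊔ R := by
    rw [← W_br C M hab hWR hRne ht ht1]
    refine (Subgroup.closure_le _).2 ?_
    rintro _ ⟨i, rfl⟩
    have e : t⁻¹ * (x ^ i) t = w * ((t * w)⁻¹ * (x ^ i) (t * w)) * ((x ^ i) w)⁻¹ := by
      rw [map_mul]
      group
    rw [e]
    have hR : R ≤ br x (t * w) ⊔ R := le_sup_right
    refine Subgroup.mul_mem _ (Subgroup.mul_mem _ (hR hw) ?_) (Subgroup.inv_mem _ (hR (pow_mem M.hRi hw i)))
    exact (le_sup_left : br x (t * w) ≤ br x (t * w) ⊔ R) (gen_mem' (t * w) i)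
  apply top_le_iff.1
  rw [← hWR]
  exact sup_le hle le_sup_right

end WW

end Cfsg.Agent.H03.FL
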