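import Mathlib
import Cfsg.Agent.Lib.H03.FL5

set_option autoImplicit false

namespace Cfsg.Agent.H03.FL

universe u
variable {H : Type u} [Group H]

open scoped commutatorElement

variable {x : MulAut H} {R : Subgroup H} {p : ℕ}

theorem abstract_inst [Finite H] [Fact p.Prime] {W : Subgroup H} (hRn : R.Normal) (hRi : Inv x R) (hWi : Inv x W)
    (habR : ∀ a ∈ R, ∀ b ∈ R, a * b = b * a) (habW : ∀ a ∈ W, ∀ b ∈ W, a * b = b * a)
    (hxp : x ^ p = 1) (hp2 : p ≠ 2)
    (h1 : ∀ c ∈ W, ∃ t ∈ W, c = t * x t) (h2 : ∀ c ∈ W, ∃ t ∈ W, c = t⁻¹ * x t)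
    (hfix : ∀ r ∈ R, (∀ u ∈ W, u * r * u⁻¹ = r) → x r = r)
    {z : H} (hz : z ∈ R)
    (hR2 : ∀ c ∈ W, (x c)⁻¹ * z * x c * (c * x z * c⁻¹) = z * x z) :
    ∀ c ∈ W, c * z * c⁻¹ = z := by
  letI cR : CommGroup R :=
    { (inferInstance : Group R) with mul_comm := fun a b => Subtype.ext (habR a a.2 b b.2) }
  letI cW : CommGroup W :=
    { (inferInstance : Group W) with mul_comm := fun a b => Subtype.ext (habW a a.2 b b.2) }
  let A : W → (Additive R →+ Additive R) := fun c => AddMonoidHom.mk'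
    (fun m => Additive.ofMul
      (⟨c.1 * (Additive.toMul m).1 * c.1⁻¹, hRn.conj_mem _ (Additive.toMul m).2 _⟩ : R)) (by
      intro a b
      apply Additive.toMul.injective
      apply Subtype.ext
      show c.1 * ((Additive.toMul a).1 * (Additive.toMul b).1) * c.1⁻¹
        = (c.1 * (Additive.toMul a).1 * c.1⁻¹) * (c.1 * (Additive.toMul b).1 * c.1⁻¹)
      group)
  let σ : W →* W :=
    { toFun := fun c => ⟨x c.1, hWi _ c.2⟩
      map_one' := Subtype.ext (map_one x)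
      map_mul' := fun a b => Subtype.ext (map_mul x a.1 b.1) }
  let X : Additive R →+ Additive R := AddMonoidHom.mk'
    (fun m => Additive.ofMul (⟨x (Additive.toMul m).1, hRi _ (Additive.toMul m).2⟩ : R)) (by
      intro a b
      apply Additive.toMul.injective
      apply Subtype.ext
      show x ((Additive.toMul a).1 * (Additive.toMul b).1)
        = x (Additive.toMul a).1 * x (Additive.toMul b).1
      exact map_mul x _ _)
  have key := abstract_mod A ?_ ?_ σ ?_ X ?_ ?_ ?_ ?_ ?_ (Additive.ofMul (⟨z, hz⟩ : R)) ?_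
  · intro c hc
    have := congrArg (fun m : Additive R => (Additive.toMul m).1) (key ⟨c, hc⟩)
    exact this
  · intro m
    apply Additive.toMul.injective
    apply Subtype.ext
    show (1 : H) * (Additive.toMul m).1 * (1 : H)⁻¹ = (Additive.toMul m).1
    simp
  · intro c d m
    apply Additive.toMul.injective
    apply Subtype.ext
    show (c.1 * d.1) * (Additive.toMul m).1 * (c.1 * d.1)⁻¹
      = c.1 * (d.1 * (Additive.toMul m).1 * d.1⁻¹) * c.1⁻¹
    group
  · intro d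
    refine ⟨⟨x⁻¹ d.1, inv_apply_mem hxp hWi d.2⟩, Subtype.ext ?_⟩
    show x (x⁻¹ d.1) = d.1
    simp
  · intro c m
    apply Additive.toMul.injective
    apply Subtype.ext
    show x (c.1 * (Additive.toMul m).1 * c.1⁻¹) = x c.1 * x (Additive.toMul m).1 * (x c.1)⁻¹
    rw [map_mul, map_mul, map_inv]
  · intro d
    obtain ⟨t, ht, he⟩ := h1 d.1 d.2
    exact ⟨⟨t, ht⟩, Subtype.ext he.symm⟩
  · intro d
    obtain ⟨t, ht, he⟩ := h2 d.1 d.2
    exact ⟨⟨t, ht⟩, Subtype.ext he.symm⟩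
  · intro f hf c
    have hstep : ∀ (n : ℕ) (c : W), f c = f ⟨(x ^ (2 * n)) c.1, pow_mem hWi c.2 _⟩ := by
      intro n
      induction n with
      | zero =>
        intro c
        congr 1
      | succ n ih =>
        intro c
        rw [hf c, ih (σ (σ c))]
        congr 2
    have hodd : Odd p := (Fact.out : p.Prime).odd_of_ne_two hp2
    obtain ⟨k, hk⟩ := hodd
    rw [hstep (k + 1) c]
    congr 2
    show (x ^ (2 * (k + 1))) c.1 = x c.1
    rw [show 2 * (k + 1) = 1 + p by omega, pow_add, hxp, mul_one, pow_one]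
  · intro m hm
    apply Additive.toMul.injective
    apply Subtype.ext
    show x (Additive.toMul m).1 = (Additive.toMul m).1
    apply hfix _ (Additive.toMul m).2
    intro u hu
    exact congrArg (fun m : Additive R => (Additive.toMul m).1) (hm ⟨u, hu⟩)
  · intro c
    apply Additive.toMul.injective
    apply Subtype.ext
    show ((x c.1)⁻¹ * z * ((x c.1)⁻¹)⁻¹) * (c.1 * x z * c.1⁻¹) = z * x z
    rw [inv_inv]
    exact hR2 c.1 c.2

section WW
variable [Finite H] [Fact p.Prime] (C : Core x p) (M : MinR x R)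
  (hab : ∀ a ∈ R, ∀ b ∈ R, a * b = b * a) {g : H} (hWR : br x g ⊔ R = ⊤)

include C M hab hWR

theorem e_comm [Group.IsSolvable H] (hRne : R ≠ ⊤) {t w : H} (ht : t ∈ br x g) (ht1 : t ≠ 1)
    (hw : w ∈ R) :
    (w⁻¹ * (t⁻¹ * x t) * x w) * (w⁻¹ * ((t⁻¹ * x t) * x (t⁻¹ * x t)) * x (x w))
      = (w⁻¹ * ((t⁻¹ * x t) * x (t⁻¹ * x t)) * x (x w)) * (w⁻¹ * (t⁻¹ * x t) * x w) := by
  have hY := Y_sup C M hab hWR hRne ht ht1 hw
  have hbot := inf_bot C M hab hY
  have hwab := W_ab C M hab hWR hRne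
  set c₁ := t⁻¹ * x t with hc₁
  set c₂ := c₁ * x c₁ with hc₂
  have hc₁W : c₁ ∈ br x g := (br x g).mul_mem ((br x g).inv_mem ht) (br_inv x g t ht)
  have hc₂W : c₂ ∈ br x g := (br x g).mul_mem hc₁W (br_inv x g _ hc₁W)
  have he1 : w⁻¹ * c₁ * x w = (t * w)⁻¹ * (x ^ 1) (t * w) := by
    rw [pow_one, map_mul, hc₁]
    group
  have he2 : w⁻¹ * c₂ * x (x w) = (t * w)⁻¹ * (x ^ 2) (t * w) := by
    have e : (x ^ 2) (t * w) = x (x t) * x (x w) := by
      rw [pow_two, MulAut.mul_apply, map_mul, map_mul]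
    rw [e, hc₂, hc₁, map_mul, map_inv]
    group
  set e₁ := w⁻¹ * c₁ * x w with he₁
  set e₂ := w⁻¹ * c₂ * x (x w) with he₂
  have he1Y : e₁ ∈ br x (t * w) := by rw [he1]; exact gen_mem' _ 1
  have he2Y : e₂ ∈ br x (t * w) := by rw [he2]; exact gen_mem' _ 2
  have hρY : ⁅e₁, e₂⁆ ∈ br x (t * w) := by
    rw [commutatorElement_def]
    exact Subgroup.mul_mem _ (Subgroup.mul_mem _ (Subgroup.mul_mem _ he1Y he2Y)
      (Subgroup.inv_mem _ he1Y)) (Subgroup.inv_mem _ he2Y)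
  haveI hRnI : R.Normal := M.hRn
  have hρR : ⁅e₁, e₂⁆ ∈ R := by
    rw [← QuotientGroup.eq_one_iff]
    have hm : ∀ r ∈ R, ((r : H) : H ⧸ R) = 1 := fun r hr => (QuotientGroup.eq_one_iff r).2 hr
    have h1 : ((w : H) : H ⧸ R) = 1 := hm w hw
    have h2 : ((x w : H) : H ⧸ R) = 1 := hm _ (M.hRi w hw)
    have h3 : ((x (x w) : H) : H ⧸ R) = 1 := hm _ (M.hRi _ (M.hRi w hw))
    have h4 : ((e₁ : H) : H ⧸ R) = (c₁ : H ⧸ R) := by
      rw [he₁, QuotientGroup.mk_mul, QuotientGroup.mk_mul, QuotientGroup.mk_inv, h1, h2]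
      simp
    have h5 : ((e₂ : H) : H ⧸ R) = (c₂ : H ⧸ R) := by
      rw [he₂, QuotientGroup.mk_mul, QuotientGroup.mk_mul, QuotientGroup.mk_inv, h1, h3]
      simp
    have h6 : (c₁ : H ⧸ R) * (c₂ : H ⧸ R) = (c₂ : H ⧸ R) * (c₁ : H ⧸ R) := by
      rw [← QuotientGroup.mk_mul, ← QuotientGroup.mk_mul, hwab c₁ hc₁W c₂ hc₂W]
    rw [commutatorElement_def, QuotientGroup.mk_mul, QuotientGroup.mk_mul, QuotientGroup.mk_mul,
      QuotientGroup.mk_inv, QuotientGroup.mk_inv, h4, h5, h6]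
    group
  have : ⁅e₁, e₂⁆ ∈ br x (t * w) ⊓ R := ⟨hρY, hρR⟩
  rw [hbot, Subgroup.mem_bot] at this
  exact commutatorElement_eq_one_iff_mul_comm.1 this

theorem surj2 [Group.IsSolvable H] (hRne : R ≠ ⊤) : ∀ c ∈ br x g, ∃ t ∈ br x g, c = t⁻¹ * x t := by
  have hwab := W_ab C M hab hWR hRne
  let φ : br x g → br x g := fun t =>
    ⟨t.1⁻¹ * x t.1, (br x g).mul_mem ((br x g).inv_mem t.2) (br_inv x g _ t.2)⟩
  have hinj : Function.Injective φ := by
    intro s t hst
    have h1 : s.1⁻¹ * x s.1 = t.1⁻¹ * x t.1 := congrArg Subtype.val hst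
    have hu : t.1 * s.1⁻¹ ∈ br x g := (br x g).mul_mem t.2 ((br x g).inv_mem s.2)
    have hf : x (t.1 * s.1⁻¹) = t.1 * s.1⁻¹ := by
      have hxs := br_inv x g _ s.2
      have hxt := br_inv x g _ t.2
      have e1 : x s.1 = s.1 * (t.1⁻¹ * x t.1) := by rw [← h1]; group
      rw [map_mul, map_inv, e1]
      have h2 := hwab _ ((br x g).mul_mem t.2 ((br x g).inv_mem s.2)) _ hxt
      have h3 : (t.1⁻¹ * x t.1) = x t.1 * t.1⁻¹ := by
        exact hwab _ ((br x g).inv_mem t.2) _ hxt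
      rw [h3]
      have h4 : x t.1 * (s.1 * (x t.1 * t.1⁻¹))⁻¹ = (x t.1 * t.1 * (x t.1)⁻¹) * s.1⁻¹ := by group
      have h5 : x t.1 * t.1 = t.1 * x t.1 := hwab _ hxt _ t.2
      rw [h4, h5]
      group
    have h1' := W_fix C M hab hWR hRne hu hf
    apply Subtype.ext
    exact (mul_inv_eq_one.1 h1').symm
  have hsurj := Finite.surjective_of_injective hinj
  intro c hc
  obtain ⟨t, ht⟩ := hsurj ⟨c, hc⟩
  exact ⟨t.1, t.2, (congrArg Subtype.val ht).symm⟩

theorem surj1 [Group.IsSolvable H] (hp2 : p ≠ 2) (hRne : R ≠ ⊤) :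
    ∀ c ∈ br x g, ∃ t ∈ br x g, c = t * x t := by
  have hwab := W_ab C M hab hWR hRne
  let φ : br x g → br x g := fun t =>
    ⟨t.1 * x t.1, (br x g).mul_mem t.2 (br_inv x g _ t.2)⟩
  have hinj : Function.Injective φ := by
    intro s t hst
    have h1 : s.1 * x s.1 = t.1 * x t.1 := congrArg Subtype.val hst
    have hu : t.1 * s.1⁻¹ ∈ br x g := (br x g).mul_mem t.2 ((br x g).inv_mem s.2)
    set u := t.1 * s.1⁻¹ with hudef
    have hxu : x u * u = 1 := by
      have hxs := br_inv x g _ s.2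
      have hxt := br_inv x g _ t.2
      have e1 : x s.1 = s.1⁻¹ * (t.1 * x t.1) := by rw [← h1]; group
      have e2 : x u = x t.1 * (x s.1)⁻¹ := by rw [hudef, map_mul, map_inv]
      rw [e2, e1, hudef]
      have h3 : x t.1 * t.1 = t.1 * x t.1 := hwab _ hxt _ t.2
      have h4 : x t.1 * (s.1⁻¹ * (t.1 * x t.1))⁻¹ * (t.1 * s.1⁻¹)
          = x t.1 * ((x t.1)⁻¹ * t.1⁻¹ * s.1) * (t.1 * s.1⁻¹) := by group
      rw [h4]
      have h5 := hwab s.1 s.2 t.1 t.2
      calc x t.1 * ((x t.1)⁻¹ * t.1⁻¹ * s.1) * (t.1 * s.1⁻¹)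
          = t.1⁻¹ * (s.1 * t.1) * s.1⁻¹ := by group
        _ = 1 := by rw [h5]; group
    have hxu' : x u = u⁻¹ := eq_inv_of_mul_eq_one_left hxu
    have hxxu : x (x u) = u := by rw [hxu', map_inv, hxu', inv_inv]
    have hfu : x u = u := by
      have hodd : Odd p := (Fact.out : p.Prime).odd_of_ne_two hp2
      obtain ⟨k, hk⟩ := hodd
      have hpow : ∀ n : ℕ, (x ^ (2 * n)) u = u := by
        intro n
        induction n with
        | zero => simp
        | succ n ih =>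
          rw [show 2 * (n + 1) = 2 * n + 1 + 1 by ring, pow_succ, pow_succ, MulAut.mul_apply,
            MulAut.mul_apply, hxxu, ih]
      have h6 : (x ^ p) u = u := by rw [C.hxp]; rfl
      rw [hk, pow_succ', MulAut.mul_apply, hpow] at h6
      exact h6
    have h7 := W_fix C M hab hWR hRne hu hfu
    apply Subtype.ext
    exact (mul_inv_eq_one.1 h7).symm
  have hsurj := Finite.surjective_of_injective hinj
  intro c hc
  obtain ⟨t, ht⟩ := hsurj ⟨c, hc⟩
  exact ⟨t.1, t.2, (congrArg Subtype.val ht).symm⟩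

end WW

end Cfsg.Agent.H03.FL
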