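import Mathlib
import Cfsg.Agent.Lib.H03.FL6

set_option autoImplicit false

namespace Cfsg.Agent.H03.FL

universe u
variable {H : Type u} [Group H]

open scoped commutatorElement

variable {x : MulAut H} {R : Subgroup H} {p : ℕ}

section WW
variable [Finite H] [Fact p.Prime] (C : Core x p) (M : MinR x R)
  (hab : ∀ a ∈ R, ∀ b ∈ R, a * b = b * a) {g : H} (hWR : br x g ⊔ R = ⊤)

include C M hab hWR

theorem cent_fix : ∀ r ∈ R, (∀ u ∈ br x g, u * r * u⁻¹ = r) → x r = r := by
  intro r hr hru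
  set S : Subgroup H := R ⊓ Subgroup.centralizer (br x g : Set H) with hS
  have hmemS : ∀ s, s ∈ S ↔ s ∈ R ∧ ∀ u ∈ br x g, u * s = s * u := by
    intro s
    rw [hS, Subgroup.mem_inf, Subgroup.mem_centralizer_iff]
    rfl
  have hSn : S.Normal := by
    refine normal_of_sup hWR ?_ ?_
    · intro a ha s hs
      have h1 := ((hmemS s).1 hs).2 a ha
      rw [h1]
      simpa using hs
    · intro a ha s hs
      have h1 := hab a ha s ((hmemS s).1 hs).1
      rw [h1]
      simpa using hs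
  have hSi : Inv x S := by
    intro s hs
    rw [hmemS] at hs ⊢
    refine ⟨M.hRi s hs.1, ?_⟩
    intro u hu
    have h1 := hs.2 (x⁻¹ u) (inv_apply_mem C.hxp (br_inv x g) hu)
    have h2 := congrArg x h1
    simpa [map_mul] using h2
  have hrS : r ∈ S := by
    rw [hmemS]
    refine ⟨hr, fun u hu => ?_⟩
    have h1 := hru u hu
    exact (mul_inv_eq_iff_eq_mul.1 h1)
  by_cases hSR : S = R
  · exfalso
    have hQn : (brS x R).Normal := by
      refine normal_of_sup hWR ?_ ?_
      · intro a ha k hk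
        have hkS : k ∈ S := by rw [hSR]; exact brS_le M.hRi hk
        have h1 := ((hmemS k).1 hkS).2 a ha
        rw [h1]
        simpa using hk
      · intro a ha k hk
        have h1 := hab a ha k (brS_le M.hRi hk)
        rw [h1]
        simpa using hk
    have hQF : brS x R ⊓ Fx x ≤ DD x := by
      rintro k ⟨hk, hf⟩
      rw [gen_fix_one C.hxp C.hc M.hRi hab hk hf]
      exact Subgroup.one_mem _
    by_cases hQ : brS x R = ⊥
    · apply M.hRf
      intro r' hr'
      have h1 := gen_mem (x := x) hr' 1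
      rw [hQ, Subgroup.mem_bot, pow_one] at h1
      exact (inv_mul_eq_one.1 h1).symm
    · exact C.hkl _ hQn (brS_inv M.hRi) hQ hQF
  · have := M.hmin S hSn hSi inf_le_left hSR hrS
    exact this

theorem R2H [Group.IsSolvable H] (hRne : R ≠ ⊤) {w : H} (hw : w ∈ R) :
    ∀ c ∈ br x g, (x c)⁻¹ * (x w * w⁻¹) * x c * (c * x (x w * w⁻¹) * c⁻¹)
      = (x w * w⁻¹) * x (x w * w⁻¹) := by
  intro c hc
  obtain ⟨t, ht, rfl⟩ := surj2 C M hab hWR hRne c hc
  by_cases ht1 : t = 1
  · subst ht1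
    simp
  · have hwab := W_ab C M hab hWR hRne
    have hz : x w * w⁻¹ ∈ R := R.mul_mem (M.hRi w hw) (R.inv_mem hw)
    refine r2_calc (t⁻¹ * x t) (x (t⁻¹ * x t)) w (x w) (x (x w)) (x w * w⁻¹) (x (x w * w⁻¹))
      (hwab _ hc _ (br_inv x g _ hc)) rfl ?_ (hab _ hz _ (M.hRi _ hz))
      (e_comm C M hab hWR hRne ht ht1 hw)
    rw [map_mul, map_inv]

end WW

theorem caseII [Finite H] [Fact p.Prime] [Group.IsSolvable H] (C : Core x p) (M : MinR x R)
    (hab : ∀ a ∈ R, ∀ b ∈ R, a * b = b * a) (hRne : R ≠ ⊤) : False := by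
  obtain ⟨g, hWR⟩ := exists_g C M hab
  apply M.hRf
  intro w hw
  have hz : x w * w⁻¹ ∈ R := R.mul_mem (M.hRi w hw) (R.inv_mem hw)
  have h := abstract_inst M.hRn M.hRi (br_inv x g) hab (W_ab C M hab hWR hRne) C.hxp C.hp2
    (surj1 C M hab hWR C.hp2 hRne) (surj2 C M hab hWR hRne) (cent_fix C M hab hWR) hz
    (R2H C M hab hWR hRne hw)
  have hzf := cent_fix C M hab hWR _ hz h
  have e : x w * w⁻¹ = w⁻¹ * x w := hab _ (M.hRi w hw) _ (R.inv_mem hw)
  rw [e] at hzf
  exact fix_of_gen_fix C.hxp C.hc hzf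

theorem caseTop [Finite H] [Fact p.Prime] [Group.IsSolvable H] (C : Core x p)
    (M : MinR x (⊤ : Subgroup H)) : False := by
  obtain ⟨h, -, hh⟩ := SetLike.not_le_iff_exists.1 M.hRf
  have hh' : x h ≠ h := hh
  have hne1 : h ≠ 1 := by
    rintro rfl
    exact hh' (map_one x)
  haveI : Nontrivial H := nontrivial_of_ne h 1 hne1
  have hlt := Group.IsSolvable.commutator_lt_of_ne_bot (H := (⊤ : Subgroup H)) top_ne_bot
  set D : Subgroup H := ⁅(⊤ : Subgroup H), ⊤⁆ with hD
  have hDn : D.Normal := by rw [hD]; infer_instance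
  have hDi : Inv x D := comm_inv (fun _ _ => Subgroup.mem_top _) (fun _ _ => Subgroup.mem_top _)
  have hDF : D ≤ Fx x := M.hmin D hDn hDi le_top hlt.ne
  have hcen : ∀ y ∈ D, ∀ g, g * y = y * g := fun y hy g => central_of C.htop hDn hDF hy g
  have hSn : (br x h ⊔ D).Normal := by
    constructor
    intro s hs g
    have h1 : ⁅g, s⁆ ∈ D := Subgroup.commutator_mem_commutator (Subgroup.mem_top _) (Subgroup.mem_top _)
    have e : g * s * g⁻¹ = ⁅g, s⁆ * s := by
      rw [commutatorElement_def]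
      group
    rw [e]
    exact Subgroup.mul_mem _ ((le_sup_right : D ≤ br x h ⊔ D) h1) hs
  have hSi : Inv x (br x h ⊔ D) := sup_inv (br_inv x h) hDi
  have hS : br x h ⊔ D = ⊤ := by
    by_contra hne
    have hle := M.hmin _ hSn hSi le_top hne
    have h1 : h⁻¹ * (x ^ 1) h ∈ br x h := gen_mem' h 1
    have h2 := hle ((le_sup_left : br x h ≤ br x h ⊔ D) h1)
    rw [pow_one] at h2
    exact hh' (fix_of_gen_fix C.hxp C.hc h2)
  haveI := hDn
  have hW : br x h = ⊤ := by
    apply top_le_iff.1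
    rw [← C.htop]
    refine (Subgroup.closure_le _).2 ?_
    rintro _ ⟨g, -, i, rfl⟩
    have hg : g ∈ br x h ⊔ D := hS ▸ Subgroup.mem_top g
    obtain ⟨w, hw, u, hu, rfl⟩ := Subgroup.mem_sup_of_normal_right.1 hg
    have huf : (x ^ i) u = u := fix_pow (hDF hu) i
    have e : (w * u)⁻¹ * (x ^ i) (w * u) = w⁻¹ * (x ^ i) w := by
      rw [map_mul, huf]
      have h1 := hcen u hu (w⁻¹ * (x ^ i) w)
      calc (w * u)⁻¹ * ((x ^ i) w * u) = u⁻¹ * ((w⁻¹ * (x ^ i) w) * u) := by group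
        _ = u⁻¹ * (u * (w⁻¹ * (x ^ i) w)) := by rw [h1]
        _ = w⁻¹ * (x ^ i) w := by group
    rw [e]
    have h2 := gen_mem (x := x) hw i
    rw [br_idem C.hxp C.hc h] at h2
    exact h2
  apply C.hcontra
  intro c hc
  exact br_inf_le_DD x h ⟨hW ▸ Subgroup.mem_top c, hc⟩

theorem caseI [Finite H] [Fact p.Prime] [Group.IsSolvable H] (C : Core x p) (M : MinR x R)
    (hnab : ¬ ∀ a ∈ R, ∀ b ∈ R, a * b = b * a) (hRne : R ≠ ⊤) : False := by
  haveI hRnI : R.Normal := M.hRn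
  have hRbot : R ≠ ⊥ := by
    rintro rfl
    exact M.hRf bot_le
  have hlt := Group.IsSolvable.commutator_lt_of_ne_bot hRbot
  have hDn : (⁅R, R⁆).Normal := inferInstance
  have hDi : Inv x ⁅R, R⁆ := comm_inv M.hRi M.hRi
  have hDF : ⁅R, R⁆ ≤ Fx x := M.hmin _ hDn hDi hlt.le hlt.ne
  have hcen : ∀ y ∈ ⁅R, R⁆, ∀ g, g * y = y * g := fun y hy g => central_of C.htop hDn hDF hy g
  -- step 1
  have hstep1 : ∀ a ∈ R, x a = a → ∀ k ∈ brS x R, a * k = k * a := by
    intro a ha hax k hk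
    have hle : brS x R ≤ Subgroup.centralizer {a} := by
      refine (Subgroup.closure_le _).2 ?_
      rintro _ ⟨r, hr, i, rfl⟩
      rw [SetLike.mem_coe, Subgroup.mem_centralizer_singleton_iff]
      have hb : ⁅a, r⁆ ∈ ⁅R, R⁆ := Subgroup.commutator_mem_commutator ha hr
      set b := ⁅a, r⁆ with hbdef
      have hbf : (x ^ i) b = b := fix_pow (hDF hb) i
      have haf : (x ^ i) a = a := fix_pow hax i
      have e1 : a * r = b * r * a := by
        rw [hbdef, commutatorElement_def]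
        group
      have e2 : a * (x ^ i) r = b * (x ^ i) r * a := by
        have := congrArg (x ^ i) e1
        rwa [map_mul, map_mul, map_mul, haf, hbf] at this
      have e3 : r⁻¹ * a = a * r⁻¹ * b := by
        have hcb := hcen b hb r⁻¹
        calc r⁻¹ * a = r⁻¹ * (a * r) * r⁻¹ := by group
          _ = r⁻¹ * (b * r * a) * r⁻¹ := by rw [e1]
          _ = r⁻¹ * b * (r * a * r⁻¹) := by group
          _ = b * r⁻¹ * (r * a * r⁻¹) := by rw [hcb]
          _ = b * a * r⁻¹ := by group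
          _ = a * r⁻¹ * b := by
            have e4 := hcen b hb (a * r⁻¹)
            calc b * a * r⁻¹ = b * (a * r⁻¹) := by group
              _ = a * r⁻¹ * b := (e4.symm)
      have hcb2 := hcen b hb ((x ^ i) r)
      calc r⁻¹ * (x ^ i) r * a = r⁻¹ * ((x ^ i) r * a) := by group
        _ = r⁻¹ * (b⁻¹ * (a * (x ^ i) r)) := by rw [e2]; group
        _ = (r⁻¹ * b⁻¹) * a * (x ^ i) r := by group
        _ = b⁻¹ * r⁻¹ * a * (x ^ i) r := by
          have : r⁻¹ * b⁻¹ = b⁻¹ * r⁻¹ := by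
            have h5 := hcen b hb r⁻¹
            calc r⁻¹ * b⁻¹ = b⁻¹ * (b * r⁻¹) * b⁻¹ := by group
              _ = b⁻¹ * (r⁻¹ * b) * b⁻¹ := by rw [← h5]
              _ = b⁻¹ * r⁻¹ := by group
          rw [this]
        _ = b⁻¹ * (r⁻¹ * a) * (x ^ i) r := by group
        _ = b⁻¹ * (a * r⁻¹ * b) * (x ^ i) r := by rw [e3]
        _ = b⁻¹ * a * r⁻¹ * (b * (x ^ i) r) := by group
        _ = b⁻¹ * a * r⁻¹ * ((x ^ i) r * b) := by rw [hcb2]
        _ = b⁻¹ * (a * (r⁻¹ * (x ^ i) r)) * b := by group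
        _ = a * (r⁻¹ * (x ^ i) r) := by
          have h6 := hcen b hb (a * (r⁻¹ * (x ^ i) r))
          calc b⁻¹ * (a * (r⁻¹ * (x ^ i) r)) * b
              = b⁻¹ * ((a * (r⁻¹ * (x ^ i) r)) * b) := by group
            _ = b⁻¹ * (b * (a * (r⁻¹ * (x ^ i) r))) := by rw [h6]
            _ = a * (r⁻¹ * (x ^ i) r) := by group
    exact (Subgroup.mem_centralizer_singleton_iff.1 (hle hk)).symm
  -- step 3 : the commutator subgroup of `K` is trivial
  have hQ : ⁅brS x R, brS x R⁆ = ⊥ := by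
    by_contra hne
    have hQle : ⁅brS x R, brS x R⁆ ≤ ⁅R, R⁆ :=
      Subgroup.commutator_mono (brS_le M.hRi) (brS_le M.hRi)
    have hQn : (⁅brS x R, brS x R⁆).Normal := by
      constructor
      intro n hn g
      rw [hcen n (hQle hn) g]
      simpa using hn
    refine C.hkl _ hQn (comm_inv (brS_inv M.hRi) (brS_inv M.hRi)) hne ?_
    rintro q ⟨hq, hqf⟩
    have hqK : q ∈ brS x R := by
      have hle2 : ⁅brS x R, brS x R⁆ ≤ brS x R := Subgroup.commutator_le.2 (fun a ha b hb => by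
        rw [commutatorElement_def]
        exact mul_mem (mul_mem (mul_mem ha hb) (inv_mem ha)) (inv_mem hb))
      exact hle2 hq
    exact C.hsub R M.hRi hRne ⟨hqK, hqf⟩
  have hKab : ∀ a ∈ brS x R, ∀ b ∈ brS x R, a * b = b * a := by
    intro a ha b hb
    have h1 : ⁅a, b⁆ ∈ ⁅brS x R, brS x R⁆ := Subgroup.commutator_mem_commutator ha hb
    rw [hQ, Subgroup.mem_bot] at h1
    exact commutatorElement_eq_one_iff_mul_comm.1 h1
  -- the center of `R`
  set Z : Subgroup H := R ⊓ Subgroup.centralizer (R : Set H) with hZ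
  have hmemZ : ∀ s, s ∈ Z ↔ s ∈ R ∧ ∀ u ∈ R, u * s = s * u := by
    intro s
    rw [hZ, Subgroup.mem_inf, Subgroup.mem_centralizer_iff]
    rfl
  have hZn : Z.Normal := by
    constructor
    intro s hs g
    rw [hmemZ] at hs ⊢
    refine ⟨hRnI.conj_mem s hs.1 g, ?_⟩
    intro u hu
    have h1 := hs.2 (g⁻¹ * u * g) (hRnI.conj_mem' u hu g)
    calc u * (g * s * g⁻¹) = g * ((g⁻¹ * u * g) * s) * g⁻¹ := by group
      _ = g * (s * (g⁻¹ * u * g)) * g⁻¹ := by rw [h1]
      _ = g * s * g⁻¹ * u := by group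
  have hZi : Inv x Z := by
    intro s hs
    rw [hmemZ] at hs ⊢
    refine ⟨M.hRi s hs.1, ?_⟩
    intro u hu
    have h1 := hs.2 (x⁻¹ u) (inv_apply_mem C.hxp M.hRi hu)
    have h2 := congrArg x h1
    simpa [map_mul] using h2
  have hZR : Z ≠ R := by
    intro h
    apply hnab
    intro a ha b hb
    have hb' : b ∈ Z := by rw [h]; exact hb
    exact ((hmemZ b).1 hb').2 a ha
  have hZF : Z ≤ Fx x := M.hmin Z hZn hZi inf_le_left hZR
  have hKZ : brS x R ≤ Z := by
    intro k hk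
    rw [hmemZ]
    refine ⟨brS_le M.hRi hk, ?_⟩
    intro u hu
    obtain ⟨a, ha, k', hk', rfl, hax⟩ := dec C.hxp C.hc M.hRi hu
    have h1 := hstep1 a ha hax k hk
    have h2 := hKab k' hk' k hk
    calc a * k' * k = a * (k' * k) := by group
      _ = a * (k * k') := by rw [h2]
      _ = (a * k) * k' := by group
      _ = (k * a) * k' := by rw [h1]
      _ = k * (a * k') := by group
  apply M.hRf
  intro r hr
  have h1 := gen_mem (x := x) hr 1
  rw [pow_one] at h1
  exact fix_of_gen_fix C.hxp C.hc (hZF (hKZ h1))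

theorem core_false [Finite H] [Fact p.Prime] [Group.IsSolvable H] (C : Core x p) : False := by
  have htopF : ¬ (⊤ : Subgroup H) ≤ Fx x := by
    intro hle
    apply C.hcontra
    have hbot : brS x (⊤ : Subgroup H) = ⊥ := by
      rw [eq_bot_iff]
      refine (Subgroup.closure_le _).2 ?_
      rintro _ ⟨h', -, i, rfl⟩
      have : (x ^ i) h' = h' := fix_pow (hle (Subgroup.mem_top h')) i
      rw [this, inv_mul_cancel]
      exact Subgroup.one_mem _
    rw [C.htop] at hbot
    intro c _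
    have : c ∈ (⊥ : Subgroup H) := hbot ▸ Subgroup.mem_top c
    rw [Subgroup.mem_bot] at this
    rw [this]
    exact Subgroup.one_mem _
  obtain ⟨R, hR, hRmin⟩ := WellFounded.has_min (wellFounded_lt (α := Subgroup H))
    {S | S.Normal ∧ Inv x S ∧ ¬ S ≤ Fx x}
    ⟨⊤, inferInstance, (fun _ _ => Subgroup.mem_top _), htopF⟩
  have M : MinR x R := by
    refine ⟨hR.1, hR.2.1, hR.2.2, ?_⟩
    intro S hSn hSi hSR hne
    by_contra hnot
    exact hRmin S ⟨hSn, hSi, hnot⟩ (lt_of_le_of_ne hSR hne)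
  by_cases hRtop : R = ⊤
  · subst hRtop
    exact caseTop C M
  · by_cases hab : ∀ a ∈ R, ∀ b ∈ R, a * b = b * a
    · exact caseII C M hab hRtop
    · exact caseI C M hab hRtop

end Cfsg.Agent.H03.FL
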