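import Mathlib
import Cfsg.Agent.Lib.H03.FL7

set_option autoImplicit false

namespace Cfsg.Agent.H03.FL

universe u

section res
variable {H : Type u} [Group H] [Finite H]

/-- restriction of `x` to an invariant subgroup -/
noncomputable def resAut (x : MulAut H) (X : Subgroup H) (hX : Inv x X) : MulAut X :=
  MulEquiv.ofBijective
    ({ toFun := fun a => ⟨x a.1, hX _ a.2⟩
       map_one' := Subtype.ext (map_one x)
       map_mul' := fun a b => Subtype.ext (map_mul x a.1 b.1) } : X →* X)
    (by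
      have hinj : Function.Injective
          (({ toFun := fun a => ⟨x a.1, hX _ a.2⟩
              map_one' := Subtype.ext (map_one x)
              map_mul' := fun a b => Subtype.ext (map_mul x a.1 b.1) } : X →* X) : X → X) := by
        intro a b hab
        have h1 : x a.1 = x b.1 := congrArg Subtype.val hab
        exact Subtype.ext (x.injective h1)
      exact ⟨hinj, Finite.surjective_of_injective hinj⟩)

variable {x : MulAut H} {X : Subgroup H} {hX : Inv x X}

theorem resAut_apply (a : X) : (resAut x X hX a).1 = x a.1 := rfl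

theorem resAut_pow (i : ℕ) (a : X) : ((resAut x X hX ^ i) a).1 = (x ^ i) a.1 := by
  induction i with
  | zero => rfl
  | succ n ih =>
    rw [pow_succ_apply, pow_succ_apply, resAut_apply, ih]

theorem resAut_hxp {p : ℕ} (hxp : x ^ p = 1) : resAut x X hX ^ p = 1 := by
  ext a
  rw [resAut_pow, hxp]
  rfl

theorem brS_res_le : brS x X ≤ (brS (resAut x X hX) ⊤).map X.subtype := by
  refine (Subgroup.closure_le _).2 ?_
  rintro _ ⟨h, hh, i, rfl⟩
  refine ⟨(⟨h, hh⟩ : X)⁻¹ * (resAut x X hX ^ i) ⟨h, hh⟩, gen_mem (Subgroup.mem_top _) i, ?_⟩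
  show h⁻¹ * ((resAut x X hX ^ i) ⟨h, hh⟩).1 = h⁻¹ * (x ^ i) h
  rw [resAut_pow]

theorem DD_res_le : (DD (resAut x X hX)).map X.subtype ≤ DD x := by
  rw [Subgroup.map_le_iff_le_comap]
  refine iSup_le fun a => ?_
  rintro b ⟨hb1, hb2⟩
  show b.1 ∈ DD x
  refine br_inf_le_DD x a.1 ⟨?_, ?_⟩
  · have hle : br (resAut x X hX) a ≤ (br x a.1).comap X.subtype := by
      refine (Subgroup.closure_le _).2 ?_
      rintro _ ⟨i, rfl⟩
      show a.1⁻¹ * ((resAut x X hX ^ i) a).1 ∈ br x a.1
      rw [resAut_pow]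
      exact gen_mem' _ i
    exact hle hb1
  · have h1 : resAut x X hX b = b := hb2
    exact congrArg Subtype.val h1

end res

section quot
variable {H : Type u} [Group H] [Finite H]
variable {x : MulAut H} {Q : Subgroup H} [hQn : Q.Normal]

theorem map_eq_of_inv {p : ℕ} [Fact p.Prime] (hxp : x ^ p = 1) (hQi : Inv x Q) :
    Q.map (x : H →* H) = Q := by
  apply le_antisymm
  · rw [Subgroup.map_le_iff_le_comap]
    exact fun a ha => hQi a ha
  · intro q hq
    refine ⟨x⁻¹ q, inv_apply_mem hxp hQi hq, ?_⟩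
    simp

/-- induced automorphism on the quotient -/
noncomputable def quoAut (x : MulAut H) (Q : Subgroup H) [Q.Normal] (he : Q.map (x : H →* H) = Q) :
    MulAut (H ⧸ Q) := QuotientGroup.congr Q Q x he

variable {he : Q.map (x : H →* H) = Q}

theorem quoAut_mk (h : H) : quoAut x Q he (h : H ⧸ Q) = ((x h : H) : H ⧸ Q) :=
  QuotientGroup.congr_mk Q Q x he h

theorem quoAut_pow (i : ℕ) (h : H) : (quoAut x Q he ^ i) (h : H ⧸ Q) = (((x ^ i) h : H) : H ⧸ Q) := by
  induction i with
  | zero => rfl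
  | succ n ih =>
    rw [pow_succ_apply, pow_succ_apply, ih, quoAut_mk]

theorem quoAut_hxp {p : ℕ} (hxp : x ^ p = 1) : quoAut x Q he ^ p = 1 := by
  ext a
  induction a using QuotientGroup.induction_on with
  | H z =>
    rw [quoAut_pow, hxp]
    rfl

theorem brS_quo (htop : brS x ⊤ = ⊤) : brS (quoAut x Q he) ⊤ = ⊤ := by
  have hle : brS x ⊤ ≤ (brS (quoAut x Q he) ⊤).comap (QuotientGroup.mk' Q) := by
    refine (Subgroup.closure_le _).2 ?_
    rintro _ ⟨h, -, i, rfl⟩
    show ((h⁻¹ * (x ^ i) h : H) : H ⧸ Q) ∈ brS (quoAut x Q he) ⊤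
    rw [QuotientGroup.mk_mul, QuotientGroup.mk_inv, ← quoAut_pow]
    exact gen_mem (Subgroup.mem_top _) i
  rw [htop] at hle
  apply top_le_iff.1
  intro a _
  induction a using QuotientGroup.induction_on with
  | H z => exact hle (Subgroup.mem_top z)

theorem DD_quo {p : ℕ} [Fact p.Prime] (hxp : x ^ p = 1) (hc : (Nat.card H).Coprime p)
    (hQi : Inv x Q) : DD (quoAut x Q he) ≤ (DD x).map (QuotientGroup.mk' Q) := by
  refine iSup_le fun a => ?_
  induction a using QuotientGroup.induction_on with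
  | H h =>
    rintro e ⟨he1, he2⟩
    have hle : br (quoAut x Q he) (h : H ⧸ Q) ≤ (br x h).map (QuotientGroup.mk' Q) := by
      refine (Subgroup.closure_le _).2 ?_
      rintro _ ⟨i, rfl⟩
      refine ⟨h⁻¹ * (x ^ i) h, gen_mem' h i, ?_⟩
      show ((h⁻¹ * (x ^ i) h : H) : H ⧸ Q) = _
      rw [QuotientGroup.mk_mul, QuotientGroup.mk_inv, quoAut_pow]
    obtain ⟨b, hb, rfl⟩ := hle he1
    have hb1 : x b⁻¹ * b ∈ Q := by
      have h2 : quoAut x Q he (b : H ⧸ Q) = (b : H ⧸ Q) := he2
      rw [quoAut_mk] at h2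
      have := QuotientGroup.eq.1 h2
      simpa using this
    have hb2 : b⁻¹ * x b ∈ br x h ⊓ Q := by
      refine ⟨(br x h).mul_mem ((br x h).inv_mem hb) (br_inv x h b hb), ?_⟩
      have h3 := Q.inv_mem hb1
      simpa using h3
    obtain ⟨k, hk, hfix⟩ := fixed_coset hxp hc (inf_inv (br_inv x h) hQi) hb2
    refine ⟨b * k, br_inf_le_DD x h ⟨(br x h).mul_mem hb hk.1, hfix⟩, ?_⟩
    show ((b * k : H) : H ⧸ Q) = (b : H ⧸ Q)
    rw [QuotientGroup.mk_mul, (QuotientGroup.eq_one_iff k).2 hk.2, mul_one]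

end quot

/-- The main induction. -/
theorem main_aux : ∀ (n : ℕ) (H : Type u) [Group H] [Finite H] [Group.IsSolvable H] (p : ℕ)
    [Fact p.Prime] (_ : p ≠ 2) (x : MulAut H), Nat.card H = n → x ^ p = 1 →
    (Nat.card H).Coprime p → brS x ⊤ ⊓ Fx x ≤ DD x := by
  intro n
  induction n using Nat.strong_induction_on with
  | _ n IH =>
    intro H _ _ _ p _ hp x hn hxp hc
    have hsub : ∀ X : Subgroup H, Inv x X → X ≠ ⊤ → brS x X ⊓ Fx x ≤ DD x := by
      intro X hXi hXne
      have hlt : Nat.card X < n := by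
        rw [← hn]
        refine lt_of_le_of_ne (Nat.card_le_card_of_injective _ Subtype.val_injective) ?_
        intro h
        exact hXne (Subgroup.eq_top_of_card_eq _ h)
      have h1 := IH _ hlt X p hp (resAut x X hXi) rfl (resAut_hxp hxp) (card_coprime hc)
      rintro c ⟨hc1, hc2⟩
      obtain ⟨c', hc', rfl⟩ := brS_res_le (hX := hXi) hc1
      have hc3 : c' ∈ Fx (resAut x X hXi) := by
        apply Subtype.ext
        exact hc2
      have h2 : c' ∈ DD (resAut x X hXi) := h1 ⟨hc', hc3⟩
      exact DD_res_le (hX := hXi) ⟨c', h2, rfl⟩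
    by_cases htop : brS x ⊤ = ⊤
    · by_cases hF : Fx x ≤ DD x
      · exact inf_le_right.trans hF
      · exfalso
        have hkl : ∀ Q : Subgroup H, Q.Normal → Inv x Q → Q ≠ ⊥ → Q ⊓ Fx x ≤ DD x → False := by
          intro Q hQn hQi hQb hQF
          apply hF
          intro c hcF
          have he := map_eq_of_inv hxp hQi
          have hlt : Nat.card (H ⧸ Q) < n := by
            rw [← hn, Subgroup.card_eq_card_quotient_mul_card_subgroup Q]
            have h1 : 1 < Nat.card Q := by
              haveI : Nontrivial Q := (Subgroup.nontrivial_iff_ne_bot Q).2 hQb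
              exact Finite.one_lt_card
            have h2 : 0 < Nat.card (H ⧸ Q) := Nat.card_pos
            nlinarith
          have hcq : (Nat.card (H ⧸ Q)).Coprime p :=
            Nat.Coprime.coprime_dvd_left (Subgroup.card_quotient_dvd_card Q) hc
          have h1 := IH _ hlt (H ⧸ Q) p hp (quoAut x Q he) rfl (quoAut_hxp hxp) hcq
          have h2 : (c : H ⧸ Q) ∈ brS (quoAut x Q he) ⊤ ⊓ Fx (quoAut x Q he) := by
            refine ⟨?_, ?_⟩
            · rw [brS_quo htop]
              exact Subgroup.mem_top _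
            · show quoAut x Q he (c : H ⧸ Q) = (c : H ⧸ Q)
              rw [quoAut_mk, show x c = c from hcF]
          obtain ⟨d, hd, hdc⟩ := DD_quo hxp hc hQi (h1 h2)
          have hdc' : (d : H ⧸ Q) = (c : H ⧸ Q) := hdc
          have h3 : d⁻¹ * c ∈ Q := QuotientGroup.eq.1 hdc'
          have hdf : x d = d := DD_le_Fx x hd
          have hcf : x c = c := hcF
          have h4 : d⁻¹ * c ∈ DD x := hQF ⟨h3, by
            show x (d⁻¹ * c) = d⁻¹ * c
            rw [map_mul, map_inv, hdf, hcf]⟩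
          have h5 := (DD x).mul_mem hd h4
          simpa using h5
        exact core_false (p := p) ⟨hxp, hc, hp, hsub, hkl, htop, hF⟩
    · have h := hsub (brS x ⊤) (brS_inv (fun _ _ => Subgroup.mem_top _)) htop
      rwa [brS_idem hxp hc (fun _ _ => Subgroup.mem_top _)] at h

end Cfsg.Agent.H03.FL
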