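import Mathlib
import Cfsg.Agent.Lib.H03.Basic

set_option autoImplicit false

namespace Cfsg.Agent.H03

open MulAction SubMulAction

theorem isBlock_of_forall {H Y : Type*} [Group H] [MulAction H Y] (B : Set Y)
    (h : ∀ g : H, ∀ y ∈ B, g • y ∈ B → ∀ z ∈ B, g • z ∈ B) : IsBlock H B := by
  rw [isBlock_iff_smul_eq_of_nonempty]
  rintro g ⟨w, hw1, hw2⟩
  obtain ⟨y, hy, rfl⟩ := hw1
  apply le_antisymm
  · rintro _ ⟨z, hz, rfl⟩
    exact h g y hy hw2 z hz
  · intro z hz
    refine ⟨g⁻¹ • z, h g⁻¹ (g • y) hw2 (by simpa using hy) z hz, by simp⟩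

variable {G X : Type*} [Group G] [MulAction G X]

theorem regular_inj (N : Subgroup G) (x₀ : X) (hreg : stabilizer N x₀ = ⊥)
    {n m : G} (hn : n ∈ N) (hm : m ∈ N) (h : n • x₀ = m • x₀) : n = m := by
  have : (⟨m⁻¹ * n, N.mul_mem (N.inv_mem hm) hn⟩ : N) ∈ stabilizer N x₀ := by
    rw [mem_stabilizer_iff, Subgroup.smul_def]
    change (m⁻¹ * n) • x₀ = x₀
    rw [mul_smul, h, inv_smul_smul]
  rw [hreg, Subgroup.mem_bot] at this
  have h1 : m⁻¹ * n = 1 := congrArg Subtype.val this
  exact (inv_mul_eq_one.mp h1).symm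

theorem regular_surj (N : Subgroup G) (htrans : IsPretransitive N X) (x₀ y : X) :
    ∃ n ∈ N, n • x₀ = y := by
  obtain ⟨n, hn⟩ := htrans.exists_smul_eq x₀ y
  exact ⟨n, n.2, hn⟩

/-- Structure of a regular normal subgroup of a 2-transitive group. -/
theorem regular_normal_of_two_trans (hX : 2 ≤ Nat.card X) [Finite X]
    (h2 : IsMultiplyPretransitive G X 2) (N : Subgroup G) [N.Normal]
    (htrans : IsPretransitive N X) (hreg : ∀ x : X, stabilizer N x = ⊥) :
    ∃ p : ℕ, p.Prime ∧ IsMulCommutative N ∧ (∀ n ∈ N, n ^ p = 1) ∧ ∃ m : ℕ, Nat.card X = p ^ m := by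
  classical
  haveI : Nonempty X := by
    apply (Nat.card_pos_iff.mp (by omega)).1
  obtain ⟨x₀⟩ := ‹Nonempty X›
  have h2' : ∀ {a b c d : X} (_ : a ≠ b) (_ : c ≠ d), ∃ g : G, g • a = c ∧ g • b = d :=
    is_two_pretransitive_iff.mp h2
  -- conjugacy of nonidentity elements
  have hconj : ∀ n ∈ N, n ≠ 1 → ∀ m ∈ N, m ≠ 1 → ∃ g : G, g • x₀ = x₀ ∧ g * n * g⁻¹ = m := by
    intro n hn hn1 m hm hm1
    have h1 : x₀ ≠ n • x₀ := fun h => hn1 (regular_inj N x₀ (hreg x₀) hn N.one_mem (by simpa using h.symm))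
    have h3 : x₀ ≠ m • x₀ := fun h => hm1 (regular_inj N x₀ (hreg x₀) hm N.one_mem (by simpa using h.symm))
    obtain ⟨g, hg1, hg2⟩ := h2' h1 h3
    refine ⟨g, hg1, ?_⟩
    apply regular_inj N x₀ (hreg x₀) (Subgroup.Normal.conj_mem ‹_› n hn g) hm
    have hgi : g⁻¹ • x₀ = x₀ := by rw [inv_smul_eq_iff, hg1]
    rw [← hg2, mul_smul, mul_smul, hgi]
  -- bijection with X
  let ev : N → X := fun n => (n : G) • x₀
  have hev : Function.Bijective ev := by
    constructor
    · intro a b h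
      exact Subtype.ext (regular_inj N x₀ (hreg x₀) a.2 b.2 h)
    · intro y
      obtain ⟨n, hn, h⟩ := regular_surj N htrans x₀ y
      exact ⟨⟨n, hn⟩, h⟩
  have hcard : Nat.card N = Nat.card X := Nat.card_congr (Equiv.ofBijective ev hev)
  haveI : Finite N := Nat.finite_of_card_ne_zero (by rw [hcard]; omega)
  haveI : Nontrivial N := by
    apply Finite.one_lt_card_iff_nontrivial.mp
    omega
  obtain ⟨p, hpp⟩ : ∃ p, Nat.Prime p ∧ p ∣ Nat.card N := by
    obtain ⟨p, hp, hd⟩ := Nat.exists_prime_and_dvd (n := Nat.card N) (by omega)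
    exact ⟨p, hp, hd⟩
  obtain ⟨hp, hpd⟩ := hpp
  haveI : Fact p.Prime := ⟨hp⟩
  obtain ⟨t, ht⟩ := exists_prime_orderOf_dvd_card' p hpd
  have ht1 : (t : G) ≠ 1 := by
    intro h
    have : t = 1 := Subtype.ext h
    rw [this, orderOf_one] at ht
    exact hp.one_lt.ne ht
  have htG : orderOf (t : G) = p := by
    rw [Subgroup.orderOf_coe, ht]
  have hord : ∀ n ∈ N, n ≠ 1 → orderOf n = p := by
    intro n hn hn1
    obtain ⟨g, _, hg⟩ := hconj _ t.2 ht1 n hn hn1
    rw [← hg, ← htG]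
    exact orderOf_injective (MulAut.conj g).toMonoidHom (MulAut.conj g).injective _
  have hpg : IsPGroup p N := by
    rw [IsPGroup.iff_orderOf]
    intro n
    by_cases hn : n = 1
    · exact ⟨0, by simp [hn]⟩
    · refine ⟨1, ?_⟩
      rw [pow_one, ← Subgroup.orderOf_coe]
      exact hord _ n.2 (fun h => hn (Subtype.ext h))
  obtain ⟨z, hz, hz1⟩ : ∃ z ∈ Subgroup.center N, z ≠ 1 := by
    haveI := hpg.center_nontrivial
    obtain ⟨z, hz⟩ := exists_ne (1 : Subgroup.center N)
    exact ⟨z, z.2, fun h => hz (Subtype.ext h)⟩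
  have hz1' : (z : G) ≠ 1 := fun h => hz1 (Subtype.ext h)
  have hcomm : ∀ a ∈ N, ∀ b ∈ N, a * b = b * a := by
    intro a ha b hb
    by_cases ha1 : a = 1
    · simp [ha1]
    obtain ⟨g, _, hg⟩ := hconj _ z.2 hz1' a ha ha1
    have hb' : g⁻¹ * b * g ∈ N := by
      have := Subgroup.Normal.conj_mem ‹N.Normal› b hb g⁻¹
      simpa using this
    have hzc := Subgroup.mem_center_iff.mp hz ⟨_, hb'⟩
    have hzc' : (g⁻¹ * b * g) * (z : G) = (z : G) * (g⁻¹ * b * g) := congrArg Subtype.val hzc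
    rw [← hg]
    calc g * z * g⁻¹ * b = g * ((z : G) * (g⁻¹ * b * g)) * g⁻¹ := by group
      _ = g * ((g⁻¹ * b * g) * (z : G)) * g⁻¹ := by rw [hzc']
      _ = b * (g * z * g⁻¹) := by group
  refine ⟨p, hp, isMulCommutative_of_forall hcomm, ?_, ?_⟩
  · intro n hn
    by_cases hn1 : n = 1
    · simp [hn1]
    · rw [← hord n hn hn1]
      exact pow_orderOf_eq_one n
  · obtain ⟨m, hm⟩ := IsPGroup.iff_card.mp hpg
    exact ⟨m, by rw [← hcard, hm]⟩

theorem regular_normal_of_two_prim [Finite X] (hX : 2 ≤ Nat.card X)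
    (h2 : IsMultiplyPreprimitive G X 2) (N : Subgroup G) [N.Normal]
    (htrans : IsPretransitive N X) (hreg : ∀ x : X, stabilizer N x = ⊥) :
    Nat.card X = 3 ∨ (IsMulCommutative N ∧ (∀ n ∈ N, n ^ 2 = 1) ∧ ∃ m : ℕ, Nat.card X = 2 ^ m) := by
  classical
  have h2t : IsMultiplyPretransitive G X 2 := IsMultiplyPreprimitive.isMultiplyPretransitive G X 2
  obtain ⟨p, hp, hc, hexp, m, hm⟩ := regular_normal_of_two_trans hX h2t N htrans hreg
  by_cases hp2 : p = 2
  · right
    subst hp2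
    exact ⟨hc, hexp, m, hm⟩
  left
  haveI : Nontrivial X := Finite.one_lt_card_iff_nontrivial.mp (by omega)
  obtain ⟨x₀⟩ : Nonempty X := inferInstance
  obtain ⟨y, hy⟩ := exists_ne x₀
  obtain ⟨n, hn, hny⟩ := regular_surj N htrans x₀ y
  have hn1 : n ≠ 1 := by
    rintro rfl
    exact hy (by simpa using hny.symm)
  have hnn : n⁻¹ ≠ n := by
    intro h
    have h1 : n ^ 2 = 1 := by
      rw [pow_two]
      nth_rw 1 [← h]
      exact inv_mul_cancel n
    have hcop : Nat.Coprime 2 p := (Nat.coprime_primes Nat.prime_two hp).mpr (Ne.symm hp2)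
    have h3 : n ^ Nat.gcd 2 p = 1 := pow_gcd_eq_one.mpr ⟨h1, hexp n hn⟩
    rw [hcop] at h3
    exact hn1 (by simpa using h3)
  have hreg0 := hreg x₀
  have hinvmem : n⁻¹ ∈ N := N.inv_mem hn
  have hxa : n • x₀ ≠ x₀ := fun h => hn1 (regular_inj N x₀ hreg0 hn N.one_mem (by simpa using h))
  have hxb : n⁻¹ • x₀ ≠ x₀ := fun h => hn1 (by
    have := regular_inj N x₀ hreg0 hinvmem N.one_mem (by simpa using h)
    simpa using this)
  have hab : n • x₀ ≠ n⁻¹ • x₀ := fun h => hnn (regular_inj N x₀ hreg0 hinvmem hn h.symm)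
  have : IsPretransitive G X := isPretransitive_of_is_two_pretransitive
  have hprim : IsPreprimitive (stabilizer G x₀) (ofStabilizer G x₀) := by
    haveI : IsMultiplyPreprimitive (stabilizer G x₀) (ofStabilizer G x₀) 1 :=
      isMultiplyPreprimitive_ofStabilizer (M := G) (α := X) (n := 1) (a := x₀)
    exact (is_one_preprimitive_iff _ _).mp this
  let B : Set (ofStabilizer G x₀) := {z | (z : X) = n • x₀ ∨ (z : X) = n⁻¹ • x₀}
  have hconjs : ∀ (g : G), g • x₀ = x₀ → ∀ a : G, g • (a • x₀) = (g * a * g⁻¹) • x₀ := by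
    intro g hg a
    have hgi : g⁻¹ • x₀ = x₀ := by rw [inv_smul_eq_iff, hg]
    rw [mul_smul, mul_smul, hgi]
  have hblock : IsBlock (stabilizer G x₀) B := by
    apply isBlock_of_forall
    rintro ⟨g, hg⟩ ⟨y', hy'⟩ hyB hgy ⟨z', hz'⟩ hzB
    have hg' : g • x₀ = x₀ := hg
    change g • y' = n • x₀ ∨ g • y' = n⁻¹ • x₀ at hgy
    change y' = n • x₀ ∨ y' = n⁻¹ • x₀ at hyB
    change z' = n • x₀ ∨ z' = n⁻¹ • x₀ at hzB
    change g • z' = n • x₀ ∨ g • z' = n⁻¹ • x₀
    have hm1 : g * n * g⁻¹ ∈ N := Subgroup.Normal.conj_mem ‹_› n hn g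
    have hm2 : (g * n * g⁻¹)⁻¹ ∈ N := N.inv_mem hm1
    have hgn : g • (n • x₀) = (g * n * g⁻¹) • x₀ := hconjs g hg' n
    have hgni : g • (n⁻¹ • x₀) = (g * n * g⁻¹)⁻¹ • x₀ := by
      rw [hconjs g hg' n⁻¹]
      congr 1
      group
    have hmm : g * n * g⁻¹ = n ∨ g * n * g⁻¹ = n⁻¹ := by
      rcases hyB with rfl | rfl <;> rcases hgy with h | h
      · rw [hgn] at h
        exact Or.inl (regular_inj N x₀ hreg0 hm1 hn h)
      · rw [hgn] at h
        exact Or.inr (regular_inj N x₀ hreg0 hm1 hinvmem h)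
      · rw [hgni] at h
        right
        have := regular_inj N x₀ hreg0 hm2 hn h
        exact inv_eq_iff_eq_inv.mp this
      · rw [hgni] at h
        left
        have := regular_inj N x₀ hreg0 hm2 hinvmem h
        exact inv_injective this
    rcases hzB with rfl | rfl
    · rw [hgn]
      rcases hmm with h | h <;> rw [h]
      · exact Or.inl rfl
      · exact Or.inr rfl
    · rw [hgni]
      rcases hmm with h | h <;> rw [h]
      · exact Or.inr rfl
      · exact Or.inl (by rw [inv_inv])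
  rcases hprim.isTrivialBlock_of_isBlock hblock with hsub | huniv
  · exfalso
    have hA : (⟨n • x₀, hxa⟩ : ofStabilizer G x₀) ∈ B := Or.inl rfl
    have hB : (⟨n⁻¹ • x₀, hxb⟩ : ofStabilizer G x₀) ∈ B := Or.inr rfl
    have := hsub hA hB
    exact hab (congrArg Subtype.val this)
  · have huniv2 : (Set.univ : Set X) = {x₀, n • x₀, n⁻¹ • x₀} := by
      ext w
      simp only [Set.mem_univ, Set.mem_insert_iff, Set.mem_singleton_iff, true_iff]
      by_cases hw : w = x₀
      · exact Or.inl hw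
      · right
        have hwB : (⟨w, hw⟩ : ofStabilizer G x₀) ∈ B := by rw [huniv]; trivial
        exact hwB
    rw [← Set.ncard_univ, huniv2, Set.ncard_eq_three]
    exact ⟨x₀, n • x₀, n⁻¹ • x₀, hxa.symm, hxb.symm, hab, rfl⟩

/-- A triply primitive group of degree `≥ 3` with regular normal subgroup has degree `3` or `4`. -/
theorem regular_normal_of_three_prim [Finite X] (hX : 3 ≤ Nat.card X)
    (h3 : IsMultiplyPreprimitive G X 3) (N : Subgroup G) [N.Normal]
    (htrans : IsPretransitive N X) (hreg : ∀ x : X, stabilizer N x = ⊥) :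
    Nat.card X = 3 ∨ Nat.card X = 4 := by
  classical
  have hcE : ((3 : ℕ) : ℕ∞) ≤ ENat.card X := by
    rw [ENat.card_eq_coe_natCard]
    exact_mod_cast hX
  have h2 : IsMultiplyPreprimitive G X 2 :=
    isMultiplyPreprimitive_of_le G X h3 (by omega) hcE
  rcases regular_normal_of_two_prim (by omega) h2 N htrans hreg with h | ⟨hc, hexp, _⟩
  · exact Or.inl h
  right
  haveI : Nontrivial X := Finite.one_lt_card_iff_nontrivial.mp (by omega)
  obtain ⟨x₀⟩ : Nonempty X := inferInstance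
  obtain ⟨y, hy⟩ := exists_ne x₀
  obtain ⟨a, ha, hay⟩ := regular_surj N htrans x₀ y
  have hreg0 := hreg x₀
  have ha1 : a ≠ 1 := by
    rintro rfl
    exact hy (by simpa using hay.symm)
  -- a third point
  obtain ⟨w, hw⟩ : ∃ w : X, w ∉ ({x₀, y} : Set X) := by
    by_contra hcon
    push Not at hcon
    have huniv : (Set.univ : Set X) = {x₀, y} := by
      ext w
      simpa using hcon w
    have : Nat.card X = 2 := by
      rw [← Set.ncard_univ, huniv, Set.ncard_pair hy.symm]
    omega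
  obtain ⟨b, hb, hbw⟩ := regular_surj N htrans x₀ w
  have hw1 : w ≠ x₀ := fun h => hw (by simp [h])
  have hw2 : w ≠ y := fun h => hw (by simp [h])
  have hs : (({x₀, y} : Set X).encard + 1 : ℕ∞) = ((3 : ℕ) : ℕ∞) := by
    rw [Set.encard_pair hy.symm]
    norm_num
  have hprim : IsPreprimitive (fixingSubgroup G ({x₀, y} : Set X)) (ofFixingSubgroup G ({x₀, y} : Set X)) :=
    IsMultiplyPreprimitive.isPreprimitive_ofFixingSubgroup G 3 hs
  have habm : a * b ∈ N := N.mul_mem ha hb
  have hcomm : ∀ u ∈ N, ∀ v ∈ N, u * v = v * u := fun u hu v hv => mul_comm_of_isMulCommutative hc hu hv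
  have hab_ne1 : (a * b) • x₀ ≠ x₀ := by
    intro h
    have h1 : a * b = 1 := regular_inj N x₀ hreg0 habm N.one_mem (by simpa using h)
    have h2 : b = a := by
      have h3 : a * a = 1 := by
        have := hexp a ha
        rwa [pow_two] at this
      calc b = a * a * b := by rw [h3, one_mul]
        _ = a * (a * b) := by group
        _ = a := by rw [h1, mul_one]
    exact hw2 (by rw [← hbw, h2, hay])
  have hab_ne2 : (a * b) • x₀ ≠ y := by
    intro h
    rw [← hay] at h
    have h1 : a * b = a := regular_inj N x₀ hreg0 habm ha h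
    have h2 : b = 1 := by simpa using h1
    exact hw1 (by rw [← hbw, h2, one_smul])
  have hab_ne3 : (a * b) • x₀ ≠ w := by
    intro h
    rw [← hbw] at h
    have h1 : a * b = b := regular_inj N x₀ hreg0 habm hb h
    exact ha1 (by simpa using h1)
  let B : Set (ofFixingSubgroup G ({x₀, y} : Set X)) := {z | (z : X) = b • x₀ ∨ (z : X) = (a * b) • x₀}
  have hconjs : ∀ (g : G), g • x₀ = x₀ → ∀ c : G, g • (c • x₀) = (g * c * g⁻¹) • x₀ := by
    intro g hg c
    have hgi : g⁻¹ • x₀ = x₀ := by rw [inv_smul_eq_iff, hg]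
    rw [mul_smul, mul_smul, hgi]
  have hblock : IsBlock (fixingSubgroup G ({x₀, y} : Set X)) B := by
    apply isBlock_of_forall
    rintro ⟨g, hg⟩ ⟨y', hy'⟩ hyB hgy ⟨z', hz'⟩ hzB
    have hg0 : g • x₀ = x₀ := hg ⟨x₀, by simp⟩
    have hgY : g • y = y := hg ⟨y, by simp⟩
    have hga : g * a * g⁻¹ = a := by
      have hm1 : g * a * g⁻¹ ∈ N := Subgroup.Normal.conj_mem ‹_› a ha g
      apply regular_inj N x₀ hreg0 hm1 ha
      rw [← hconjs g hg0 a, hay, hgY]
    change g • y' = b • x₀ ∨ g • y' = (a * b) • x₀ at hgy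
    change y' = b • x₀ ∨ y' = (a * b) • x₀ at hyB
    change z' = b • x₀ ∨ z' = (a * b) • x₀ at hzB
    change g • z' = b • x₀ ∨ g • z' = (a * b) • x₀
    have hm1 : g * b * g⁻¹ ∈ N := Subgroup.Normal.conj_mem ‹_› b hb g
    have hgb : g • (b • x₀) = (g * b * g⁻¹) • x₀ := hconjs g hg0 b
    have hgab : g • ((a * b) • x₀) = (a * (g * b * g⁻¹)) • x₀ := by
      rw [hconjs g hg0 (a * b)]
      congr 1
      calc g * (a * b) * g⁻¹ = (g * a * g⁻¹) * (g * b * g⁻¹) := by group
        _ = a * (g * b * g⁻¹) := by rw [hga]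
    have haa : a * a = 1 := by
      have := hexp a ha
      rwa [pow_two] at this
    have hmm : g * b * g⁻¹ = b ∨ g * b * g⁻¹ = a * b := by
      rcases hyB with rfl | rfl <;> rcases hgy with h | h
      · rw [hgb] at h
        exact Or.inl (regular_inj N x₀ hreg0 hm1 hb h)
      · rw [hgb] at h
        exact Or.inr (regular_inj N x₀ hreg0 hm1 habm h)
      · rw [hgab] at h
        right
        have := regular_inj N x₀ hreg0 (N.mul_mem ha hm1) hb h
        calc g * b * g⁻¹ = a * a * (g * b * g⁻¹) := by rw [haa, one_mul]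
          _ = a * (a * (g * b * g⁻¹)) := mul_assoc _ _ _
          _ = a * b := by rw [this]
      · rw [hgab] at h
        left
        have := regular_inj N x₀ hreg0 (N.mul_mem ha hm1) habm h
        exact mul_left_cancel this
    rcases hzB with rfl | rfl
    · rw [hgb]
      rcases hmm with h | h <;> rw [h]
      · exact Or.inl rfl
      · exact Or.inr rfl
    · rw [hgab]
      rcases hmm with h | h <;> rw [h]
      · exact Or.inr rfl
      · left
        rw [← mul_assoc, haa, one_mul]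
  have hmemc : ∀ z : X, z ≠ x₀ → z ≠ y → z ∈ ofFixingSubgroup G ({x₀, y} : Set X) := by
    intro z h1 h2
    rw [mem_ofFixingSubgroup_iff]
    simp [h1, h2]
  rcases hprim.isTrivialBlock_of_isBlock hblock with hsub | huniv
  · exfalso
    have hA : (⟨w, hmemc w hw1 hw2⟩ : ofFixingSubgroup G ({x₀, y} : Set X)) ∈ B := Or.inl hbw.symm
    have hB : (⟨(a * b) • x₀, hmemc _ hab_ne1 hab_ne2⟩ : ofFixingSubgroup G ({x₀, y} : Set X)) ∈ B := Or.inr rfl
    have := hsub hA hB
    exact hab_ne3 (congrArg Subtype.val this).symm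
  · have huniv2 : (Set.univ : Set X) = {x₀, y, w, (a * b) • x₀} := by
      ext v
      simp only [Set.mem_univ, Set.mem_insert_iff, Set.mem_singleton_iff, true_iff]
      by_cases hv : v = x₀
      · exact Or.inl hv
      by_cases hv2 : v = y
      · exact Or.inr (Or.inl hv2)
      have hvB : (⟨v, hmemc v hv hv2⟩ : ofFixingSubgroup G ({x₀, y} : Set X)) ∈ B := by rw [huniv]; trivial
      rcases hvB with h | h
      · exact Or.inr (Or.inr (Or.inl (by rw [← hbw]; exact h)))
      · exact Or.inr (Or.inr (Or.inr h))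
    rw [← Set.ncard_univ, huniv2]
    rw [Set.ncard_eq_toFinset_card', Set.toFinset_insert, Set.toFinset_insert, Set.toFinset_insert, Set.toFinset_singleton]
    rw [Finset.card_insert_of_notMem, Finset.card_insert_of_notMem, Finset.card_insert_of_notMem, Finset.card_singleton]
    · simp [hab_ne3.symm]
    · simp [hw2.symm, hab_ne2.symm]
    · simp [hy.symm, hw1.symm, hab_ne1.symm]

end Cfsg.Agent.H03
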