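import Mathlib
import Cfsg.Agent.Lib.H03.Basic
import Cfsg.Agent.Lib.H03.RegNormal
import Cfsg.Agent.Lib.H03.Sharp2

set_option autoImplicit false

namespace Cfsg.Agent.H03

open MulAction SubMulAction

universe u v

section
variable {G : Type u} {X : Type v} [Group G] [MulAction G X]

theorem faithful_ofStabilizer [FaithfulSMul G X] (a : X) :
    FaithfulSMul (stabilizer G a) (ofStabilizer G a) := by
  refine ⟨fun {g h} H => ?_⟩
  apply Subtype.ext
  apply FaithfulSMul.eq_of_smul_eq_smul (α := X)
  intro x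
  by_cases hx : x = a
  · subst hx
    have h1 : (g : G) • x = x := g.2
    have h2 : (h : G) • x = x := h.2
    rw [h1, h2]
  · exact congrArg Subtype.val (H ⟨x, hx⟩)

theorem isPretransitive_normal_of_prim [FaithfulSMul G X] (hp : IsPreprimitive G X) (N : Subgroup G)
    [N.Normal] (hN : N ≠ ⊥) : IsPretransitive N X := by
  apply IsQuasiPreprimitive.isPretransitive_of_normal
  intro h
  apply hN
  rw [eq_bot_iff]
  intro n hn
  rw [Subgroup.mem_bot]
  apply FaithfulSMul.eq_of_smul_eq_smul (α := X)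
  intro x
  have hx : x ∈ fixedPoints N X := by rw [h]; trivial
  have := hx ⟨n, hn⟩
  simpa using this

theorem lift_trans (N : Subgroup G) [hNt : IsPretransitive N X] (a : X) (r : ℕ)
    (h : IsMultiplyPretransitive (N.subgroupOf (stabilizer G a)) (ofStabilizer G a) r) :
    IsMultiplyPretransitive N X (r + 1) := by
  apply (ofStabilizer.isMultiplyPretransitive (G := N) (α := X) (n := r) (a := a)).mpr
  let σ : N.subgroupOf (stabilizer G a) → stabilizer N a := fun g => ⟨⟨g.1.1, g.2⟩, g.1.2⟩
  let f : ofStabilizer G a →ₑ[σ] ofStabilizer N a :=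
    { toFun := fun x => ⟨x.1, x.2⟩, map_smul' := fun g x => rfl }
  exact IsPretransitive.of_embedding (f := f) (fun x => ⟨⟨x.1, x.2⟩, rfl⟩)

theorem exists_smul_of_fn {n : ℕ} (h : IsMultiplyPretransitive G X n) (f f' : Fin n → X)
    (hf : Function.Injective f) (hf' : Function.Injective f') : ∃ g : G, ∀ i, g • f i = f' i := by
  obtain ⟨g, hg⟩ := h.exists_smul_eq ⟨f, hf⟩ ⟨f', hf'⟩
  exact ⟨g, fun i => congrArg (fun e : Fin n ↪ X => e i) hg⟩

theorem exists_smul_three (h3 : IsMultiplyPretransitive G X 3) {a b c a' b' c' : X} (hab : a ≠ b)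
    (hac : a ≠ c) (hbc : b ≠ c) (hab' : a' ≠ b') (hac' : a' ≠ c') (hbc' : b' ≠ c') :
    ∃ g : G, g • a = a' ∧ g • b = b' ∧ g • c = c' := by
  obtain ⟨g, hg⟩ := exists_smul_of_fn h3 ![a, b, c] ![a', b', c']
    (by intro i j h; fin_cases i <;> fin_cases j <;> simp_all)
    (by intro i j h; fin_cases i <;> fin_cases j <;> simp_all)
  exact ⟨g, hg 0, hg 1, hg 2⟩

theorem exists_smul_four (h3 : IsMultiplyPretransitive G X 4) {a b c d a' b' c' d' : X} (hab : a ≠ b)
    (hac : a ≠ c) (had : a ≠ d) (hbc : b ≠ c) (hbd : b ≠ d) (hcd : c ≠ d)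
    (hab' : a' ≠ b') (hac' : a' ≠ c') (had' : a' ≠ d') (hbc' : b' ≠ c') (hbd' : b' ≠ d') (hcd' : c' ≠ d') :
    ∃ g : G, g • a = a' ∧ g • b = b' ∧ g • c = c' ∧ g • d = d' := by
  obtain ⟨g, hg⟩ := exists_smul_of_fn h3 ![a, b, c, d] ![a', b', c', d']
    (by intro i j h; fin_cases i <;> fin_cases j <;> simp_all)
    (by intro i j h; fin_cases i <;> fin_cases j <;> simp_all)
  exact ⟨g, hg 0, hg 1, hg 2, hg 3⟩

theorem exists_not_mem_of_card {Y : Type*} [Finite Y] (s : Finset Y) (h : s.card < Nat.card Y) :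
    ∃ w, w ∉ s := by
  classical
  by_contra hcon
  push Not at hcon
  have : Fintype Y := Fintype.ofFinite Y
  have h1 : s = Finset.univ := Finset.eq_univ_iff_forall.mpr hcon
  rw [h1, Finset.card_univ, Nat.card_eq_fintype_card] at h
  exact lt_irrefl _ h

theorem conj_smul_of_fix {g : G} {x₀ : X} (hg : g • x₀ = x₀) (a : G) :
    g • (a • x₀) = (g * a * g⁻¹) • x₀ := by
  have hgi : g⁻¹ • x₀ = x₀ := by rw [inv_smul_eq_iff, hg]
  rw [mul_smul, mul_smul, hgi]

/-- regular normal subgroups of 3-transitive groups of degree ≥ 4 have exponent 2. -/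
theorem regular_squares [Finite X] (h3 : IsMultiplyPretransitive G X 3) (hc : 4 ≤ Nat.card X)
    (N : Subgroup G) [N.Normal] (htrans : IsPretransitive N X) (hreg : ∀ x : X, stabilizer N x = ⊥) :
    ∀ n ∈ N, n ^ 2 = 1 := by
  classical
  intro n hn
  by_contra hn2
  haveI : Nonempty X := (Nat.card_pos_iff.mp (by omega)).1
  obtain ⟨x₀⟩ := ‹Nonempty X›
  have hreg0 := hreg x₀
  have hinvmem : n⁻¹ ∈ N := N.inv_mem hn
  have hn1 : n ≠ 1 := by
    rintro rfl
    exact hn2 (by simp)
  have hnn : n ≠ n⁻¹ := by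
    intro h
    apply hn2
    rw [pow_two]
    nth_rw 2 [h]
    exact mul_inv_cancel n
  have hxa : x₀ ≠ n • x₀ := fun h => hn1 (regular_inj N x₀ hreg0 hn N.one_mem (by simpa using h.symm))
  have hxb : x₀ ≠ n⁻¹ • x₀ := fun h => hn1 (by
    have := regular_inj N x₀ hreg0 hinvmem N.one_mem (by simpa using h.symm)
    simpa using this)
  have hab : n • x₀ ≠ n⁻¹ • x₀ := fun h => hnn (regular_inj N x₀ hreg0 hn hinvmem h)
  obtain ⟨w, hw⟩ := exists_not_mem_of_card ({x₀, n • x₀, n⁻¹ • x₀} : Finset X)
    (lt_of_le_of_lt Finset.card_le_three (by omega))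
  simp only [Finset.mem_insert, Finset.mem_singleton, not_or] at hw
  obtain ⟨g, hg1, hg2, hg3⟩ := exists_smul_three h3 hxa hxb hab hxa (Ne.symm hw.1) (Ne.symm hw.2.1)
  have hm : g * n * g⁻¹ ∈ N := Subgroup.Normal.conj_mem ‹_› n hn g
  have hgn : g * n * g⁻¹ = n := by
    apply regular_inj N x₀ hreg0 hm hn
    rw [← conj_smul_of_fix hg1, hg2]
  have : g • (n⁻¹ • x₀) = n⁻¹ • x₀ := by
    rw [conj_smul_of_fix hg1]
    congr 1
    calc g * n⁻¹ * g⁻¹ = (g * n * g⁻¹)⁻¹ := by group
      _ = n⁻¹ := by rw [hgn]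
  rw [hg3] at this
  exact hw.2.2 this

/-- no regular normal subgroup in a 4-transitive group of degree ≥ 5 -/
theorem regular_four_false [Finite X] (h4 : IsMultiplyPretransitive G X 4) (hc : 5 ≤ Nat.card X)
    (N : Subgroup G) [N.Normal] (htrans : IsPretransitive N X) (hreg : ∀ x : X, stabilizer N x = ⊥) :
    False := by
  classical
  have h3 : IsMultiplyPretransitive G X 3 := isMultiplyPretransitive_of_le (n := 4) (by omega) (by omega)
  have hsq := regular_squares h3 (by omega) N htrans hreg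
  have h2 : IsMultiplyPretransitive G X 2 := isMultiplyPretransitive_of_le (n := 4) (by omega) (by omega)
  obtain ⟨_, _, hc2, _⟩ := regular_normal_of_two_trans (by omega) h2 N htrans hreg
  have hcomm : ∀ u ∈ N, ∀ v ∈ N, u * v = v * u := fun u hu v hv => mul_comm_of_isMulCommutative hc2 hu hv
  haveI : Nonempty X := (Nat.card_pos_iff.mp (by omega)).1
  obtain ⟨x₀⟩ := ‹Nonempty X›
  have hreg0 := hreg x₀
  obtain ⟨y, hy⟩ := exists_not_mem_of_card ({x₀} : Finset X) (by simp; omega)
  simp only [Finset.mem_singleton] at hy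
  obtain ⟨a, ha, hay⟩ := regular_surj N htrans x₀ y
  obtain ⟨z, hz⟩ := exists_not_mem_of_card ({x₀, y} : Finset X)
    (lt_of_le_of_lt Finset.card_le_two (by omega))
  simp only [Finset.mem_insert, Finset.mem_singleton, not_or] at hz
  obtain ⟨b, hb, hbz⟩ := regular_surj N htrans x₀ z
  have hcm : a * b ∈ N := N.mul_mem ha hb
  have ha1 : a ≠ 1 := by
    rintro rfl
    exact hy (by simpa using hay.symm)
  have hb1 : b ≠ 1 := by
    rintro rfl
    exact hz.1 (by simpa using hbz.symm)
  have hab : a ≠ b := by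
    rintro rfl
    exact hz.2 (by rw [← hbz, hay])
  have hsa := hsq a ha
  have hsb := hsq b hb
  rw [pow_two] at hsa hsb
  have hc1 : a * b ≠ 1 := by
    intro h
    apply hab
    calc a = a * (b * b) := by rw [hsb, mul_one]
      _ = (a * b) * b := by group
      _ = b := by rw [h, one_mul]
  have hc3 : a * b ≠ a := by
    intro h
    exact hb1 (by simpa using h)
  have hc4 : a * b ≠ b := by
    intro h
    exact ha1 (by simpa using h)
  have i1 : x₀ ≠ y := Ne.symm hy
  have i2 : x₀ ≠ z := Ne.symm hz.1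
  have i3 : y ≠ z := Ne.symm hz.2
  have i4 : x₀ ≠ (a * b) • x₀ := fun h => hc1 (regular_inj N x₀ hreg0 hcm N.one_mem (by simpa using h.symm))
  have i5 : y ≠ (a * b) • x₀ := fun h => hc3 (regular_inj N x₀ hreg0 hcm ha (by rw [← h, hay]))
  have i6 : z ≠ (a * b) • x₀ := fun h => hc4 (regular_inj N x₀ hreg0 hcm hb (by rw [← h, hbz]))
  obtain ⟨w, hw⟩ := exists_not_mem_of_card ({x₀, y, z, (a * b) • x₀} : Finset X)
    (lt_of_le_of_lt Finset.card_le_four (by omega))
  simp only [Finset.mem_insert, Finset.mem_singleton, not_or] at hw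
  obtain ⟨g, hg1, hg2, hg3, hg4⟩ := exists_smul_four h4 i1 i2 i4 i3 i5 i6 i1 i2 (Ne.symm hw.1) i3 (Ne.symm hw.2.1) (Ne.symm hw.2.2.1)
  have hma : g * a * g⁻¹ ∈ N := Subgroup.Normal.conj_mem ‹_› a ha g
  have hmb : g * b * g⁻¹ ∈ N := Subgroup.Normal.conj_mem ‹_› b hb g
  have hga : g * a * g⁻¹ = a := by
    apply regular_inj N x₀ hreg0 hma ha
    rw [← conj_smul_of_fix hg1, hay, hg2]
  have hgb : g * b * g⁻¹ = b := by
    apply regular_inj N x₀ hreg0 hmb hb
    rw [← conj_smul_of_fix hg1, hbz, hg3]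
  have : g • ((a * b) • x₀) = (a * b) • x₀ := by
    rw [conj_smul_of_fix hg1]
    congr 1
    calc g * (a * b) * g⁻¹ = (g * a * g⁻¹) * (g * b * g⁻¹) := by group
      _ = a * b := by rw [hga, hgb]
  rw [hg4] at this
  exact hw.2.2.2 this

end

/-- Abstract version of the structure of sharply doubly transitive groups. -/
theorem sharp2_abstract {N : Type u} {X : Type v} [Group N] [MulAction N X] [FaithfulSMul N X] [Finite X]
    (h2 : IsMultiplyPretransitive N X 2)
    (hsharp : ∀ a b : X, a ≠ b → ∀ n : N, n • a = a → n • b = b → n = 1) (hcard : 2 ≤ Nat.card X) :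
    ∃ P : Subgroup N, P.Normal ∧ (∀ x ∈ P, ∀ y ∈ P, x * y = y * x) ∧ IsPretransitive P X ∧
      (∀ a : X, stabilizer P a = ⊥) ∧ (∀ g : N, g ∈ P ↔ g = 1 ∨ ∀ a : X, g • a ≠ a) := by
  classical
  haveI := Fintype.ofFinite X
  let φ : N →* Equiv.Perm X := toPermHom N X
  have hφ : Function.Injective φ := by
    intro a b h
    apply FaithfulSMul.eq_of_smul_eq_smul (α := X)
    intro x
    exact congrArg (fun e : Equiv.Perm X => e x) h
  let G' : Subgroup (Equiv.Perm X) := φ.range
  let σ : N →* G' := φ.rangeRestrict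
  have hσ : Function.Injective σ := fun a b h => hφ (congrArg Subtype.val h)
  have hσs : Function.Surjective σ := φ.rangeRestrict_surjective
  let f : X →ₑ[(σ : N → G')] X := { toFun := id, map_smul' := fun n x => rfl }
  haveI h2' : IsMultiplyPretransitive G' X 2 := IsPretransitive.of_embedding (f := f) (fun x => ⟨x, rfl⟩)
  have hs : ∀ x : Fin 2 ↪ X, stabilizer G' x = ⊥ := by
    intro x
    rw [eq_bot_iff]
    intro g hg
    obtain ⟨n, rfl⟩ := hσs g
    have h0 : n • x 0 = x 0 := congrArg (fun e : Fin 2 ↪ X => e 0) hg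
    have h1 : n • x 1 = x 1 := congrArg (fun e : Fin 2 ↪ X => e 1) hg
    have : n = 1 := hsharp (x 0) (x 1) (fun h => by simpa using x.injective h) n h0 h1
    rw [this, map_one, Subgroup.mem_bot]
  obtain ⟨P, p, j, hp, hj, hc, hPn, hPc, hPe, hPt, hPr, hPm, _⟩ :=
    sharp2_structure G' hs (by rwa [← Nat.card_eq_fintype_card])
  refine ⟨P.comap σ, Subgroup.Normal.comap hPn σ, ?_, ?_, ?_, ?_⟩
  · intro x hx y hy
    apply hσ
    rw [map_mul, map_mul]
    exact hPc _ hx _ hy
  · refine ⟨fun x y => ?_⟩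
    obtain ⟨g, hg⟩ := hPt.exists_smul_eq x y
    obtain ⟨n, hn⟩ := hσs g.1
    refine ⟨⟨n, ?_⟩, ?_⟩
    · rw [Subgroup.mem_comap, hn]
      exact g.2
    · have : (g.1 : G') • x = y := hg
      rw [← hn] at this
      exact this
  · intro a
    rw [eq_bot_iff]
    rintro ⟨n, hn⟩ hst
    have h1 : (n : N) • a = a := hst
    have h2 : (⟨σ n, hn⟩ : P) ∈ stabilizer P a := h1
    rw [hPr a, Subgroup.mem_bot] at h2
    have h3 : σ n = 1 := congrArg Subtype.val h2
    have h4 : n = 1 := hσ (by rw [h3, map_one])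
    rw [Subgroup.mem_bot]
    exact Subtype.ext h4
  · intro g
    rw [Subgroup.mem_comap, hPm]
    constructor
    · rintro (h | h)
      · exact Or.inl (hσ (by rw [h, map_one]))
      · exact Or.inr h
    · rintro (h | h)
      · exact Or.inl (by rw [h, map_one])
      · exact Or.inr h

section
variable {N : Type u} {X : Type v} [Group N] [MulAction N X] [FaithfulSMul N X] [Finite X]

/-- The exceptional case in Jordan's theorem is impossible. -/
theorem exception_contra2 (a : X) (hc : 2 ≤ Nat.card X) (h2 : IsMultiplyPretransitive N X 2)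
    (hsharp : ∀ a b : X, a ≠ b → ∀ n : N, n • a = a → n • b = b → n = 1)
    (hexp : ∀ v : N, v • a = a → v ^ 2 = 1) (t u : N) (ht : t • a = a) (hu : u • a = a)
    (ht1 : t ≠ 1) (hu1 : u ≠ 1) (htu : t ≠ u) : False := by
  classical
  obtain ⟨P, hPn, hPc, hPt, hPr, _⟩ := sharp2_abstract h2 hsharp hc
  have hfix : ∀ v : N, v • a = a → v ≠ 1 → ∀ y : X, v • y = y → y = a := by
    intro v hv hv1 y hy
    by_contra hne
    exact hv1 (hsharp a y (Ne.symm hne) v hv hy)
  have hP1 : ∀ x ∈ P, x • a = a → x = 1 := by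
    intro x hx h
    have : (⟨x, hx⟩ : P) ∈ stabilizer P a := h
    rw [hPr a, Subgroup.mem_bot] at this
    exact congrArg Subtype.val this
  have key : ∀ v : N, v • a = a → v ≠ 1 → ∀ x ∈ P, v * x * v⁻¹ = x⁻¹ := by
    intro v hv hv1 x hx
    have hvx : v * x * v⁻¹ ∈ P := hPn.conj_mem x hx v
    have hy : x * (v * x * v⁻¹) ∈ P := P.mul_mem hx hvx
    have hvv : v * v = 1 := by
      have := hexp v hv
      rwa [pow_two] at this
    have hvi : v⁻¹ = v := by
      rw [inv_eq_iff_mul_eq_one]
      exact hvv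
    have hcomm : v * (x * (v * x * v⁻¹)) = (x * (v * x * v⁻¹)) * v := by
      calc v * (x * (v * x * v⁻¹)) = (v * x * v⁻¹) * (v * (v * x * v⁻¹) * v⁻¹) * v := by group
        _ = (v * x * v⁻¹) * x * v := by
          congr 2
          rw [hvi]
          calc v * (v * x * v) * v = (v * v) * x * (v * v) := by group
            _ = x := by rw [hvv]; group
        _ = x * (v * x * v⁻¹) * v := by rw [hPc _ hvx _ hx]
    have hfixy : v • ((x * (v * x * v⁻¹)) • a) = (x * (v * x * v⁻¹)) • a := by
      rw [← mul_smul, hcomm, mul_smul, hv]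
    have := hfix v hv hv1 _ hfixy
    have h1 := hP1 _ hy this
    exact eq_inv_of_mul_eq_one_right h1
  haveI : Nontrivial X := Finite.one_lt_card_iff_nontrivial.mp (by omega)
  obtain ⟨y, hy⟩ := exists_ne a
  obtain ⟨x, hxa⟩ := hPt.exists_smul_eq a y
  have hx : (x : N) ∈ P := x.2
  have hxa' : (x : N) • a = y := hxa
  have hv1 : u⁻¹ * t ≠ 1 := by
    intro h
    exact htu (inv_mul_eq_one.mp h).symm
  have hva : (u⁻¹ * t) • a = a := by
    rw [mul_smul, ht, inv_smul_eq_iff, hu]
  have hvx : (u⁻¹ * t) * (x : N) * (u⁻¹ * t)⁻¹ = x := by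
    have h1 := key t ht ht1 x hx
    have h2 := key u hu hu1 x hx
    calc (u⁻¹ * t) * (x : N) * (u⁻¹ * t)⁻¹ = u⁻¹ * (t * (x : N) * t⁻¹) * u := by group
      _ = u⁻¹ * (u * (x : N) * u⁻¹) * u := by rw [h1, h2]
      _ = x := by group
  have hfx : (u⁻¹ * t) • ((x : N) • a) = (x : N) • a := by
    rw [conj_smul_of_fix hva, hvx]
  have := hfix _ hva hv1 _ hfx
  rw [hxa'] at this
  exact hy this

end

section
variable {G : Type u} {X : Type v} [Group G] [MulAction G X] [FaithfulSMul G X] [Finite X]

/-- `N_a` abelian of exponent 2 (normal in `G_a`, which is 2-transitive on the rest) cannot happen if `|X| ≥ 4`. -/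
theorem exception_contra (hc : 4 ≤ Nat.card X) (N : Subgroup G) [hNt : IsPretransitive N X] (a : X)
    (h2' : IsMultiplyPretransitive (stabilizer G a) (ofStabilizer G a) 2)
    [(N.subgroupOf (stabilizer G a)).Normal]
    (hN' : N.subgroupOf (stabilizer G a) ≠ ⊥)
    (hcomm : IsMulCommutative (N.subgroupOf (stabilizer G a)))
    (hexp : ∀ n ∈ N.subgroupOf (stabilizer G a), n ^ 2 = 1) : False := by
  classical
  haveI := faithful_ofStabilizer (G := G) a
  have ht : IsPretransitive (N.subgroupOf (stabilizer G a)) (ofStabilizer G a) :=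
    isPretransitive_normal_of_prim (isPreprimitive_of_is_two_pretransitive h2') _ hN'
  have hcomm' : ∀ (u v : G) (hu : u ∈ N) (hua : u • a = a) (hv : v ∈ N) (hva : v • a = a), u * v = v * u := by
    intro u v hu hua hv hva
    have h1 : (⟨u, hua⟩ : stabilizer G a) ∈ N.subgroupOf (stabilizer G a) := hu
    have h2 : (⟨v, hva⟩ : stabilizer G a) ∈ N.subgroupOf (stabilizer G a) := hv
    have := mul_comm_of_isMulCommutative hcomm h1 h2
    exact congrArg Subtype.val this
  have hfix : ∀ n : G, n ∈ N → n • a = a → ∀ y : X, y ≠ a → n • y = y → n = 1 := by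
    intro n hn hna y hy hny
    apply FaithfulSMul.eq_of_smul_eq_smul (α := X)
    intro z
    rw [one_smul]
    by_cases hz : z = a
    · rw [hz, hna]
    obtain ⟨m, hm⟩ := ht.exists_smul_eq ⟨y, hy⟩ ⟨z, hz⟩
    have hm' : ((m : stabilizer G a) : G) • y = z := congrArg Subtype.val hm
    have hma : ((m : stabilizer G a) : G) • a = a := (m : stabilizer G a).2
    have hmN : ((m : stabilizer G a) : G) ∈ N := m.2
    rw [← hm', ← mul_smul, hcomm' n _ hn hna hmN hma, mul_smul, hny]
  have hNn : ∀ n : N, (n : G) • a = a → (n : G) ^ 2 = 1 := by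
    intro n hn
    have h1 : (⟨n, hn⟩ : stabilizer G a) ∈ N.subgroupOf (stabilizer G a) := n.2
    have := hexp _ h1
    exact congrArg Subtype.val this
  have hsharp : ∀ x y : X, x ≠ y → ∀ n : N, n • x = x → n • y = y → n = 1 := by
    intro x y hxy n hnx hny
    obtain ⟨h, hh⟩ := hNt.exists_smul_eq x a
    have hh' : (h : G) • x = a := hh
    have hnx' : (n : G) • x = x := hnx
    have hny' : (n : G) • y = y := hny
    have hcm : (h : G) * n * (h : G)⁻¹ ∈ N := N.mul_mem (N.mul_mem h.2 n.2) (N.inv_mem h.2)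
    have h1 : ((h : G) * n * (h : G)⁻¹) • a = a := by
      rw [← hh', mul_smul, mul_smul, inv_smul_smul, hnx']
    have h2 : ((h : G) * n * (h : G)⁻¹) • ((h : G) • y) = (h : G) • y := by
      rw [mul_smul, mul_smul, inv_smul_smul, hny']
    have hyne : (h : G) • y ≠ a := by
      rw [← hh']
      intro h3
      exact hxy (smul_left_cancel _ h3).symm
    have := hfix _ hcm h1 _ hyne h2
    apply Subtype.ext
    have h5 : (n : G) = 1 := by
      have h6 : (h : G) * n * (h : G)⁻¹ = 1 := this
      rw [mul_inv_eq_one] at h6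
      exact mul_left_cancel (a := (h : G)) (by rw [h6, mul_one])
    exact h5
  have htr2 : IsMultiplyPretransitive N X 2 := by
    have := lift_trans N a 1 (is_one_pretransitive_iff.mpr ht)
    exact this
  -- two distinct nonidentity elements in N_a
  have hcard : 3 ≤ Nat.card (ofStabilizer G a) := by
    rw [nat_card_ofStabilizer_eq]
    omega
  haveI : Nontrivial (ofStabilizer G a) := Finite.one_lt_card_iff_nontrivial.mp (by omega)
  obtain ⟨y₁⟩ : Nonempty (ofStabilizer G a) := inferInstance
  obtain ⟨y₂, hy₂⟩ := exists_ne y₁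
  obtain ⟨y₃, hy₃⟩ := exists_not_mem_of_card ({y₁, y₂} : Finset (ofStabilizer G a))
    (lt_of_le_of_lt Finset.card_le_two (by omega))
  simp only [Finset.mem_insert, Finset.mem_singleton, not_or] at hy₃
  obtain ⟨t, ht2⟩ := ht.exists_smul_eq y₁ y₂
  obtain ⟨u, hu2⟩ := ht.exists_smul_eq y₁ y₃
  have ht2' : ((t : stabilizer G a) : G) • (y₁ : X) = y₂ := congrArg Subtype.val ht2
  have hu2' : ((u : stabilizer G a) : G) • (y₁ : X) = y₃ := congrArg Subtype.val hu2
  have ht1 : (⟨((t : stabilizer G a) : G), t.2⟩ : N) ≠ 1 := by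
    intro h
    have h1 : ((t : stabilizer G a) : G) = 1 := congrArg Subtype.val h
    rw [h1, one_smul] at ht2'
    exact hy₂ (Subtype.ext ht2'.symm)
  have hu1 : (⟨((u : stabilizer G a) : G), u.2⟩ : N) ≠ 1 := by
    intro h
    have h1 : ((u : stabilizer G a) : G) = 1 := congrArg Subtype.val h
    rw [h1, one_smul] at hu2'
    exact hy₃.1 (Subtype.ext hu2'.symm)
  have htu : (⟨((t : stabilizer G a) : G), t.2⟩ : N) ≠ ⟨((u : stabilizer G a) : G), u.2⟩ := by
    intro h
    have h1 : ((t : stabilizer G a) : G) = ((u : stabilizer G a) : G) := congrArg (fun z : N => (z : G)) h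
    rw [h1, hu2'] at ht2'
    exact hy₃.2 (Subtype.ext ht2')
  have hta : (⟨((t : stabilizer G a) : G), t.2⟩ : N) • a = a := (t : stabilizer G a).2
  have hua : (⟨((u : stabilizer G a) : G), u.2⟩ : N) • a = a := (u : stabilizer G a).2
  refine exception_contra2 (N := N) a (by omega) htr2 hsharp ?_ _ _ hta hua ht1 hu1 htu
  intro v hv
  apply Subtype.ext
  exact hNn v hv

theorem jordan_normal_aux (r : ℕ) : ∀ {G : Type u} {X : Type v} [Group G] [MulAction G X] [FaithfulSMul G X]
    [Finite X] (_ : r + 2 < Nat.card X) (_ : IsMultiplyPretransitive G X (r + 2)) (N : Subgroup G) [N.Normal]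
    (_ : N ≠ ⊥), IsMultiplyPretransitive N X (r + 1) ∨ (r = 1 ∧ IsMulCommutative N ∧ ∀ n ∈ N, n ^ 2 = 1) := by
  induction r with
  | zero =>
    intro G X _ _ _ _ hdeg hG N _ hN
    left
    exact is_one_pretransitive_iff.mpr (isPretransitive_normal_of_prim (isPreprimitive_of_is_two_pretransitive hG) N hN)
  | succ r ih =>
    intro G X _ _ _ _ hdeg hG N _ hN
    have h2 : IsMultiplyPretransitive G X 2 := isMultiplyPretransitive_of_le (n := r + 1 + 2) (by omega) (by omega)
    have h3 : IsMultiplyPretransitive G X 3 := isMultiplyPretransitive_of_le (n := r + 1 + 2) (by omega) (by omega)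
    have hNt : IsPretransitive N X := isPretransitive_normal_of_prim (isPreprimitive_of_is_two_pretransitive h2) N hN
    haveI : Nonempty X := (Nat.card_pos_iff.mp (by omega)).1
    obtain ⟨a⟩ := ‹Nonempty X›
    by_cases hst : stabilizer N a = ⊥
    · -- regular case
      have hreg : ∀ x : X, stabilizer N x = ⊥ := by
        intro x
        obtain ⟨h, hh⟩ := hNt.exists_smul_eq x a
        rw [eq_bot_iff]
        intro n hn
        rw [Subgroup.mem_bot]
        have hn' : n • x = x := hn
        have h1 : h * n * h⁻¹ ∈ stabilizer N a := by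
          change (h * n * h⁻¹) • a = a
          rw [← hh, mul_smul, mul_smul, inv_smul_smul, hn']
        rw [hst, Subgroup.mem_bot, mul_inv_eq_one] at h1
        exact mul_left_cancel (a := h) (by rw [h1, mul_one])
      by_cases hr : r = 0
      · subst hr
        right
        obtain ⟨_, _, hc2, _⟩ := regular_normal_of_two_trans (by omega) h2 N hNt hreg
        exact ⟨rfl, hc2, regular_squares h3 (by omega) N hNt hreg⟩
      · exfalso
        have h4 : IsMultiplyPretransitive G X 4 := isMultiplyPretransitive_of_le (n := r + 1 + 2) (by omega) (by omega)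
        exact regular_four_false h4 (by omega) N hNt hreg
    · -- nonregular
      left
      haveI : IsPretransitive G X := isPretransitive_of_is_two_pretransitive
      have hG' : IsMultiplyPretransitive (stabilizer G a) (ofStabilizer G a) (r + 2) :=
        ofStabilizer.isMultiplyPretransitive.mp hG
      have hcard' : r + 2 < Nat.card (ofStabilizer G a) := by
        rw [nat_card_ofStabilizer_eq]
        omega
      have hN' : N.subgroupOf (stabilizer G a) ≠ ⊥ := by
        intro h
        apply hst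
        rw [eq_bot_iff]
        rintro ⟨n, hnN⟩ hn
        have hn' : n • a = a := hn
        have h1 : (⟨n, hn'⟩ : stabilizer G a) ∈ N.subgroupOf (stabilizer G a) := hnN
        rw [h, Subgroup.mem_bot] at h1
        rw [Subgroup.mem_bot]
        exact Subtype.ext (congrArg (fun z : stabilizer G a => (z : G)) h1)
      haveI := faithful_ofStabilizer (G := G) a
      rcases ih hcard' hG' (N.subgroupOf (stabilizer G a)) hN' with h | ⟨hr, hc, he⟩
      · exact lift_trans N a (r + 1) h
      · exfalso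
        have h2' : IsMultiplyPretransitive (stabilizer G a) (ofStabilizer G a) 2 :=
          isMultiplyPretransitive_of_le (n := r + 2) (by omega) (by omega)
        exact exception_contra (by omega) N a h2' hN' hc he

theorem card_eq_factorial_of_trans (h : IsMultiplyPretransitive G X (Nat.card X - 1)) :
    Nat.card G = (Nat.card X).factorial := by
  classical
  let φ : G →* Equiv.Perm X := toPermHom G X
  have hφ : Function.Injective φ := by
    intro a b h
    apply FaithfulSMul.eq_of_smul_eq_smul (α := X)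
    intro x
    exact congrArg (fun e : Equiv.Perm X => e x) h
  let R : Subgroup (Equiv.Perm X) := φ.range
  let σ : G →* R := φ.rangeRestrict
  let f : X →ₑ[(σ : G → R)] X := { toFun := id, map_smul' := fun n x => rfl }
  have hR : IsMultiplyPretransitive R X (Nat.card X - 1) := IsPretransitive.of_embedding (f := f) (fun x => ⟨x, rfl⟩)
  have htop : R = ⊤ := Equiv.Perm.eq_top_of_isMultiplyPretransitive hR
  have hsurj : Function.Surjective φ := by
    intro π
    have : π ∈ R := by rw [htop]; trivial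
    obtain ⟨g, hg⟩ := this
    exact ⟨g, hg⟩
  rw [Nat.card_congr (Equiv.ofBijective φ ⟨hφ, hsurj⟩), Nat.card_perm]

theorem semiregular_contra (h3 : IsMultiplyPreprimitive G X 3) (hX : 3 ≤ Nat.card X)
    (hne : Nat.card G ≠ (Nat.card X).factorial) (N : Subgroup G) [hNn : N.Normal]
    [hNt : IsPretransitive N X] (a : X)
    (ht : IsPretransitive (N.subgroupOf (stabilizer G a)) (ofStabilizer G a))
    (hsemi : ∀ b : ofStabilizer G a, stabilizer (N.subgroupOf (stabilizer G a)) b = ⊥) : False := by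
  classical
  have hfix : ∀ n : G, n ∈ N → n • a = a → ∀ y : X, y ≠ a → n • y = y → n = 1 := by
    intro n hn hna y hy hny
    have h1 : (⟨⟨n, hna⟩, hn⟩ : N.subgroupOf (stabilizer G a)) ∈ stabilizer (N.subgroupOf (stabilizer G a)) (⟨y, hy⟩ : ofStabilizer G a) := by
      rw [mem_stabilizer_iff]
      exact Subtype.ext hny
    rw [hsemi, Subgroup.mem_bot] at h1
    exact congrArg (fun z : N.subgroupOf (stabilizer G a) => ((z : stabilizer G a) : G)) h1
  have hsharp : ∀ x y : X, x ≠ y → ∀ n : N, n • x = x → n • y = y → n = 1 := by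
    intro x y hxy n hnx hny
    obtain ⟨h, hh⟩ := hNt.exists_smul_eq x a
    have hh' : (h : G) • x = a := hh
    have hnx' : (n : G) • x = x := hnx
    have hny' : (n : G) • y = y := hny
    have hcm : (h : G) * n * (h : G)⁻¹ ∈ N := N.mul_mem (N.mul_mem h.2 n.2) (N.inv_mem h.2)
    have h1 : ((h : G) * n * (h : G)⁻¹) • a = a := by
      rw [← hh', mul_smul, mul_smul, inv_smul_smul, hnx']
    have h2 : ((h : G) * n * (h : G)⁻¹) • ((h : G) • y) = (h : G) • y := by
      rw [mul_smul, mul_smul, inv_smul_smul, hny']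
    have hyne : (h : G) • y ≠ a := by
      rw [← hh']
      intro h3
      exact hxy (smul_left_cancel _ h3).symm
    have := hfix _ hcm h1 _ hyne h2
    apply Subtype.ext
    have h5 : (n : G) = 1 := by
      have h6 : (h : G) * n * (h : G)⁻¹ = 1 := this
      rw [mul_inv_eq_one] at h6
      exact mul_left_cancel (a := (h : G)) (by rw [h6, mul_one])
    exact h5
  have htr2 : IsMultiplyPretransitive N X 2 := by
    have := lift_trans N a 1 (is_one_pretransitive_iff.mpr ht)
    exact this
  obtain ⟨P, hPn, hPc, hPt, hPr, hPm⟩ := sharp2_abstract htr2 hsharp (by omega)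
  let P' : Subgroup G := P.map N.subtype
  have hmemP' : ∀ g : G, g ∈ P' ↔ ∃ (h : g ∈ N), (⟨g, h⟩ : N) ∈ P := by
    intro g
    constructor
    · rintro ⟨n, hn, rfl⟩
      exact ⟨n.2, hn⟩
    · rintro ⟨h, hh⟩
      exact ⟨⟨g, h⟩, hh, rfl⟩
  have hP'n : P'.Normal := by
    refine ⟨fun x hx g => ?_⟩
    obtain ⟨hxN, hxP⟩ := (hmemP' x).mp hx
    have hy : g * x * g⁻¹ ∈ N := hNn.conj_mem x hxN g
    refine (hmemP' _).mpr ⟨hy, ?_⟩
    rw [hPm]
    rcases (hPm _).mp hxP with h | h
    · left
      apply Subtype.ext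
      have h1 : x = 1 := congrArg Subtype.val h
      change g * x * g⁻¹ = 1
      rw [h1]
      group
    · right
      intro c hc
      have hc' : (g * x * g⁻¹) • c = c := hc
      apply h (g⁻¹ • c)
      change x • (g⁻¹ • c) = g⁻¹ • c
      have h7 : g⁻¹ • ((g * x * g⁻¹) • c) = g⁻¹ • c := by rw [hc']
      simpa [mul_smul] using h7
  have hP't : IsPretransitive P' X := by
    refine ⟨fun x y => ?_⟩
    obtain ⟨q, hq⟩ := hPt.exists_smul_eq x y
    exact ⟨⟨((q : N) : G), (q : N), q.2, rfl⟩, hq⟩
  have hP'r : ∀ x : X, stabilizer P' x = ⊥ := by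
    intro x
    rw [eq_bot_iff]
    rintro ⟨n, hn⟩ hst
    obtain ⟨hnN, hnP⟩ := (hmemP' n).mp hn
    have h1 : (⟨⟨n, hnN⟩, hnP⟩ : P) ∈ stabilizer P x := hst
    rw [hPr x, Subgroup.mem_bot] at h1
    rw [Subgroup.mem_bot]
    apply Subtype.ext
    exact congrArg (fun z : P => ((z : N) : G)) h1
  have hcases := regular_normal_of_three_prim hX h3 P' hP't hP'r
  apply hne
  have h3t : IsMultiplyPretransitive G X 3 := IsMultiplyPreprimitive.isMultiplyPretransitive G X 3
  apply card_eq_factorial_of_trans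
  rcases hcases with h | h
  · rw [h]
    exact isMultiplyPretransitive_of_le (n := 3) (by omega) (by omega)
  · rw [h]
    exact h3t

theorem normal_mult_trans_aux (r : ℕ) : ∀ {G : Type u} {X : Type v} [Group G] [MulAction G X] [FaithfulSMul G X]
    [Finite X] (_ : r + 1 ≤ Nat.card X) (_ : IsMultiplyPreprimitive G X (r + 1))
    (_ : Nat.card G ≠ (Nat.card X).factorial) (N : Subgroup G) [N.Normal]
    (_ : N ≠ ⊥) (_ : ∃ a : X, stabilizer N a ≠ ⊥), IsMultiplyPretransitive N X (r + 1) := by
  induction r with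
  | zero =>
    intro G X _ _ _ _ hr hprim hne N _ hN hnr
    have hp1 : IsPreprimitive G X := (is_one_preprimitive_iff G X).mp hprim
    exact is_one_pretransitive_iff.mpr (isPretransitive_normal_of_prim hp1 N hN)
  | succ r ih =>
    intro G X _ _ _ _ hr hprim hne N _ hN hnr
    have hE : ((r + 1 + 1 : ℕ) : ℕ∞) ≤ ENat.card X := by
      rw [ENat.card_eq_coe_natCard]
      exact_mod_cast hr
    have hp1 : IsPreprimitive G X := (is_one_preprimitive_iff G X).mp (isMultiplyPreprimitive_of_le G X hprim (by omega) hE)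
    haveI hNt : IsPretransitive N X := isPretransitive_normal_of_prim hp1 N hN
    obtain ⟨a, ha⟩ := hnr
    haveI hGt : IsPretransitive G X := hp1.toIsPretransitive
    haveI hprim' : IsMultiplyPreprimitive (stabilizer G a) (ofStabilizer G a) (r + 1) :=
      isMultiplyPreprimitive_ofStabilizer (M := G) (α := X) (n := r + 1) (a := a)
    have hcX := nat_card_ofStabilizer_add_one_eq G a
    have hcard' : r + 1 ≤ Nat.card (ofStabilizer G a) := by omega
    have hne' : Nat.card (stabilizer G a) ≠ (Nat.card (ofStabilizer G a)).factorial := by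
      intro h
      apply hne
      have h1 := Subgroup.card_mul_index (stabilizer G a)
      rw [index_stabilizer_of_transitive, h] at h1
      rw [← h1, ← hcX, Nat.factorial_succ, mul_comm]
    have hN' : N.subgroupOf (stabilizer G a) ≠ ⊥ := by
      intro h
      apply ha
      rw [eq_bot_iff]
      rintro ⟨n, hnN⟩ hn
      have hn' : n • a = a := hn
      have h1 : (⟨n, hn'⟩ : stabilizer G a) ∈ N.subgroupOf (stabilizer G a) := hnN
      rw [h, Subgroup.mem_bot] at h1
      rw [Subgroup.mem_bot]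
      exact Subtype.ext (congrArg (fun z : stabilizer G a => (z : G)) h1)
    haveI := faithful_ofStabilizer (G := G) a
    have hp2 : IsPreprimitive (stabilizer G a) (ofStabilizer G a) := by
      have hE2 : ((r + 1 : ℕ) : ℕ∞) ≤ ENat.card (ofStabilizer G a) := by
        rw [ENat.card_eq_coe_natCard]
        exact_mod_cast hcard'
      exact (is_one_preprimitive_iff _ _).mp (isMultiplyPreprimitive_of_le _ _ hprim' (by omega) hE2)
    have htN' := isPretransitive_normal_of_prim hp2 (N.subgroupOf (stabilizer G a)) hN'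
    by_cases hr0 : r = 0
    · subst hr0
      exact lift_trans N a 1 (is_one_pretransitive_iff.mpr htN')
    by_cases hnr' : ∃ b : ofStabilizer G a, stabilizer (N.subgroupOf (stabilizer G a)) b ≠ ⊥
    · exact lift_trans N a (r + 1) (ih hcard' hprim' hne' _ hN' hnr')
    · exfalso
      push Not at hnr'
      have h3 : IsMultiplyPreprimitive G X 3 := isMultiplyPreprimitive_of_le G X hprim (by omega) hE
      exact semiregular_contra h3 (by omega) hne N a htN' hnr'

end

end Cfsg.Agent.H03
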