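import Mathlib
import Cfsg.Agent.Lib.H03.Orbit

set_option autoImplicit false

namespace Cfsg.Agent.H03

open MulAction

section
variable {G : Type*} [Group G] [Finite G]

/-- `Q` is a `p`-subgroup of `H` of largest order. -/
def IsMaxP (p : ℕ) (H Q : Subgroup G) : Prop :=
  Q ≤ H ∧ IsPGroup p Q ∧ ∀ P : Subgroup G, P ≤ H → IsPGroup p P → Nat.card P ≤ Nat.card Q

theorem exists_isMaxP (p : ℕ) (H : Subgroup G) : ∃ Q, IsMaxP p H Q := by
  classical
  let S : Set (Subgroup G) := {P | P ≤ H ∧ IsPGroup p P}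
  have hne : S.Nonempty := ⟨⊥, bot_le, IsPGroup.of_bot⟩
  obtain ⟨Q, hQ, hmax⟩ := Set.exists_max_image S (fun P : Subgroup G => Nat.card P) (Set.toFinite S) hne
  exact ⟨Q, hQ.1, hQ.2, fun P hP hPp => hmax P ⟨hP, hPp⟩⟩

theorem IsMaxP.mono {p : ℕ} {H K Q : Subgroup G} (h : IsMaxP p H Q) (hK : K ≤ H) (hQ : Q ≤ K) :
    IsMaxP p K Q :=
  ⟨hQ, h.2.1, fun P hP hPp => h.2.2 P (hP.trans hK) hPp⟩

/-- conjugacy of largest `p`-subgroups -/
theorem IsMaxP.exists_conj {p : ℕ} [Fact p.Prime] {H Q₁ Q₂ : Subgroup G} (h : IsMaxP p H Q₁)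
    (hQ₂ : Q₂ ≤ H) (hp₂ : IsPGroup p Q₂) (hc : Nat.card Q₂ = Nat.card Q₁) :
    ∃ g ∈ H, ∀ x ∈ Q₁, g * x * g⁻¹ ∈ Q₂ := by
  classical
  have aux : ∀ Q : Subgroup G, Q ≤ H → IsPGroup p Q → Nat.card Q = Nat.card Q₁ →
      ∃ P : Sylow p H, ∀ x : H, x ∈ (P : Subgroup H) ↔ (x : G) ∈ Q := by
    intro Q hQ hpQ hcQ
    have hQ' : IsPGroup p (Q.subgroupOf H) :=
      hpQ.of_equiv (Subgroup.subgroupOfEquivOfLe hQ).symm
    obtain ⟨P, hP⟩ := hQ'.exists_le_sylow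
    refine ⟨P, fun x => ?_⟩
    have hcle : Nat.card ((P : Subgroup H).map H.subtype) ≤ Nat.card Q₁ :=
      h.2.2 _ (by
        rintro _ ⟨y, _, rfl⟩
        exact y.2) (P.2.map _)
    have hcard : Nat.card (P : Subgroup H) = Nat.card ((P : Subgroup H).map H.subtype) :=
      (Subgroup.card_map_of_injective H.subtype_injective).symm
    have hcQ' : Nat.card (Q.subgroupOf H) = Nat.card Q :=
      Nat.card_congr (Subgroup.subgroupOfEquivOfLe hQ).toEquiv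
    have heq : Q.subgroupOf H = P := Subgroup.eq_of_le_of_card_ge hP (by omega)
    rw [← heq, Subgroup.mem_subgroupOf]
  obtain ⟨P₁, hP₁⟩ := aux Q₁ h.1 h.2.1 rfl
  obtain ⟨P₂, hP₂⟩ := aux Q₂ hQ₂ hp₂ hc
  obtain ⟨g, hg⟩ := MulAction.exists_smul_eq H P₁ P₂
  refine ⟨g, g.2, fun x hx => ?_⟩
  have hxH : x ∈ H := h.1 hx
  have h1 : (⟨x, hxH⟩ : H) ∈ (P₁ : Subgroup H) := (hP₁ _).mpr hx
  have h2 : g * (⟨x, hxH⟩ : H) * g⁻¹ ∈ (P₂ : Subgroup H) := by
    rw [← hg]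
    exact ⟨_, h1, rfl⟩
  exact (hP₂ _).mp h2

end

section
variable {G X : Type*} [Group G] [MulAction G X] [Finite X]

/-- Under a group `A`, normalised by elements transitive on `Y`, the orbits on `Y` have equal
size, dividing `|Y|`. -/
theorem ncard_orbit_dvd (A : Subgroup G) (Y : Set X) (hA : ∀ a ∈ A, ∀ y ∈ Y, a • y ∈ Y)
    (hconj : ∀ y ∈ Y, ∀ y' ∈ Y, ∃ g : G, g • y = y' ∧ ∀ a ∈ A, g * a * g⁻¹ ∈ A)
    {c : X} (hc : c ∈ Y) : (orbit A c).ncard ∣ Y.ncard := by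
  have hle : ∀ y ∈ Y, ∀ y' ∈ Y, (orbit A y).ncard ≤ (orbit A y').ncard := by
    intro y hy y' hy'
    obtain ⟨g, hg, hgA⟩ := hconj y hy y' hy'
    have hsub : (fun z : X => g • z) '' (orbit A y) ⊆ orbit A y' := by
      rintro _ ⟨z, ⟨a, rfl⟩, rfl⟩
      refine ⟨⟨g * a * g⁻¹, hgA a a.2⟩, ?_⟩
      change (g * (a : G) * g⁻¹) • y' = g • ((a : G) • y)
      rw [← hg, mul_smul, mul_smul, inv_smul_smul]
    have hinj : Function.Injective (fun z : X => g • z) := MulAction.injective g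
    calc (orbit A y).ncard = ((fun z : X => g • z) '' (orbit A y)).ncard := (Set.ncard_image_of_injective _ hinj).symm
      _ ≤ _ := Set.ncard_le_ncard hsub (Set.toFinite _)
  refine dvd_ncard_of_invariant (G := A) Y (fun g x hx => hA g g.2 x hx) _ (fun x hx => ?_)
  rw [le_antisymm (hle c hc x hx) (hle x hx c hc)]

/-- a `p`-group on a set of size prime to `p` has a fixed point. -/
theorem exists_fixed_of_not_dvd [Finite G] {p : ℕ} [Fact p.Prime] (T : Subgroup G) (hT : IsPGroup p T) (O : Set X)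
    (hO : ∀ t ∈ T, ∀ y ∈ O, t • y ∈ O) (hd : ¬ p ∣ O.ncard) : ∃ y ∈ O, ∀ t ∈ T, t • y = y := by
  classical
  by_contra hcon
  push Not at hcon
  apply hd
  refine dvd_ncard_of_invariant (G := T) O (fun g x hx => hO g g.2 x hx) p (fun x hx => ?_)
  obtain ⟨t, ht, htx⟩ := hcon x hx
  have h1 : (stabilizer T x).index = (orbit T x).ncard := index_stabilizer T x
  obtain ⟨n, hn⟩ := hT.index (stabilizer T x)
  rw [← h1, hn]
  rcases Nat.eq_zero_or_pos n with rfl | hpos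
  · exfalso
    rw [pow_zero] at hn
    have : (stabilizer T x) = ⊤ := Subgroup.index_eq_one.mp hn
    have h2 : (⟨t, ht⟩ : T) ∈ stabilizer T x := by rw [this]; trivial
    exact htx h2
  · exact dvd_pow_self p (by omega)

end

end Cfsg.Agent.H03
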