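import Mathlib

/-! Linear groups regular on the non-zero vectors: non-abelian normal subgroups are irreducible. -/

set_option autoImplicit false

namespace Cfsg.Agent.H03.NF

variable {p : ℕ} [Fact p.Prime] {V : Type*} [AddCommGroup V] [Module (ZMod p) V] [Finite V]

/-- the underlying linear map of an element of a linear group. -/
def iota (H : Subgroup (V ≃ₗ[ZMod p] V)) (h : H) : Module.End (ZMod p) V :=
  ((h : V ≃ₗ[ZMod p] V) : V →ₗ[ZMod p] V)

lemma iota_apply (H : Subgroup (V ≃ₗ[ZMod p] V)) (h : H) (v : V) :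
    iota H h v = (h : V ≃ₗ[ZMod p] V) v := rfl

lemma iota_mul (H : Subgroup (V ≃ₗ[ZMod p] V)) (a b : H) : iota H (a * b) = iota H a * iota H b := by
  ext v
  rfl

lemma iota_one (H : Subgroup (V ≃ₗ[ZMod p] V)) : iota H 1 = 1 := by
  ext v
  rfl

lemma iota_inj (H : Subgroup (V ≃ₗ[ZMod p] V)) {a b : H} (h : iota H a = iota H b) : a = b := by
  apply Subtype.ext
  apply LinearEquiv.ext
  intro v
  exact LinearMap.congr_fun h v

lemma iota_inv_mul (H : Subgroup (V ≃ₗ[ZMod p] V)) (a : H) : iota H a⁻¹ * iota H a = 1 := by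
  rw [← iota_mul, inv_mul_cancel, iota_one]

lemma iota_mul_inv (H : Subgroup (V ≃ₗ[ZMod p] V)) (a : H) : iota H a * iota H a⁻¹ = 1 := by
  rw [← iota_mul, mul_inv_cancel, iota_one]

/-- the subalgebra of the endomorphism ring generated by a subgroup. -/
noncomputable def alg (H : Subgroup (V ≃ₗ[ZMod p] V)) (N : Subgroup H) : Subalgebra (ZMod p) (Module.End (ZMod p) V) :=
  Algebra.adjoin (ZMod p) (iota H '' (N : Set H))

lemma mem_alg (H : Subgroup (V ≃ₗ[ZMod p] V)) {N : Subgroup H} {n : H} (hn : n ∈ N) : iota H n ∈ alg H N :=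
  Algebra.subset_adjoin ⟨n, hn, rfl⟩

lemma conj_mem_alg (H : Subgroup (V ≃ₗ[ZMod p] V)) {N : Subgroup H} (hN : N.Normal) (h : H)
    {r : Module.End (ZMod p) V} (hr : r ∈ alg H N) : iota H h * r * iota H h⁻¹ ∈ alg H N := by
  induction hr using Algebra.adjoin_induction with
  | mem x hx =>
    obtain ⟨n, hn, rfl⟩ := hx
    rw [← iota_mul, ← iota_mul]
    exact mem_alg H (hN.conj_mem n hn h)
  | algebraMap c =>
    have h1 : iota H h * (algebraMap (ZMod p) (Module.End (ZMod p) V)) c * iota H h⁻¹ =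
        (algebraMap (ZMod p) (Module.End (ZMod p) V)) c := by
      rw [← Algebra.commutes c (iota H h), mul_assoc, iota_mul_inv, mul_one]
    rw [h1]
    exact Subalgebra.algebraMap_mem _ c
  | add x y _ _ hx hy =>
    rw [mul_add, add_mul]
    exact Subalgebra.add_mem _ hx hy
  | mul x y _ _ hx hy =>
    have h1 : iota H h * (x * y) * iota H h⁻¹ = (iota H h * x * iota H h⁻¹) * (iota H h * y * iota H h⁻¹) := by
      calc iota H h * (x * y) * iota H h⁻¹ = iota H h * x * 1 * y * iota H h⁻¹ := by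
            simp only [mul_one, mul_assoc]
        _ = iota H h * x * (iota H h⁻¹ * iota H h) * y * iota H h⁻¹ := by rw [iota_inv_mul]
        _ = _ := by simp only [mul_assoc]
    rw [h1]
    exact Subalgebra.mul_mem _ hx hy

/-- evaluation at a vector. -/
noncomputable def ev (H : Subgroup (V ≃ₗ[ZMod p] V)) (N : Subgroup H) (x : V) : alg H N →ₗ[ZMod p] V where
  toFun r := (r : Module.End (ZMod p) V) x
  map_add' _ _ := rfl
  map_smul' _ _ := rfl

lemma ev_apply (H : Subgroup (V ≃ₗ[ZMod p] V)) (N : Subgroup H) (x : V) (r : alg H N) :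
    ev H N x r = (r : Module.End (ZMod p) V) x := rfl

/-- Wedderburn's theorem for a subring of a ring. -/
lemma comm_of_domain {E : Type*} [Ring E] (D : Subring E) [Finite D] (hne : (0 : E) ≠ 1)
    (h : ∀ r ∈ D, ∀ s ∈ D, r * s = 0 → r = 0 ∨ s = 0) : ∀ a ∈ D, ∀ b ∈ D, a * b = b * a := by
  haveI : Nontrivial D := ⟨⟨0, 1, fun h0 => hne (congrArg Subtype.val h0)⟩⟩
  haveI : NoZeroDivisors D := ⟨fun {a b} hab => by
    rcases h a.1 a.2 b.1 b.2 (congrArg Subtype.val hab) with h1 | h1
    · exact Or.inl (Subtype.ext h1)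
    · exact Or.inr (Subtype.ext h1)⟩
  haveI : IsDomain D := NoZeroDivisors.to_isDomain D
  have hf := Finite.isDomain_to_isField D
  intro a ha b hb
  exact congrArg Subtype.val (hf.mul_comm ⟨a, ha⟩ ⟨b, hb⟩)

section Main

variable (H : Subgroup (V ≃ₗ[ZMod p] V))
  (hreg : ∀ v w : V, v ≠ 0 → w ≠ 0 → ∃! h : H, (h : V ≃ₗ[ZMod p] V) v = w)
  (N : Subgroup H) (hN : N.Normal)

include hreg hN

lemma finrank_range_eq {x y : V} (hx : x ≠ 0) (hy : y ≠ 0) :
    Module.finrank (ZMod p) (LinearMap.range (ev H N x)) = Module.finrank (ZMod p) (LinearMap.range (ev H N y)) := by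
  obtain ⟨h, hh, -⟩ := hreg x y hx hy
  have hmap : LinearMap.range (ev H N y) = (LinearMap.range (ev H N x)).map ((h : V ≃ₗ[ZMod p] V) : V →ₗ[ZMod p] V) := by
    ext z
    constructor
    · rintro ⟨r, rfl⟩
      have hr : iota H h⁻¹ * r.1 * iota H h⁻¹⁻¹ ∈ alg H N := conj_mem_alg H hN h⁻¹ r.2
      refine ⟨ev H N x ⟨_, hr⟩, ⟨_, rfl⟩, ?_⟩
      rw [ev_apply, ev_apply]
      show (iota H h) ((iota H h⁻¹ * r.1 * iota H h⁻¹⁻¹) x) = r.1 y
      rw [inv_inv]
      have h1 : iota H h x = y := hh
      have h2 : iota H h * (iota H h⁻¹ * r.1 * iota H h) = r.1 * iota H h := by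
        rw [← mul_assoc, ← mul_assoc, iota_mul_inv, one_mul]
      have h3 := LinearMap.congr_fun h2 x
      calc _ = (r.1 * iota H h) x := h3
        _ = r.1 y := by rw [Module.End.mul_apply, h1]
    · rintro ⟨_, ⟨r, rfl⟩, rfl⟩
      have hr : iota H h * r.1 * iota H h⁻¹ ∈ alg H N := conj_mem_alg H hN h r.2
      refine ⟨⟨_, hr⟩, ?_⟩
      rw [ev_apply, ev_apply]
      show (iota H h * r.1 * iota H h⁻¹) y = iota H h (r.1 x)
      have h1 : iota H h x = y := hh
      rw [← h1]
      have h2 : iota H h * r.1 * iota H h⁻¹ * iota H h = iota H h * r.1 := by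
        rw [mul_assoc, iota_inv_mul, mul_one]
      exact LinearMap.congr_fun h2 x
  rw [hmap]
  exact (LinearEquiv.finrank_map_eq (h : V ≃ₗ[ZMod p] V) _).symm

omit hreg hN in
lemma mem_self (x : V) : x ∈ LinearMap.range (ev H N x) := by
  refine ⟨1, ?_⟩
  rw [ev_apply]
  rfl

lemma range_eq_of_mem {x z : V} (hx : x ≠ 0) (hz : z ≠ 0) (hzx : z ∈ LinearMap.range (ev H N x)) :
    LinearMap.range (ev H N z) = LinearMap.range (ev H N x) := by
  apply Submodule.eq_of_le_of_finrank_eq
  · rintro _ ⟨r, rfl⟩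
    obtain ⟨s, rfl⟩ := hzx
    refine ⟨r * s, ?_⟩
    rfl
  · exact finrank_range_eq H hreg N hN hz hx

/-- If some vector does not generate, all annihilators agree. -/
lemma ker_eq_of_not_mem {x y : V} (hx : x ≠ 0) (hy : y ≠ 0) (hyx : y ∉ LinearMap.range (ev H N x)) :
    LinearMap.ker (ev H N x) = LinearMap.ker (ev H N y) := by
  have hinter : ∀ z, z ∈ LinearMap.range (ev H N x) → z ∈ LinearMap.range (ev H N y) → z = 0 := by
    intro z hz1 hz2
    by_contra hz
    have h1 := range_eq_of_mem H hreg N hN hx hz hz1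
    have h2 := range_eq_of_mem H hreg N hN hy hz hz2
    apply hyx
    rw [← h1, h2]
    exact mem_self H N y
  have hxy : x + y ≠ 0 := by
    intro h0
    apply hyx
    have : y = -x := by
      rw [eq_neg_iff_add_eq_zero, add_comm]
      exact h0
    rw [this]
    exact Submodule.neg_mem _ (mem_self H N x)
  have hle : ∀ r : alg H N, r ∈ LinearMap.ker (ev H N (x + y)) →
      r ∈ LinearMap.ker (ev H N x) ∧ r ∈ LinearMap.ker (ev H N y) := by
    intro r hr
    have h1 : (r : Module.End (ZMod p) V) (x + y) = 0 := hr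
    rw [map_add] at h1
    have h2 : (r : Module.End (ZMod p) V) x = -((r : Module.End (ZMod p) V) y) := eq_neg_of_add_eq_zero_left h1
    have h3 : (r : Module.End (ZMod p) V) x = 0 := hinter _ ⟨r, rfl⟩ (by
      rw [h2]
      exact Submodule.neg_mem _ ⟨r, rfl⟩)
    refine ⟨h3, ?_⟩
    show (r : Module.End (ZMod p) V) y = 0
    rw [h3] at h2
    exact neg_eq_zero.1 h2.symm
  have hrank : ∀ z w : V, z ≠ 0 → w ≠ 0 →
      Module.finrank (ZMod p) (LinearMap.ker (ev H N z)) = Module.finrank (ZMod p) (LinearMap.ker (ev H N w)) := by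
    intro z w hz hw
    have h1 := LinearMap.finrank_range_add_finrank_ker (ev H N z)
    have h2 := LinearMap.finrank_range_add_finrank_ker (ev H N w)
    have h3 := finrank_range_eq H hreg N hN hz hw
    omega
  have e1 : LinearMap.ker (ev H N (x + y)) = LinearMap.ker (ev H N x) :=
    Submodule.eq_of_le_of_finrank_eq (fun r hr => (hle r hr).1) (hrank _ _ hxy hx)
  have e2 : LinearMap.ker (ev H N (x + y)) = LinearMap.ker (ev H N y) :=
    Submodule.eq_of_le_of_finrank_eq (fun r hr => (hle r hr).2) (hrank _ _ hxy hy)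
  rw [← e1, e2]

/-- A normal subgroup with a non-cyclic vector is commutative. -/
theorem comm_of_reducible {x₀ : V} (hx₀ : x₀ ≠ 0) (hnt : LinearMap.range (ev H N x₀) ≠ ⊤) :
    ∀ a ∈ N, ∀ b ∈ N, a * b = b * a := by
  classical
  obtain ⟨z, hz⟩ : ∃ z, z ∉ LinearMap.range (ev H N x₀) := by
    by_contra hcon
    push Not at hcon
    exact hnt (Submodule.eq_top_iff'.2 hcon)
  have hz0 : z ≠ 0 := by
    rintro rfl
    exact hz (Submodule.zero_mem _)
  have hall : ∀ y : V, y ≠ 0 → LinearMap.ker (ev H N y) = LinearMap.ker (ev H N x₀) := by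
    intro y hy
    by_cases hyx : y ∈ LinearMap.range (ev H N x₀)
    · have h1 : LinearMap.ker (ev H N x₀) = LinearMap.ker (ev H N z) := ker_eq_of_not_mem H hreg N hN hx₀ hz0 hz
      have h2 : y ∉ LinearMap.range (ev H N z) := by
        intro h3
        have h4 := range_eq_of_mem H hreg N hN hz0 hy h3
        have h5 := range_eq_of_mem H hreg N hN hx₀ hy hyx
        apply hz
        rw [← h5, h4]
        exact mem_self H N z
      rw [h1]
      exact (ker_eq_of_not_mem H hreg N hN hz0 hy h2).symm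
    · exact (ker_eq_of_not_mem H hreg N hN hx₀ hy hyx).symm
  have hnz : ∀ (r : alg H N) (y : V), y ≠ 0 → (r : Module.End (ZMod p) V) y = 0 → (r : Module.End (ZMod p) V) = 0 := by
    intro r y hy hr
    have h1 : r ∈ LinearMap.ker (ev H N y) := hr
    rw [hall y hy] at h1
    ext w
    by_cases hw : w = 0
    · rw [hw]
      simp
    · have h2 : r ∈ LinearMap.ker (ev H N w) := by
        rw [hall w hw]
        exact h1
      exact h2
  have : Module.Finite (ZMod p) V := Module.Finite.of_finite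
  have hfin : Finite (alg H N).toSubring := by
    haveI : Finite (Module.End (ZMod p) V) :=
      Finite.of_injective (fun f : Module.End (ZMod p) V => (f : V → V)) DFunLike.coe_injective
    exact inferInstance
  have hne : (0 : Module.End (ZMod p) V) ≠ 1 := by
    intro h0
    apply hx₀
    have := LinearMap.congr_fun h0 x₀
    exact this.symm
  have hcomm := comm_of_domain (alg H N).toSubring hne (by
    intro r hr s hs hrs
    by_cases hs0 : s = 0
    · exact Or.inr hs0
    · left
      obtain ⟨w, hw⟩ : ∃ w, s w ≠ 0 := by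
        by_contra hcon
        push Not at hcon
        exact hs0 (LinearMap.ext hcon)
      have h1 : r (s w) = 0 := by
        have := LinearMap.congr_fun hrs w
        exact this
      exact hnz ⟨r, hr⟩ _ hw h1)
  intro a ha b hb
  apply iota_inj H
  rw [iota_mul, iota_mul]
  exact hcomm _ (mem_alg H ha) _ (mem_alg H hb)

end Main

/-- Non-abelian normal subgroups are irreducible. -/
theorem irreducible_of_noncomm (H : Subgroup (V ≃ₗ[ZMod p] V))
    (hreg : ∀ v w : V, v ≠ 0 → w ≠ 0 → ∃! h : H, (h : V ≃ₗ[ZMod p] V) v = w)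
    (N : Subgroup H) (hN : N.Normal) (hna : ¬ ∀ a ∈ N, ∀ b ∈ N, a * b = b * a)
    (W : Submodule (ZMod p) V) (hW : ∀ n ∈ N, ∀ v ∈ W, ((n : H) : V ≃ₗ[ZMod p] V) v ∈ W) : W = ⊥ ∨ W = ⊤ := by
  by_contra hcon
  push Not at hcon
  obtain ⟨h1, h2⟩ := hcon
  obtain ⟨x, hx, hx0⟩ := (Submodule.ne_bot_iff _).1 h1
  apply hna
  apply comm_of_reducible H hreg N hN hx0
  intro h3
  apply h2
  rw [eq_top_iff, ← h3]
  rintro _ ⟨r, rfl⟩
  rw [ev_apply]
  obtain ⟨r, hr⟩ := r
  show r x ∈ W
  have key : ∀ v ∈ W, r v ∈ W := by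
    induction hr using Algebra.adjoin_induction with
    | mem y hy =>
      obtain ⟨n, hn, rfl⟩ := hy
      exact hW n hn
    | algebraMap c =>
      intro v hv
      have : (algebraMap (ZMod p) (Module.End (ZMod p) V)) c v = c • v := rfl
      rw [this]
      exact W.smul_mem c hv
    | add a b _ _ ha hb =>
      intro v hv
      exact W.add_mem (ha v hv) (hb v hv)
    | mul a b _ _ ha hb =>
      intro v hv
      exact ha _ (hb v hv)
  exact key x hx

/-- Centraliser of a non-abelian normal subgroup is commutative (Schur). -/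
theorem centralizer_comm (H : Subgroup (V ≃ₗ[ZMod p] V))
    (hreg : ∀ v w : V, v ≠ 0 → w ≠ 0 → ∃! h : H, (h : V ≃ₗ[ZMod p] V) v = w)
    (N : Subgroup H) (hN : N.Normal) (hna : ¬ ∀ a ∈ N, ∀ b ∈ N, a * b = b * a) (hV : Nontrivial V) :
    ∀ a ∈ Subgroup.centralizer (N : Set H), ∀ b ∈ Subgroup.centralizer (N : Set H), a * b = b * a := by
  classical
  haveI : Module.Finite (ZMod p) V := Module.Finite.of_finite
  let D : Subring (Module.End (ZMod p) V) := Subring.centralizer (iota H '' (N : Set H))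
  haveI : Finite (Module.End (ZMod p) V) :=
    Finite.of_injective (fun f : Module.End (ZMod p) V => (f : V → V)) DFunLike.coe_injective
  have hne : (0 : Module.End (ZMod p) V) ≠ 1 := by
    intro h0
    obtain ⟨x, hx⟩ := exists_ne (0 : V)
    exact hx (LinearMap.congr_fun h0 x).symm
  have hcomm := comm_of_domain D hne (by
    intro r hr s hs hrs
    by_cases hs0 : s = 0
    · exact Or.inr hs0
    · left
      have hker : LinearMap.ker r = ⊥ ∨ LinearMap.ker r = ⊤ := by
        apply irreducible_of_noncomm H hreg N hN hna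
        intro n hn v hv
        have h1 : iota H n * r = r * iota H n := (Subring.mem_centralizer_iff.1 hr) _ ⟨n, hn, rfl⟩
        have h2 := LinearMap.congr_fun h1 v
        show r (iota H n v) = 0
        have h3 : r (iota H n v) = iota H n (r v) := h2.symm
        rw [h3, show r v = 0 from hv, map_zero]
      rcases hker with h | h
      · exfalso
        apply hs0
        ext w
        have h1 : s w ∈ LinearMap.ker r := LinearMap.congr_fun hrs w
        rw [h] at h1
        simpa using h1
      · exact LinearMap.ker_eq_top.1 h)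
  intro a ha b hb
  apply iota_inj H
  rw [iota_mul, iota_mul]
  have hmem : ∀ c ∈ Subgroup.centralizer (N : Set H), iota H c ∈ D := by
    intro c hc
    apply Subring.mem_centralizer_iff.2
    rintro _ ⟨n, hn, rfl⟩
    rw [← iota_mul, ← iota_mul]
    have := (Subgroup.mem_centralizer_iff.1 hc) n hn
    rw [this]
  exact hcomm _ (hmem a ha) _ (hmem b hb)

end Cfsg.Agent.H03.NF
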