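import Mathlib
import Cfsg.Agent.Lib.H03.NF
import Cfsg.Agent.Lib.H14.UniqueSub

/-! Linear groups regular on the non-zero vectors: basic counting, rank one, the field generated by
a normal abelian subgroup, and `Aut Q₈`. -/

set_option autoImplicit false

namespace Cfsg.Agent.H03.NF

open QuaternionGroup

/-- candidate automorphism of `Q₈` given by images of the generators. -/
def fq (u v : QuaternionGroup 2) : QuaternionGroup 2 → QuaternionGroup 2
  | a i => u ^ (i.val)
  | xa i => v * u ^ (i.val)

/-- good pairs -/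
def goodPair (q : QuaternionGroup 2 × QuaternionGroup 2) : Prop :=
  (∀ s t, fq q.1 q.2 (s * t) = fq q.1 q.2 s * fq q.1 q.2 t) ∧ (∀ s t, fq q.1 q.2 s = fq q.1 q.2 t → s = t)

instance goodPair_dec : DecidablePred goodPair := fun q => by
  unfold goodPair
  infer_instance

set_option maxRecDepth 100000 in
lemma card_good : (Finset.univ.filter goodPair).card = 24 := by
  decide +kernel

theorem card_mulAut_q8 : Nat.card (MulAut (QuaternionGroup 2)) = 24 := by
  classical
  have hfq : ∀ (f : MulAut (QuaternionGroup 2)) (t : QuaternionGroup 2), fq (f (a 1)) (f (xa 0)) t = f t := by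
    intro f t
    cases t with
    | a i =>
      show (f (a 1)) ^ i.val = f (a i)
      rw [← map_pow, QuaternionGroup.a_one_pow]
      congr 2
      exact ZMod.natCast_zmod_val i
    | xa i =>
      show f (xa 0) * (f (a 1)) ^ i.val = f (xa i)
      rw [← map_pow, ← map_mul, QuaternionGroup.a_one_pow, QuaternionGroup.xa_mul_a, zero_add]
      congr 2
      exact ZMod.natCast_zmod_val i
  let F : MulAut (QuaternionGroup 2) → {q // q ∈ Finset.univ.filter goodPair} := fun f =>
    ⟨(f (a 1), f (xa 0)), by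
      refine Finset.mem_filter.2 ⟨Finset.mem_univ _, ?_, ?_⟩
      · intro s t
        simp only [hfq, map_mul]
      · intro s t h
        simp only [hfq] at h
        exact f.injective h⟩
  have hF : Function.Bijective F := by
    constructor
    · intro f g h
      have h1 : f (a 1) = g (a 1) := congrArg (fun q => q.1.1) h
      have h2 : f (xa 0) = g (xa 0) := congrArg (fun q => q.1.2) h
      ext t
      rw [← hfq f t, ← hfq g t, h1, h2]
    · rintro ⟨⟨u, v⟩, hq⟩
      obtain ⟨-, hmul, hinj⟩ := Finset.mem_filter.1 hq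
      let φ : QuaternionGroup 2 →* QuaternionGroup 2 := MonoidHom.mk' (fq u v) hmul
      have hφ : Function.Bijective φ := Finite.injective_iff_bijective.1 (fun s t h => hinj s t h)
      refine ⟨MulEquiv.ofBijective φ hφ, ?_⟩
      apply Subtype.ext
      apply Prod.ext
      · show u ^ (1 : ZMod (2 * 2)).val = u
        have : (1 : ZMod (2 * 2)).val = 1 := by decide
        rw [this, pow_one]
      · show v * u ^ (0 : ZMod (2 * 2)).val = v
        have : (0 : ZMod (2 * 2)).val = 0 := by decide
        rw [this, pow_zero, mul_one]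
  rw [Nat.card_congr (Equiv.ofBijective F hF), Nat.card_eq_fintype_card, Fintype.card_coe, card_good]

variable {p : ℕ} [Fact p.Prime] {V : Type*} [AddCommGroup V] [Module (ZMod p) V] [Finite V]

instance finite_linEquiv : Finite (V ≃ₗ[ZMod p] V) :=
  Finite.of_injective (fun f : V ≃ₗ[ZMod p] V => (f : V → V)) DFunLike.coe_injective

lemma iota_pow (H : Subgroup (V ≃ₗ[ZMod p] V)) (g : H) (n : ℕ) : iota H (g ^ n) = iota H g ^ n := by
  induction n with
  | zero => rw [pow_zero, pow_zero, iota_one]
  | succ n ih => rw [pow_succ, pow_succ, iota_mul, ih]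

section Reg

variable (H : Subgroup (V ≃ₗ[ZMod p] V))
  (hreg : ∀ v w : V, v ≠ 0 → w ≠ 0 → ∃! h : H, (h : V ≃ₗ[ZMod p] V) v = w)

include hreg

lemma eq_one_of_fix {h : H} {x : V} (hx : x ≠ 0) (hh : iota H h x = x) : h = 1 := by
  obtain ⟨w, -, hw⟩ := hreg x x hx hx
  exact (hw h hh).trans (hw 1 rfl).symm

lemma eq_of_apply_eq {g h : H} {x : V} (hx : x ≠ 0) (hh : iota H g x = iota H h x) : g = h := by
  have h1 : iota H (h⁻¹ * g) x = x := by
    rw [iota_mul, Module.End.mul_apply, hh, ← Module.End.mul_apply, iota_inv_mul]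
    rfl
  have h2 := eq_one_of_fix H hreg hx h1
  exact (inv_mul_eq_one.1 h2).symm

lemma card_H [Nontrivial V] : Nat.card H + 1 = Nat.card V := by
  classical
  obtain ⟨x, hx⟩ := exists_ne (0 : V)
  haveI : Fintype V := Fintype.ofFinite V
  have hne : ∀ h : H, iota H h x ≠ 0 := by
    intro h h0
    apply hx
    have : (h : V ≃ₗ[ZMod p] V) x = (h : V ≃ₗ[ZMod p] V) 0 := by
      rw [map_zero]
      exact h0
    exact (h : V ≃ₗ[ZMod p] V).injective this
  let φ : H → {v : V // v ≠ 0} := fun h => ⟨iota H h x, hne h⟩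
  have hφ : Function.Bijective φ := by
    constructor
    · intro g h hgh
      exact eq_of_apply_eq H hreg hx (congrArg Subtype.val hgh)
    · rintro ⟨w, hw⟩
      obtain ⟨h, hh, -⟩ := hreg x w hx hw
      exact ⟨h, Subtype.ext hh⟩
  rw [Nat.card_congr (Equiv.ofBijective φ hφ), Nat.card_eq_fintype_card, Fintype.card_subtype_compl,
    Fintype.card_subtype_eq, Nat.card_eq_fintype_card]
  have := Fintype.card_pos (α := V)
  omega

lemma card_V_eq : ∃ n : ℕ, Nat.card V = p ^ n := by
  haveI : Module.Finite (ZMod p) V := Module.Finite.of_finite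
  haveI := Fintype.ofFinite V
  refine ⟨Module.finrank (ZMod p) V, ?_⟩
  rw [Nat.card_eq_fintype_card, Module.card_eq_pow_finrank (K := ZMod p) (V := V), ZMod.card]

lemma not_dvd_card_H [Nontrivial V] : ¬ p ∣ Nat.card H := by
  have hp : p.Prime := Fact.out
  obtain ⟨n, hn⟩ := card_V_eq (p := p) (V := V) H hreg
  have h1 := card_H H hreg
  rw [hn] at h1
  have hn0 : n ≠ 0 := by
    rintro rfl
    rw [pow_zero] at h1
    have : 0 < Nat.card H := Nat.card_pos
    omega
  intro h2
  have h3 : p ∣ p ^ n := dvd_pow_self p hn0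
  rw [← h1] at h3
  have h4 := (Nat.dvd_add_right h2).1 h3
  exact hp.one_lt.ne' (Nat.dvd_one.1 h4)

lemma geom_zero {g : H} (hg : g ≠ 1) {n : ℕ} (hn : g ^ n = 1) :
    ∑ i ∈ Finset.range n, iota H g ^ i = 0 := by
  ext v
  have h1 : (iota H g - 1) * ∑ i ∈ Finset.range n, iota H g ^ i = iota H g ^ n - 1 := mul_geom_sum _ _
  rw [← iota_pow, hn, iota_one, sub_self] at h1
  have h2 := LinearMap.congr_fun h1 v
  have h3 : iota H g ((∑ i ∈ Finset.range n, iota H g ^ i) v) = (∑ i ∈ Finset.range n, iota H g ^ i) v := by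
    have : iota H g ((∑ i ∈ Finset.range n, iota H g ^ i) v) - (∑ i ∈ Finset.range n, iota H g ^ i) v = 0 := h2
    exact sub_eq_zero.1 this
  by_contra hne
  exact hg (eq_one_of_fix H hreg hne h3)

/-- no subgroup of type `(q, q)`. -/
theorem no_rank_two [Nontrivial V] {q : ℕ} (hq : q.Prime) {u v : H} (huv : u * v = v * u) (hu : u ^ q = 1) (hv : v ^ q = 1)
    (hu1 : u ≠ 1) (hvu : v ∉ Subgroup.zpowers u) : False := by
  have hp : p.Prime := Fact.out
  haveI : Fact q.Prime := ⟨hq⟩
  have hC : Commute (iota H u) (iota H v) := by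
    show iota H u * iota H v = iota H v * iota H u
    rw [← iota_mul, ← iota_mul, huv]
  have hord : orderOf u = q := orderOf_eq_prime hu hu1
  have hT1 : ∀ i ∈ Finset.range q, ∑ j ∈ Finset.range q, (iota H u ^ i * iota H v) ^ j = 0 := by
    intro i _
    have hne : u ^ i * v ≠ 1 := by
      intro h
      apply hvu
      have h1 : v = (u ^ i)⁻¹ := eq_inv_of_mul_eq_one_right h
      rw [h1]
      exact Subgroup.inv_mem _ (Subgroup.npow_mem_zpowers u i)
    have hpow : (u ^ i * v) ^ q = 1 := by
      have hc : Commute (u ^ i) v := (show Commute u v from huv).pow_left i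
      rw [hc.mul_pow, ← pow_mul, mul_comm i q, pow_mul, hu, one_pow, hv, one_mul]
    have := geom_zero H hreg hne hpow
    rw [iota_mul, iota_pow] at this
    exact this
  have hT2 : ∀ j ∈ Finset.range q, j ≠ 0 → ∑ i ∈ Finset.range q, (iota H u ^ j) ^ i = 0 := by
    intro j hj hj0
    have hne : u ^ j ≠ 1 := by
      intro h
      have h1 := orderOf_dvd_of_pow_eq_one h
      rw [hord] at h1
      have := Nat.le_of_dvd (Nat.pos_of_ne_zero hj0) h1
      have := Finset.mem_range.1 hj
      omega
    have hpow : (u ^ j) ^ q = 1 := by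
      rw [← pow_mul, mul_comm, pow_mul, hu, one_pow]
    have := geom_zero H hreg hne hpow
    rw [iota_pow] at this
    exact this
  have hsum : ∑ i ∈ Finset.range q, ∑ j ∈ Finset.range q, (iota H u ^ i * iota H v) ^ j = 0 :=
    Finset.sum_eq_zero hT1
  have hexp : ∑ i ∈ Finset.range q, ∑ j ∈ Finset.range q, (iota H u ^ i * iota H v) ^ j =
      ∑ j ∈ Finset.range q, (∑ i ∈ Finset.range q, (iota H u ^ j) ^ i) * iota H v ^ j := by
    rw [Finset.sum_comm]
    apply Finset.sum_congr rfl
    intro j _
    rw [Finset.sum_mul]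
    apply Finset.sum_congr rfl
    intro i _
    have hc : Commute (iota H u ^ i) (iota H v) := hC.pow_left i
    rw [hc.mul_pow, ← pow_mul, ← pow_mul, mul_comm]
  have hterm : ∑ j ∈ Finset.range q, (∑ i ∈ Finset.range q, (iota H u ^ j) ^ i) * iota H v ^ j = (q : Module.End (ZMod p) V) := by
    have hq0 : q = (q - 1) + 1 := by
      have := hq.pos
      omega
    rw [hq0, Finset.sum_range_succ', ← hq0]
    rw [Finset.sum_eq_zero]
    · simp
    · intro j hj
      rw [hT2 (j + 1) (by
        have := Finset.mem_range.1 hj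
        exact Finset.mem_range.2 (by omega)) (by omega), zero_mul]
  rw [hexp, hterm] at hsum
  obtain ⟨x, hx⟩ := exists_ne (0 : V)
  have h1 : (q : ZMod p) • x = 0 := by
    have := LinearMap.congr_fun hsum x
    rw [Nat.cast_smul_eq_nsmul]
    simpa using this
  have h2 : (q : ZMod p) = 0 := by
    rcases smul_eq_zero.1 h1 with h | h
    · exact h
    · exact absurd h hx
  have h3 : p ∣ q := (ZMod.natCast_eq_zero_iff q p).1 h2
  have h4 : p = q := (Nat.prime_dvd_prime_iff_eq hp hq).1 h3
  apply not_dvd_card_H (p := p) H hreg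
  have h5 : q ∣ Nat.card H := by
    rw [← hord]
    exact orderOf_dvd_natCard u
  exact Nat.dvd_trans (dvd_of_eq h4) h5

/-- A `q`-subgroup with no subgroups of type `(q, q)` has a unique subgroup of order `q`. -/
theorem uniqueP_of_pgroup [Nontrivial V] {q : ℕ} [Fact q.Prime] (N : Subgroup H) (hN : IsPGroup q N) :
    Cfsg.Agent.H14.UniqueP q N := by
  classical
  have hq : q.Prime := Fact.out
  intro x y hx hy
  have hx1 : x ≠ 1 := by
    rintro rfl
    rw [orderOf_one] at hx
    exact hq.one_lt.ne hx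
  haveI : Nontrivial N := ⟨⟨x, 1, hx1⟩⟩
  haveI := hN.center_nontrivial
  have hdvd : q ∣ Nat.card (Subgroup.center N) := by
    have h1 : IsPGroup q (Subgroup.center N) := IsPGroup.to_subgroup hN _
    obtain ⟨k, hk⟩ := IsPGroup.iff_card.1 h1
    rw [hk]
    have hk0 : k ≠ 0 := by
      rintro rfl
      rw [pow_zero] at hk
      have := Finite.one_lt_card (α := Subgroup.center N)
      omega
    exact dvd_pow_self q hk0
  obtain ⟨z, hz⟩ := exists_prime_orderOf_dvd_card' q hdvd
  have hzc : ∀ w : N, (z : N) * w = w * z := fun w => (Subgroup.mem_center_iff.1 z.2 w).symm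
  have hzord : orderOf (z : N) = q := by
    rw [Subgroup.orderOf_coe]
    exact hz
  have hz1 : ((z : N) : H) ≠ 1 := by
    intro h
    have h1 : (z : N) = 1 := Subtype.ext h
    rw [h1, orderOf_one] at hzord
    exact hq.one_lt.ne hzord
  have key : ∀ w : N, orderOf w = q → (w : H) ∈ Subgroup.zpowers ((z : N) : H) := by
    intro w hw
    by_contra hcon
    have h1 : ((z : N) : H) ^ q = 1 := by
      have h2 := pow_orderOf_eq_one (z : N)
      rw [hzord] at h2
      exact congrArg Subtype.val h2
    have h2 : (w : H) ^ q = 1 := by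
      have h3 := pow_orderOf_eq_one w
      rw [hw] at h3
      exact congrArg Subtype.val h3
    exact no_rank_two H hreg hq (congrArg Subtype.val (hzc w)) h1 h2 hz1 hcon
  have hxz := key x hx
  have hyz := key y hy
  have hle : Subgroup.zpowers (x : H) ≤ Subgroup.zpowers ((z : N) : H) :=
    Subgroup.zpowers_le.2 hxz
  have heq : Subgroup.zpowers (x : H) = Subgroup.zpowers ((z : N) : H) := by
    apply Subgroup.eq_of_le_of_card_ge hle
    have e1 : orderOf (x : H) = q := by
      rw [Subgroup.orderOf_coe]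
      exact hx
    have e2 : orderOf ((z : N) : H) = q := by
      rw [Subgroup.orderOf_coe]
      exact hzord
    rw [Nat.card_zpowers, Nat.card_zpowers, e1, e2]
  rw [← heq] at hyz
  obtain ⟨k, hk⟩ := hyz
  refine ⟨k, Subtype.ext ?_⟩
  simpa using hk

end Reg

/-- A finite subgroup of a finite domain is cyclic, of order dividing the order of the domain minus one. -/
theorem cyc_aux {D G : Type*} [Ring D] [IsDomain D] [Finite D] [Group G] [Finite G] (f : G →* D)
    (hf : Function.Injective f) : IsCyclic G ∧ Nat.card G ∣ Nat.card D - 1 := by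
  classical
  have hfld := Finite.isDomain_to_isField D
  letI : Field D := hfld.toField
  haveI : Fintype D := Fintype.ofFinite D
  refine ⟨isCyclic_of_subgroup_isDomain f hf, ?_⟩
  have hu : Nat.card Dˣ = Nat.card D - 1 := by
    rw [Nat.card_eq_fintype_card, Nat.card_eq_fintype_card, Fintype.card_units]
  rw [← hu]
  apply Subgroup.card_dvd_of_injective f.toHomUnits
  intro a b hab
  apply hf
  have := congrArg (fun u : Dˣ => (u : D)) hab
  exact this

section Field

variable (H : Subgroup (V ≃ₗ[ZMod p] V))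
  (hreg : ∀ v w : V, v ≠ 0 → w ≠ 0 → ∃! h : H, (h : V ≃ₗ[ZMod p] V) v = w)
  (N : Subgroup H) (hN : N.Normal)

lemma alg_comm (hc : ∀ a ∈ N, ∀ b ∈ N, a * b = b * a) :
    ∀ r ∈ alg H N, ∀ s ∈ alg H N, r * s = s * r := by
  have hcomm : ∀ a ∈ iota H '' (N : Set H), ∀ b ∈ iota H '' (N : Set H), a * b = b * a := by
    rintro _ ⟨a, ha, rfl⟩ _ ⟨b, hb, rfl⟩
    rw [← iota_mul, ← iota_mul, hc a ha b hb]
  letI := Algebra.adjoinCommRingOfComm (ZMod p) hcomm
  intro r hr s hs
  exact congrArg Subtype.val (mul_comm (⟨r, hr⟩ : Algebra.adjoin (ZMod p) (iota H '' (N : Set H))) ⟨s, hs⟩)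

include hreg hN

/-- Non-zero elements of the algebra of a normal commutative subgroup are injective. -/
theorem alg_nz (hc : ∀ a ∈ N, ∀ b ∈ N, a * b = b * a) (r : alg H N) (y : V) (hy : y ≠ 0)
    (hr : (r : Module.End (ZMod p) V) y = 0) : (r : Module.End (ZMod p) V) = 0 := by
  by_cases h : ∃ x₀ : V, x₀ ≠ 0 ∧ LinearMap.range (ev H N x₀) ≠ ⊤
  · obtain ⟨x₀, hx₀, hnt⟩ := h
    obtain ⟨z, hz⟩ : ∃ z, z ∉ LinearMap.range (ev H N x₀) := by
      by_contra hcon
      push Not at hcon
      exact hnt (Submodule.eq_top_iff'.2 hcon)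
    have hz0 : z ≠ 0 := by
      rintro rfl
      exact hz (Submodule.zero_mem _)
    have hall : ∀ y : V, y ≠ 0 → LinearMap.ker (ev H N y) = LinearMap.ker (ev H N x₀) := by
      intro y hy
      by_cases hyx : y ∈ LinearMap.range (ev H N x₀)
      · have h1 : LinearMap.ker (ev H N x₀) = LinearMap.ker (ev H N z) := ker_eq_of_not_mem H hreg N hN hx₀ hz0 hz
        have h2 : y ∉ LinearMap.range (ev H N z) := by
          intro h3
          have h4 := range_eq_of_mem H hreg N hN hz0 hy h3
          have h5 := range_eq_of_mem H hreg N hN hx₀ hy hyx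
          apply hz
          rw [← h5, h4]
          exact mem_self H N z
        rw [h1]
        exact (ker_eq_of_not_mem H hreg N hN hz0 hy h2).symm
      · exact (ker_eq_of_not_mem H hreg N hN hx₀ hy hyx).symm
    have h1 : r ∈ LinearMap.ker (ev H N y) := hr
    rw [hall y hy] at h1
    ext w
    by_cases hw : w = 0
    · rw [hw]
      simp
    · have h2 : r ∈ LinearMap.ker (ev H N w) := by
        rw [hall w hw]
        exact h1
      exact h2
  · push Not at h
    ext v
    have h2 : v ∈ LinearMap.range (ev H N y) := by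
      rw [h y hy]
      trivial
    obtain ⟨t, rfl⟩ := h2
    rw [ev_apply]
    have h3 := alg_comm H N hc r.1 r.2 t.1 t.2
    have h4 := LinearMap.congr_fun h3 y
    show (r.1 * t.1) y = _
    rw [h4]
    show t.1 (r.1 y) = _
    rw [hr, map_zero]
    rfl

/-- The algebra of a normal commutative subgroup is a field: data form. -/
theorem alg_domain (hc : ∀ a ∈ N, ∀ b ∈ N, a * b = b * a) :
    ∀ r ∈ alg H N, ∀ s ∈ alg H N, r * s = 0 → r = 0 ∨ s = 0 := by
  intro r hr s _ hrs
  by_cases hs0 : s = 0
  · exact Or.inr hs0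
  · left
    obtain ⟨w, hw⟩ : ∃ w, s w ≠ 0 := by
      by_contra hcon
      push Not at hcon
      exact hs0 (LinearMap.ext hcon)
    exact alg_nz H hreg N hN hc ⟨r, hr⟩ _ hw (LinearMap.congr_fun hrs w)

/-- A normal commutative subgroup is cyclic, and its order divides the order of the algebra minus one. -/
theorem cyclic_of_normal_comm [Nontrivial V] (hc : ∀ a ∈ N, ∀ b ∈ N, a * b = b * a) :
    IsCyclic N ∧ Nat.card N ∣ Nat.card (alg H N) - 1 := by
  classical
  haveI : Finite (Module.End (ZMod p) V) :=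
    Finite.of_injective (fun f : Module.End (ZMod p) V => (f : V → V)) DFunLike.coe_injective
  have hne : (0 : alg H N) ≠ 1 := by
    intro h0
    obtain ⟨x, hx⟩ := exists_ne (0 : V)
    have h1 := congrArg (fun r : alg H N => (r : Module.End (ZMod p) V) x) h0
    exact hx h1.symm
  haveI : Nontrivial (alg H N) := ⟨⟨0, 1, hne⟩⟩
  haveI : NoZeroDivisors (alg H N) := ⟨fun {a b} hab => by
    rcases alg_domain H hreg N hN hc a.1 a.2 b.1 b.2 (congrArg Subtype.val hab) with h1 | h1
    · exact Or.inl (Subtype.ext h1)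
    · exact Or.inr (Subtype.ext h1)⟩
  haveI : IsDomain (alg H N) := NoZeroDivisors.to_isDomain _
  let f : N →* alg H N :=
    { toFun := fun a => ⟨iota H a.1, mem_alg H a.2⟩
      map_one' := Subtype.ext (iota_one H)
      map_mul' := fun a b => Subtype.ext (iota_mul H a.1 b.1) }
  have hf : Function.Injective f := by
    intro a b hab
    exact Subtype.ext (iota_inj H (congrArg Subtype.val hab))
  exact cyc_aux f hf

/-- Two independent vectors: the square of the order of the algebra is at most the order of `V`. -/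
theorem card_alg_sq_le (hc : ∀ a ∈ N, ∀ b ∈ N, a * b = b * a) {x y : V} (hx : x ≠ 0) (hy : y ≠ 0)
    (hyx : y ∉ LinearMap.range (ev H N x)) : Nat.card (alg H N) * Nat.card (alg H N) ≤ Nat.card V := by
  have hinter : ∀ z, z ∈ LinearMap.range (ev H N x) → z ∈ LinearMap.range (ev H N y) → z = 0 := by
    intro z hz1 hz2
    by_contra hz
    have h1 := range_eq_of_mem H hreg N hN hx hz hz1
    have h2 := range_eq_of_mem H hreg N hN hy hz hz2
    apply hyx
    rw [← h1, h2]
    exact mem_self H N y
  rw [← Nat.card_prod]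
  apply Nat.card_le_card_of_injective (fun q : alg H N × alg H N => ev H N x q.1 + ev H N y q.2)
  rintro ⟨r, s⟩ ⟨r', s'⟩ h
  have h1 : ev H N x r + ev H N y s = ev H N x r' + ev H N y s' := h
  have h2 : ev H N x (r - r') = ev H N y (s' - s) := by
    rw [map_sub, map_sub, sub_eq_sub_iff_add_eq_add, h1, add_comm]
  have h3 : ev H N x (r - r') = 0 := hinter _ ⟨_, rfl⟩ (by
    rw [h2]
    exact ⟨_, rfl⟩)
  have h4 : ev H N y (s' - s) = 0 := by rw [← h2, h3]
  have h5 := alg_nz H hreg N hN hc (r - r') x hx h3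
  have h6 := alg_nz H hreg N hN hc (s' - s) y hy h4
  have h7 : r = r' := by
    apply Subtype.ext
    exact sub_eq_zero.1 h5
  have h8 : s = s' := by
    apply Subtype.ext
    exact (sub_eq_zero.1 h6).symm
  rw [h7, h8]

end Field

end Cfsg.Agent.H03.NF
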