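import Mathlib
import Cfsg.Agent.Lib.H03.OGen
import Cfsg.Agent.Lib.H11.Spin7

/-! The Dickson invariant: parity of the rank of `g - 1` in characteristic two. -/

set_option autoImplicit false

namespace Cfsg.Agent.H03.ODick

open Module QuadraticMap Cfsg.Agent.H03.OGen

universe u v

section Abstract

variable {F : Type v} [Field F] {V : Type u} [AddCommGroup V] [Module F V]

/-- the rank of `g - 1` -/
noncomputable def rk (g : Module.End F V) : ℕ := finrank F (LinearMap.range (g - 1))

lemma finrank_sup_span_mem (W : Submodule F V) {x : V} (h : x ∈ W) :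
    finrank F ↥(W ⊔ Submodule.span F {x}) = finrank F W := by
  have : Submodule.span F {x} ≤ W := by
    rw [Submodule.span_singleton_le_iff_mem]; exact h
  rw [sup_eq_left.2 this]

lemma finrank_sup_span_notMem [FiniteDimensional F V] (W : Submodule F V) {x : V} (h : x ∉ W) :
    finrank F ↥(W ⊔ Submodule.span F {x}) = finrank F W + 1 := by
  have hx : x ≠ 0 := fun e => h (e ▸ W.zero_mem)
  have h1 := Submodule.finrank_sup_add_finrank_inf_eq W (Submodule.span F {x})
  have h2 : W ⊓ Submodule.span F {x} = ⊥ := by
    rw [eq_bot_iff]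
    intro y hy
    obtain ⟨hy1, hy2⟩ := Submodule.mem_inf.1 hy
    obtain ⟨c, rfl⟩ := Submodule.mem_span_singleton.1 hy2
    by_cases hc : c = 0
    · simp [hc]
    · exfalso
      apply h
      have := W.smul_mem c⁻¹ hy1
      rwa [smul_smul, inv_mul_cancel₀ hc, one_smul] at this
  rw [h2, finrank_bot, add_zero, finrank_span_singleton hx] at h1
  exact h1

lemma range_eq_orth_fix [FiniteDimensional F V] {Q : QuadraticForm F V}
    (hQ : (polarBilin Q).Nondegenerate) (g : Module.End F V) (hg : ∀ x, Q (g x) = Q x) :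
    LinearMap.range (g - 1) =
      LinearMap.BilinForm.orthogonal (polarBilin Q) (LinearMap.ker (g - 1)) := by
  apply Submodule.eq_of_le_of_finrank_eq
  · rintro _ ⟨y, rfl⟩
    rw [LinearMap.BilinForm.mem_orthogonal_iff]
    intro z hz
    have hz' : g z = z := by
      have : (g - 1) z = 0 := hz
      simpa [sub_eq_zero] using this
    show polar Q z ((g - 1) y) = 0
    have e : (g - 1) y = g y - y := rfl
    rw [e, polar_sub_right]
    have := polar_of_isom Q hg z y
    rw [hz'] at this
    rw [this, sub_self]
  · rw [LinearMap.BilinForm.finrank_orthogonal hQ]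
    have := LinearMap.finrank_range_add_finrank_ker (g - 1)
    omega

/-- the parity step -/
theorem rk_step [FiniteDimensional F V] (h2 : (2 : F) = 0) {Q : QuadraticForm F V}
    (hQ : (polarBilin Q).Nondegenerate) (g : Module.End F V) (hg : ∀ x, Q (g x) = Q x)
    {u : V} (hu : Q u ≠ 0) : Odd (rk g + rk (g * rL Q u)) := by
  have hneg : ∀ c : F, -c = c := by
    intro c
    linear_combination (-c) * h2
  have hu0 : u ≠ 0 := by
    rintro rfl
    simp at hu
  have hpuu : polar Q u u = 0 := by rw [polar_self', h2, zero_mul]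
  have hpp : ∀ z, polar Q z z = 0 := fun z => by rw [polar_self', h2, zero_mul]
  obtain ⟨y, hy⟩ := Cfsg.Agent.H11.exists_polar_ne hQ hu0
  obtain ⟨a, ha⟩ : ∃ a, polar Q u a = Q u := by
    refine ⟨(Q u / polar Q u y) • y, ?_⟩
    rw [polar_smul_right, smul_eq_mul]
    field_simp
  let H : Submodule F V := LinearMap.ker (polarBilin Q u)
  have hH : ∀ x, x ∈ H ↔ polar Q u x = 0 := fun x => by
    simp [H, LinearMap.mem_ker]
  have hrfix : ∀ x ∈ H, rL Q u x = x := fun x hx => rL_fix Q ((hH x).1 hx)
  let W₀ : Submodule F V := H.map (g - 1)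
  have hW : W₀ = H.map (g * rL Q u - 1) := by
    ext z
    constructor
    · rintro ⟨x, hx, rfl⟩
      refine ⟨x, hx, ?_⟩
      show g (rL Q u x) - x = g x - x
      rw [hrfix x hx]
    · rintro ⟨x, hx, rfl⟩
      refine ⟨x, hx, ?_⟩
      show g x - x = g (rL Q u x) - x
      rw [hrfix x hx]
  have hdec : ∀ x, ∃ t : F, x - t • a ∈ H := by
    intro x
    refine ⟨polar Q u x / Q u, ?_⟩
    rw [hH, polar_sub_right, polar_smul_right, ha, smul_eq_mul]
    field_simp
    ring
  have hrange : ∀ f : Module.End F V, LinearMap.range f = H.map f ⊔ Submodule.span F {f a} := by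
    intro f
    apply le_antisymm
    · rintro _ ⟨x, rfl⟩
      obtain ⟨t, ht⟩ := hdec x
      have e : f x = f (x - t • a) + t • f a := by
        rw [map_sub, map_smul]; abel
      rw [e]
      apply Submodule.add_mem_sup
      · exact Submodule.mem_map_of_mem ht
      · exact Submodule.smul_mem _ _ (Submodule.mem_span_singleton_self _)
    · apply sup_le
      · exact LinearMap.map_le_range
      · rw [Submodule.span_singleton_le_iff_mem]
        exact ⟨a, rfl⟩
  have hr1 : rk g = finrank F ↥(W₀ ⊔ Submodule.span F {(g - 1) a}) := by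
    rw [rk, hrange (g - 1)]
  have hr2 : rk (g * rL Q u) = finrank F ↥(W₀ ⊔ Submodule.span F {(g * rL Q u - 1) a}) := by
    rw [rk, hrange (g * rL Q u - 1), hW]
  have hra : rL Q u a = a - u := by
    rw [rL_apply, ha, inv_mul_cancel₀ hu, one_smul]
  have hx2 : (g * rL Q u - 1) a = (g - 1) a - g u := by
    show g (rL Q u a) - a = (g a - a) - g u
    rw [hra, map_sub]
    abel
  -- the key relation
  have hkey : ∀ c, u = (g - 1) c → polar Q u c = Q u := by
    intro c hc
    have e : (g - 1) c = g c - c := rfl
    have h3 : Q u = polar Q (g c) c := by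
      rw [hc, e, Q_sub, hg, ← two_mul, h2, zero_mul, zero_sub, hneg]
    rw [h3, hc, e, polar_sub_left, hpp, sub_zero]
  by_cases hx1 : (g - 1) a ∈ W₀
  · -- case A
    have hnot : (g * rL Q u - 1) a ∉ W₀ := by
      intro hx
      have hgu : g u ∈ W₀ := by
        have := W₀.sub_mem hx1 hx
        rw [hx2] at this
        simpa using this
      have huH : u ∈ H := (hH u).2 hpuu
      have hu1 : (g - 1) u ∈ W₀ := Submodule.mem_map_of_mem huH
      have huW : u ∈ W₀ := by
        have := W₀.sub_mem hgu hu1
        have e : g u - (g - 1) u = u := by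
          show g u - (g u - u) = u
          abel
        rwa [e] at this
      obtain ⟨c, hc, hcu⟩ := huW
      have := hkey c hcu.symm
      rw [(hH c).1 hc] at this
      exact hu this.symm
    rw [hr1, hr2, finrank_sup_span_mem W₀ hx1, finrank_sup_span_notMem W₀ hnot]
    exact ⟨finrank F W₀, by ring⟩
  · -- case B
    have hfix : ∀ z, g z = z → polar Q u z = 0 := by
      intro z hz
      by_contra hne
      apply hx1
      refine ⟨a - (polar Q u a / polar Q u z) • z, ?_, ?_⟩
      · rw [SetLike.mem_coe, hH, polar_sub_right, polar_smul_right, smul_eq_mul]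
        field_simp
        ring
      · show g (a - (polar Q u a / polar Q u z) • z) - (a - (polar Q u a / polar Q u z) • z) = g a - a
        rw [map_sub, map_smul, hz]
        abel
    have huR : u ∈ LinearMap.range (g - 1) := by
      rw [range_eq_orth_fix hQ g hg, LinearMap.BilinForm.mem_orthogonal_iff]
      intro z hz
      have hz' : g z = z := by
        have : (g - 1) z = 0 := hz
        simpa [sub_eq_zero] using this
      show polar Q z u = 0
      rw [polar_comm]
      exact hfix z hz'
    obtain ⟨c, hc⟩ := huR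
    have hin : (g * rL Q u - 1) a ∈ W₀ := by
      rw [hx2]
      refine ⟨a - u - c, ?_, ?_⟩
      · rw [SetLike.mem_coe, hH, polar_sub_right, polar_sub_right, ha, hpuu, hkey c hc.symm]
        ring
      · have e1 : (g - 1) c = g c - c := rfl
        have e2 : u = g c - c := hc.symm.trans e1
        show g (a - u - c) - (a - u - c) = (g a - a) - g u
        rw [map_sub, map_sub]
        have : g a - g u - g c - (a - u - c) - (g a - a - g u) = u - (g c - c) := by abel
        rw [← sub_eq_zero, this, ← e2, sub_self]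
    rw [hr1, hr2, finrank_sup_span_notMem W₀ hx1, finrank_sup_span_mem W₀ hin]
    exact ⟨finrank F W₀, by ring⟩

theorem rk_prod [FiniteDimensional F V] (h2 : (2 : F) = 0) {Q : QuadraticForm F V}
    (hQ : (polarBilin Q).Nondegenerate) (L : List V) (hL : ∀ v ∈ L, Q v ≠ 0) :
    Even (rk (L.map (rL Q)).prod + L.length) := by
  induction L using List.reverseRecOn with
  | nil =>
    have h1 : rk (1 : Module.End F V) = 0 := by
      simp [rk]
    show Even (rk (1 : Module.End F V) + 0)
    rw [h1]
    exact Even.zero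
  | append_singleton L v ih =>
    have hL' : ∀ w ∈ L, Q w ≠ 0 := fun w hw => hL w (List.mem_append_left _ hw)
    have hv : Q v ≠ 0 := hL v (by simp)
    have h3 := ih hL'
    have hP : IsP Q (L.map (rL Q)).prod := ⟨L, hL', rfl⟩
    have h4 := rk_step h2 hQ _ hP.isom hv
    simp only [List.map_append, List.map_cons, List.map_nil, List.prod_append, List.prod_cons,
      List.prod_nil, mul_one, List.length_append, List.length_cons, List.length_nil]
    rw [Nat.even_iff] at h3 ⊢
    rw [Nat.odd_iff] at h4
    omega

end Abstract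

section Mat

open Cfsg Cfsg.Agent.H11 Matrix

variable {ι : Type} [Fintype ι] [DecidableEq ι] {F : Type v} [Field F] [Fintype F]

/-- the Dickson character in characteristic two -/
noncomputable def dick (Q : QuadraticForm F (ι → F)) (g : ↥(isometryGroup F (⇑Q))) : ℤˣ :=
  (-1) ^ rk (((g : GL ι F) : Matrix ι ι F).mulVecLin)

lemma dick_of_list (h2 : (2 : F) = 0) (Q : QuadraticForm F (ι → F))
    (hQ : (polarBilin Q).Nondegenerate) (g : ↥(isometryGroup F (⇑Q))) (L : List (ι → F))
    (hL : ∀ v ∈ L, Q v ≠ 0)
    (hg : ((g : GL ι F) : Matrix ι ι F) = (L.map (fun v => reflectionMatrix (⇑Q) v)).prod) :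
    dick Q g = (-1) ^ L.length := by
  have h1 := rk_prod h2 hQ L hL
  rw [prod_eq_mulVecLin, ← hg] at h1
  rw [dick]
  rw [Nat.even_add] at h1
  by_cases h3 : Even L.length
  · rw [h3.neg_one_pow, (h1.2 h3).neg_one_pow]
  · have h4 : ¬ Even (rk (((g : GL ι F) : Matrix ι ι F).mulVecLin)) := fun h => h3 (h1.1 h)
    rw [(Nat.not_even_iff_odd.1 h3).neg_one_pow, (Nat.not_even_iff_odd.1 h4).neg_one_pow]

/-- the Dickson homomorphism -/
noncomputable def dickHom (h2 : (2 : F) = 0) (Q : QuadraticForm F (ι → F))
    (hQ : (polarBilin Q).Nondegenerate) (h : Nat.card F ≠ 2 ∨ Fintype.card ι ≠ 4) :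
    ↥(isometryGroup F (⇑Q)) →* ℤˣ :=
  MonoidHom.mk' (dick Q) (by
    intro a b
    obtain ⟨L, hL, ha⟩ := exists_list_of_isometry Q hQ h a
    obtain ⟨M, hM, hb⟩ := exists_list_of_isometry Q hQ h b
    have hab : ((a * b : ↥(isometryGroup F (⇑Q))) : GL ι F).val =
        ((L ++ M).map (fun v => reflectionMatrix (⇑Q) v)).prod := by
      rw [List.map_append, List.prod_append, ← ha, ← hb]
      rfl
    rw [dick_of_list h2 Q hQ a L hL ha, dick_of_list h2 Q hQ b M hM hb,
      dick_of_list h2 Q hQ (a * b) (L ++ M) (fun v hv => by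
        rcases List.mem_append.1 hv with h' | h'
        · exact hL v h'
        · exact hM v h') hab, List.length_append, pow_add])

lemma dickHom_refl (h2 : (2 : F) = 0) (Q : QuadraticForm F (ι → F))
    (hQ : (polarBilin Q).Nondegenerate) (h : Nat.card F ≠ 2 ∨ Fintype.card ι ≠ 4)
    (v : ι → F) (hv : Q v ≠ 0) : dickHom h2 Q hQ h (refl Q v hv) = -1 := by
  have := dick_of_list h2 Q hQ (refl Q v hv) [v] (by simpa using hv) (by simp)
  show dick Q (refl Q v hv) = -1
  simpa using this

end Mat

end Cfsg.Agent.H03.ODick
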