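import Mathlib
import Cfsg.Agent.Lib.H03.OGen
import Cfsg.Agent.Lib.H11.Spin7

/-! Characters of the orthogonal group in odd characteristic. -/

set_option autoImplicit false

namespace Cfsg.Agent.H03.OSpin

open Cfsg Cfsg.Agent.H11 Cfsg.Agent.H03.OGen Matrix

variable {ι : Type} [Fintype ι] [DecidableEq ι] {F : Type*} [Field F] [Fintype F] [DecidableEq F]

/-- the sign of the determinant -/
noncomputable def detSign (h2 : (2 : F) ≠ 0) (Q : QuadraticForm F (ι → F))
    (hQ : (QuadraticMap.polarBilin Q).Nondegenerate) : ↥(isometryGroup F (⇑Q)) →* ℤˣ :=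
  MonoidHom.mk' (fun g => by
      classical
      exact if ((g : GL ι F) : Matrix ι ι F).det = 1 then 1 else -1) (by
    classical
    intro a b
    have hne : (1 : F) ≠ -1 := by
      intro h
      apply h2
      linear_combination h
    have ha := Cfsg.Agent.H03.det_eq_of_isometry Q hQ ((a : GL ι F) : Matrix ι ι F) (fun x => a.2 x x)
    have hb := Cfsg.Agent.H03.det_eq_of_isometry Q hQ ((b : GL ι F) : Matrix ι ι F) (fun x => b.2 x x)
    have e : ((a * b : ↥(isometryGroup F (⇑Q))) : GL ι F).val = ((a : GL ι F) : Matrix ι ι F) * ((b : GL ι F) : Matrix ι ι F) := rfl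
    simp only [e, Matrix.det_mul]
    rcases ha with ha | ha <;> rcases hb with hb | hb <;> rw [ha, hb]
    · simp
    · simp [hne.symm]
    · simp [hne.symm]
    · simp [hne.symm])

lemma detSign_refl (h2 : (2 : F) ≠ 0) (Q : QuadraticForm F (ι → F))
    (hQ : (QuadraticMap.polarBilin Q).Nondegenerate) (v : ι → F) (hv : Q v ≠ 0) :
    detSign h2 Q hQ (refl Q v hv) = -1 := by
  classical
  have hne : (-1 : F) ≠ 1 := by
    intro h
    apply h2
    linear_combination (-1 : F) * h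
  have : ((refl Q v hv : ↥(isometryGroup F (⇑Q))) : GL ι F).val.det = -1 :=
    Cfsg.Agent.H03.reflection_det Q v hv
  simp only [detSign, MonoidHom.mk'_apply, this, hne, if_false]

/-- the two independent characters of the orthogonal group -/
theorem odd_chars (h2 : (2 : F) ≠ 0) (hn : 2 ≤ Fintype.card ι) (Q : QuadraticForm F (ι → F))
    (hQ : (QuadraticMap.polarBilin Q).Nondegenerate) :
    ∃ χ₁ χ₂ : ↥(isometryGroup F (⇑Q)) →* ℤˣ,
      (∀ v (hv : Q v ≠ 0), χ₁ (refl Q v hv) = -1) ∧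
      (∀ v (hv : Q v ≠ 0), χ₂ (refl Q v hv) = chiU (Q v)) ∧
      (∀ g, g ∈ Omega F (⇑Q) ↔ χ₁ g = 1 ∧ χ₂ g = 1) ∧
      Function.Surjective (χ₁.prod χ₂) := by
  classical
  have hchar : ringChar F ≠ 2 := by
    intro h
    apply h2
    have := ringChar.spec F 2
    simpa [h] using this
  have hcard : Nat.card F ≠ 2 := card_ne_two_of h2
  obtain ⟨ψ, κ, hψ⟩ := exists_spinor_hom hchar hn Q hQ
  set χ₁ := detSign h2 Q hQ with hχ₁
  have h1 : ∀ v (hv : Q v ≠ 0), χ₁ (refl Q v hv) = -1 := detSign_refl h2 Q hQ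
  obtain ⟨χ₂, h3⟩ : ∃ χ₂ : ↥(isometryGroup F (⇑Q)) →* ℤˣ, ∀ v (hv : Q v ≠ 0),
      χ₂ (refl Q v hv) = chiU (Q v) := by
    rcases Int.units_eq_one_or κ with rfl | rfl
    · exact ⟨ψ, fun v hv => by rw [hψ v hv, one_mul]⟩
    · refine ⟨ψ * χ₁, fun v hv => ?_⟩
      rw [MonoidHom.mul_apply, hψ v hv, h1 v hv]
      simp
  refine ⟨χ₁, χ₂, h1, h3, ?_, ?_⟩
  · intro g
    constructor
    · intro hg
      exact ⟨comm_map_one χ₁ hg, comm_map_one χ₂ hg⟩
    · rintro ⟨h4, h5⟩
      obtain ⟨L, hL, hgL⟩ := exists_list_of_isometry Q hQ (Or.inl hcard) g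
      rw [spinor_criterion h2 hn Q hQ g L hL hgL]
      have h6 := map_prod_refl Q L hL g hgL χ₁ (fun _ => -1) h1
      rw [h4] at h6
      simp only [List.map_const', List.prod_replicate] at h6
      refine ⟨(neg_one_pow_eq_one_iff_even (by decide)).1 h6.symm, ?_⟩
      have h7 := map_prod_refl Q L hL g hgL χ₂ (fun v => chiU (Q v)) h3
      rw [h5, ← (prod_chiU_eq Q L hL).2] at h7
      exact chiU_eq_one_iff.1 h7.symm
  · obtain ⟨ν, hν⟩ := FiniteField.exists_nonsquare hchar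
    have hν0 : ν ≠ 0 := fun h => hν (by simp [h])
    have hr : 2 ≤ Module.finrank F (ι → F) := by
      rwa [Module.finrank_fintype_fun_eq_card]
    obtain ⟨a, ha⟩ := exists_value_of_nondeg Q hQ hr 1
    obtain ⟨b, hb⟩ := exists_value_of_nondeg Q hQ hr ν
    have ha0 : Q a ≠ 0 := by rw [ha]; exact one_ne_zero
    have hb0 : Q b ≠ 0 := by rw [hb]; exact hν0
    have e1 : χ₁ (refl Q a ha0) = -1 := h1 a ha0
    have e2 : χ₁ (refl Q b hb0) = -1 := h1 b hb0
    have e3 : χ₂ (refl Q a ha0) = 1 := by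
      rw [h3, ha, chiU_eq_one_iff]
      exact IsSquare.one
    have e4 : χ₂ (refl Q b hb0) = -1 := by
      rw [h3, hb, chiU, if_neg hν]
    rintro ⟨x, y⟩
    rcases Int.units_eq_one_or x with rfl | rfl <;> rcases Int.units_eq_one_or y with rfl | rfl
    · exact ⟨1, by simp⟩
    · refine ⟨refl Q a ha0 * refl Q b hb0, ?_⟩
      simp [MonoidHom.prod_apply, e1, e2, e3, e4]
    · exact ⟨refl Q a ha0, by simp [MonoidHom.prod_apply, e1, e3]⟩
    · exact ⟨refl Q b hb0, by simp [MonoidHom.prod_apply, e2, e4]⟩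

end Cfsg.Agent.H03.OSpin
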