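import Mathlib
import Cfsg.Agent.Lib.H14.UniqueSub
import Cfsg.Agent.Lib.H18.FrobQ8
import Cfsg.Agent.Lib.H17.AbelianIrred
import Cfsg.Agent.Lib.H16.EndField

/-! Sharply doubly transitive near-fields with an involutive automorphism having few fixed points. -/

set_option autoImplicit false

namespace Cfsg.Agent.H03.PR

/-- A group with a cyclic Sylow `2`-subgroup and an involutive automorphism with at most two fixed
points has an abelian subgroup of index at most two. -/
theorem comm_index_two {H : Type*} [Group H] [Finite H] (hev : Even (Nat.card H)) (P : Sylow 2 H)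
    (hcyc : IsCyclic P) (τ : H →* H) (hτ : ∀ x, τ (τ x) = x) (z : H)
    (hfix : ∀ x, τ x = x → x = 1 ∨ x = z) (hz : z ^ 2 = 1) :
    ∃ K : Subgroup H, (∀ x ∈ K, ∀ y ∈ K, x * y = y * x) ∧ Nat.card H ≤ 2 * Nat.card K := by
  classical
  haveI : Fintype H := Fintype.ofFinite H
  have hmin : (Nat.card H).minFac = 2 := (Nat.minFac_eq_two_iff _).2 hev.two_dvd
  have hc := IsCyclic.isComplement' hmin hcyc
  set R : Subgroup H := (MonoidHom.transferSylow P (hcyc.normalizer_le_centralizer hmin)).ker with hR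
  haveI hRn : R.Normal := MonoidHom.normal_ker _
  have hcard : Nat.card R * Nat.card P = Nat.card H := hc.card_mul_card
  have hidx1 : Nat.card P * (P : Subgroup H).index = Nat.card H := Subgroup.card_mul_index _
  have hidx2 : R.index * Nat.card R = Nat.card H := by
    rw [mul_comm]
    exact Subgroup.card_mul_index R
  have hPpos : 0 < Nat.card P := Nat.card_pos
  have hRpos : 0 < Nat.card R := Nat.card_pos
  have hidx : R.index = Nat.card P := by
    have : R.index * Nat.card R = Nat.card P * Nat.card R := by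
      rw [hidx2, mul_comm (Nat.card P), hcard]
    exact Nat.eq_of_mul_eq_mul_right hRpos this
  have hidxP : (P : Subgroup H).index = Nat.card R := by
    have : Nat.card P * (P : Subgroup H).index = Nat.card P * Nat.card R := by
      rw [hidx1, mul_comm (Nat.card P), hcard]
    exact Nat.eq_of_mul_eq_mul_left hPpos this
  have hodd : ¬ 2 ∣ Nat.card R := by
    rw [← hidxP]
    exact P.not_dvd_index
  obtain ⟨n, hn⟩ : ∃ n, Nat.card P = 2 ^ n := IsPGroup.iff_card.1 P.2
  have hcop : Nat.Coprime (Nat.card R) (2 ^ n) :=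
    Nat.Coprime.pow_right _ ((Nat.coprime_comm.1 ((Nat.Prime.coprime_iff_not_dvd Nat.prime_two).2 hodd)))
  -- `τ` preserves `R`
  have hτR : ∀ r ∈ R, τ r ∈ R := by
    intro r hr
    have h1 : (τ r) ^ Nat.card R = 1 := by
      rw [← map_pow]
      have : r ^ Nat.card R = 1 := by
        have := pow_card_eq_one' (x := (⟨r, hr⟩ : R))
        exact congrArg Subtype.val this
      rw [this, map_one]
    have h2 : ((τ r : H) : H ⧸ R) ^ (2 ^ n) = 1 := by
      have : Nat.card (H ⧸ R) = 2 ^ n := by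
        rw [← Subgroup.index_eq_card, hidx, hn]
      rw [← this]
      exact pow_card_eq_one'
    have h3 : ((τ r : H) : H ⧸ R) ^ Nat.card R = 1 := by
      rw [← QuotientGroup.mk_pow, h1]
      rfl
    have h4 := orderOf_dvd_of_pow_eq_one h2
    have h5 := orderOf_dvd_of_pow_eq_one h3
    have h6 : orderOf ((τ r : H) : H ⧸ R) = 1 := Nat.eq_one_of_dvd_coprimes hcop h5 h4
    rw [orderOf_eq_one_iff] at h6
    exact (QuotientGroup.eq_one_iff _).1 h6
  -- `τ` inverts `R`
  let τR : R →* R := (τ.comp R.subtype).codRestrict R (fun x => hτR x x.2)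
  have hzR : z ∈ R → z = 1 := by
    intro hzm
    have h1 : (⟨z, hzm⟩ : R) ^ 2 = 1 := Subtype.ext hz
    have h2 := orderOf_dvd_of_pow_eq_one h1
    have h3 := orderOf_dvd_natCard (⟨z, hzm⟩ : R)
    have h4 : orderOf (⟨z, hzm⟩ : R) = 1 := by
      have h5 : orderOf (⟨z, hzm⟩ : R) ∣ 2 := h2
      rcases (Nat.dvd_prime Nat.prime_two).1 h5 with h6 | h6
      · exact h6
      · rw [h6] at h3
        exact absurd h3 hodd
    rw [orderOf_eq_one_iff] at h4
    exact congrArg Subtype.val h4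
  have hfpf : MonoidHom.FixedPointFree τR := by
    intro x hx
    have h1 : τ x.1 = x.1 := congrArg Subtype.val hx
    apply Subtype.ext
    rcases hfix x.1 h1 with h2 | h2
    · exact h2
    · have h3 : z = 1 := hzR (h2 ▸ x.2)
      rw [h2, h3]
      rfl
  have hτinv : Function.Involutive τR := fun x => Subtype.ext (hτ x.1)
  have hinv : ∀ r ∈ R, τ r = r⁻¹ := by
    intro r hr
    have h3 := hfpf.coe_eq_inv_of_involutive hτinv
    have h4 := congrFun h3 ⟨r, hr⟩
    exact congrArg Subtype.val h4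
  have hRcomm : ∀ a ∈ R, ∀ b ∈ R, a * b = b * a := by
    intro a ha b hb
    have h1 := hfpf.commute_all_of_involutive hτinv ⟨a, ha⟩ ⟨b, hb⟩
    exact congrArg Subtype.val h1.eq
  let K : Subgroup H := Subgroup.centralizer (R : Set H)
  have hKmem : ∀ x : H, x ∈ K ↔ ∀ r ∈ R, r * x = x * r := fun x => Subgroup.mem_centralizer_iff
  have hRK : ∀ r ∈ R, r ∈ K := fun r hr => (hKmem r).2 (fun s hs => hRcomm s hs r hr)
  have hcK : ∀ x : H, x⁻¹ * τ x ∈ K := by
    intro x
    rw [hKmem]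
    intro r hr
    have h1 : x * r⁻¹ * x⁻¹ ∈ R := hRn.conj_mem _ (inv_mem hr) x
    have h2 := hinv _ h1
    rw [map_mul, map_mul, map_inv, map_inv, hinv r hr, inv_inv] at h2
    have h3 : (x * r⁻¹ * x⁻¹)⁻¹ = x * r * x⁻¹ := by group
    rw [h3] at h2
    -- `τ x * r * (τ x)⁻¹ = x * r * x⁻¹`
    have h4 : r * (x⁻¹ * τ x) = x⁻¹ * (x * r * x⁻¹) * τ x := by group
    rw [h4, ← h2]
    group
  refine ⟨K, ?_, ?_⟩
  · intro x hx y hy
    obtain ⟨x₀, hrs, -⟩ := hc.existsUnique x
    obtain ⟨y₀, hrs', -⟩ := hc.existsUnique y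
    obtain ⟨r, s⟩ := x₀
    obtain ⟨r', s'⟩ := y₀
    have hrs1 : r.1 * s.1 = x := hrs
    have hrs2 : r'.1 * s'.1 = y := hrs'
    have hsK : s.1 ∈ K := by
      have : s.1 = r.1⁻¹ * x := by rw [← hrs1]; group
      rw [this]
      exact mul_mem (inv_mem (hRK _ r.2)) hx
    have hs'K : s'.1 ∈ K := by
      have : s'.1 = r'.1⁻¹ * y := by rw [← hrs2]; group
      rw [this]
      exact mul_mem (inv_mem (hRK _ r'.2)) hy
    have h1 : s.1 * r'.1 = r'.1 * s.1 := ((hKmem _).1 hsK r'.1 r'.2).symm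
    have h2 : s'.1 * r.1 = r.1 * s'.1 := ((hKmem _).1 hs'K r.1 r.2).symm
    have h3 : s.1 * s'.1 = s'.1 * s.1 := by
      obtain ⟨g, hg⟩ := hcyc.exists_generator
      obtain ⟨i, hi⟩ := hg s
      obtain ⟨j, hj⟩ := hg s'
      have h4 : s * s' = s' * s := by
        rw [← hi, ← hj]
        exact ((Commute.refl g).zpow_left i |>.zpow_right j).eq
      exact congrArg Subtype.val h4
    have h4 := hRcomm r.1 r.2 r'.1 r'.2
    rw [← hrs1, ← hrs2]
    calc r.1 * s.1 * (r'.1 * s'.1) = r.1 * (s.1 * r'.1) * s'.1 := by group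
      _ = r.1 * r'.1 * (s.1 * s'.1) := by rw [h1]; group
      _ = r'.1 * r.1 * (s'.1 * s.1) := by rw [h3, h4]
      _ = r'.1 * (s'.1 * r.1) * s.1 := by rw [h2]; group
      _ = r'.1 * s'.1 * (r.1 * s.1) := by group
  · -- counting
    haveI : Fintype K := Fintype.ofFinite K
    let F : H → K := fun x => ⟨x⁻¹ * τ x, hcK x⟩
    have hle := Finset.card_le_mul_card_image (f := F) Finset.univ 2 (by
      intro a ha
      obtain ⟨x, -, rfl⟩ := Finset.mem_image.1 ha
      have hsub : (Finset.univ.filter (fun y => F y = F x)) ⊆ {x, z * x} := by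
        intro y hy
        have hy' : F y = F x := (Finset.mem_filter.1 hy).2
        have h1 : y⁻¹ * τ y = x⁻¹ * τ x := congrArg Subtype.val hy'
        have h2 : τ (y * x⁻¹) = y * x⁻¹ := by
          rw [map_mul, map_inv]
          have h3 : τ y = y * (x⁻¹ * τ x) := by rw [← h1]; group
          rw [h3]
          group
        simp only [Finset.mem_insert, Finset.mem_singleton]
        rcases hfix _ h2 with h4 | h4
        · left
          exact mul_inv_eq_one.1 h4
        · right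
          exact mul_inv_eq_iff_eq_mul.1 h4
      calc _ ≤ ({x, z * x} : Finset H).card := Finset.card_le_card hsub
        _ ≤ 2 := Finset.card_le_two)
    rw [Finset.card_univ, ← Nat.card_eq_fintype_card] at hle
    refine hle.trans (Nat.mul_le_mul_left 2 ?_)
    rw [Nat.card_eq_fintype_card]
    exact Finset.card_le_univ _

/-- An element fixed by the `2i`-th and `f`-th powers of the Frobenius exponent, `f` odd. -/
theorem pow_frob_of_odd {H : Type*} [Group H] (a : H) (p i f : ℕ) (hfo : Odd f)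
    (h1 : a ^ (p ^ (2 * i)) = a) (h2 : a ^ (p ^ f) = a) : a ^ (p ^ i) = a := by
  have key : ∀ N : ℕ, a ^ N = a ↔ ((N : ZMod (orderOf a)) = 1) := by
    intro N
    have h3 : a ^ N = a ^ 1 ↔ N ≡ 1 [MOD orderOf a] := pow_eq_pow_iff_modEq
    rw [pow_one] at h3
    rw [h3, ← ZMod.natCast_eq_natCast_iff]
    simp
  rw [key] at h1 h2 ⊢
  push_cast at h1 h2 ⊢
  set w : ZMod (orderOf a) := (p : ZMod (orderOf a))
  have h3 := orderOf_dvd_of_pow_eq_one h1
  have h4 := orderOf_dvd_of_pow_eq_one h2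
  have h5 : Nat.Coprime (orderOf w) 2 := by
    have h6 : Odd (orderOf w) := Odd.of_dvd_nat hfo h4
    exact Nat.Coprime.symm (Nat.coprime_two_left.2 h6)
  have h6 : orderOf w ∣ i := h5.dvd_of_dvd_mul_left h3
  exact orderOf_dvd_iff_pow_eq_one.1 h6

section
variable {V H : Type*} [AddCommGroup V] [Finite V] [Group H] [Finite H]

theorem nf_free (ρ : H →* AddMonoid.End V) (hreg : ∀ v w : V, v ≠ 0 → w ≠ 0 → ∃! h : H, ρ h v = w)
    (x : H) (v : V) (hv : v ≠ 0) (h1 : ρ x v = v) : x = 1 := by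
  obtain ⟨k, -, hk⟩ := hreg v v hv hv
  rw [hk x h1]
  symm
  apply hk
  rw [map_one]
  rfl

theorem nf_mul (ρ : H →* AddMonoid.End V) (x y : H) (v : V) : ρ (x * y) v = ρ x (ρ y v) := by
  rw [map_mul]
  rfl

theorem nf_one (ρ : H →* AddMonoid.End V) (v : V) : ρ 1 v = v := by
  rw [map_one]
  rfl

theorem nf_invol (ρ : H →* AddMonoid.End V) (hreg : ∀ v w : V, v ≠ 0 → w ≠ 0 → ∃! h : H, ρ h v = w)
    (x : H) (hx : x ^ 2 = 1) (hx1 : x ≠ 1) (v : V) : ρ x v = -v := by
  by_contra hne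
  have hw : v + ρ x v ≠ 0 := fun h => hne (eq_neg_of_add_eq_zero_right h)
  apply hx1
  apply nf_free ρ hreg x _ hw
  rw [map_add, ← nf_mul, ← pow_two, hx, nf_one, add_comm]

theorem nf_card (ρ : H →* AddMonoid.End V) (hreg : ∀ v w : V, v ≠ 0 → w ≠ 0 → ∃! h : H, ρ h v = w)
    (hV : Nontrivial V) : Nat.card H + 1 = Nat.card V := by
  classical
  haveI : Fintype V := Fintype.ofFinite V
  obtain ⟨v, hv⟩ := exists_ne (0 : V)
  have hne : ∀ (h : H) (w : V), w ≠ 0 → ρ h w ≠ 0 := by
    intro h w hw h0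
    apply hw
    have h1 := nf_mul ρ h⁻¹ h w
    rw [inv_mul_cancel, nf_one, h0, map_zero] at h1
    exact h1
  let φ : H → {w : V // w ≠ 0} := fun h => ⟨ρ h v, hne h v hv⟩
  have hφ : Function.Bijective φ := by
    constructor
    · intro a b hab
      have h1 : ρ a v = ρ b v := congrArg Subtype.val hab
      obtain ⟨k, -, hk⟩ := hreg v (ρ b v) hv (hne b v hv)
      rw [hk a h1, hk b rfl]
    · intro w
      obtain ⟨k, hk, -⟩ := hreg v w.1 hv w.2
      exact ⟨k, Subtype.ext hk⟩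
  have h1 : Nat.card H = Nat.card {w : V // w ≠ 0} := Nat.card_congr (Equiv.ofBijective φ hφ)
  rw [h1, Nat.card_eq_fintype_card, Nat.card_eq_fintype_card, Fintype.card_subtype_compl,
    Fintype.card_subtype_eq]
  have : 0 < Fintype.card V := Fintype.card_pos
  omega

/-- The Sylow `2`-subgroups are cyclic unless `|V|` is a square. -/
theorem nf_sylow_cyclic (p f : ℕ) [hp : Fact p.Prime] (hp2 : p ≠ 2) (hfo : Odd f)
    (hV : Nat.card V = p ^ f) (ρ : H →* AddMonoid.End V)
    (hreg : ∀ v w : V, v ≠ 0 → w ≠ 0 → ∃! h : H, ρ h v = w) (P : Sylow 2 H) : IsCyclic P := by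
  have hVne : Nontrivial V := by
    rw [← Finite.one_lt_card_iff_nontrivial, hV]
    exact Nat.one_lt_pow hfo.pos.ne' hp.out.one_lt
  obtain ⟨v₀, hv₀⟩ := exists_ne (0 : V)
  have hinv : ∀ x y : H, x ^ 2 = 1 → y ^ 2 = 1 → x ≠ 1 → y ≠ 1 → x = y := by
    intro x y hx hy hx1 hy1
    obtain ⟨k, -, hk⟩ := hreg v₀ (-v₀) hv₀ (neg_ne_zero.2 hv₀)
    rw [hk x (nf_invol ρ hreg x hx hx1 v₀), hk y (nf_invol ρ hreg y hy hy1 v₀)]
  haveI : Fact (Nat.Prime 2) := ⟨Nat.prime_two⟩
  have hU : Cfsg.Agent.H14.UniqueP 2 P := by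
    intro x y hx hy
    have h1 : x ^ 2 = 1 := by
      have := pow_orderOf_eq_one x
      rwa [hx] at this
    have h2 : y ^ 2 = 1 := by
      have := pow_orderOf_eq_one y
      rwa [hy] at this
    have h3 : x.1 ≠ 1 := by
      intro h
      have : x = 1 := Subtype.ext h
      rw [this, orderOf_one] at hx
      omega
    have h4 : y.1 ≠ 1 := by
      intro h
      have : y = 1 := Subtype.ext h
      rw [this, orderOf_one] at hy
      omega
    have h5 : x.1 = y.1 := hinv _ _ (congrArg Subtype.val h1) (congrArg Subtype.val h2) h3 h4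
    have h6 : x = y := Subtype.ext h5
    rw [← h6]
    exact Subgroup.mem_zpowers x
  rcases Cfsg.Agent.H14.isCyclic_or_quaternion P.2 hU with h | ⟨-, k, hk, ⟨Φ⟩⟩
  · exact h
  · exfalso
    obtain ⟨u, v, h1, h2, h3, h4⟩ := Cfsg.Agent.H18.quat_elements k hk
    let ψ : QuaternionGroup (2 ^ k) →* H := (P : Subgroup H).subtype.comp Φ.symm.toMonoidHom
    have hψ : Function.Injective ψ := by
      intro a b hab
      exact Φ.symm.injective (Subtype.ext hab)
    have h1' : (ψ u ^ 2) ^ 2 = 1 := by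
      rw [← map_pow, ← map_pow, h1, map_one]
    have h2' : ψ u ^ 2 ≠ 1 := by
      intro h
      apply h2
      apply hψ
      rw [map_pow, h, map_one]
    have h3' : ψ v ^ 2 = ψ u ^ 2 := by rw [← map_pow, h3, map_pow]
    have h4' : ψ v * ψ u = (ψ u)⁻¹ * ψ v := by
      rw [← map_mul, h4, map_mul, map_inv]
    have hI : ∀ x : V, ρ (ψ u) (ρ (ψ u) x) = -x := by
      intro x
      rw [← nf_mul, ← pow_two]
      exact nf_invol ρ hreg _ h1' h2' x
    have hJ : ∀ x : V, ρ (ψ v) (ρ (ψ v) x) = -x := by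
      intro x
      rw [← nf_mul, ← pow_two, h3']
      exact nf_invol ρ hreg _ h1' h2' x
    have hIJ : ∀ x : V, ρ (ψ v) (ρ (ψ u) x) = - ρ (ψ u) (ρ (ψ v) x) := by
      intro x
      rw [← nf_mul, h4', nf_mul]
      have h5 : ∀ w : V, ρ (ψ u)⁻¹ w = - ρ (ψ u) w := by
        intro w
        have h6 := hI (ρ (ψ u)⁻¹ w)
        rw [← nf_mul (x := ψ u) (y := (ψ u)⁻¹), mul_inv_cancel, nf_one] at h6
        rw [h6, neg_neg]
      exact h5 _
    have hodd : Odd (p ^ f) := (hp.out.odd_of_ne_two hp2).pow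
    obtain ⟨r, hr⟩ := Cfsg.Agent.H18.isSquare_card_of_quat (p ^ f) V hV hodd (ρ (ψ u)) (ρ (ψ v)) hI hJ hIJ
    obtain ⟨j, -, rfl⟩ := (Nat.dvd_prime_pow hp.out).1 (⟨r, hr⟩ : r ∣ p ^ f)
    rw [← pow_add] at hr
    have h7 := Nat.pow_right_injective hp.out.two_le hr
    rw [h7] at hfo
    exact (Nat.not_odd_iff_even.2 ⟨j, rfl⟩) hfo

/-- A near-field with an abelian subgroup of index at most two in its multiplicative group, of
odd exponent, has commutative multiplicative group. -/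
theorem comm_of_index_two (p f : ℕ) [hp : Fact p.Prime] (hp2 : p ≠ 2) (hfo : Odd f)
    (hp0 : ∀ v : V, p • v = 0)
    (hV : Nat.card V = p ^ f) (ρ : H →* AddMonoid.End V)
    (hreg : ∀ v w : V, v ≠ 0 → w ≠ 0 → ∃! h : H, ρ h v = w) (K : Subgroup H)
    (hK : ∀ x ∈ K, ∀ y ∈ K, x * y = y * x) (hcK : Nat.card H ≤ 2 * Nat.card K) :
    ∀ a b : H, a * b = b * a := by
  classical
  have hVne : Nontrivial V := by
    rw [← Finite.one_lt_card_iff_nontrivial, hV]
    exact Nat.one_lt_pow hfo.pos.ne' hp.out.one_lt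
  have hH := nf_card ρ hreg hVne
  rw [hV] at hH
  by_cases hKtop : K = ⊤
  · intro a b
    exact hK a (by rw [hKtop]; trivial) b (by rw [hKtop]; trivial)
  have hidx : K.index = 2 := by
    have h1 := Subgroup.card_mul_index K
    have h2 : K.index ≠ 1 := fun h => hKtop (Subgroup.index_eq_one.1 h)
    have h3 : K.index ≠ 0 := Subgroup.index_ne_zero_of_finite
    have h4 : 0 < Nat.card K := Nat.card_pos
    have h5 : K.index ≤ 2 := by
      by_contra hcon
      push Not at hcon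
      have : Nat.card K * 3 ≤ Nat.card K * K.index := Nat.mul_le_mul_left _ hcon
      omega
    omega
  haveI hKn : K.Normal := Subgroup.normal_of_index_eq_two hidx
  letI : CommGroup K := { (inferInstance : Group K) with
    mul_comm := fun a b => Subtype.ext (hK a.1 a.2 b.1 b.2) }
  let φ : K →* AddMonoid.End V := ρ.comp K.subtype
  have hφ : ∀ (a : K) (v : V), φ a v = ρ a.1 v := fun _ _ => rfl
  have hirr : ∀ U : AddSubgroup V, (∀ a, ∀ u ∈ U, φ a u ∈ U) → U = ⊥ ∨ U = ⊤ := by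
    intro U hU
    by_cases hbot : U = ⊥
    · exact Or.inl hbot
    right
    obtain ⟨u, hu, hu0⟩ : ∃ u ∈ U, u ≠ 0 := by
      by_contra hcon
      push Not at hcon
      apply hbot
      rw [eq_bot_iff]
      intro x hx
      exact hcon x hx
    -- `K` embeds in the non-zero elements of `U`
    have hlt : Nat.card K < Nat.card U := by
      let g : K → U := fun a => ⟨φ a u, hU a u hu⟩
      have hg : Function.Injective g := by
        intro a b hab
        have h1 : ρ a.1 u = ρ b.1 u := congrArg Subtype.val hab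
        have h2 : ρ (b.1⁻¹ * a.1) u = u := by
          rw [nf_mul, h1, ← nf_mul, inv_mul_cancel, nf_one]
        have h3 := nf_free ρ hreg _ u hu0 h2
        exact Subtype.ext (inv_mul_eq_one.1 h3).symm
      have hn : (0 : U) ∉ Set.range g := by
        rintro ⟨a, ha⟩
        have h1 : ρ a.1 u = 0 := congrArg Subtype.val ha
        apply hu0
        have h2 := nf_mul ρ a.1⁻¹ a.1 u
        rw [inv_mul_cancel, nf_one, h1, map_zero] at h2
        exact h2
      haveI := Fintype.ofFinite K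
      haveI := Fintype.ofFinite U
      rw [Nat.card_eq_fintype_card, Nat.card_eq_fintype_card]
      exact Fintype.card_lt_of_injective_of_notMem g hg hn
    have hdvd : Nat.card U ∣ p ^ f := by
      rw [← hV]
      exact AddSubgroup.card_addSubgroup_dvd_card U
    obtain ⟨j, hj, hUj⟩ := (Nat.dvd_prime_pow hp.out).1 hdvd
    by_cases hjf : j = f
    · apply AddSubgroup.eq_top_of_card_eq
      rw [hUj, hjf, hV]
    · exfalso
      have hp3 : 3 ≤ p := by
        have := hp.out.two_le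
        omega
      have h1 : p ^ (j + 1) ≤ p ^ f := Nat.pow_le_pow_right hp.out.pos (by omega)
      have h2 : 3 * p ^ j ≤ p ^ (j + 1) := by
        rw [pow_succ, mul_comm]
        exact Nat.mul_le_mul_left _ hp3
      rw [hUj] at hlt
      omega
  obtain ⟨a, ha⟩ := Cfsg.Agent.H17.exists_gen_of_irreducible φ hirr
  have hinjK : Function.Injective φ := by
    intro b c hbc
    obtain ⟨v₀, hv₀⟩ := exists_ne (0 : V)
    have h1 : ρ b.1 v₀ = ρ c.1 v₀ := congrFun (congrArg DFunLike.coe hbc) v₀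
    have h2 : ρ (c.1⁻¹ * b.1) v₀ = v₀ := by
      rw [nf_mul, h1, ← nf_mul, inv_mul_cancel, nf_one]
    have h3 := nf_free ρ hreg _ v₀ hv₀ h2
    exact Subtype.ext (inv_mul_eq_one.1 h3).symm
  have hgen : ∀ b : K, ∃ n : ℕ, b = a ^ n := by
    intro b
    obtain ⟨k, hk⟩ := ha b
    have h1 : b ∈ Subgroup.zpowers a := ⟨k, (hinjK hk).symm⟩
    rw [← mem_powers_iff_mem_zpowers] at h1
    obtain ⟨n, hn⟩ := h1
    exact ⟨n, hn.symm⟩
  have hgen' : ∀ b ∈ K, ∃ n : ℕ, b = a.1 ^ n := by
    intro b hb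
    obtain ⟨n, hn⟩ := hgen ⟨b, hb⟩
    exact ⟨n, by simpa using congrArg Subtype.val hn⟩
  have hirr0 : ∀ U : AddSubgroup V, (∀ u ∈ U, ρ a.1 u ∈ U) → U = ⊥ ∨ U = ⊤ := by
    intro U hU
    apply hirr
    intro b u hu
    obtain ⟨n, rfl⟩ := hgen b
    rw [map_pow]
    induction n with
    | zero => simpa using hu
    | succ n ih =>
      rw [pow_succ']
      exact hU _ ih
  have hinjH : Function.Injective ρ := by
    intro b c hbc
    obtain ⟨v₀, hv₀⟩ := exists_ne (0 : V)
    have h1 : ρ b v₀ = ρ c v₀ := congrFun (congrArg DFunLike.coe hbc) v₀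
    have h2 : ρ (c⁻¹ * b) v₀ = v₀ := by
      rw [nf_mul, h1, ← nf_mul, inv_mul_cancel, nf_one]
    have h3 := nf_free ρ hreg _ v₀ hv₀ h2
    exact (inv_mul_eq_one.1 h3).symm
  have hp0' : ∀ v : V, p • v = 0 := hp0
  -- `a` is centralised by every element
  have hcent : ∀ y : H, y * a.1 = a.1 * y := by
    intro y
    by_cases hy : y ∈ K
    · exact hK y hy a.1 a.2
    obtain ⟨k, hk⟩ := hgen' (y * a.1 * y⁻¹) (hKn.conj_mem a.1 a.2 y)
    have hconj : ρ y * ρ a.1 * ρ y⁻¹ = ρ a.1 ^ k := by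
      rw [← map_mul, ← map_mul, hk, map_pow]
    obtain ⟨i, hi⟩ := Cfsg.Agent.H16.op_conj_pow p hp0' (ρ a.1) hirr0 (ρ y) (ρ y⁻¹)
      (by rw [← map_mul, mul_inv_cancel, map_one]) (by rw [← map_mul, inv_mul_cancel, map_one]) k hconj
    have hk2 : y * a.1 * y⁻¹ = a.1 ^ (p ^ i) := by
      rw [hk]
      apply hinjH
      rw [map_pow, map_pow, hi]
    have hy2 : y * y ∈ K := Subgroup.mul_self_mem_of_index_two hidx y
    have h3 : (y * y) * a.1 * (y * y)⁻¹ = a.1 := by
      rw [hK _ hy2 a.1 a.2]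
      group
    have h4 : (y * y) * a.1 * (y * y)⁻¹ = (a.1 ^ (p ^ i)) ^ (p ^ i) := by
      have h5 : (y * y) * a.1 * (y * y)⁻¹ = y * (y * a.1 * y⁻¹) * y⁻¹ := by group
      rw [h5, hk2]
      have h6 : y * a.1 ^ (p ^ i) * y⁻¹ = (y * a.1 * y⁻¹) ^ (p ^ i) := by
        rw [conj_pow]
      rw [h6, hk2]
    have h5 : a.1 ^ (p ^ (2 * i)) = a.1 := by
      rw [two_mul, pow_add, pow_mul, ← h4, h3]
    have h6 : a.1 ^ (p ^ f) = a.1 := by
      have h7 : a.1 ^ Nat.card H = 1 := pow_card_eq_one'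
      have h8 : p ^ f = Nat.card H + 1 := hH.symm
      rw [h8, pow_succ, h7, one_mul]
    have h7 := pow_frob_of_odd a.1 p i f hfo h5 h6
    rw [h7] at hk2
    exact (mul_inv_eq_iff_eq_mul.1 hk2)
  have hcentK : ∀ b ∈ K, ∀ y : H, y * b = b * y := by
    intro b hb y
    obtain ⟨n, rfl⟩ := hgen' b hb
    exact ((Commute.refl y).pow_right n |>.eq) |> fun _ => by
      have h1 : Commute y a.1 := hcent y
      exact (h1.pow_right n).eq
  intro x y
  by_cases hx : x ∈ K
  · exact (hcentK x hx y).symm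
  by_cases hy : y ∈ K
  · exact hcentK y hy x
  have h1 : x⁻¹ * y ∈ K := by
    rw [Subgroup.mul_mem_iff_of_index_two hidx]
    constructor
    · intro h
      exact absurd (by simpa using inv_mem h) hx
    · intro h
      exact absurd h hy
  have h2 := hcentK _ h1 x
  have h3 : y = x * (x⁻¹ * y) := by group
  rw [h3]
  calc x * (x * (x⁻¹ * y)) = x * (x * (x⁻¹ * y)) := rfl
    _ = x * ((x⁻¹ * y) * x) := by rw [h2]
    _ = x * (x⁻¹ * y) * x := by group

/-- The multiplicative group of a near-field of odd exponent with an involutive automorphism with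
fixed points of order at most two is abelian. -/
theorem nf_comm (p f : ℕ) [hp : Fact p.Prime] (hp2 : p ≠ 2) (hfo : Odd f)
    (hp0 : ∀ v : V, p • v = 0)
    (hV : Nat.card V = p ^ f) (ρ : H →* AddMonoid.End V)
    (hreg : ∀ v w : V, v ≠ 0 → w ≠ 0 → ∃! h : H, ρ h v = w)
    (τ : H →* H) (hτ : ∀ x, τ (τ x) = x) (hfix : ∀ x, τ x = x → x ^ 2 = 1) :
    ∀ a b : H, a * b = b * a := by
  classical
  have hVne : Nontrivial V := by
    rw [← Finite.one_lt_card_iff_nontrivial, hV]
    exact Nat.one_lt_pow hfo.pos.ne' hp.out.one_lt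
  have hH := nf_card ρ hreg hVne
  rw [hV] at hH
  have hodd : Odd (p ^ f) := (hp.out.odd_of_ne_two hp2).pow
  have hev : Even (Nat.card H) := by
    rcases hodd with ⟨m, hm⟩
    exact ⟨m, by omega⟩
  haveI : Fact (Nat.Prime 2) := ⟨Nat.prime_two⟩
  obtain ⟨z, hz⟩ := exists_prime_orderOf_dvd_card' (G := H) 2 hev.two_dvd
  have hz2 : z ^ 2 = 1 := by rw [← hz]; exact pow_orderOf_eq_one z
  have hz1 : z ≠ 1 := by
    intro h
    rw [h, orderOf_one] at hz
    omega
  obtain ⟨v₀, hv₀⟩ := exists_ne (0 : V)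
  have hfix' : ∀ x, τ x = x → x = 1 ∨ x = z := by
    intro x hx
    by_cases hx1 : x = 1
    · exact Or.inl hx1
    right
    obtain ⟨k, -, hk⟩ := hreg v₀ (-v₀) hv₀ (neg_ne_zero.2 hv₀)
    rw [hk x (nf_invol ρ hreg x (hfix x hx) hx1 v₀), hk z (nf_invol ρ hreg z hz2 hz1 v₀)]
  obtain ⟨P⟩ : Nonempty (Sylow 2 H) := inferInstance
  obtain ⟨K, hK, hcK⟩ := comm_index_two hev P (nf_sylow_cyclic p f hp2 hfo hV ρ hreg P) τ hτ z hfix' hz2
  exact comm_of_index_two p f hp2 hfo hp0 hV ρ hreg K hK hcK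

end

end Cfsg.Agent.H03.PR
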