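import Mathlib
import Cfsg.Agent.Lib.H03.PR3
import Cfsg.Agent.Lib.H03.PR4

/-! Sharply triply transitive groups of degree `p^f+1`, `p`, `f` odd. -/

set_option autoImplicit false

namespace Cfsg.Agent.H03.PR

universe u v

section
variable {G : Type u} {α : Type v} [Group G] [MulAction G α]

/-- Two-point stabilisers in sharply triply transitive groups of degree `p^f+1`, with `p`, `f` odd,
are abelian. -/
theorem comm_of_sharp3 [Fintype α] (hS : Sharp3 G α) (inf o e : α) (h1 : inf ≠ o) (h2 : inf ≠ e) (h3 : o ≠ e)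
    (t : G) (ht1 : t • inf = o) (ht2 : t • o = inf) (ht3 : t • e = e) (ht : t * t = 1)
    (p f : ℕ) [hp : Fact p.Prime] (hp2 : p ≠ 2) (hfo : Odd f) (hα : Fintype.card α = p ^ f + 1) :
    ∀ x y : G, x • inf = inf → x • o = o → y • inf = inf → y • o = o → x * y = y * x := by
  classical
  letI := actY (G := G) inf
  let Γ := MulAction.stabilizer G inf
  let Y := {y : α // y ≠ inf}
  have hsmul : ∀ (g : Γ) (y : Y), ((g • y : Y) : α) = g.1 • y.1 := fun _ _ => rfl
  have hcardY : Fintype.card Y = p ^ f := by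
    have h0 : Fintype.card Y = Fintype.card α - 1 := by
      rw [Fintype.card_subtype_compl, Fintype.card_subtype_eq]
    rw [h0, hα]
    omega
  have hpf2 : 2 ≤ p ^ f := by
    have := hp.out.two_le
    calc 2 ≤ p := this
      _ = p ^ 1 := (pow_one p).symm
      _ ≤ p ^ f := Nat.pow_le_pow_right (by omega) (by have := hfo.pos; omega)
  let o' : Y := ⟨o, h1.symm⟩
  let e' : Y := ⟨e, h2.symm⟩
  have hoe' : o' ≠ e' := fun h => h3 (congrArg Subtype.val h)
  have hex : ∀ a b c d : Y, a ≠ b → c ≠ d → ∃ g : Γ, g • a = c ∧ g • b = d := by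
    intro a b c d hab hcd
    have hab' : a.1 ≠ b.1 := fun h => hab (Subtype.ext h)
    have hcd' : c.1 ≠ d.1 := fun h => hcd (Subtype.ext h)
    obtain ⟨g, h4, h5, h6⟩ := hS.trans inf a.1 b.1 inf c.1 d.1 a.2.symm b.2.symm hab' c.2.symm d.2.symm hcd'
    exact ⟨⟨g, h4⟩, Subtype.ext h5, Subtype.ext h6⟩
  have hrig : ∀ (g : Γ) (a b : Y), a ≠ b → g • a = a → g • b = b → g = 1 := by
    intro g a b hab h4 h5
    have hab' : a.1 ≠ b.1 := fun h => hab (Subtype.ext h)
    have h6 : g.1 • a.1 = a.1 := congrArg Subtype.val h4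
    have h7 : g.1 • b.1 = b.1 := congrArg Subtype.val h5
    exact Subtype.ext (hS.rigid g.1 inf a.1 b.1 a.2.symm b.2.symm hab' g.2 h6 h7)
  obtain ⟨E, p', j, hp', hj, hcardE, hEn, hEab, hEp, hEt, hEs⟩ :=
    sharp2_abstract (Γ := Γ) (Y := Y) (by omega) hex hrig
  have hpp : p' = p := by
    have h4 : p' ∣ p ^ f := by
      rw [← hcardY, hcardE]
      exact dvd_pow_self _ (by omega)
    exact (Nat.prime_dvd_prime_iff_eq hp' hp.out).1 (hp'.dvd_of_dvd_pow h4)
  subst hpp
  let H : Subgroup Γ := MulAction.stabilizer Γ o'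
  have hHmem : ∀ h : Γ, h ∈ H ↔ h • o' = o' := fun _ => Iff.rfl
  -- the vector space
  letI : CommGroup E := { (inferInstance : Group E) with
    mul_comm := fun a b => Subtype.ext (hEab a.1 a.2 b.1 b.2) }
  let V := Additive E
  let pt : V → Y := fun v => (Additive.toMul v).1 • o'
  have hptinj : Function.Injective pt := by
    intro a b hab
    have h4 : ((Additive.toMul b).1⁻¹ * (Additive.toMul a).1) • o' = o' := by
      rw [mul_smul]
      show (Additive.toMul b).1⁻¹ • pt a = o'
      rw [hab]
      exact inv_smul_smul _ _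
    have h5 := hEs _ (mul_mem (inv_mem (Additive.toMul b).2) (Additive.toMul a).2) o' h4
    have h6 : (Additive.toMul a).1 = (Additive.toMul b).1 := (inv_mul_eq_one.1 h5).symm
    exact Additive.toMul.injective (Subtype.ext h6)
  have hptsurj : Function.Surjective pt := by
    intro y
    obtain ⟨u, hu, huo⟩ := hEt o' y
    exact ⟨Additive.ofMul ⟨u, hu⟩, huo⟩
  haveI : Finite Y := inferInstance
  haveI : Finite V := Finite.of_injective pt hptinj
  have hcV : Nat.card V = p' ^ f := by
    rw [Nat.card_congr (Equiv.ofBijective pt ⟨hptinj, hptsurj⟩), Nat.card_eq_fintype_card]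
    exact hcardY
  have hpt0 : pt 0 = o' := one_smul _ _
  have hptne : ∀ v : V, v ≠ 0 → pt v ≠ o' := by
    intro v hv h
    apply hv
    apply hptinj
    rw [h, hpt0]
  -- the action of `H`
  let conjV : H → V → V := fun h v => Additive.ofMul ⟨h.1 * (Additive.toMul v).1 * h.1⁻¹,
    hEn.conj_mem _ (Additive.toMul v).2 _⟩
  have hconjpt : ∀ (h : H) (v : V), pt (conjV h v) = h.1 • pt v := by
    intro h v
    show (h.1 * (Additive.toMul v).1 * h.1⁻¹) • o' = h.1 • (Additive.toMul v).1 • o'
    have h4 : h.1⁻¹ • o' = o' := (inv_mem h.2 : h⁻¹.1 • o' = o')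
    rw [mul_smul, mul_smul, h4]
  let ρ : H →* AddMonoid.End V :=
    { toFun := fun h =>
        { toFun := conjV h
          map_zero' := by
            apply hptinj
            rw [hconjpt, hpt0]
            exact h.2
          map_add' := fun a b => by
            apply Additive.toMul.injective
            apply Subtype.ext
            show h.1 * ((Additive.toMul a).1 * (Additive.toMul b).1) * h.1⁻¹ =
              (h.1 * (Additive.toMul a).1 * h.1⁻¹) * (h.1 * (Additive.toMul b).1 * h.1⁻¹)
            group }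
      map_one' := by
        apply AddMonoidHom.ext
        intro v
        apply hptinj
        show pt (conjV 1 v) = _
        rw [hconjpt]
        exact one_smul _ _
      map_mul' := fun a b => by
        apply AddMonoidHom.ext
        intro v
        apply hptinj
        show pt (conjV (a * b) v) = pt (conjV a (conjV b v))
        rw [hconjpt, hconjpt, hconjpt]
        exact mul_smul _ _ _ }
  have hρ : ∀ (h : H) (v : V), ρ h v = conjV h v := fun _ _ => rfl
  -- regularity
  have hHfin : Finite H := by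
    apply Finite.of_injective (fun h : H => h.1 • e')
    intro a b hab
    have h4 : (b.1⁻¹ * a.1) • e' = e' := by
      rw [mul_smul]
      show b.1⁻¹ • (a.1 • e') = e'
      have h5 : a.1 • e' = b.1 • e' := hab
      rw [h5]
      exact inv_smul_smul _ _
    have h5 : (b.1⁻¹ * a.1) • o' = o' := (mul_mem (inv_mem b.2) a.2 : (b.1⁻¹ * a.1) ∈ H)
    have h6 := hrig _ _ _ hoe'.symm h4 h5
    exact Subtype.ext (inv_mul_eq_one.1 h6).symm
  have hreg : ∀ v w : V, v ≠ 0 → w ≠ 0 → ∃! h : H, ρ h v = w := by
    intro v w hv hw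
    have hv' := hptne v hv
    have hw' := hptne w hw
    obtain ⟨g, h4, h5⟩ := hex o' (pt v) o' (pt w) hv'.symm hw'.symm
    refine ⟨⟨g, h4⟩, ?_, ?_⟩
    · apply hptinj
      rw [hρ, hconjpt]
      exact h5
    · intro h' hh'
      have h6 : h'.1 • pt v = pt w := by
        rw [← hconjpt, ← hρ, hh']
      apply Subtype.ext
      have h7 : (g⁻¹ * h'.1) • pt v = pt v := by
        rw [mul_smul, h6, ← h5, inv_smul_smul]
      have h8 : (g⁻¹ * h'.1) • o' = o' := by
        rw [mul_smul]
        have h9 : h'.1 • o' = o' := h'.2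
        rw [h9, ← h4]
        rw [inv_smul_smul, h4]
      have h9 := hrig _ _ _ hv'.symm h8 h7
      exact (inv_mul_eq_one.1 h9).symm
  -- the involution
  have hinv : t⁻¹ = t := inv_eq_of_mul_eq_one_left ht
  let τf : H → H := fun h => ⟨⟨t * h.1.1 * t⁻¹, by
      have h4 : h.1.1 • o = o := congrArg Subtype.val h.2
      show (t * h.1.1 * t⁻¹) • inf = inf
      rw [hinv, mul_smul, mul_smul, ht1, h4, ht2]⟩, by
      apply Subtype.ext
      have h4 : h.1.1 • inf = inf := h.1.2
      show (t * h.1.1 * t⁻¹) • o = o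
      rw [hinv, mul_smul, mul_smul, ht2, h4, ht1]⟩
  let τ : H →* H :=
    { toFun := τf
      map_one' := by
        apply Subtype.ext
        apply Subtype.ext
        show t * 1 * t⁻¹ = 1
        group
      map_mul' := fun a b => by
        apply Subtype.ext
        apply Subtype.ext
        show t * (a.1.1 * b.1.1) * t⁻¹ = (t * a.1.1 * t⁻¹) * (t * b.1.1 * t⁻¹)
        group }
  have hτ : ∀ x, τ (τ x) = x := by
    intro x
    apply Subtype.ext
    apply Subtype.ext
    show t * (t * x.1.1 * t⁻¹) * t⁻¹ = x.1.1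
    rw [hinv]
    have h4 : t * (t * x.1.1 * t) * t = (t * t) * x.1.1 * (t * t) := by group
    rw [h4, ht]
    group
  -- fixed points of the involution
  have hfixt : ∃ e₂ : α, e₂ ≠ e ∧ t • e₂ = e₂ ∧ ∀ y : α, t • y = y → y = e ∨ y = e₂ := by
    have h7 := card_fix_mod_two (fun y : α => t • y) (fun y => by
      show t • (t • y) = y
      rw [← mul_smul, ht, one_smul])
    have h8 : Fintype.card α % 2 = 0 := by
      rw [hα]
      have : Odd (p' ^ f) := (hp.out.odd_of_ne_two hp2).pow
      obtain ⟨m, hm⟩ := this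
      omega
    have h9 : ∃ e₂ : α, e₂ ≠ e ∧ t • e₂ = e₂ := by
      by_contra hcon
      push Not at hcon
      have h10 : Nat.card {y : α // t • y = y} = 1 := by
        rw [Nat.card_eq_one_iff_unique]
        refine ⟨⟨?_⟩, ⟨⟨e, ht3⟩⟩⟩
        rintro ⟨a, ha⟩ ⟨b, hb⟩
        apply Subtype.ext
        by_cases h11 : a = e
        · by_cases h12 : b = e
          · exact h11.trans h12.symm
          · exact absurd hb (hcon b h12)
        · exact absurd ha (hcon a h11)
      omega
    obtain ⟨e₂, h10, h11⟩ := h9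
    refine ⟨e₂, h10, h11, ?_⟩
    intro y hy
    by_contra hcon
    push Not at hcon
    have h12 := hS.rigid t e e₂ y h10.symm hcon.1.symm hcon.2.symm ht3 h11 hy
    rw [h12, one_smul] at ht1
    exact h1 ht1
  obtain ⟨e₂, he₂, hte₂, hF⟩ := hfixt
  have hfix : ∀ x : H, τ x = x → x ^ 2 = 1 := by
    intro x hx
    have hx' : t * x.1.1 * t⁻¹ = x.1.1 := congrArg (fun z : H => z.1.1) hx
    have hxt : ∀ y : α, t • y = y → t • (x.1.1 • y) = x.1.1 • y := by
      intro y hy
      have h4 : t • (x.1.1 • y) = (t * x.1.1 * t⁻¹) • (t • y) := by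
        rw [mul_smul, mul_smul, inv_smul_smul]
      rw [h4, hx', hy]
    have hxinf : x.1.1 • inf = inf := x.1.2
    have hxo : x.1.1 • o = o := congrArg Subtype.val x.2
    have hsq : (x.1.1 * x.1.1) • e = e := by
      rw [mul_smul]
      rcases hF _ (hxt e ht3) with h4 | h4
      · rw [h4, h4]
      · have h5 : x.1.1 • e₂ = e := by
          rcases hF _ (hxt e₂ hte₂) with h6 | h6
          · exact h6
          · exfalso
            apply he₂
            have h7 : x.1.1 • e₂ = x.1.1 • e := by rw [h6, h4]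
            exact MulAction.injective _ h7
        rw [h4, h5]
    have h5 : x.1.1 * x.1.1 = 1 := hS.rigid _ inf o e h1 h2 h3
      (by rw [mul_smul, hxinf, hxinf]) (by rw [mul_smul, hxo, hxo]) hsq
    apply Subtype.ext
    apply Subtype.ext
    show x.1.1 ^ 2 = 1
    rw [pow_two, h5]
  have hp0 : ∀ v : V, p' • v = 0 := by
    intro v
    apply Additive.toMul.injective
    apply Subtype.ext
    show (Additive.toMul v).1 ^ p' = 1
    exact hEp _ (Additive.toMul v).2
  have key := nf_comm p' f hp2 hfo hp0 hcV ρ hreg τ hτ hfix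
  intro x y hx1 hx2 hy1 hy2
  have h4 := key ⟨⟨x, hx1⟩, Subtype.ext hx2⟩ ⟨⟨y, hy1⟩, Subtype.ext hy2⟩
  exact congrArg (fun z : H => z.1.1) h4

end

end Cfsg.Agent.H03.PR
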