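import Mathlib
import Cfsg.Agent.Lib.H03.PR5

/-! Sharply triply transitive groups with abelian two-point stabilisers. -/

set_option autoImplicit false

namespace Cfsg.Agent.H03.PR

universe u v

section
variable {G : Type u} {α : Type v} [Group G] [MulAction G α]

/-- The field structure on the affine line, if two-point stabilisers are abelian. -/
theorem field_of_sharp3 [Fintype α] (hS : Sharp3 G α) (inf o e : α) (h1 : inf ≠ o) (h2 : inf ≠ e) (h3 : o ≠ e)
    (hcomm : ∀ x y : G, x • inf = inf → x • o = o → y • inf = inf → y • o = o → x * y = y * x) :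
    ∃ _ : Field {y : α // y ≠ inf}, ((0 : {y : α // y ≠ inf}) : α) = o ∧
      ((1 : {y : α // y ≠ inf}) : α) = e ∧
      (∀ g : G, g • inf = inf → ∃ a b : {y : α // y ≠ inf}, a ≠ 0 ∧
        ∀ y : {y : α // y ≠ inf}, g • y.1 = (a * y + b).1) ∧
      (∀ a b : {y : α // y ≠ inf}, a ≠ 0 → ∃ g : G, g • inf = inf ∧
        ∀ y : {y : α // y ≠ inf}, g • y.1 = (a * y + b).1) := by
  classical
  letI := actY (G := G) inf
  let Γ := MulAction.stabilizer G inf
  let Y := {y : α // y ≠ inf}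
  have hsmul : ∀ (g : Γ) (y : Y), ((g • y : Y) : α) = g.1 • y.1 := fun _ _ => rfl
  let o' : Y := ⟨o, h1.symm⟩
  let e' : Y := ⟨e, h2.symm⟩
  have hoe' : o' ≠ e' := fun h => h3 (congrArg Subtype.val h)
  have hY2 : 2 ≤ Fintype.card Y := by
    have : Nontrivial Y := ⟨⟨o', e', hoe'⟩⟩
    exact Fintype.one_lt_card
  have hex : ∀ a b c d : Y, a ≠ b → c ≠ d → ∃ g : Γ, g • a = c ∧ g • b = d := by
    intro a b c d hab hcd
    have hab' : a.1 ≠ b.1 := fun h => hab (Subtype.ext h)
    have hcd' : c.1 ≠ d.1 := fun h => hcd (Subtype.ext h)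
    obtain ⟨g, h4, h5, h6⟩ := hS.trans inf a.1 b.1 inf c.1 d.1 a.2.symm b.2.symm hab' c.2.symm d.2.symm hcd'
    exact ⟨⟨g, h4⟩, Subtype.ext h5, Subtype.ext h6⟩
  have hrig : ∀ (g : Γ) (a b : Y), a ≠ b → g • a = a → g • b = b → g = 1 := by
    intro g a b hab h4 h5
    have hab' : a.1 ≠ b.1 := fun h => hab (Subtype.ext h)
    have h6 : g.1 • a.1 = a.1 := congrArg Subtype.val h4
    have h7 : g.1 • b.1 = b.1 := congrArg Subtype.val h5
    exact Subtype.ext (hS.rigid g.1 inf a.1 b.1 a.2.symm b.2.symm hab' g.2 h6 h7)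
  obtain ⟨E, p', j, hp', hj, hcardE, hEn, hEab, -, hEt, hEs⟩ :=
    sharp2_abstract (Γ := Γ) (Y := Y) hY2 hex hrig
  let H : Subgroup Γ := MulAction.stabilizer Γ o'
  have hHmem : ∀ h : Γ, h ∈ H ↔ h • o' = o' := fun _ => Iff.rfl
  have hHreg : ∀ y : Y, y ≠ o' → ∃ h ∈ H, h • e' = y := by
    intro y hy
    have hy' : y.1 ≠ o := fun h => hy (Subtype.ext h)
    obtain ⟨g, h4, h5, h6⟩ := hS.trans inf o e inf o y.1 h1 h2 h3 h1 y.2.symm hy'.symm
    exact ⟨⟨g, h4⟩, Subtype.ext h5, Subtype.ext h6⟩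
  obtain ⟨hF, hF0, hF1, hFE, hFH⟩ := exists_field_of_action (Y := Y) (Γ := Γ) E H o' e' hoe' hEab
    (fun y => hEt o' y)
    (fun u hu v hv huv => by
      have h4 : (v⁻¹ * u) • o' = o' := by rw [mul_smul, huv, inv_smul_smul]
      have h5 := hEs _ (mul_mem (inv_mem hv) hu) o' h4
      exact (inv_mul_eq_one.1 h5).symm)
    (fun h hh => hh)
    (fun x hx y hy => by
      apply Subtype.ext
      exact hcomm x.1 y.1 x.2 (congrArg Subtype.val hx) y.2 (congrArg Subtype.val hy))
    hHreg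
    (fun u hu v hv huv => by
      have h4 : (v⁻¹ * u) • e' = e' := by rw [mul_smul, huv, inv_smul_smul]
      have h5 : (v⁻¹ * u) • o' = o' := mul_mem (inv_mem hv) hu
      exact (inv_mul_eq_one.1 (hrig _ _ _ hoe'.symm h4 h5)).symm)
    (fun h _ u hu => hEn.conj_mem u hu h)
  refine ⟨hF, congrArg Subtype.val hF0, congrArg Subtype.val hF1, ?_, ?_⟩
  · intro g hg
    let γ : Γ := ⟨g, hg⟩
    obtain ⟨u, hu, huo⟩ := hEt o' (γ • o')
    have hh : u⁻¹ * γ ∈ H := by
      show (u⁻¹ * γ) • o' = o'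
      rw [mul_smul, ← huo, inv_smul_smul]
    have hne : (u⁻¹ * γ) • e' ≠ (0 : Y) := by
      rw [hF0]
      intro h5
      apply hoe'
      have h6 : (u⁻¹ * γ) • o' = o' := hh
      exact MulAction.injective (u⁻¹ * γ) (h6.trans h5.symm)
    refine ⟨(u⁻¹ * γ) • e', γ • o', hne, ?_⟩
    intro y
    have h7 : γ = u * (u⁻¹ * γ) := by group
    have h8 : γ • y = u • ((u⁻¹ * γ) • y) := by
      rw [← mul_smul, ← h7]
    have h9 : g • y.1 = (γ • y).1 := rfl
    rw [h9, h8, hFE u hu, hFH _ hh, huo, add_comm]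
  · intro a b ha
    have hane : a ≠ o' := by
      rw [← hF0]
      exact ha
    obtain ⟨h, hh, hhe⟩ := hHreg a hane
    obtain ⟨u, hu, huo⟩ := hEt o' b
    refine ⟨(u * h).1, (u * h).2, ?_⟩
    intro y
    have h9 : (u * h).1 • y.1 = ((u * h) • y).1 := rfl
    rw [h9, mul_smul, hFH h hh, hFE u hu, hhe, huo, add_comm]

/-- Twist elimination: the inversion on the field. -/
theorem inv_of_field {Y : Type*} [Field Y] [Finite Y] (inf : α) (c : Y → α) (hc : Function.Injective c)
    (hcinf : ∀ y, c y ≠ inf) (hcs : ∀ x, x ≠ inf → ∃ y, c y = x)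
    (hS : Sharp3 G α) (o e : α) (h1 : inf ≠ o) (h2 : inf ≠ e) (h3 : o ≠ e)
    (t : G) (ht1 : t • inf = o) (ht2 : t • o = inf) (ht3 : t • e = e) (ht : t * t = 1)
    (h0 : c 0 = o) (hone : c 1 = e)
    (haff1 : ∀ g : G, g • inf = inf → ∃ a b : Y, a ≠ 0 ∧ ∀ y : Y, g • c y = c (a * y + b))
    (haff2 : ∀ a b : Y, a ≠ 0 → ∃ g : G, g • inf = inf ∧ ∀ y : Y, g • c y = c (a * y + b))
    (hchar : (2 : Y) ≠ 0) :
    ∀ h : G, h • inf = inf → h • o = o → t * h * t⁻¹ = h⁻¹ := by
  classical
  have hinv : t⁻¹ = t := inv_eq_of_mul_eq_one_left ht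
  have hYext : ∀ a b : Y, c a = c b → a = b := fun a b h => hc h
  have hmulG : ∀ a : Y, a ≠ 0 → ∃ g : G, g • inf = inf ∧ ∀ y : Y, g • c y = c (a * y) := by
    intro a ha
    obtain ⟨g, hg1, hg2⟩ := haff2 a 0 ha
    exact ⟨g, hg1, fun y => by rw [hg2, add_zero]⟩
  have htne : ∀ y : Y, y ≠ 0 → t • c y ≠ inf := by
    intro y hy h
    apply hy
    apply hYext
    rw [h0]
    exact MulAction.injective t (h.trans ht2.symm)
  let σ : Y → Y := fun y => if hy : y = 0 then 0 else Classical.choose (hcs _ (htne y hy))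
  have hσ : ∀ y : Y, y ≠ 0 → c (σ y) = t • c y := by
    intro y hy
    simp only [σ, dif_neg hy]
    exact Classical.choose_spec (hcs _ (htne y hy))
  have hone0 : (1 : Y) ≠ 0 := one_ne_zero
  have hσ1 : σ 1 = 1 := by
    apply hYext
    rw [hσ 1 hone0, hone, ht3]
  have hσne : ∀ y : Y, y ≠ 0 → σ y ≠ 0 := by
    intro y hy h
    have h4 := hσ y hy
    rw [h, h0] at h4
    apply hcinf y
    exact MulAction.injective t (h4.symm.trans ht1.symm)
  have hσσ : ∀ y : Y, y ≠ 0 → σ (σ y) = y := by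
    intro y hy
    apply hYext
    rw [hσ _ (hσne y hy), hσ y hy, ← mul_smul, ht, one_smul]
  have hσmul : ∀ a y : Y, a ≠ 0 → y ≠ 0 → σ (a * y) = σ a * σ y := by
    intro a y ha hy
    obtain ⟨g, hg1, hg2⟩ := hmulG a ha
    have hgo : g • o = o := by
      have h4 := hg2 0
      rw [mul_zero, h0] at h4
      exact h4
    obtain ⟨a', b', ha', hg'⟩ := haff1 (t * g * t⁻¹) (by
      rw [hinv, mul_smul, mul_smul, ht1, hgo, ht2])
    have hb : b' = 0 := by
      apply hYext
      have h4 := hg' 0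
      rw [h0, mul_zero, zero_add] at h4
      rw [← h4, h0, hinv, mul_smul, mul_smul, ht2, hg1, ht1]
    have ha2 : a' = σ a := by
      apply hYext
      have h4 := hg' 1
      rw [hone, mul_one, hb, add_zero] at h4
      rw [← h4, hσ a ha, hinv, mul_smul, mul_smul, ht3]
      have h5 := hg2 1
      rw [hone, mul_one] at h5
      rw [h5]
    apply hYext
    rw [hσ _ (mul_ne_zero ha hy)]
    have h4 := hg' (σ y)
    rw [hb, add_zero, ha2, hσ y hy] at h4
    rw [← h4, ← hg2, hinv, mul_smul, mul_smul, ← mul_smul t t, ht, one_smul]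
  have hm1 : (-1 : Y) ≠ 1 := by
    intro h
    apply hchar
    have h4 : (2 : Y) = 1 - (-1) := by ring
    rw [h4, h, sub_self]
  have hm0 : (-1 : Y) ≠ 0 := neg_ne_zero.2 hone0
  have hσm1 : σ (-1) = -1 := by
    have h4 : σ (-1) * σ (-1) = 1 := by
      rw [← hσmul _ _ hm0 hm0, neg_mul_neg, one_mul, hσ1]
    rcases mul_self_eq_one_iff.1 h4 with h5 | h5
    · exfalso
      have h6 := hσσ _ hm0
      rw [h5, hσ1] at h6
      exact hm1 h6.symm
    · exact h5
  have hσfix : ∀ y : Y, y ≠ 0 → σ y = y → y = 1 ∨ y = -1 := by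
    intro y hy hfy
    by_contra hcon
    push Not at hcon
    have h4 : t • c y = c y := by
      rw [← hσ y hy, hfy]
    have h5 : t • c 1 = c 1 := by
      rw [← hσ 1 hone0, hσ1]
    have h6 : t • c (-1) = c (-1) := by
      rw [← hσ _ hm0, hσm1]
    have h7 := hS.rigid t (c 1) (c (-1)) (c y) (fun h => hm1 (hYext _ _ h).symm)
      (fun h => hcon.1 (hYext _ _ h).symm) (fun h => hcon.2 (hYext _ _ h).symm) h5 h6 h4
    rw [h7, one_smul] at ht1
    exact h1 ht1
  let ν : Y → Y := fun x => x * σ x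
  have hνmul : ∀ x y : Y, x ≠ 0 → y ≠ 0 → ν (x * y) = ν x * ν y := by
    intro x y hx hy
    show x * y * σ (x * y) = x * σ x * (y * σ y)
    rw [hσmul x y hx hy]
    ring
  have hνne : ∀ x : Y, x ≠ 0 → ν x ≠ 0 := fun x hx => mul_ne_zero hx (hσne x hx)
  have hνval : ∀ x : Y, x ≠ 0 → ν x = 1 ∨ ν x = -1 := by
    intro x hx
    apply hσfix _ (hνne x hx)
    show σ (x * σ x) = x * σ x
    rw [hσmul _ _ hx (hσne x hx), hσσ x hx, mul_comm]
  have hν1 : ν (-1) = 1 := by
    show (-1) * σ (-1) = 1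
    rw [hσm1]
    ring
  -- the functional equation
  obtain ⟨u, hu1, hu2⟩ := haff2 1 1 hone0
  obtain ⟨m, hm1', hm2⟩ := hmulG (-1) hm0
  let s : G := u * m * t
  have hs : ∀ y : Y, y ≠ 0 → s • c y = c (1 - σ y) := by
    intro y hy
    show (u * m * t) • c y = _
    rw [mul_smul, mul_smul, ← hσ y hy, hm2, hu2]
    congr 1
    ring
  have hsinf : s • inf = c 1 := by
    show (u * m * t) • inf = _
    rw [mul_smul, mul_smul, ht1, ← h0, hm2, hu2]
    congr 1
    ring
  have hs1 : s • c 1 = c 0 := by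
    rw [hs 1 hone0, hσ1, sub_self]
  have hs0 : s • c 0 = inf := by
    show (u * m * t) • c 0 = _
    rw [h0, mul_smul, mul_smul, ht2, hm1', hu1]
  have hs3 : s * s * s = 1 := by
    apply hS.rigid _ inf o e h1 h2 h3
    · rw [mul_smul, mul_smul, hsinf, hs1, hs0]
    · rw [mul_smul, mul_smul, ← h0, hs0, hsinf, hs1]
    · rw [← hone, mul_smul, mul_smul, hs1, hs0, hsinf]
  have hFE : ∀ y : Y, y ≠ 0 → y ≠ 1 → 1 - σ (1 - σ y) = σ (1 - y) := by
    intro y hy hy1
    have h4 : ∀ w : Y, w ≠ 0 → w ≠ 1 → 1 - σ w ≠ 0 ∧ 1 - σ w ≠ 1 := by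
      intro w hw hw1
      constructor
      · intro h5
        apply hw1
        have h6 : σ w = 1 := (sub_eq_zero.1 h5).symm
        have h7 := hσσ w hw
        rw [h6, hσ1] at h7
        exact h7.symm
      · intro h5
        apply hσne w hw
        have h6 : 1 - σ w = 1 - 0 := by rw [h5, sub_zero]
        exact sub_right_injective h6
    obtain ⟨ha0, ha1⟩ := h4 y hy hy1
    obtain ⟨hb0, hb1⟩ := h4 _ ha0 ha1
    have h5 : (s * s * s) • c y = c y := by rw [hs3, one_smul]
    rw [mul_smul, mul_smul, hs y hy, hs _ ha0, hs _ hb0] at h5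
    have h6 : 1 - σ (1 - σ (1 - σ y)) = y := hYext _ _ h5
    have h7 : σ (1 - σ (1 - σ y)) = 1 - y := by
      linear_combination -h6
    have h8 := hσσ _ hb0
    rw [h7] at h8
    exact h8.symm
  -- the key step
  have hcl : ∀ x : Y, x ≠ 0 → ν x = 1 → x ≠ 1 → ν (1 - x) = 1 := by
    intro x hx hν hx1
    have h1x : 1 - x ≠ 0 := fun h => hx1 (sub_eq_zero.1 h).symm
    rcases hνval _ h1x with h4 | h4
    · exact h4
    exfalso
    have hσx : σ x = x⁻¹ := eq_inv_of_mul_eq_one_right hν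
    have hσ1x : σ (1 - x) = -(1 - x)⁻¹ := by
      have h5 : (1 - x) * σ (1 - x) = -1 := h4
      rw [eq_neg_iff_add_eq_zero]
      have h6 : (1 - x) * (σ (1 - x) + (1 - x)⁻¹) = 0 := by
        rw [mul_add, h5, mul_inv_cancel₀ h1x]
        ring
      exact (mul_eq_zero.1 h6).resolve_left h1x
    have hx1' : x - 1 ≠ 0 := fun h => hx1 (sub_eq_zero.1 h)
    have hxi : x⁻¹ ≠ 1 := fun h => hx1 (by
      have := inv_inj.1 (h.trans inv_one.symm)
      exact this)
    have hFE1 := hFE x hx hx1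
    rw [hσx, hσ1x] at hFE1
    have ha0 : 1 - x⁻¹ ≠ 0 := fun h => hxi (sub_eq_zero.1 h).symm
    have hνa : ν (1 - x⁻¹) = -1 := by
      have h5 := hνmul (1 - x⁻¹) x ha0 hx
      have h6 : (1 - x⁻¹) * x = (-1) * (1 - x) := by
        rw [sub_mul, inv_mul_cancel₀ hx]
        ring
      rw [h6, hνmul _ _ hm0 h1x, hν1, h4, hν, mul_one, one_mul] at h5
      exact h5.symm
    have hσa : σ (1 - x⁻¹) = -(1 - x⁻¹)⁻¹ := by
      have h5 : (1 - x⁻¹) * σ (1 - x⁻¹) = -1 := hνa
      rw [eq_neg_iff_add_eq_zero]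
      have h6 : (1 - x⁻¹) * (σ (1 - x⁻¹) + (1 - x⁻¹)⁻¹) = 0 := by
        rw [mul_add, h5, mul_inv_cancel₀ ha0]
        ring
      exact (mul_eq_zero.1 h6).resolve_left ha0
    rw [hσa] at hFE1
    have h7 : (1 - x⁻¹)⁻¹ = x * (x - 1)⁻¹ := by
      have h8 : 1 - x⁻¹ = (x - 1) * x⁻¹ := by
        rw [sub_mul, mul_inv_cancel₀ hx, one_mul]
      rw [h8, mul_inv, inv_inv, mul_comm]
    have h9 : -(1 - x)⁻¹ = (x - 1)⁻¹ := by
      rw [← inv_neg, neg_sub]
    rw [h7, sub_neg_eq_add, h9] at hFE1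
    have h10 : (1 + x * (x - 1)⁻¹) * (x - 1) = (x - 1)⁻¹ * (x - 1) := by rw [hFE1]
    have h11 : (1 + x * (x - 1)⁻¹) * (x - 1) = x - 1 + x := by
      rw [add_mul, one_mul, mul_assoc, inv_mul_cancel₀ hx1', mul_one]
    rw [h11, inv_mul_cancel₀ hx1'] at h10
    apply hx1
    have h12 : 2 * (x - 1) = 0 := by linear_combination h10
    rcases mul_eq_zero.1 h12 with h13 | h13
    · exact absurd h13 hchar
    · exact sub_eq_zero.1 h13
  -- everything has norm one
  have hall : ∀ x₀ : Y, x₀ ≠ 0 → ν x₀ = 1 := by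
    intro x₀ hx₀
    by_contra hne
    have hνx₀ : ν x₀ = -1 := (hνval x₀ hx₀).resolve_left hne
    have hsubW : ∀ a b : Y, (a = 0 ∨ ν a = 1) → (b = 0 ∨ ν b = 1) → (a - b = 0 ∨ ν (a - b) = 1) := by
      intro a b ha hb
      by_cases hab : a = b
      · left
        exact sub_eq_zero.2 hab
      right
      rcases ha with rfl | ha
      · have hb0 : b ≠ 0 := fun h => hab h.symm
        have hb1 := hb.resolve_left hb0
        have h5 : 0 - b = (-1) * b := by ring
        rw [h5, hνmul _ _ hm0 hb0, hν1, hb1, mul_one]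
      · rcases hb with rfl | hb
        · rw [sub_zero]
          exact ha
        · have ha0 : a ≠ 0 := by
            intro h
            rw [h] at ha
            have h6 : ν 0 = 0 := by
              show 0 * σ 0 = 0
              ring
            rw [h6] at ha
            exact one_ne_zero ha.symm
          have hb0 : b ≠ 0 := by
            intro h
            rw [h] at hb
            have h6 : ν 0 = 0 := by
              show 0 * σ 0 = 0
              ring
            rw [h6] at hb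
            exact one_ne_zero hb.symm
          have hc0 : b * a⁻¹ ≠ 0 := mul_ne_zero hb0 (inv_ne_zero ha0)
          have hνc : ν (b * a⁻¹) = 1 := by
            have h5 := hνmul (b * a⁻¹) a hc0 ha0
            rw [mul_assoc, inv_mul_cancel₀ ha0, mul_one, hb, ha, mul_one] at h5
            exact h5.symm
          have hc1 : b * a⁻¹ ≠ 1 := by
            intro h
            apply hab
            have h5 : b * a⁻¹ * a = 1 * a := by rw [h]
            rw [mul_assoc, inv_mul_cancel₀ ha0, mul_one, one_mul] at h5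
            exact h5.symm
          have h6 := hcl _ hc0 hνc hc1
          have h7 : a - b = a * (1 - b * a⁻¹) := by
            rw [mul_sub, mul_one, mul_comm b, ← mul_assoc, mul_inv_cancel₀ ha0, one_mul]
          rw [h7, hνmul _ _ ha0 (fun h => hc1 (sub_eq_zero.1 h).symm), ha, h6, one_mul]
    let W : AddSubgroup Y := AddSubgroup.ofSub {y : Y | y = 0 ∨ ν y = 1} ⟨0, Or.inl rfl⟩ (by
      intro a ha b hb
      rw [← sub_eq_add_neg]
      exact hsubW a b ha hb)
    have hW : ∀ y : Y, y ∈ W ↔ (y = 0 ∨ ν y = 1) := fun y => Iff.rfl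
    have hx₀W : x₀ ∉ W := by
      rw [hW]
      rintro (h | h)
      · exact hx₀ h
      · exact hne h
    letI : Fintype Y := Fintype.ofFinite Y
    have hWtop : W.index ≠ 1 := by
      intro h
      have h5 := AddSubgroup.index_eq_one.1 h
      exact hx₀W (by rw [h5]; trivial)
    have hW0 : W.index ≠ 0 := AddSubgroup.index_ne_zero_of_finite
    have hWi : 2 ≤ W.index := by omega
    have hci := AddSubgroup.card_mul_index W
    have h2W : 2 * Nat.card W ≤ Nat.card Y := by
      rw [← hci, mul_comm]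
      exact Nat.mul_le_mul_left _ hWi
    -- injection
    let A : Finset Y := Finset.univ.filter (fun y => y ∉ W)
    let B : Finset Y := (Finset.univ.filter (fun y => y ∈ W)).erase 0
    have hAB : A.card ≤ B.card := by
      apply Finset.card_le_card_of_injOn (fun y => x₀ * y)
      · intro y hy
        have hy' : y ∉ W := (Finset.mem_filter.1 hy).2
        have hy0 : y ≠ 0 := fun h => hy' (h ▸ W.zero_mem)
        have hy1 : ν y = -1 := by
          refine (hνval y hy0).resolve_left ?_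
          intro h
          exact hy' (Or.inr h)
        have h5 : x₀ * y ∈ W := by
          right
          rw [hνmul _ _ hx₀ hy0, hνx₀, hy1]
          ring
        have h6 : x₀ * y ∈ B := Finset.mem_erase.2 ⟨mul_ne_zero hx₀ hy0, Finset.mem_filter.2 ⟨Finset.mem_univ _, h5⟩⟩
        exact h6
      · intro a _ b _ hab
        exact mul_left_cancel₀ hx₀ hab
    have hcW : (Finset.univ.filter (fun y => y ∈ W)).card = Nat.card W := by
      rw [Nat.card_eq_fintype_card, Fintype.card_subtype]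
    have hAc : A.card + Nat.card W = Nat.card Y := by
      rw [← hcW, Nat.card_eq_fintype_card, add_comm]
      exact Finset.card_filter_add_card_filter_not (s := Finset.univ) (fun y => y ∈ W) |>.trans Finset.card_univ
    have hBc : B.card + 1 = Nat.card W := by
      rw [← hcW]
      exact Finset.card_erase_add_one (Finset.mem_filter.2 ⟨Finset.mem_univ _, W.zero_mem⟩)
    omega
  intro h hh1 hh2
  obtain ⟨a, b, ha, hab⟩ := haff1 h hh1
  have hb : b = 0 := by
    apply hYext
    have h4 := hab 0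
    rw [h0, hh2, mul_zero, zero_add] at h4
    rw [← h4, h0]
  have hab' : ∀ y : Y, h • c y = c (a * y) := by
    intro y
    rw [hab, hb, add_zero]
  have hσa : σ a = a⁻¹ := eq_inv_of_mul_eq_one_right (hall a ha)
  have hkey : h * (t * h * t⁻¹) = 1 := by
    apply hS.rigid _ inf o e h1 h2 h3
    · rw [hinv, mul_smul, mul_smul, mul_smul, ht1, hh2, ht2, hh1]
    · rw [hinv, mul_smul, mul_smul, mul_smul, ht2, hh1, ht1, hh2]
    · rw [hinv, mul_smul, mul_smul, mul_smul, ht3, ← hone, hab', mul_one, ← hσ a ha, hσa, hab',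
        mul_inv_cancel₀ ha]
  exact (eq_inv_of_mul_eq_one_right hkey)

end

end Cfsg.Agent.H03.PR
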