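import Mathlib
import Cfsg.Agent.Lib.H03.PR6

/-! A field from an abelian group acting semiregularly with two orbits on the non-zero vectors. -/

set_option autoImplicit false

namespace Cfsg.Agent.H03.PR

/-- The formal part: transfer to the Galois field. -/
theorem field_of_half_aux {V H L : Type*} [AddCommGroup V] [CommGroup H] [Finite H]
    [CommRing L] [IsDomain L] [Finite L]
    (p f : ℕ) [hp : Fact p.Prime] (hp2 : p ≠ 2) (hf : f ≠ 0)
    (hV : Nat.card V = p ^ f) (ρ : H →* AddMonoid.End V) (_hinj : Function.Injective ρ)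
    (hcard : 2 * Nat.card H + 1 = p ^ f) (v₀ : V)
    (eγ : L ≃ V) (hγadd : ∀ x y, eγ (x + y) = eγ x + eγ y) (hγ1 : eγ 1 = v₀)
    (ιL : H → L) (hιLmul : ∀ x y, ιL (x * y) = ιL x * ιL y) (hιLone : ιL 1 = 1)
    (hρ : ∀ h x, ρ h (eγ x) = eγ (ιL h * x)) (hιLinj : Function.Injective ιL) :
    ∃ (β : V ≃ GaloisField p f) (ι : H → GaloisField p f),
      (∀ v w, β (v + w) = β v + β w) ∧ β v₀ = 1 ∧
      (∀ h v, β (ρ h v) = ι h * β v) ∧
      (∀ h, ∃ a : GaloisField p f, a ≠ 0 ∧ ι h = a ^ 2) ∧
      (∀ a : GaloisField p f, a ≠ 0 → ∃ h, ι h = a ^ 2) := by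
  classical
  letI : Fintype L := Fintype.ofFinite L
  letI : Field L := Fintype.fieldOfDomain L
  let K := GaloisField p f
  letI : Fintype K := Fintype.ofFinite K
  have hcardK : Fintype.card K = p ^ f := by
    rw [← Nat.card_eq_fintype_card]
    exact GaloisField.card p f hf
  have hcardL : Fintype.card L = p ^ f := by
    rw [← Nat.card_eq_fintype_card, Nat.card_congr eγ, hV]
  let φ : L ≃+* K := FiniteField.ringEquivOfCardEq (by rw [hcardL, hcardK])
  let ι : H → K := fun h => φ (ιL h)
  have hιmul : ∀ x y, ι (x * y) = ι x * ι y := fun x y => by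
    show φ (ιL (x * y)) = _
    rw [hιLmul, map_mul]
  have hιone : ι 1 = 1 := by
    show φ (ιL 1) = _
    rw [hιLone, map_one]
  have hιne : ∀ h, ι h ≠ 0 := by
    intro h h0
    have h1 : ι h * ι h⁻¹ = 1 := by
      rw [← hιmul, mul_inv_cancel, hιone]
    rw [h0, zero_mul] at h1
    exact zero_ne_one h1
  have hιinj : Function.Injective ι := fun x y hxy => hιLinj (φ.injective hxy)
  have hcharK : ringChar K ≠ 2 := by
    rw [ringChar.eq K p]
    exact hp2
  have hcK2 : Fintype.card K / 2 = Nat.card H := by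
    rw [hcardK, ← hcard]
    omega
  refine ⟨eγ.symm.trans φ.toEquiv, ι, ?_, ?_, ?_, ?_, ?_⟩
  · intro v w
    obtain ⟨x, rfl⟩ := eγ.surjective v
    obtain ⟨y, rfl⟩ := eγ.surjective w
    rw [← hγadd]
    simp only [Equiv.trans_apply, Equiv.symm_apply_apply]
    exact map_add φ x y
  · rw [← hγ1]
    simp only [Equiv.trans_apply, Equiv.symm_apply_apply]
    exact map_one φ
  · intro h v
    obtain ⟨x, rfl⟩ := eγ.surjective v
    rw [hρ]
    simp only [Equiv.trans_apply, Equiv.symm_apply_apply]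
    exact map_mul φ _ _
  · intro h
    have h1 : ι h ^ (Fintype.card K / 2) = 1 := by
      rw [hcK2]
      have h2 : ∀ n : ℕ, ι (h ^ n) = ι h ^ n := by
        intro n
        induction n with
        | zero => simp [hιone]
        | succ n ih => rw [pow_succ, hιmul, ih, pow_succ]
      rw [← h2, pow_card_eq_one', hιone]
    obtain ⟨c, hc⟩ := (FiniteField.isSquare_iff hcharK (hιne h)).2 h1
    refine ⟨c, ?_, ?_⟩
    · rintro rfl
      rw [mul_zero] at hc
      exact hιne h hc
    · rw [hc, pow_two]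
  · intro b hb
    let j : H →* Kˣ :=
      { toFun := fun h => Units.mk0 (ι h) (hιne h)
        map_one' := Units.ext hιone
        map_mul' := fun x y => Units.ext (hιmul x y) }
    have hj : Function.Injective j := by
      intro x y hxy
      exact hιinj (congrArg Units.val hxy)
    have hcardU : Nat.card Kˣ = 2 * Nat.card H := by
      rw [Nat.card_eq_fintype_card, Fintype.card_units, hcardK, ← hcard]
      omega
    have hrange : Nat.card j.range = Nat.card H := Nat.card_congr (MonoidHom.ofInjective hj).toEquiv.symm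
    have hidx : j.range.index = 2 := by
      have h1 := Subgroup.card_mul_index j.range
      rw [hcardU, hrange] at h1
      have h2 : 0 < Nat.card H := Nat.card_pos
      have h3 : Nat.card H * j.range.index = Nat.card H * 2 := by rw [h1]; ring
      exact Nat.eq_of_mul_eq_mul_left h2 h3
    have h1 := Subgroup.sq_mem_of_index_two hidx (Units.mk0 b hb)
    obtain ⟨h, hh⟩ := h1
    refine ⟨h, ?_⟩
    have h2 := congrArg Units.val hh
    simpa [j] using h2

/-- A field from an abelian group acting semiregularly with two orbits on the non-zero vectors. -/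
theorem field_of_half {V H : Type*} [AddCommGroup V] [Finite V] [CommGroup H] [Finite H]
    (p f : ℕ) [hp : Fact p.Prime] (hp2 : p ≠ 2) (hf : f ≠ 0) (hp0 : ∀ v : V, p • v = 0)
    (hV : Nat.card V = p ^ f) (ρ : H →* AddMonoid.End V)
    (hfree : ∀ (x : H) (v : V), v ≠ 0 → ρ x v = v → x = 1)
    (hcard : 2 * Nat.card H + 1 = p ^ f) (v₀ : V) (hv₀ : v₀ ≠ 0) :
    ∃ (β : V ≃ GaloisField p f) (ι : H → GaloisField p f),
      (∀ v w, β (v + w) = β v + β w) ∧ β v₀ = 1 ∧
      (∀ h v, β (ρ h v) = ι h * β v) ∧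
      (∀ h, ∃ a : GaloisField p f, a ≠ 0 ∧ ι h = a ^ 2) ∧
      (∀ a : GaloisField p f, a ≠ 0 → ∃ h, ι h = a ^ 2) := by
  classical
  haveI hVne : Nontrivial V := ⟨⟨v₀, 0, hv₀⟩⟩
  have hne : ∀ (h : H) (w : V), w ≠ 0 → ρ h w ≠ 0 := by
    intro h w hw h0
    apply hw
    have h1 := nf_mul ρ h⁻¹ h w
    rw [inv_mul_cancel, nf_one, h0, map_zero] at h1
    exact h1
  have hinj : Function.Injective ρ := by
    intro b c hbc
    have h1 : ρ b v₀ = ρ c v₀ := congrFun (congrArg DFunLike.coe hbc) v₀
    have h2 : ρ (c⁻¹ * b) v₀ = v₀ := by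
      rw [nf_mul, h1, ← nf_mul, inv_mul_cancel, nf_one]
    have h3 := hfree _ v₀ hv₀ h2
    exact (inv_mul_eq_one.1 h3).symm
  have hirr : ∀ U : AddSubgroup V, (∀ a, ∀ u ∈ U, ρ a u ∈ U) → U = ⊥ ∨ U = ⊤ := by
    intro U hU
    by_cases hbot : U = ⊥
    · exact Or.inl hbot
    right
    obtain ⟨u, hu, hu0⟩ : ∃ u ∈ U, u ≠ 0 := by
      by_contra hcon
      push Not at hcon
      apply hbot
      rw [eq_bot_iff]
      intro x hx
      exact hcon x hx
    have hlt : Nat.card H < Nat.card U := by
      let g : H → U := fun a => ⟨ρ a u, hU a u hu⟩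
      have hg : Function.Injective g := by
        intro a b hab
        have h1 : ρ a u = ρ b u := congrArg Subtype.val hab
        have h2 : ρ (b⁻¹ * a) u = u := by
          rw [nf_mul, h1, ← nf_mul, inv_mul_cancel, nf_one]
        have h3 := hfree _ u hu0 h2
        exact (inv_mul_eq_one.1 h3).symm
      have hn : (0 : U) ∉ Set.range g := by
        rintro ⟨a, ha⟩
        have h1 : ρ a u = 0 := congrArg Subtype.val ha
        exact hne a u hu0 h1
      haveI := Fintype.ofFinite H
      haveI := Fintype.ofFinite U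
      rw [Nat.card_eq_fintype_card, Nat.card_eq_fintype_card]
      exact Fintype.card_lt_of_injective_of_notMem g hg hn
    have hdvd : Nat.card U ∣ p ^ f := by
      rw [← hV]
      exact AddSubgroup.card_addSubgroup_dvd_card U
    obtain ⟨j, hj, hUj⟩ := (Nat.dvd_prime_pow hp.out).1 hdvd
    by_cases hjf : j = f
    · apply AddSubgroup.eq_top_of_card_eq
      rw [hUj, hjf, hV]
    · exfalso
      have hp3 : 3 ≤ p := by
        have := hp.out.two_le
        omega
      have h1 : p ^ (j + 1) ≤ p ^ f := Nat.pow_le_pow_right hp.out.pos (by omega)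
      have h2 : 3 * p ^ j ≤ p ^ (j + 1) := by
        rw [pow_succ, mul_comm]
        exact Nat.mul_le_mul_left _ hp3
      rw [hUj] at hlt
      omega
  obtain ⟨a, ha⟩ := Cfsg.Agent.H17.exists_gen_of_irreducible ρ hirr
  have hgen : ∀ b : H, ∃ n : ℕ, b = a ^ n := by
    intro b
    obtain ⟨k, hk⟩ := ha b
    have h1 : b ∈ Subgroup.zpowers a := ⟨k, (hinj hk).symm⟩
    rw [← mem_powers_iff_mem_zpowers] at h1
    obtain ⟨n, hn⟩ := h1
    exact ⟨n, hn.symm⟩
  have hirr0 : ∀ U : AddSubgroup V, (∀ u ∈ U, ρ a u ∈ U) → U = ⊥ ∨ U = ⊤ := by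
    intro U hU
    apply hirr
    intro b u hu
    obtain ⟨n, rfl⟩ := hgen b
    rw [map_pow]
    induction n with
    | zero => simpa using hu
    | succ n ih =>
      rw [pow_succ']
      exact hU _ ih
  let τ : AddMonoid.End V := ρ a
  let γ : Subring.closure ({τ} : Set (AddMonoid.End V)) → V := fun r => r.1 v₀
  have hγ : Function.Bijective γ := by
    constructor
    · intro x y hxy
      by_contra hne'
      have h1 : (x - y).1 ≠ 0 := by
        intro h
        apply hne'
        exact sub_eq_zero.1 (Subtype.ext h)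
      have h2 : (x - y).1 v₀ = 0 := by
        show x.1 v₀ - y.1 v₀ = 0
        have : x.1 v₀ = y.1 v₀ := hxy
        rw [this, sub_self]
      exact hv₀ (Cfsg.Agent.H16.op_inj hirr0 (x - y).2 h1 h2)
    · intro w
      obtain ⟨r, hr, h⟩ := Cfsg.Agent.H16.op_surj hirr0 hv₀ w
      exact ⟨⟨r, hr⟩, h⟩
  have hmem : ∀ h : H, ρ h ∈ Subring.closure ({τ} : Set (AddMonoid.End V)) := by
    intro h
    obtain ⟨n, rfl⟩ := hgen h
    rw [map_pow]
    have h1 : τ ∈ Subring.closure ({τ} : Set (AddMonoid.End V)) := Subring.subset_closure (Set.mem_singleton τ)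
    exact Subring.pow_mem _ h1 n
  letI : CommRing (Subring.closure ({τ} : Set (AddMonoid.End V))) :=
    Subring.closureCommRingOfComm (Cfsg.Agent.H16.op_comm τ)
  haveI := Cfsg.Agent.H16.op_isDomain τ hirr0
  haveI := Cfsg.Agent.H16.op_finite τ
  exact field_of_half_aux (L := Subring.closure ({τ} : Set (AddMonoid.End V))) p f hp2 hf hV ρ hinj hcard v₀
    (Equiv.ofBijective γ hγ) (fun _ _ => rfl) rfl (fun h => ⟨ρ h, hmem h⟩)
    (fun x y => Subtype.ext (map_mul ρ x y)) (Subtype.ext (map_one ρ))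
    (fun _ _ => rfl) (fun x y h => hinj (congrArg Subtype.val h))

end Cfsg.Agent.H03.PR
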