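import Mathlib
import Cfsg.Agent.Lib.H03.PR7

/-! Zassenhaus groups with two-point stabiliser of order `(q-1)/2`, on the line over a field. -/

set_option autoImplicit false

namespace Cfsg.Agent.H03.PR

open OnePoint

/-- In a finite field of odd characteristic in which `-1` is a square some non-zero square `x`
has `x + 1` a non-square. -/
theorem exists_square_add_one {K : Type*} [Field K] [Finite K] (hchar : (2 : K) ≠ 0)
    (hm1 : IsSquare (-1 : K)) : ∃ x : K, x ≠ 0 ∧ IsSquare x ∧ x + 1 ≠ 0 ∧ ¬ IsSquare (x + 1) := by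
  classical
  letI : Fintype K := Fintype.ofFinite K
  by_contra hcon
  push Not at hcon
  have hK : ringChar K ≠ 2 := by
    intro h
    apply hchar
    have := ringChar.Nat.cast_ringChar (R := K)
    rw [h] at this
    exact_mod_cast this
  obtain ⟨ν, hν⟩ := FiniteField.exists_nonsquare hK
  have hν0 : ν ≠ 0 := by
    rintro rfl
    exact hν (IsSquare.zero)
  have hadd : ∀ a b : K, IsSquare a → IsSquare b → IsSquare (a + b) := by
    intro a b ha hb
    by_cases hb0 : b = 0
    · rw [hb0, add_zero]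
      exact ha
    by_cases ha0 : a = 0
    · rw [ha0, zero_add]
      exact hb
    have h1 : a + b = b * (a * b⁻¹ + 1) := by
      rw [mul_add, mul_one, mul_comm a, ← mul_assoc, mul_inv_cancel₀ hb0, one_mul]
    have h2 : IsSquare (a * b⁻¹) := ha.mul hb.inv
    by_cases h3 : a * b⁻¹ + 1 = 0
    · rw [h1, h3, mul_zero]
      exact IsSquare.zero
    · rw [h1]
      exact hb.mul (hcon _ (mul_ne_zero ha0 (inv_ne_zero hb0)) h2 h3)
  let W : AddSubgroup K :=
    { carrier := {y | IsSquare y}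
      add_mem' := fun {a b} ha hb => hadd a b ha hb
      zero_mem' := IsSquare.zero
      neg_mem' := fun {a} ha => by
        have h1 : -a = (-1) * a := by ring
        show IsSquare (-a)
        rw [h1]
        exact hm1.mul ha }
  have hW : ∀ y : K, y ∈ W ↔ IsSquare y := fun y => Iff.rfl
  have hWtop : W.index ≠ 1 := by
    intro h
    have h5 := AddSubgroup.index_eq_one.1 h
    exact hν ((hW ν).1 (by rw [h5]; trivial))
  have hW0 : W.index ≠ 0 := AddSubgroup.index_ne_zero_of_finite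
  have hWi : 2 ≤ W.index := by omega
  have hci := AddSubgroup.card_mul_index W
  have h2W : 2 * Nat.card W ≤ Nat.card K := by
    rw [← hci, mul_comm]
    exact Nat.mul_le_mul_left _ hWi
  let A : Finset K := Finset.univ.filter (fun y => y ∉ W)
  let B : Finset K := (Finset.univ.filter (fun y => y ∈ W)).erase 0
  have hAB : A.card ≤ B.card := by
    apply Finset.card_le_card_of_injOn (fun y => ν * y)
    · intro y hy
      have hy' : ¬ IsSquare y := (Finset.mem_filter.1 hy).2
      have hy0 : y ≠ 0 := by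
        rintro rfl
        exact hy' IsSquare.zero
      have h5 : IsSquare (ν * y) := by
        rw [← quadraticChar_one_iff_isSquare (mul_ne_zero hν0 hy0), map_mul,
          quadraticChar_neg_one_iff_not_isSquare.2 hν, quadraticChar_neg_one_iff_not_isSquare.2 hy']
        norm_num
      have h6 : ν * y ∈ B := Finset.mem_erase.2 ⟨mul_ne_zero hν0 hy0, Finset.mem_filter.2 ⟨Finset.mem_univ _, h5⟩⟩
      exact h6
    · intro a _ b _ hab
      exact mul_left_cancel₀ hν0 hab
  have hcW : (Finset.univ.filter (fun y => y ∈ W)).card = Nat.card W := by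
    rw [Nat.card_eq_fintype_card, Fintype.card_subtype]
  have hAc : A.card + Nat.card W = Nat.card K := by
    rw [← hcW, Nat.card_eq_fintype_card, add_comm]
    exact Finset.card_filter_add_card_filter_not (s := Finset.univ) (fun y => y ∈ W) |>.trans Finset.card_univ
  have hBc : B.card + 1 = Nat.card W := by
    rw [← hcW]
    exact Finset.card_erase_add_one (Finset.mem_filter.2 ⟨Finset.mem_univ _, W.zero_mem⟩)
  omega

section
universe u v
variable {G : Type u} {α : Type v} [Group G] [MulAction G α]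

/-- Twist elimination in the `PSL₂` case. -/
theorem psl_twist {K : Type*} [Field K] [Finite K] (inf : α) (c : K → α) (hc : Function.Injective c)
    (hcinf : ∀ y, c y ≠ inf) (hcs : ∀ x, x ≠ inf → ∃ y, c y = x)
    (haff1 : ∀ g : G, g • inf = inf → ∃ a b : K, a ≠ 0 ∧ ∀ y : K, g • c y = c (a ^ 2 * y + b))
    (haff2 : ∀ a b : K, a ≠ 0 → ∃ g : G, g • inf = inf ∧ ∀ y : K, g • c y = c (a ^ 2 * y + b))
    (s : G) (hs1 : s • inf = c 0) (hs2 : s • c 0 = inf) (hs3 : s • c 1 = c 1)
    (hinvol : ∀ g : G, g • inf = c 0 → g • c 0 = inf → g * g = 1)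
    (hchar : (2 : K) ≠ 0) (hm1 : IsSquare (-1 : K)) :
    ∃ t : G, t • inf = c 0 ∧ t • c 0 = inf ∧ ∀ x : K, x ≠ 0 → t • c x = c (-x⁻¹) := by
  classical
  have hone0 : (1 : K) ≠ 0 := one_ne_zero
  have hM : ∀ x : K, x ≠ 0 → IsSquare x → ∃ g : G, g • inf = inf ∧ ∀ y : K, g • c y = c (x * y) := by
    intro x hx hxs
    obtain ⟨r, rfl⟩ := hxs
    have hr : r ≠ 0 := left_ne_zero_of_mul hx
    obtain ⟨g, hg1, hg2⟩ := haff2 r 0 hr
    refine ⟨g, hg1, fun y => ?_⟩
    rw [hg2, add_zero, pow_two]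
  have hss : s * s = 1 := hinvol s hs1 hs2
  have hsinv : s⁻¹ = s := inv_eq_of_mul_eq_one_left hss
  have hsne : ∀ y : K, y ≠ 0 → s • c y ≠ inf := by
    intro y hy h
    apply hy
    apply hc
    exact MulAction.injective s (h.trans hs2.symm)
  let σ : K → K := fun y => if hy : y = 0 then 0 else Classical.choose (hcs _ (hsne y hy))
  have hσ : ∀ y : K, y ≠ 0 → c (σ y) = s • c y := by
    intro y hy
    simp only [σ, dif_neg hy]
    exact Classical.choose_spec (hcs _ (hsne y hy))
  have hσ1 : σ 1 = 1 := by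
    apply hc
    rw [hσ 1 hone0, hs3]
  have hσne : ∀ y : K, y ≠ 0 → σ y ≠ 0 := by
    intro y hy h
    have h4 := hσ y hy
    rw [h] at h4
    apply hcinf y
    exact MulAction.injective s (h4.symm.trans hs1.symm)
  have hσσ : ∀ y : K, y ≠ 0 → σ (σ y) = y := by
    intro y hy
    apply hc
    rw [hσ _ (hσne y hy), hσ y hy, ← mul_smul, hss, one_smul]
  have hσmul : ∀ x y : K, x ≠ 0 → IsSquare x → y ≠ 0 → σ (x * y) = x⁻¹ * σ y := by
    intro x y hx hxs hy
    obtain ⟨g, hg1, hg2⟩ := hM x hx hxs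
    have hg0 : g • c 0 = c 0 := by
      rw [hg2, mul_zero]
    have h1 : (s * g) * (s * g) = 1 := by
      apply hinvol
      · rw [mul_smul, hg1, hs1]
      · rw [mul_smul, hg0, hs2]
    have h2 : s * g = g⁻¹ * s := by
      have h3 : s * g * s = g⁻¹ := by
        rw [eq_inv_iff_mul_eq_one]
        calc s * g * s * g = (s * g) * (s * g) := by group
          _ = 1 := h1
      rw [← h3, mul_assoc, hss, mul_one]
    apply hc
    rw [hσ _ (mul_ne_zero hx hy), ← hg2, ← mul_smul, h2, mul_smul, ← hσ y hy, inv_smul_eq_iff, hg2,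
      ← mul_assoc, mul_inv_cancel₀ hx, one_mul]
  have hσS : ∀ x : K, x ≠ 0 → IsSquare x → σ x = x⁻¹ := by
    intro x hx hxs
    have h1 := hσmul x 1 hx hxs hone0
    rwa [mul_one, hσ1, mul_one] at h1
  have hm0 : (-1 : K) ≠ 0 := neg_ne_zero.2 hone0
  have hσm1 : σ (-1) = -1 := by
    rw [hσS _ hm0 hm1]
    norm_num
  -- the translation
  obtain ⟨u, hu1, hu2⟩ := haff2 1 1 hone0
  have hu3 : ∀ y : K, u • c y = c (y + 1) := by
    intro y
    rw [hu2, one_pow, one_mul]
  have hu4 : ∀ y : K, u⁻¹ • c y = c (y - 1) := by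
    intro y
    rw [inv_smul_eq_iff, hu3, sub_add_cancel]
  have hu5 : u⁻¹ • inf = inf := inv_smul_eq_iff.2 hu1.symm
  let m : G := u⁻¹ * s * u * s * u⁻¹
  have hminf : m • inf = c 0 := by
    show (u⁻¹ * s * u * s * u⁻¹) • inf = _
    simp only [mul_smul]
    rw [hu5, hs1, hu3, zero_add, hs3, hu4, sub_self]
  have hm0' : m • c 0 = inf := by
    show (u⁻¹ * s * u * s * u⁻¹) • c 0 = _
    simp only [mul_smul]
    rw [hu4, zero_sub, ← hσ _ hm0, hσm1, hu3, neg_add_cancel, hs2, hu5]
  have hm1' : m • c 1 = c (-1) := by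
    show (u⁻¹ * s * u * s * u⁻¹) • c 1 = _
    simp only [mul_smul]
    rw [hu4, sub_self, hs2, hu1, hs1, hu4, zero_sub]
  -- `m s` is multiplication by `-1`
  obtain ⟨a', b', ha', hab'⟩ := haff1 (m * s) (by rw [mul_smul, hs1, hm0'])
  have hb' : b' = 0 := by
    apply hc
    have h1 := hab' 0
    rw [mul_smul, hs2, hminf, mul_zero, zero_add] at h1
    exact h1.symm
  have ha2 : a' ^ 2 = -1 := by
    apply hc
    have h1 := hab' 1
    rw [mul_smul, hs3, hm1', hb', add_zero, mul_one] at h1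
    exact h1.symm
  have hmw : ∀ w : K, w ≠ 0 → m • c w = c (-σ w) := by
    intro w hw
    have h1 := hab' (σ w)
    rw [mul_smul, ← hσ _ (hσne w hw), hσσ w hw, hb', add_zero, ha2] at h1
    rw [h1]
    congr 1
    ring
  -- the functional equation
  have hFE : ∀ x : K, x ≠ 0 → x + 1 ≠ 0 → σ (σ x + 1) = 1 - σ (x + 1) := by
    intro x hx hx1
    have hσx : σ x + 1 ≠ 0 := by
      intro h
      have h1 : σ x = -1 := eq_neg_of_add_eq_zero_left h
      have h2 := hσσ x hx
      rw [h1, hσm1] at h2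
      apply hx1
      rw [← h2]
      ring
    have h1 := hmw (x + 1) hx1
    have h2 : m • c (x + 1) = c (σ (σ x + 1) - 1) := by
      show (u⁻¹ * s * u * s * u⁻¹) • c (x + 1) = _
      simp only [mul_smul]
      rw [hu4, add_sub_cancel_right, ← hσ x hx, hu3, ← hσ _ hσx, hu4]
    rw [h2] at h1
    have h3 := hc h1
    linear_combination h3
  -- non-squares
  have hNS : ∀ y y' : K, ¬ IsSquare y → ¬ IsSquare y' → y * σ y = y' * σ y' := by
    intro y y' hy hy'
    have hy0 : y ≠ 0 := by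
      rintro rfl
      exact hy IsSquare.zero
    have hy0' : y' ≠ 0 := by
      rintro rfl
      exact hy' IsSquare.zero
    letI : Fintype K := Fintype.ofFinite K
    have hx : IsSquare (y' * y⁻¹) := by
      have hne : y' * y ≠ 0 := mul_ne_zero hy0' hy0
      have h5 : IsSquare (y' * y) := by
        rw [← quadraticChar_one_iff_isSquare hne, map_mul,
          quadraticChar_neg_one_iff_not_isSquare.2 hy, quadraticChar_neg_one_iff_not_isSquare.2 hy']
        norm_num
      have h6 : y' * y⁻¹ = (y' * y) * (y⁻¹ * y⁻¹) := by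
        field_simp
      rw [h6]
      exact h5.mul (IsSquare.mul_self y⁻¹)
    have h1 := hσmul _ y (mul_ne_zero hy0' (inv_ne_zero hy0)) hx hy0
    rw [mul_assoc, inv_mul_cancel₀ hy0, mul_one] at h1
    rw [h1, mul_inv, inv_inv]
    field_simp
  obtain ⟨x, hx0, hxs, hx1, hxn⟩ := exists_square_add_one hchar hm1
  have hall : ∀ y : K, y ≠ 0 → σ y = y⁻¹ := by
    intro y hy
    by_cases hys : IsSquare y
    · exact hσS y hy hys
    have h1 := hFE x hx0 hx1
    rw [hσS x hx0 hxs] at h1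
    have h2 : x⁻¹ + 1 = (x + 1) * x⁻¹ := by
      rw [add_mul, mul_inv_cancel₀ hx0, one_mul, add_comm]
    have hBn : ¬ IsSquare (x⁻¹ + 1) := by
      rw [h2]
      intro h3
      apply hxn
      have h4 : x + 1 = ((x + 1) * x⁻¹) * x := by
        rw [mul_assoc, inv_mul_cancel₀ hx0, mul_one]
      rw [h4]
      exact h3.mul hxs
    have hB0 : x⁻¹ + 1 ≠ 0 := by
      rw [h2]
      exact mul_ne_zero hx1 (inv_ne_zero hx0)
    have h3 := hNS _ _ hBn hxn
    have h4 := hNS _ _ hys hxn
    -- let `ρ = (x + 1) σ (x + 1)`; we show `ρ = 1`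
    have h5 : (x + 1) * σ (x + 1) = 1 := by
      have h6 : (x⁻¹ + 1) * (1 - σ (x + 1)) = (x + 1) * σ (x + 1) := by
        rw [← h1]
        exact h3
      rw [h2] at h6
      have h7 : x * (x + 1) * x⁻¹ = x + 1 := by
        field_simp
      have h8 : (x + 1) * x⁻¹ * (1 - σ (x + 1)) * x = (x + 1) * σ (x + 1) * x := by rw [h6]
      have h9 : (x + 1) * x⁻¹ * (1 - σ (x + 1)) * x = (x + 1) * (1 - σ (x + 1)) := by
        field_simp
      rw [h9] at h8
      -- `(x + 1)(1 - σ) = (x + 1) σ x`, so `1 - σ = σ x`, so `σ (x + 1) = 1`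
      have h10 : 1 - σ (x + 1) = σ (x + 1) * x := by
        apply mul_left_cancel₀ hx1
        rw [h8]
        ring
      have h11 : σ (x + 1) * (x + 1) = 1 := by
        linear_combination -h10
      rw [mul_comm]
      exact h11
    have h6 : y * σ y = 1 := by rw [h4, h5]
    exact eq_inv_of_mul_eq_one_right h6
  obtain ⟨M, hM1, hM2⟩ := hM (-1) hm0 hm1
  refine ⟨M * s, ?_, ?_, ?_⟩
  · rw [mul_smul, hs1, hM2, mul_zero]
  · rw [mul_smul, hs2, hM1]
  · intro y hy
    rw [mul_smul, ← hσ y hy, hM2, hall y hy]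
    congr 1
    ring

/-- Transport to the projective line and recognition of `PSL₂`. -/
theorem psl_of_line {K : Type*} [Field K] (inf : α) (c : K → α) (hc : Function.Injective c)
    (hcinf : ∀ y, c y ≠ inf) (hcs : ∀ x, x ≠ inf → ∃ y, c y = x)
    (hfaith : ∀ g : G, (∀ x : α, g • x = x) → g = 1)
    (haff1 : ∀ g : G, g • inf = inf → ∃ a b : K, a ≠ 0 ∧ ∀ y : K, g • c y = c (a ^ 2 * y + b))
    (haff2 : ∀ a b : K, a ≠ 0 → ∃ g : G, g • inf = inf ∧ ∀ y : K, g • c y = c (a ^ 2 * y + b))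
    (t : G) (ht1 : t • inf = c 0) (ht2 : t • c 0 = inf) (ht3 : ∀ x : K, x ≠ 0 → t • c x = c (-x⁻¹)) :
    Nonempty (G ≃* Matrix.ProjectiveSpecialLinearGroup (Fin 2) K) := by
  classical
  let c' : K → {y : α // y ≠ inf} := fun x => ⟨c x, hcinf x⟩
  have hc' : Function.Bijective c' := by
    constructor
    · intro a b hab
      exact hc (congrArg Subtype.val hab)
    · rintro ⟨y, hy⟩
      obtain ⟨x, hx⟩ := hcs y hy
      exact ⟨x, Subtype.ext hx⟩
  obtain ⟨e₀, he₀inf, he₀1⟩ := exists_line_equiv inf (Equiv.ofBijective c' hc').symm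
  have he₀ : ∀ x : K, e₀ (c x) = (x : OnePoint K) := by
    intro x
    have h1 := he₀1 (c' x)
    have h2 : (Equiv.ofBijective c' hc').symm (c' x) = x := (Equiv.ofBijective c' hc').symm_apply_apply x
    rw [h2] at h1
    exact h1
  obtain ⟨ψ, hψ1, hψ2⟩ := exists_line_hom (G := G) e₀ hfaith
  have hG' : ∀ g' : Equiv.Perm (OnePoint K), g' ∞ = ∞ → (g' ∈ ψ.range ↔ ∃ a b : K, a ≠ 0 ∧
      ∀ x : K, g' (x : OnePoint K) = ((a ^ 2 * x + b : K) : OnePoint K)) := by
    intro g' hg'
    constructor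
    · rintro ⟨g, rfl⟩
      have hg : g • inf = inf := by
        apply e₀.injective
        rw [← hψ2, he₀inf]
        exact hg'
      obtain ⟨a, b, ha, hab⟩ := haff1 g hg
      refine ⟨a, b, ha, fun x => ?_⟩
      rw [← he₀, hψ2, hab, he₀]
    · rintro ⟨a, b, ha, hab⟩
      obtain ⟨g, hg1, hg2⟩ := haff2 a b ha
      refine ⟨g, ?_⟩
      apply perm_ext
      · rw [hg', ← he₀inf, hψ2, hg1]
      · intro x
        rw [hab, ← he₀, hψ2, hg2, he₀]
  have ht1' : ψ t ∞ = ((0 : K) : OnePoint K) := by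
    rw [← he₀inf, hψ2, ht1, he₀]
  have ht2' : ψ t ((0 : K) : OnePoint K) = ∞ := by
    rw [← he₀, hψ2, ht2, he₀inf]
  have ht3' : ∀ x : K, x ≠ 0 → ψ t (x : OnePoint K) = ((-x⁻¹ : K) : OnePoint K) := by
    intro x hx
    rw [← he₀, hψ2, ht3 x hx, he₀]
  obtain ⟨Φ⟩ := psl_of ψ.range hG' (ψ t) ⟨t, rfl⟩ ht1' ht2' ht3'
  exact ⟨(MonoidHom.ofInjective hψ1).trans Φ⟩

end

end Cfsg.Agent.H03.PR
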