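import Mathlib
import Cfsg.Agent.Lib.H03.PR8
import Cfsg.Agent.Lib.H01.Frobenius

/-! Zassenhaus groups: the kernel of a point stabiliser, involutions swapping two points. -/

set_option autoImplicit false

namespace Cfsg.Agent.H03.PR

open MulAction
open scoped Pointwise

universe u v

variable {G : Type u} {Ω : Type v} [Group G] [MulAction G Ω]

/-- The regular normal subgroup of a point stabiliser of a Zassenhaus group. -/
theorem zass_kernel [Finite G]
    (hfaith : ∀ g : G, (∀ x : Ω, g • x = x) → g = 1)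
    (h2 : ∀ a b c d : Ω, a ≠ b → c ≠ d → ∃ g : G, g • a = c ∧ g • b = d)
    (h3 : ∀ (g : G) (x y z : Ω), x ≠ y → y ≠ z → x ≠ z → g • x = x → g • y = y → g • z = z → g = 1)
    {a b : Ω} (hab : a ≠ b) (hne : ∃ h : G, h ≠ 1 ∧ h • a = a ∧ h • b = b) :
    ∃ F : Subgroup G, F ≤ stabilizer G a ∧ (F.subgroupOf (stabilizer G a)).Normal ∧
      ∀ y z : Ω, y ≠ a → z ≠ a → ∃! u : F, (u : G) • y = z := by
  classical
  let L := stabilizer G a
  let H' : Subgroup L := (stabilizer G b).subgroupOf L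
  have hH'mem : ∀ g : L, g ∈ H' ↔ g.1 • b = b := fun g => by
    show g.1 ∈ stabilizer G b ↔ _
    rfl
  obtain ⟨h, hh1, hha, hhb⟩ := hne
  have hF : Cfsg.IsFrobeniusComplement H' := by
    refine ⟨?_, ?_, ?_⟩
    · intro hbot
      have h4 : (⟨h, hha⟩ : L) ∈ H' := (hH'mem _).2 hhb
      rw [hbot, Subgroup.mem_bot] at h4
      exact hh1 (congrArg Subtype.val h4)
    · intro htop
      obtain ⟨c, hc⟩ : ∃ c : Ω, h • c ≠ c := by
        by_contra hcon
        push Not at hcon
        exact hh1 (hfaith h hcon)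
      have hca : c ≠ a := by
        rintro rfl
        exact hc hha
      have hcb : c ≠ b := by
        rintro rfl
        exact hc hhb
      obtain ⟨g, hg1, hg2⟩ := h2 a b a c hab hca.symm
      have h4 : (⟨g, hg1⟩ : L) ∈ H' := by
        rw [htop]
        trivial
      have h5 := (hH'mem _).1 h4
      have h6 : g • b = c := hg2
      exact hcb (h6.symm.trans h5)
    · intro g hg
      rw [eq_bot_iff]
      rintro x ⟨hx1, hx2⟩
      obtain ⟨y, hy, hyx⟩ := hx2
      have hy' : y.1 • b = b := (hH'mem y).1 hy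
      have hyx' : g * y * g⁻¹ = x := hyx
      have hgb : g.1 • b ≠ b := fun h' => hg ((hH'mem g).2 h')
      have hga : g.1 • a = a := g.2
      have hx3 : x.1 • (g.1 • b) = g.1 • b := by
        rw [← hyx']
        show (g.1 * y.1 * g.1⁻¹) • g.1 • b = _
        rw [mul_smul, mul_smul, inv_smul_smul, hy']
      have hx4 : x.1 • b = b := (hH'mem x).1 hx1
      have hx5 : x.1 • a = a := x.2
      have hgba : g.1 • b ≠ a := by
        intro h'
        apply hab
        have : g.1 • b = g.1 • a := h'.trans hga.symm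
        exact (MulAction.injective g.1 this).symm
      have h6 := h3 x.1 a b (g.1 • b) hab hgb.symm hgba.symm hx5 hx4 hx3
      rw [Subgroup.mem_bot]
      exact Subtype.ext h6
  obtain ⟨N, -, hNn, hNc⟩ := H01.frobenius_theorem H' hF
  refine ⟨N.map L.subtype, Subgroup.map_subtype_le N, ?_, ?_⟩
  · have : (N.map L.subtype).subgroupOf L = N := by
      ext x
      constructor
      · rintro ⟨y, hy, hyx⟩
        have : y = x := Subtype.ext hyx
        rwa [← this]
      · intro hx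
        exact ⟨x, hx, rfl⟩
    rw [this]
    exact hNn
  -- every point is in the `N`-orbit of `b`
  have hdec : ∀ y : Ω, y ≠ a → ∃ n : L, n ∈ N ∧ n.1 • b = y := by
    intro y hy
    obtain ⟨g, hg1, hg2⟩ := h2 a b a y hab hy.symm
    obtain ⟨⟨n, k⟩, hnk, -⟩ := hNc.existsUnique ⟨g, hg1⟩
    refine ⟨n.1, n.2, ?_⟩
    have h4 : (n.1 * k.1 : L) = ⟨g, hg1⟩ := hnk
    have h5 : (n.1 * k.1).1 • b = g • b := by rw [h4]
    have hk : k.1.1 • b = b := (hH'mem k.1).1 k.2
    rw [← hg2, ← h5]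
    show n.1.1 • b = (n.1.1 * k.1.1) • b
    rw [mul_smul, hk]
  have hdisj : ∀ n : L, n ∈ N → n ∈ H' → n = 1 := by
    intro n hn hn'
    have h4 := hNc.disjoint
    exact Subgroup.disjoint_def.1 h4 hn hn'
  have hfix : ∀ n : L, n ∈ N → ∀ y : Ω, y ≠ a → n.1 • y = y → n = 1 := by
    intro n hn y hy hny
    obtain ⟨m, hm, hmb⟩ := hdec y hy
    have h4 : m⁻¹ * n * m ∈ N := by
      have := hNn.conj_mem n hn m⁻¹
      simpa using this
    have h5 : m⁻¹ * n * m ∈ H' := by
      rw [hH'mem]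
      show (m.1⁻¹ * n.1 * m.1) • b = b
      rw [mul_smul, mul_smul, hmb, hny, ← hmb, inv_smul_smul]
    have h6 := hdisj _ h4 h5
    have h7 : n = m * (m⁻¹ * n * m) * m⁻¹ := by group
    rw [h7, h6]
    group
  intro y z hy hz
  obtain ⟨m, hm, hmb⟩ := hdec y hy
  obtain ⟨m', hm', hmb'⟩ := hdec z hz
  refine ⟨⟨(m' * m⁻¹).1, ⟨m' * m⁻¹, mul_mem hm' (inv_mem hm), rfl⟩⟩, ?_, ?_⟩
  · show (m'.1 * m.1⁻¹) • y = z
    rw [mul_smul, ← hmb, inv_smul_smul, hmb']
  · rintro ⟨u, ⟨u', hu', rfl⟩⟩ hu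
    have hu1 : u'.1 • y = z := hu
    have h4 : (m' * m⁻¹)⁻¹ * u' ∈ N := mul_mem (inv_mem (mul_mem hm' (inv_mem hm))) hu'
    have h5 : ((m' * m⁻¹)⁻¹ * u').1 • y = y := by
      show (((m'.1 * m.1⁻¹))⁻¹ * u'.1) • y = y
      rw [mul_smul, hu1, inv_smul_eq_iff, mul_smul, ← hmb, inv_smul_smul, hmb']
    have h6 := hfix _ h4 y hy h5
    have h7 : u' = m' * m⁻¹ := (inv_mul_eq_one.1 h6).symm
    apply Subtype.ext
    show L.subtype u' = _
    rw [h7]
    rfl

end Cfsg.Agent.H03.PR
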