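import Mathlib
import Cfsg.Agent.Lib.H03.NF2
import Cfsg.Agent.Lib.H14.UniqueSub
import Cfsg.Agent.Lib.H20.Split1
import Cfsg.Agent.Lib.H01.Solv2
import Cfsg.Agent.Lib.H12.FStarAct

/-! Linear-type groups whose point stabilisers are `p`-groups: the derived subgroup of a solvable
such group with `O_p = 1` has order prime to `p`.  Part one: automorphisms of quaternion groups,
cyclic normal subgroups, unique subgroups of prime order. -/

set_option autoImplicit false

namespace Cfsg.Agent.H03.TC

open QuaternionGroup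
open scoped commutatorElement

/-- An automorphism of odd order of a generalized quaternion group of order at least `16` is trivial. -/
theorem quat_odd_aut {k n : ℕ} (hn : n = 2 ^ k) (hk : 2 ≤ k) (β : MulAut (QuaternionGroup n))
    (hβ : Odd (orderOf β)) : β = 1 := by
  classical
  haveI : NeZero n := ⟨by rw [hn]; positivity⟩
  have hn4 : 4 ≤ n := by
    rw [hn]
    calc 4 = 2 ^ 2 := by norm_num
      _ ≤ 2 ^ k := Nat.pow_le_pow_right (by norm_num) hk
  haveI : NeZero (2 * n) := ⟨by have := NeZero.ne n; omega⟩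
  have horda : orderOf (β (a 1)) = 2 * n := by
    rw [MulEquiv.orderOf_eq, orderOf_a_one]
  obtain ⟨s, hs⟩ : ∃ s, β (a 1) = a s := by
    cases h : β (a 1) with
    | a s => exact ⟨s, rfl⟩
    | xa r =>
      rw [h, orderOf_xa] at horda
      omega
  have hpow : ∀ (t : ZMod (2 * n)) (i : ℕ), (a t : QuaternionGroup n) ^ i = a ((i : ZMod (2 * n)) * t) := by
    intro t i
    induction i with
    | zero =>
      rw [pow_zero, Nat.cast_zero, zero_mul]
      rfl
    | succ i ih =>
      rw [pow_succ, ih, a_mul_a]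
      congr 1
      push_cast
      ring
  have hbeta : ∀ t : ZMod (2 * n), β (a t) = a (s * t) := by
    intro t
    have h1 : (a t : QuaternionGroup n) = (a 1) ^ t.val := by
      rw [a_one_pow, ZMod.natCast_zmod_val]
    rw [h1, map_pow, hs, hpow, ZMod.natCast_zmod_val, mul_comm]
  have hbetam : ∀ (m : ℕ) (t : ZMod (2 * n)), (β ^ m) (a t) = a (s ^ m * t) := by
    intro m
    induction m with
    | zero =>
      intro t
      rw [pow_zero, pow_zero, one_mul]
      rfl
    | succ m ih =>
      intro t
      rw [pow_succ, MulAut.mul_apply, hbeta, ih]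
      congr 1
      ring
  set m := orderOf β with hm
  have hmpos : m ≠ 0 := hβ.pos.ne'
  have hsm : s ^ m = 1 := by
    have h1 := hbetam m 1
    rw [hm, pow_orderOf_eq_one, mul_one, ← hm] at h1
    have h2 : (1 : MulAut (QuaternionGroup n)) (a 1) = a 1 := rfl
    rw [h2] at h1
    exact (a.inj h1).symm
  have hs1 : s = 1 := by
    let u : (ZMod (2 * n))ˣ := Units.ofPowEqOne s m hsm hmpos
    have hu : u ^ m = 1 := Units.pow_ofPowEqOne hsm hmpos
    have h1 : orderOf u ∣ m := orderOf_dvd_of_pow_eq_one hu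
    have h2 : orderOf u ∣ Nat.card (ZMod (2 * n))ˣ := orderOf_dvd_natCard u
    have hcard : Nat.card (ZMod (2 * n))ˣ = 2 ^ k := by
      rw [Nat.card_eq_fintype_card, ZMod.card_units_eq_totient]
      have : 2 * n = 2 ^ (k + 1) := by rw [hn, pow_succ]; ring
      rw [this, Nat.totient_prime_pow_succ Nat.prime_two]
      simp
    rw [hcard] at h2
    have hcop : Nat.Coprime m (2 ^ k) := hβ.coprime_two_right.pow_right k
    have h3 : orderOf u = 1 := Nat.eq_one_of_dvd_coprimes hcop h1 h2
    have h4 : u = 1 := orderOf_eq_one_iff.1 h3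
    have h5 : (u : ZMod (2 * n)) = s := rfl
    rw [← h5, h4]
    rfl
  have hba : ∀ t : ZMod (2 * n), β (a t) = a t := by
    intro t
    rw [hbeta, hs1, one_mul]
  obtain ⟨r, hr⟩ : ∃ r, β (xa 0) = xa r := by
    cases h : β (xa 0) with
    | xa r => exact ⟨r, rfl⟩
    | a r =>
      have h1 : β (xa 0) = β (a r) := by rw [h, hba]
      have h2 := β.injective h1
      cases h2
  have hbx : ∀ t : ZMod (2 * n), β (xa t) = xa (r + t) := by
    intro t
    have h1 : (xa t : QuaternionGroup n) = xa 0 * a t := by rw [xa_mul_a, zero_add]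
    rw [h1, map_mul, hr, hba, xa_mul_a]
  have hbxm : ∀ (m : ℕ) (t : ZMod (2 * n)), (β ^ m) (xa t) = xa ((m : ZMod (2 * n)) * r + t) := by
    intro m
    induction m with
    | zero =>
      intro t
      rw [pow_zero, Nat.cast_zero, zero_mul, zero_add]
      rfl
    | succ m ih =>
      intro t
      rw [pow_succ, MulAut.mul_apply, hbx, ih]
      congr 1
      push_cast
      ring
  have hr0 : r = 0 := by
    have h1 := hbxm m 0
    rw [hm, pow_orderOf_eq_one, add_zero, ← hm] at h1
    have h2 : (1 : MulAut (QuaternionGroup n)) (xa 0) = xa 0 := rfl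
    rw [h2] at h1
    have h3 : ((m : ZMod (2 * n))) * r = 0 := (xa.inj h1).symm
    have hcop : Nat.Coprime m (2 * n) := by
      have : 2 * n = 2 ^ (k + 1) := by rw [hn, pow_succ]; ring
      rw [this]
      exact hβ.coprime_two_right.pow_right _
    have hu : IsUnit (m : ZMod (2 * n)) := (ZMod.isUnit_iff_coprime m (2 * n)).2 hcop
    exact (hu.mul_right_eq_zero).1 h3
  ext t
  cases t with
  | a t => rw [hba]; rfl
  | xa t => rw [hbx, hr0, zero_add]; rfl

/-- A normal cyclic subgroup is centralized by the derived subgroup. -/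
theorem commutator_le_centralizer_of_cyclic {H : Type*} [Group H] (R : Subgroup H) [hRn : R.Normal]
    [hRc : IsCyclic R] : commutator H ≤ Subgroup.centralizer (R : Set H) := by
  classical
  have hcomm : ∀ α β : MulAut R, α * β = β * α := by
    intro α β
    apply (IsCyclic.mulAutMulEquiv R).injective
    rw [map_mul, map_mul, mul_comm]
  rw [commutator_def, Subgroup.commutator_le]
  intro g _ h _
  rw [Subgroup.mem_centralizer_iff]
  intro r hr
  have h1 : MulAut.conjNormal ⁅g, h⁆ = (1 : MulAut R) := by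
    rw [commutatorElement_def, map_mul, map_mul, map_mul, map_inv, map_inv,
      hcomm (MulAut.conjNormal g) (MulAut.conjNormal h), mul_assoc, mul_assoc]
    simp
  have h2 := congrArg (fun f : MulAut R => ((f ⟨r, hr⟩ : R) : H)) h1
  simp only [MulAut.conjNormal_apply, MulAut.one_apply] at h2
  rw [mul_inv_eq_iff_eq_mul] at h2
  exact h2.symm

/-- The setting: a faithful action on an elementary abelian `p`-group, transitive on the
non-identity elements, with point stabilisers consisting of `p`-elements. -/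
structure LT {H V : Type*} [Group H] [CommGroup V] (p : ℕ) (φ : H →* MulAut V) : Prop where
  inj : Function.Injective φ
  exp : ∀ v : V, v ^ p = 1
  trans : ∀ v w : V, v ≠ 1 → w ≠ 1 → ∃ h, φ h v = w
  stab : ∀ (v : V) (h : H), v ≠ 1 → φ h v = v → ∃ k, orderOf h = p ^ k

namespace LT

variable {H V : Type*} [Group H] [Finite H] [CommGroup V] [Finite V]
variable {p : ℕ} [hp : Fact p.Prime] {φ : H →* MulAut V}

include hp

theorem free (hL : LT p φ) {h : H} (hh : h ≠ 1) (hc : Nat.Coprime (orderOf h) p) {v : V}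
    (hv : φ h v = v) : v = 1 := by
  by_contra hv1
  obtain ⟨k, hk⟩ := hL.stab v h hv1 hv
  apply hh
  rw [← orderOf_eq_one_iff, hk]
  rw [hk] at hc
  have h1 : p ^ k = 1 := by
    have h2 : Nat.Coprime (p ^ k) (p ^ k) := by
      rcases Nat.eq_zero_or_pos k with rfl | hk0
      · simp
      · exact hc.pow_right k
    exact Nat.coprime_self _ |>.1 h2
  exact h1

theorem isPGroup_V (hL : LT p φ) : IsPGroup p V := fun v => ⟨1, by rw [pow_one]; exact hL.exp v⟩

theorem coprime_card (hL : LT p φ) {q : ℕ} (hq : q.Prime) (hqp : q ≠ p) :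
    (Nat.card V).Coprime q := by
  obtain ⟨n, hn⟩ := IsPGroup.iff_card.1 hL.isPGroup_V
  rw [hn]
  exact Nat.Coprime.pow_left _ ((Nat.coprime_primes hp.out hq).2 hqp.symm)

/-- no subgroup of type `(q, q)` for `q ≠ p`. -/
theorem no_rank_two (hL : LT p φ) {q : ℕ} (hq : q.Prime) (hqp : q ≠ p) {u v : H}
    (huv : u * v = v * u) (hu : u ^ q = 1) (hv : v ^ q = 1) (hu1 : u ≠ 1)
    (hvu : v ∉ Subgroup.zpowers u) : False := by
  haveI : Fact q.Prime := ⟨hq⟩
  have hord : orderOf u = q := orderOf_eq_prime hu hu1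
  have hv1 : v ≠ 1 := by
    rintro rfl
    exact hvu (Subgroup.one_mem _)
  have hordv : orderOf v = q := orderOf_eq_prime hv hv1
  have hcomm : ∀ j : ℕ, (u * v ^ j) ^ q = 1 := by
    intro j
    have h1 : Commute u (v ^ j) := (show Commute u v from huv).pow_right j
    rw [h1.mul_pow, hu, one_mul, ← pow_mul, mul_comm, pow_mul, hv, one_pow]
  have hne : ∀ j : ℕ, u * v ^ j ≠ 1 := by
    intro j h1
    apply hvu
    have h2 : u = (v ^ j)⁻¹ := eq_inv_of_mul_eq_one_left h1
    have h3 : u ∈ Subgroup.zpowers v := by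
      rw [h2]
      exact Subgroup.inv_mem _ (Subgroup.npow_mem_zpowers _ _)
    have h4 : Subgroup.zpowers u = Subgroup.zpowers v := by
      apply Subgroup.eq_of_le_of_card_ge (Subgroup.zpowers_le.2 h3)
      rw [Nat.card_zpowers, Nat.card_zpowers, hord, hordv]
    rw [h4]
    exact Subgroup.mem_zpowers v
  have hfpf : ∀ (j : ℕ) (x : V), (φ u * φ v ^ j) x = x → x = 1 := by
    intro j x hx
    have h1 : φ (u * v ^ j) x = x := by
      rw [map_mul, map_pow]
      exact hx
    refine hL.free (hne j) ?_ h1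
    have h2 : orderOf (u * v ^ j) = q := orderOf_eq_prime (hcomm j) (hne j)
    rw [h2]
    exact (Nat.coprime_primes hq hp.out).2 hqp
  have hcommφ : φ u * φ v = φ v * φ u := by rw [← map_mul, huv, map_mul]
  have h1 := Cfsg.Agent.H20.two_gen_abelian (V := V) (fun a b => mul_comm a b) hq
    (hL.coprime_card hq hqp) (φ u) (φ v) hcommφ (by rw [← map_pow, hu, map_one])
    (by rw [← map_pow, hv, map_one]) hfpf
  apply hv1
  apply hL.inj
  rw [map_one]
  ext x
  exact h1 x

/-- A `q`-subgroup, `q ≠ p`, has a unique subgroup of order `q`. -/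
theorem uniqueP (hL : LT p φ) {q : ℕ} [hqf : Fact q.Prime] (hqp : q ≠ p) (N : Subgroup H)
    (hN : IsPGroup q N) : Cfsg.Agent.H14.UniqueP q N := by
  classical
  have hq : q.Prime := hqf.out
  intro x y hx hy
  have hx1 : x ≠ 1 := by
    rintro rfl
    rw [orderOf_one] at hx
    exact hq.one_lt.ne hx
  haveI : Nontrivial N := ⟨⟨x, 1, hx1⟩⟩
  haveI := hN.center_nontrivial
  have hdvd : q ∣ Nat.card (Subgroup.center N) := by
    have h1 : IsPGroup q (Subgroup.center N) := IsPGroup.to_subgroup hN _
    obtain ⟨k, hk⟩ := IsPGroup.iff_card.1 h1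
    rw [hk]
    have hk0 : k ≠ 0 := by
      rintro rfl
      rw [pow_zero] at hk
      have := Finite.one_lt_card (α := Subgroup.center N)
      omega
    exact dvd_pow_self q hk0
  obtain ⟨z, hz⟩ := exists_prime_orderOf_dvd_card' q hdvd
  have hzc : ∀ w : N, (z : N) * w = w * z := fun w => (Subgroup.mem_center_iff.1 z.2 w).symm
  have hzord : orderOf (z : N) = q := by
    rw [Subgroup.orderOf_coe]
    exact hz
  have hz1 : ((z : N) : H) ≠ 1 := by
    intro h
    have h1 : (z : N) = 1 := Subtype.ext h
    rw [h1, orderOf_one] at hzord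
    exact hq.one_lt.ne hzord
  have key : ∀ w : N, orderOf w = q → (w : H) ∈ Subgroup.zpowers ((z : N) : H) := by
    intro w hw
    by_contra hcon
    have h1 : ((z : N) : H) ^ q = 1 := by
      have h2 := pow_orderOf_eq_one (z : N)
      rw [hzord] at h2
      exact congrArg Subtype.val h2
    have h2 : (w : H) ^ q = 1 := by
      have h3 := pow_orderOf_eq_one w
      rw [hw] at h3
      exact congrArg Subtype.val h3
    exact hL.no_rank_two hq hqp (congrArg Subtype.val (hzc w)) h1 h2 hz1 hcon
  have hxz := key x hx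
  have hyz := key y hy
  have hle : Subgroup.zpowers (x : H) ≤ Subgroup.zpowers ((z : N) : H) :=
    Subgroup.zpowers_le.2 hxz
  have heq : Subgroup.zpowers (x : H) = Subgroup.zpowers ((z : N) : H) := by
    apply Subgroup.eq_of_le_of_card_ge hle
    have e1 : orderOf (x : H) = q := by
      rw [Subgroup.orderOf_coe]
      exact hx
    have e2 : orderOf ((z : N) : H) = q := by
      rw [Subgroup.orderOf_coe]
      exact hzord
    rw [Nat.card_zpowers, Nat.card_zpowers, e1, e2]
  rw [← heq] at hyz
  obtain ⟨k, hk⟩ := hyz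
  refine ⟨k, Subtype.ext ?_⟩
  simpa using hk

end LT

end Cfsg.Agent.H03.TC
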