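import Mathlib
import Cfsg.Agent.Lib.H03.TCA

/-! A counting lemma: a group of linear type in characteristic `3` containing a quaternion subgroup
whose centraliser has index `24` does not exist. -/

set_option autoImplicit false

namespace Cfsg.Agent.H03.TC

section Alg

variable {U : Type*} [AddCommGroup U]

theorem q8_bb (h3 : ∀ x : U, (3 : ℤ) • x = 0) (I J : U →+ U) (hII : ∀ v, I (I v) = -v)
    (hJJ : ∀ v, J (J v) = -v) (hJI : ∀ v, J (I v) = -I (J v)) (v : U) :
    let b : U → U := fun v => I v + J v + I (J v)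
    b (b v) = 0 := by
  intro b
  have hIA : I (I v) = -v := hII v
  have hIC : I (I (J v)) = -J v := hII _
  have hJA : J (I v) = -I (J v) := hJI v
  have hJB : J (J v) = -v := hJJ v
  have hJC : J (I (J v)) = I v := by
    rw [hJI, hJJ, map_neg, neg_neg]
  have h1 : b (b v) = (-(3 : ℤ)) • v := by
    show I (I v + J v + I (J v)) + J (I v + J v + I (J v)) + I (J (I v + J v + I (J v))) = _
    simp only [map_add, map_neg, hIA, hIC, hJA, hJB, hJC]
    abel
  rw [h1, neg_smul, h3, neg_zero]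

theorem q8_bi (h3 : ∀ x : U, (3 : ℤ) • x = 0) (I J : U →+ U) (hII : ∀ v, I (I v) = -v)
    (hJJ : ∀ v, J (J v) = -v) (hJI : ∀ v, J (I v) = -I (J v)) (v : U)
    (h1 : I v + J v + I (J v) = 0) (h2 : I (I v) + J (I v) + I (J (I v)) = 0) : v = 0 := by
  set A := I v with hA
  set B := J v with hB
  set C := I B with hC
  have hIA : I A = -v := hII v
  have hJA : J A = -C := hJI v
  have hIC : I C = -B := hII _
  have h2' : -v - C + B = 0 := by
    rw [hIA, hJA, map_neg, hIC] at h2
    rw [← h2]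
    abel
  have h3C := h3 C
  have hC1 : C = A + v := by
    have : C - (A + v) = (-(A + B + C) + (-v - C + B)) + (3 : ℤ) • C := by
      abel
    rw [h1, h2', h3C] at this
    simpa [sub_eq_zero] using this
  have hB1 : B = A + v + v := by
    have : B = (-v - C + B) + v + C := by abel
    rw [h2', hC1] at this
    rw [this]
    abel
  have hC2 : C = -v + A + A := by
    rw [hC, hB1, map_add, map_add, hIA]
  have hA1 : A = v + v := by
    have e : A + v = -v + A + A := hC1.symm.trans hC2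
    have : A - (v + v) = (-v + A + A) - (A + v) := by abel
    rw [← e] at this
    simpa [sub_eq_zero] using this
  have h3v : v + v + v = 0 := by
    have h := h3 v
    have e : (3 : ℤ) • v = v + v + v := by abel
    rwa [e] at h
  have hA2 : A = -v := by
    rw [hA1]
    exact eq_neg_of_add_eq_zero_left h3v
  have h5 : I A = v := by
    have e : I A = I (-v) := by rw [← hA2]
    rw [e, map_neg, ← hA, hA2, neg_neg]
  have h6 : v = -v := h5.symm.trans hIA
  have h7 : v + v = 0 := by
    have e : v + v = v - (-v) := by abel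
    rw [e, ← h6, sub_self]
  have h8 : v = (v + v + v) - (v + v) := by abel
  rw [h8, h3v, h7, sub_zero]

end Alg

section Count

variable {H V : Type*} [Group H] [Finite H] [CommGroup V] [Finite V] {φ : H →* MulAut V}

/-- The counting lemma. -/
theorem q8_count [hp3 : Fact (Nat.Prime 3)] (hL : LT 3 φ) {i j z : H} (hii : i * i = z)
    (hjj : j * j = z) (hz1 : z ≠ 1) (hzz : z * z = 1) (hji : j * i = z * (i * j))
    (D : Subgroup H) (hDi : ∀ d ∈ D, d * i = i * d) (hDj : ∀ d ∈ D, d * j = j * d)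
    (hzD : z ∈ D) (hindex : D.index = 24) : False := by
  classical
  have hord2 : orderOf z = 2 := by
    haveI : Fact (Nat.Prime 2) := ⟨Nat.prime_two⟩
    exact orderOf_eq_prime (by rw [pow_two]; exact hzz) hz1
  have hcop2 : Nat.Coprime (orderOf z) 3 := by rw [hord2]; norm_num
  have hphi : ∀ (a b : H) (v : V), φ a (φ b v) = φ (a * b) v := by
    intro a b v
    rw [map_mul]
    rfl
  have hzinv : ∀ v : V, φ z v = v⁻¹ := by
    intro v
    have h1 : φ z (v * φ z v) = v * φ z v := by
      rw [map_mul]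
      have h2 : φ z (φ z v) = v := by
        rw [hphi, hzz, map_one]
        rfl
      rw [h2, mul_comm]
    have h2 := hL.free hz1 hcop2 h1
    exact eq_inv_of_mul_eq_one_right h2
  let I : V →* V := (φ i).toMonoidHom
  let J : V →* V := (φ j).toMonoidHom
  have hIdef : ∀ v, I v = φ i v := fun _ => rfl
  have hJdef : ∀ v, J v = φ j v := fun _ => rfl
  have hII : ∀ v, I (I v) = v⁻¹ := by
    intro v
    rw [hIdef, hIdef, hphi, hii, hzinv]
  have hJJ : ∀ v, J (J v) = v⁻¹ := by
    intro v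
    rw [hJdef, hJdef, hphi, hjj, hzinv]
  have hJI : ∀ v, J (I v) = (I (J v))⁻¹ := by
    intro v
    rw [hJdef, hIdef, hphi, hji, ← hphi, hzinv, ← hphi]
    rfl
  -- additive forms
  let I' : Additive V →+ Additive V := I.toAdditive
  let J' : Additive V →+ Additive V := J.toAdditive
  have h3a : ∀ x : Additive V, (3 : ℤ) • x = 0 := by
    intro x
    rw [show (3 : ℤ) = ((3 : ℕ) : ℤ) from rfl, natCast_zsmul]
    exact congrArg Additive.ofMul (hL.exp (Additive.toMul x))
  have hIIa : ∀ v, I' (I' v) = -v := fun v => congrArg Additive.ofMul (hII (Additive.toMul v))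
  have hJJa : ∀ v, J' (J' v) = -v := fun v => congrArg Additive.ofMul (hJJ (Additive.toMul v))
  have hJIa : ∀ v, J' (I' v) = -I' (J' v) := fun v => congrArg Additive.ofMul (hJI (Additive.toMul v))
  let b : V →* V := MonoidHom.mk' (fun v => I v * J v * I (J v)) (by
    intro x y
    simp only [map_mul]
    ac_rfl)
  have hbdef : ∀ v, b v = I v * J v * I (J v) := fun _ => rfl
  have hbb : ∀ v, b (b v) = 1 := by
    intro v
    exact q8_bb h3a I' J' hIIa hJJa hJIa (Additive.ofMul v)
  have hbi : ∀ v, b v = 1 → b (I v) = 1 → v = 1 := by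
    intro v h1 h2
    exact q8_bi h3a I' J' hIIa hJJa hJIa (Additive.ofMul v) h1 h2
  let W : Subgroup V := b.ker
  have hmemW : ∀ v, v ∈ W ↔ b v = 1 := fun v => MonoidHom.mem_ker
  -- `|W|^2 ≤ |V|`
  have hW2 : Nat.card W ^ 2 ≤ Nat.card V := by
    let f : W × W → V := fun w => (w.1 : V) * I (w.2 : V)
    have hf : Function.Injective f := by
      rintro ⟨⟨a, ha⟩, ⟨a', ha'⟩⟩ ⟨⟨c, hc⟩, ⟨c', hc'⟩⟩ he
      have he' : a * I a' = c * I c' := he
      have h1 : I (a' * c'⁻¹) = c * a⁻¹ := by
        rw [map_mul, map_inv]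
        have h2 : a * I a' * (I c')⁻¹ * a⁻¹ = c * a⁻¹ := by
          rw [he', mul_inv_cancel_right]
        have h3 : a * I a' * (I c')⁻¹ * a⁻¹ = I a' * (I c')⁻¹ := by
          rw [mul_comm a (I a'), mul_assoc (I a') a, mul_comm a (I c')⁻¹, ← mul_assoc,
            mul_inv_cancel_right]
        rw [← h2, h3]
      have h2 : a' * c'⁻¹ ∈ W := W.mul_mem ha' (W.inv_mem hc')
      have h3 : I (a' * c'⁻¹) ∈ W := by
        rw [h1]
        exact W.mul_mem hc (W.inv_mem ha)
      have h4 := hbi _ ((hmemW _).1 h2) ((hmemW _).1 h3)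
      have h5 : a' = c' := mul_inv_eq_one.1 h4
      subst h5
      have h6 : a = c := mul_right_cancel he'
      subst h6
      rfl
    have h1 := Nat.card_le_card_of_injective f hf
    rw [Nat.card_prod, ← pow_two] at h1
    exact h1
  -- a non-identity element of `W`
  have hne : ∃ v : V, v ≠ 1 := by
    by_contra hcon
    push Not at hcon
    apply hz1
    apply hL.inj
    rw [map_one]
    ext v
    rw [hcon (φ z v), hcon v]
    rfl
  obtain ⟨v₀, hv₀⟩ := hne
  obtain ⟨w₀, hw₀W, hw₀1⟩ : ∃ w, w ∈ W ∧ w ≠ 1 := by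
    by_cases hbv : b v₀ = 1
    · exact ⟨v₀, (hmemW _).2 hbv, hv₀⟩
    · exact ⟨b v₀, (hmemW _).2 (hbb v₀), hbv⟩
  letI act : MulAction H V := MulAction.compHom V φ
  have hsmul : ∀ (h : H) (v : V), h • v = φ h v := fun _ _ => rfl
  -- stabilisers are 3-groups
  have hstabH : ∀ (v : V), v ≠ 1 → IsPGroup 3 (MulAction.stabilizer H v) := by
    intro v hv h
    obtain ⟨k, hk⟩ := hL.stab v h hv h.2
    refine ⟨k, Subtype.ext ?_⟩
    show (h : H) ^ 3 ^ k = 1
    rw [← hk]
    exact pow_orderOf_eq_one _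
  -- the orbit of `H`
  obtain ⟨s, hs⟩ := IsPGroup.iff_card.1 (hstabH w₀ hw₀1)
  have horbH : MulAction.orbit H w₀ = Set.univ \ {1} := by
    ext v
    constructor
    · rintro ⟨h, rfl⟩
      refine ⟨Set.mem_univ _, ?_⟩
      intro h1
      have h2 : φ h w₀ = 1 := h1
      exact hw₀1 ((map_eq_one_iff (φ h) (φ h).injective).1 h2)
    · rintro ⟨-, hv⟩
      obtain ⟨h, hh⟩ := hL.trans w₀ v hw₀1 hv
      exact ⟨h, hh⟩
  have hcardH : (Nat.card V - 1) * 3 ^ s = Nat.card H := by
    have h1 := Subgroup.index_mul_card (MulAction.stabilizer H w₀)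
    rw [MulAction.index_stabilizer, horbH, hs, Set.ncard_sdiff_singleton_of_mem (Set.mem_univ _),
      Set.ncard_univ] at h1
    exact h1
  -- the orbit of `D`
  have hstabD : IsPGroup 3 (MulAction.stabilizer D w₀) := by
    intro d
    obtain ⟨k, hk⟩ := hL.stab w₀ ((d : D) : H) hw₀1 d.2
    refine ⟨k, Subtype.ext (Subtype.ext ?_)⟩
    show (((d : D) : H)) ^ 3 ^ k = 1
    rw [← hk]
    exact pow_orderOf_eq_one _
  obtain ⟨t, ht⟩ := IsPGroup.iff_card.1 hstabD
  have horbD : MulAction.orbit D w₀ ⊆ (W : Set V) \ {1} := by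
    rintro _ ⟨d, rfl⟩
    refine ⟨?_, ?_⟩
    · show (d : H) • w₀ ∈ W
      rw [hsmul, hmemW]
      have h1 : ∀ v, φ d (I v) = I (φ d v) := by
        intro v
        rw [hIdef, hIdef, hphi, hphi, hDi _ d.2]
      have h2 : ∀ v, φ d (J v) = J (φ d v) := by
        intro v
        rw [hJdef, hJdef, hphi, hphi, hDj _ d.2]
      have h3 : b (φ d w₀) = φ d (b w₀) := by
        rw [hbdef, hbdef, map_mul, map_mul, h1, h2, h1, h2]
      rw [h3, (hmemW _).1 hw₀W, map_one]
    · intro h1
      have h2 : φ (d : H) w₀ = 1 := h1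
      exact hw₀1 ((map_eq_one_iff (φ d) (φ d).injective).1 h2)
  have hcardD : (MulAction.orbit D w₀).ncard * 3 ^ t = Nat.card D := by
    have h1 := Subgroup.index_mul_card (MulAction.stabilizer D w₀)
    rwa [MulAction.index_stabilizer, ht] at h1
  have hO : (MulAction.orbit D w₀).ncard + 1 ≤ Nat.card W := by
    have h1 := Set.ncard_le_ncard horbD (Set.toFinite _)
    rw [Set.ncard_sdiff_singleton_of_mem (show (1 : V) ∈ (W : Set V) from W.one_mem)] at h1
    have h2 : (W : Set V).ncard = Nat.card W := rfl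
    rw [h2] at h1
    have h3 : 1 < Nat.card W := by
      haveI : Nontrivial W := ⟨⟨⟨w₀, hw₀W⟩, 1, fun h => hw₀1 (congrArg Subtype.val h)⟩⟩
      exact Finite.one_lt_card
    omega
  -- arithmetic
  have hHD : 24 * Nat.card D = Nat.card H := by
    rw [← hindex]
    exact Subgroup.index_mul_card D
  set c := Nat.card D with hc
  have hcpos : 0 < c := Nat.card_pos
  have h3prime : Nat.Prime 3 := hp3.out
  obtain ⟨e, m, hm3, hm⟩ : ∃ e m : ℕ, ¬ 3 ∣ m ∧ c = 3 ^ e * m := by
    refine ⟨c.factorization 3, c / 3 ^ c.factorization 3, ?_, ?_⟩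
    · exact Nat.not_dvd_ordCompl h3prime hcpos.ne'
    · exact (Nat.ordProj_mul_ordCompl_eq_self c 3).symm
  obtain ⟨n, hn⟩ := IsPGroup.iff_card.1 hL.isPGroup_V
  have hVgt : 1 < Nat.card V := by
    haveI : Nontrivial V := ⟨⟨v₀, 1, hv₀⟩⟩
    exact Finite.one_lt_card
  have hn0 : n ≠ 0 := by
    rintro rfl
    rw [pow_zero] at hn
    omega
  have hV3 : ¬ 3 ∣ Nat.card V - 1 := by
    intro h1
    have h2 : 3 ∣ Nat.card V := by
      rw [hn]
      exact dvd_pow_self 3 hn0
    have h3 : 3 ∣ 1 := by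
      have h4 : Nat.card V - 1 + 1 = Nat.card V := by omega
      have h5 := (Nat.dvd_add_right h1).1 (h4 ▸ h2)
      exact h5
    omega
  have hm8 : Nat.card V - 1 = 8 * m := by
    have h1 : (Nat.card V - 1) * 3 ^ s = 8 * m * 3 ^ (e + 1) := by
      rw [hcardH, ← hHD, hm, pow_succ]
      ring
    apply Nat.dvd_antisymm
    · have h2 : Nat.card V - 1 ∣ 8 * m * 3 ^ (e + 1) := ⟨3 ^ s, h1.symm⟩
      have h3 : Nat.Coprime (Nat.card V - 1) (3 ^ (e + 1)) :=
        Nat.Coprime.pow_right _ (((Nat.Prime.coprime_iff_not_dvd h3prime).2 hV3).symm)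
      exact h3.dvd_of_dvd_mul_right h2
    · have h2 : 8 * m ∣ (Nat.card V - 1) * 3 ^ s := ⟨3 ^ (e + 1), h1⟩
      have h3 : Nat.Coprime (8 * m) (3 ^ s) := by
        apply Nat.Coprime.pow_right
        apply Nat.Coprime.mul_left (by norm_num)
        exact ((Nat.Prime.coprime_iff_not_dvd h3prime).2 hm3).symm
      exact h3.dvd_of_dvd_mul_right h2
  have hm2 : 2 ∣ m := by
    have h1 : 2 ∣ c := by
      have h2 : orderOf (⟨z, hzD⟩ : D) = 2 := by
        rw [← hord2]
        exact Subgroup.orderOf_mk z hzD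
      rw [← h2]
      exact orderOf_dvd_natCard _
    rw [hm] at h1
    exact (Nat.Coprime.dvd_of_dvd_mul_left (Nat.Coprime.pow_right e (by norm_num)) h1)
  have hmO : m ≤ Nat.card W - 1 := by
    have h1 : m ∣ (MulAction.orbit D w₀).ncard := by
      have h2 : m ∣ (MulAction.orbit D w₀).ncard * 3 ^ t := by
        rw [hcardD, hm]
        exact Dvd.intro_left _ rfl
      have h3 : Nat.Coprime m (3 ^ t) :=
        Nat.Coprime.pow_right _ (((Nat.Prime.coprime_iff_not_dvd h3prime).2 hm3).symm)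
      exact h3.dvd_of_dvd_mul_right h2
    have h4 : 0 < (MulAction.orbit D w₀).ncard := by
      rw [Set.ncard_pos (Set.toFinite _)]
      exact ⟨w₀, MulAction.mem_orbit_self w₀⟩
    have h5 := Nat.le_of_dvd h4 h1
    omega
  have hmpos : 0 < m := by
    rcases Nat.eq_zero_or_pos m with h0 | h0
    · rw [h0, mul_zero] at hm
      omega
    · exact h0
  have hle : (m + 1) ^ 2 ≤ 8 * m + 1 := by
    have h1 : m + 1 ≤ Nat.card W := by omega
    have h2 : (m + 1) ^ 2 ≤ Nat.card W ^ 2 := Nat.pow_le_pow_left h1 2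
    have h3 : Nat.card V = 8 * m + 1 := by omega
    omega
  have hm6 : m ≤ 6 := by
    by_contra hcon
    push Not at hcon
    nlinarith
  have hVm : 3 ^ n = 8 * m + 1 := by
    rw [← hn]
    omega
  have hn4 : n ≤ 3 := by
    by_contra hcon
    push Not at hcon
    have h1 : 3 ^ 4 ≤ 3 ^ n := Nat.pow_le_pow_right (by norm_num) hcon
    omega
  obtain ⟨r, hr⟩ := hm2
  interval_cases n <;> omega

end Count

end Cfsg.Agent.H03.TC
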