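import Mathlib
import Cfsg.Agent.Lib.H03.TCB

/-! The derived subgroup of a solvable group of linear type with `O_p = 1` has order prime to `p`. -/

set_option autoImplicit false

namespace Cfsg.Agent.H03.TC

open QuaternionGroup
open scoped commutatorElement

/-- A normal subgroup of index at most three contains the derived subgroup. -/
theorem commutator_le_of_index_le_three {H : Type*} [Group H] [Finite H] (E : Subgroup H) [hE : E.Normal]
    (h : E.index ≤ 3) : commutator H ≤ E := by
  have hcard : Nat.card (H ⧸ E) = E.index := rfl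
  have hpos : E.index ≠ 0 := Subgroup.index_ne_zero_of_finite
  have hcyc : IsCyclic (H ⧸ E) := by
    have h1 : E.index = 1 ∨ E.index = 2 ∨ E.index = 3 := by omega
    rcases h1 with h1 | h1 | h1
    · haveI : Subsingleton (H ⧸ E) := (Nat.card_eq_one_iff_unique.1 (hcard.trans h1)).1
      infer_instance
    · haveI : Fact (Nat.Prime 2) := ⟨Nat.prime_two⟩
      exact isCyclic_of_prime_card (p := 2) (by rw [hcard, h1])
    · haveI : Fact (Nat.Prime 3) := ⟨Nat.prime_three⟩
      exact isCyclic_of_prime_card (p := 3) (by rw [hcard, h1])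
  rw [commutator_def, Subgroup.commutator_le]
  intro a _ b _
  rw [← QuotientGroup.eq_one_iff, commutatorElement_def]
  have hc := (IsCyclic.commGroup (α := H ⧸ E)).mul_comm (a : H ⧸ E) (b : H ⧸ E)
  have hc' : (a : H ⧸ E) * (b : H ⧸ E) = (b : H ⧸ E) * (a : H ⧸ E) := hc
  simp only [QuotientGroup.mk_mul, QuotientGroup.mk_inv]
  rw [hc']
  group

variable {H V : Type*} [Group H] [Finite H] [CommGroup V] [Finite V] {φ : H →* MulAut V}

/-- The case of a normal subgroup isomorphic to `Q_8`, in characteristic three. -/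
theorem q8_case [hp3 : Fact (Nat.Prime 3)] (hL : LT 3 φ) (R : Subgroup H) [hRn : R.Normal]
    (e : R ≃* QuaternionGroup 2) {y : H} (hy : y ∈ commutator H) {f : ℕ}
    (hyf : orderOf y = 3 ^ f) : ∀ r ∈ R, r * y = y * r := by
  classical
  set D := Subgroup.centralizer (R : Set H) with hD
  haveI hDn : D.Normal := Subgroup.normal_centralizer
  have hmemD : ∀ d, d ∈ D ↔ ∀ r ∈ R, r * d = d * r := fun d => Subgroup.mem_centralizer_iff
  -- the index of `D`
  have hker : (MulAut.conjNormal : H →* MulAut R).ker = D := by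
    ext d
    rw [MonoidHom.mem_ker, hmemD]
    constructor
    · intro h r hr
      have h1 := congrArg (fun f : MulAut R => ((f ⟨r, hr⟩ : R) : H)) h
      simp only [MulAut.conjNormal_apply, MulAut.one_apply] at h1
      rw [mul_inv_eq_iff_eq_mul] at h1
      exact h1.symm
    · intro h
      ext r
      simp only [MulAut.conjNormal_apply, MulAut.one_apply]
      rw [mul_inv_eq_iff_eq_mul]
      exact (h r r.2).symm
  have hcardAut : Nat.card (MulAut R) = 24 := by
    rw [Nat.card_congr (MulAut.congr e).toEquiv]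
    exact Cfsg.Agent.H03.NF.card_mulAut_q8
  have hDdvd : D.index ∣ 24 := by
    rw [← hker, Subgroup.index_ker, ← hcardAut]
    exact Subgroup.card_subgroup_dvd_card _
  -- elements
  let i : H := (e.symm (a 1) : R)
  let j : H := (e.symm (xa 0) : R)
  let z : H := (e.symm (a 2) : R)
  have hiR : i ∈ R := (e.symm (a 1)).2
  have hjR : j ∈ R := (e.symm (xa 0)).2
  have hzR : z ∈ R := (e.symm (a 2)).2
  have hval : ∀ u v : QuaternionGroup 2, ((e.symm u : R) : H) * (e.symm v : R) = (e.symm (u * v) : R) := by
    intro u v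
    rw [map_mul]
    rfl
  have hii : i * i = z := by
    show ((e.symm (a 1) : R) : H) * (e.symm (a 1) : R) = _
    rw [hval]
    rfl
  have hjj : j * j = z := by
    show ((e.symm (xa 0) : R) : H) * (e.symm (xa 0) : R) = _
    rw [hval]
    rfl
  have hz1 : z ≠ 1 := by
    intro h
    have h1 : e.symm (a 2) = 1 := Subtype.ext h
    have h2 : (a 2 : QuaternionGroup 2) = 1 := (map_eq_one_iff e.symm e.symm.injective).1 h1
    revert h2
    decide
  have hzz : z * z = 1 := by
    show ((e.symm (a 2) : R) : H) * (e.symm (a 2) : R) = _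
    rw [hval]
    have h1 : (a 2 * a 2 : QuaternionGroup 2) = 1 := by decide
    rw [h1, map_one]
    rfl
  have hji : j * i = z * (i * j) := by
    show ((e.symm (xa 0) : R) : H) * (e.symm (a 1) : R) =
      ((e.symm (a 2) : R) : H) * (((e.symm (a 1) : R) : H) * (e.symm (xa 0) : R))
    rw [hval, hval, hval]
    have h1 : (xa 0 * a 1 : QuaternionGroup 2) = a 2 * (a 1 * xa 0) := by decide
    rw [h1]
  have hzcent : ∀ r ∈ R, r * z = z * r := by
    intro r hr
    have h1 : r = (e.symm (e ⟨r, hr⟩) : R) := by simp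
    rw [h1]
    show ((e.symm (e ⟨r, hr⟩) : R) : H) * (e.symm (a 2) : R) = ((e.symm (a 2) : R) : H) * (e.symm (e ⟨r, hr⟩) : R)
    rw [hval, hval]
    have h2 : ∀ u : QuaternionGroup 2, u * a 2 = a 2 * u := by decide
    rw [h2]
  have hzD : z ∈ D := (hmemD z).2 hzcent
  have hDi : ∀ d ∈ D, d * i = i * d := fun d hd => ((hmemD d).1 hd i hiR).symm
  have hDj : ∀ d ∈ D, d * j = j * d := fun d hd => ((hmemD d).1 hd j hjR).symm
  have hDne : D.index ≠ 24 := fun h24 => q8_count hL hii hjj hz1 hzz hji D hDi hDj hzD h24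
  have hDle : D.index ≤ 12 := by
    obtain ⟨c, hc⟩ := hDdvd
    have hc0 : c ≠ 0 := by
      rintro rfl
      omega
    have hc1 : c ≠ 1 := by
      rintro rfl
      omega
    have : 2 ≤ c := by omega
    nlinarith
  -- the relative index
  set E := R ⊔ D with hE
  haveI hEn : E.Normal := Subgroup.sup_normal R D
  have hrel : 4 ≤ D.relIndex E := by
    rw [hE, Subgroup.relIndex_sup_right]
    have hT : D.relIndex R = (D.subgroupOf R).index := rfl
    rw [hT]
    set T := D.subgroupOf R with hTdef
    haveI hTn : T.Normal := Subgroup.normal_subgroupOf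
    by_contra hlt
    push Not at hlt
    have hcardR : Nat.card R = 8 := by
      rw [Nat.card_congr e.toEquiv, Nat.card_eq_fintype_card, QuaternionGroup.card]
    have hdvd : T.index ∣ 8 := hcardR ▸ Subgroup.index_dvd_card T
    have hTne : T.index ≠ 0 := Subgroup.index_ne_zero_of_finite
    have hcard : Nat.card (R ⧸ T) = T.index := rfl
    have hcyc : IsCyclic (R ⧸ T) := by
      have h1 : T.index = 1 ∨ T.index = 2 := by
        have h3 : T.index ≠ 3 := by
          intro h
          rw [h] at hdvd
          omega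
        omega
      rcases h1 with h1 | h1
      · haveI : Subsingleton (R ⧸ T) := (Nat.card_eq_one_iff_unique.1 (hcard.trans h1)).1
        infer_instance
      · haveI : Fact (Nat.Prime 2) := ⟨Nat.prime_two⟩
        exact isCyclic_of_prime_card (p := 2) (by rw [hcard, h1])
    have hcomm := (MonoidHom.isMulCommutative_of_isCyclic_of_ker_le_center (QuotientGroup.mk' T) (by
      intro t ht
      rw [QuotientGroup.ker_mk'] at ht
      rw [Subgroup.mem_center_iff]
      intro r
      have h1 : (t : H) ∈ D := ht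
      have h2 := (hmemD _).1 h1 r r.2
      exact Subtype.ext h2)).is_comm.comm
    have h1 := hcomm (e.symm (a 1)) (e.symm (xa 0))
    have h2 : (e.symm (a 1) * e.symm (xa 0) : R) = e.symm (a 1 * xa 0) := (map_mul _ _ _).symm
    have h3 : (e.symm (xa 0) * e.symm (a 1) : R) = e.symm (xa 0 * a 1) := (map_mul _ _ _).symm
    rw [h2, h3] at h1
    have h4 := e.symm.injective h1
    revert h4
    decide
  have hEle : E.index ≤ 3 := by
    have h1 := Subgroup.relIndex_mul_index (show D ≤ E from le_sup_right)
    nlinarith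
  have hyE : y ∈ E := commutator_le_of_index_le_three E hEle hy
  have hyE' : y ∈ ((R ⊔ D : Subgroup H) : Set H) := hyE
  rw [Subgroup.mul_normal] at hyE'
  obtain ⟨r₀, hr₀, d₀, hd₀, hy0⟩ := Set.mem_mul.1 hyE'
  -- squares are central in `R`
  have hsq : ∀ r ∈ R, ∀ s ∈ R, r * r * s = s * (r * r) := by
    intro r hr s hs
    have h1 : r = (e.symm (e ⟨r, hr⟩) : R) := by simp
    have h2 : s = (e.symm (e ⟨s, hs⟩) : R) := by simp
    rw [h1, h2]
    show ((e.symm (e ⟨r, hr⟩) : R) : H) * (e.symm (e ⟨r, hr⟩) : R) * (e.symm (e ⟨s, hs⟩) : R) =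
      ((e.symm (e ⟨s, hs⟩) : R) : H) * (((e.symm (e ⟨r, hr⟩) : R) : H) * (e.symm (e ⟨r, hr⟩) : R))
    rw [hval, hval, hval]
    have h3 : ∀ u v : QuaternionGroup 2, u * u * v = v * (u * u) := by decide
    rw [h3]
  have hyy : ∀ r ∈ R, r * (y * y) = (y * y) * r := by
    intro r hr
    have hd := (hmemD d₀).1 hd₀
    have h1 : y * y = r₀ * r₀ * (d₀ * d₀) := by
      rw [← hy0, mul_assoc r₀ d₀, ← mul_assoc d₀ r₀, ← hd r₀ hr₀]
      group
    rw [h1, ← mul_assoc, ← hsq r₀ hr₀ r hr, mul_assoc, mul_assoc, mul_assoc, mul_assoc]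
    congr 2
    rw [← mul_assoc, hd r hr, mul_assoc, hd r hr, mul_assoc]
  intro r hr
  obtain ⟨m, hm⟩ : ∃ m, 3 ^ f + 1 = 2 * m := by
    have h1 : Odd (3 ^ f) := Odd.pow (by decide)
    obtain ⟨t, ht⟩ := h1
    exact ⟨t + 1, by omega⟩
  have hy2 : y = (y * y) ^ m := by
    have h1 : y ^ (3 ^ f) = 1 := by
      rw [← hyf]
      exact pow_orderOf_eq_one y
    rw [← pow_two, ← pow_mul, ← hm, pow_succ, h1, one_mul]
  have hc : Commute r (y * y) := hyy r hr
  rw [hy2]
  exact hc.pow_right m

/-- The derived subgroup of a solvable group of linear type with trivial `p`-core has no non-trivial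
`p`-elements. -/
theorem comm_pelt_trivial {p : ℕ} [hp : Fact p.Prime] [Group.IsSolvable H] (hL : LT p φ)
    (hcore : Cfsg.pCore p H = ⊥) {y : H} (hy : y ∈ commutator H) {f : ℕ}
    (hyf : orderOf y = p ^ f) : y = 1 := by
  classical
  have hkey : ∀ q : Nat.Primes, Cfsg.pCore (q : ℕ) H ≤ Subgroup.centralizer ({y} : Set H) := by
    rintro ⟨q, hq⟩
    haveI hqf : Fact q.Prime := ⟨hq⟩
    by_cases hqp : q = p
    · subst hqp
      show Cfsg.pCore q H ≤ _
      rw [hcore]
      exact bot_le
    set R := Cfsg.pCore q H with hR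
    haveI hRn : R.Normal := Cfsg.Agent.H01.pCore_normal q
    have hRq : IsPGroup q R := Cfsg.Agent.H01.pCore_isPGroup q
    have hfin : ∀ r ∈ R, r * y = y * r → r ∈ Subgroup.centralizer ({y} : Set H) := by
      intro r _ h
      rw [Subgroup.mem_centralizer_singleton_iff]
      exact h
    have hgoal : (∀ r ∈ R, r * y = y * r) → R ≤ Subgroup.centralizer ({y} : Set H) :=
      fun h r hr => hfin r hr (h r hr)
    show R ≤ _
    apply hgoal
    rcases Cfsg.Agent.H14.isCyclic_or_quaternion hRq (hL.uniqueP hqp R hRq) with hc | ⟨hq2, k, hk, ⟨e⟩⟩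
    · have h1 := commutator_le_centralizer_of_cyclic R hy
      intro r hr
      exact (Subgroup.mem_centralizer_iff.1 h1 r hr)
    · subst hq2
      have hp2 : p ≠ 2 := fun h => hqp h.symm
      have hpodd : Odd p := hp.out.odd_of_ne_two hp2
      -- the automorphism induced by `y`
      let α : MulAut R := MulAut.conjNormal y
      have hαpow : α ^ (p ^ f) = 1 := by
        show (MulAut.conjNormal y) ^ (p ^ f) = 1
        rw [← map_pow, ← hyf, pow_orderOf_eq_one, map_one]
      have hfinal : α = 1 → ∀ r ∈ R, r * y = y * r := by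
        intro h r hr
        have h1 := congrArg (fun f : MulAut R => ((f ⟨r, hr⟩ : R) : H)) h
        simp only [α, MulAut.conjNormal_apply, MulAut.one_apply] at h1
        rw [mul_inv_eq_iff_eq_mul] at h1
        exact h1.symm
      let β : MulAut (QuaternionGroup (2 ^ k)) := MulAut.congr e α
      have hβpow : β ^ (p ^ f) = 1 := by
        show (MulAut.congr e α) ^ (p ^ f) = 1
        rw [← map_pow, hαpow, map_one]
      have hβfin : β = 1 → α = 1 := by
        intro h
        apply (MulAut.congr e).injective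
        rw [map_one]
        exact h
      have hβord : orderOf β ∣ p ^ f := orderOf_dvd_of_pow_eq_one hβpow
      have hβodd : Odd (orderOf β) := by
        obtain ⟨l, -, hl⟩ := (Nat.dvd_prime_pow hp.out).1 hβord
        rw [hl]
        exact hpodd.pow
      by_cases hk2 : 2 ≤ k
      · exact hfinal (hβfin (quat_odd_aut rfl hk2 β hβodd))
      · have hk1 : k = 1 := by omega
        subst hk1
        let e' : R ≃* QuaternionGroup 2 := e
        by_cases hp3 : p = 3
        · subst hp3
          exact q8_case hL R e' hy hyf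
        · apply hfinal
          apply hβfin
          have h24 : orderOf β ∣ 24 := by
            have h1 := orderOf_dvd_natCard β
            have h2 : Nat.card (MulAut (QuaternionGroup (2 ^ 1))) = 24 :=
              Cfsg.Agent.H03.NF.card_mulAut_q8
            rwa [h2] at h1
          have hcop : Nat.Coprime (p ^ f) 24 := by
            apply Nat.Coprime.pow_left
            have h1 : (24 : ℕ) = 2 ^ 3 * 3 := by norm_num
            rw [h1]
            apply Nat.Coprime.mul_right
            · exact Nat.Coprime.pow_right _ ((Nat.coprime_primes hp.out Nat.prime_two).2 hp2)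
            · exact (Nat.coprime_primes hp.out Nat.prime_three).2 hp3
          have h1 : orderOf β = 1 := Nat.eq_one_of_dvd_coprimes hcop hβord h24
          exact orderOf_eq_one_iff.1 h1
  have hyF : y ∈ Cfsg.fittingSubgroup H := by
    apply Cfsg.Agent.H01.centralizer_fitting_le
    rw [Subgroup.mem_centralizer_iff]
    intro g hg
    have h1 : Cfsg.fittingSubgroup H ≤ Subgroup.centralizer ({y} : Set H) := by
      rw [Cfsg.Agent.H01.fitting_eq_iSup_pCore]
      exact iSup_le hkey
    have h2 := h1 hg
    rw [Subgroup.mem_centralizer_singleton_iff] at h2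
    exact h2
  have hc := Cfsg.Agent.H12.coprime_of_mem_fitting hcore hyF
  rw [hyf] at hc
  rw [← orderOf_eq_one_iff, hyf]
  rcases Nat.eq_zero_or_pos f with rfl | hf0
  · simp
  · exfalso
    have h1 : p ∣ p ^ f := dvd_pow_self p hf0.ne'
    have h2 := Nat.dvd_gcd h1 (dvd_refl p)
    rw [hc] at h2
    exact hp.out.one_lt.ne' (Nat.dvd_one.1 h2)

end Cfsg.Agent.H03.TC
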