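import Mathlib
import Cfsg.Prelude.Def_Classical
import Cfsg.Agent.Lib.H03.F4
import Cfsg.Agent.Lib.H03.U4S4
import Cfsg.Agent.Lib.Lead.SUCenter
import Cfsg.Agent.Lib.Lead.SpGen
import Cfsg.Agent.Lib.Lead.Sp42

/-! `PSU₄(2) ≅ PSp₄(3)`. -/

set_option autoImplicit false

namespace Cfsg.Agent.H03.U4S4

open Matrix
open Cfsg.Agent.Lead

/-- eigenvector criterion for scalars -/
lemma scalar_of_eigen {ι K : Type*} [Fintype ι] [DecidableEq ι] [Field K] (A : Matrix ι ι K)
    (h1 : ∀ j, ∃ m : K, A *ᵥ Pi.single j 1 = m • Pi.single j 1)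
    (h3 : ∀ i j k, i ≠ j → i ≠ k → j ≠ k → ∃ m : K,
      A *ᵥ (Pi.single i 1 + Pi.single j 1 + Pi.single k 1) =
        m • (Pi.single i 1 + Pi.single j 1 + Pi.single k 1))
    (hk : ∀ i j : ι, ∃ k, k ≠ i ∧ k ≠ j) (i₀ : ι) : ∃ μ : K, A = μ • 1 := by
  classical
  choose m hm using h1
  have hent : ∀ k j, A k j = if k = j then m j else 0 := by
    intro k j
    have := congrFun (hm j) k
    rw [Matrix.mulVec_single_one] at this
    simp only [Matrix.col_apply, Pi.smul_apply, Pi.single_apply, smul_eq_mul, mul_ite, mul_one,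
      mul_zero] at this
    rw [this]
  have hmv : ∀ (v : ι → K) k, (A *ᵥ v) k = m k * v k := by
    intro v k
    simp only [Matrix.mulVec, dotProduct, hent]
    rw [Finset.sum_eq_single k]
    · simp
    · intro b _ hb
      simp [Ne.symm hb]
    · simp
  have heq : ∀ i j, m i = m j := by
    intro i j
    by_cases hij : i = j
    · rw [hij]
    obtain ⟨k, hki, hkj⟩ := hk i j
    obtain ⟨c, hc⟩ := h3 i j k hij (Ne.symm hki) (Ne.symm hkj)
    have h2 := congrFun hc i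
    have h4 := congrFun hc j
    rw [hmv] at h2 h4
    simp only [Pi.add_apply, Pi.smul_apply, Pi.single_apply, smul_eq_mul, if_true, if_neg hij,
      if_neg (Ne.symm hij), if_neg hki, if_neg hkj, if_neg (Ne.symm hki), if_neg (Ne.symm hkj),
      add_zero, zero_add] at h2 h4
    simp only [mul_one] at h2 h4
    rw [h2, h4]
  refine ⟨m i₀, ?_⟩
  ext k j
  rw [hent, Matrix.smul_apply, Matrix.one_apply]
  split_ifs with h
  · simp [h, heq j i₀]
  · simp

abbrev Sp3 := Matrix.symplecticGroup (Fin 2) Z3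
abbrev SU4 := Cfsg.SU 4 GF4 2

/-- the underlying matrix -/
def mat4 (g : SU4) : Matrix (Fin 4) (Fin 4) GF4 :=
  ((g : Matrix.SpecialLinearGroup (Fin 4) GF4) : Matrix (Fin 4) (Fin 4) GF4)

lemma mat4_mul (g h : SU4) : mat4 (g * h) = mat4 g * mat4 h := rfl
lemma mat4_one : mat4 1 = 1 := rfl

lemma mat4_inj {g h : SU4} (hh : mat4 g = mat4 h) : g = h := Subtype.ext (Subtype.ext hh)

lemma card_eq4 : Fintype.card GF4 = 2 ^ 2 := by decide

/-- the relation -/
def RR0 : Submonoid (Sp3 × SU4) where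
  carrier := {g | ∀ x, ∃ y, (∃ l : Z3, g.1.1 *ᵥ p3 x = l • p3 y) ∧ (∃ m : GF4, mat4 g.2 *ᵥ p4 x = m • p4 y)}
  mul_mem' := by
    intro a b ha hb x
    obtain ⟨y, ⟨l, hl⟩, ⟨m, hm⟩⟩ := hb x
    obtain ⟨w, ⟨l', hl'⟩, ⟨m', hm'⟩⟩ := ha y
    refine ⟨w, ⟨l * l', ?_⟩, ⟨m * m', ?_⟩⟩
    · have : (a * b).1.1 = a.1.1 * b.1.1 := rfl
      rw [this, ← Matrix.mulVec_mulVec, hl, Matrix.mulVec_smul, hl', smul_smul]
    · have : mat4 (a * b).2 = mat4 a.2 * mat4 b.2 := rfl
      rw [this, ← Matrix.mulVec_mulVec, hm, Matrix.mulVec_smul, hm', smul_smul]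
  one_mem' := by
    intro x
    refine ⟨x, ⟨1, ?_⟩, ⟨1, ?_⟩⟩
    · have : (1 : Sp3 × SU4).1.1 = 1 := rfl
      rw [this, Matrix.one_mulVec, one_smul]
    · have : mat4 (1 : Sp3 × SU4).2 = 1 := rfl
      rw [this, Matrix.one_mulVec, one_smul]

instance : Finite Sp3 := inferInstance
instance : Finite SU4 := inferInstance

def RR : Subgroup (Sp3 × SU4) where
  toSubmonoid := RR0
  inv_mem' := by
    intro a ha
    have h2 : a⁻¹ = a ^ (orderOf a - 1) := by
      rw [eq_comm, ← mul_eq_one_iff_eq_inv, ← pow_succ, Nat.sub_add_cancel (orderOf_pos a),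
        pow_orderOf_eq_one]
    rw [h2]
    exact RR0.pow_mem ha _

lemma mem_RR {g : Sp3} {h : SU4} : (g, h) ∈ RR ↔
    ∀ x, ∃ y, (∃ l : Z3, g.1 *ᵥ p3 x = l • p3 y) ∧ (∃ m : GF4, mat4 h *ᵥ p4 x = m • p4 y) := Iff.rfl

/-- the unitary reflection (normalised to determinant one) -/
def reflMat (v : V4) : Matrix (Fin 4) (Fin 4) GF4 :=
  GF4.w • (1 + GF4.w • vecMulVec v (fun j => v j ^ 2))

local notation "herm" => Cfsg.hermForm 4 GF4 2

lemma reflMat_mulVec (v x : V4) :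
    reflMat v *ᵥ x = GF4.w • (x + (GF4.w * herm x v) • v) := by
  have := uTmat_mulVec (n := 4) (q := 2) v GF4.w x
  rw [uTmat] at this
  rw [reflMat, Matrix.smul_mulVec, this]

lemma reflMat_det (v : V4) (hv : herm v v = 1) : (reflMat v).det = 1 := by
  have h := Matrix.det_one_add_replicateCol_mul_replicateRow (ι := Unit) (GF4.w • v) (fun j => v j ^ 2)
  have e : 1 + replicateCol Unit (GF4.w • v) * replicateRow Unit (fun j => v j ^ 2) =
      1 + GF4.w • vecMulVec v (fun j => v j ^ 2) := by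
    ext i j
    simp [Matrix.mul_apply, vecMulVec_apply, mul_assoc]
  rw [e] at h
  have h2 : (fun j => v j ^ 2) ⬝ᵥ (GF4.w • v) = GF4.w * herm v v := by
    simp only [Cfsg.hermForm, dotProduct, Finset.mul_sum, Pi.smul_apply, smul_eq_mul]
    exact Finset.sum_congr rfl fun i _ => by ring
  rw [reflMat, Matrix.det_smul, Fintype.card_fin, h, h2, hv]
  decide

lemma reflMat_preserves (v : V4) (hv : herm v v = 1) (x y : V4) :
    herm (reflMat v *ᵥ x) (reflMat v *ᵥ y) = herm x y := by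
  have hw : (GF4.w : GF4) ^ 2 + GF4.w + 1 = 0 := by decide
  have hw3 : (GF4.w : GF4) ^ 3 = 1 := by decide
  rw [reflMat_mulVec, reflMat_mulVec]
  rw [herm_smul_left, herm_smul_right card_eq4, herm_add_left, herm_add_right card_eq4,
    herm_add_right card_eq4, herm_smul_left, herm_smul_left, herm_smul_right card_eq4,
    herm_smul_right card_eq4, hv, herm_conj card_eq4 y v, mul_pow]
  linear_combination (herm x v * (herm y v) ^ 2 * GF4.w ^ 3) * hw +
    (herm x y + herm x v * (herm y v) ^ 2 * (GF4.w ^ 3 - GF4.w ^ 3 * 0)) * hw3 + 0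

/-- the unitary reflection -/
def reflU (z : Fin 40) : SU4 :=
  ⟨⟨reflMat (p4 z), reflMat_det _ (norm4 z)⟩, reflMat_preserves _ (norm4 z)⟩

lemma sf_eq (x y : V3) : sf x y = sympForm x y := by
  rw [sympForm_apply]; rfl

lemma gen_mem (z : Fin 40) : (sympT (p3 z) (1 : Z3), reflU z) ∈ RR := by
  rw [mem_RR]
  intro x
  obtain ⟨y, ⟨l, hl⟩, ⟨m, hm⟩⟩ := check z x
  refine ⟨y, ⟨l, ?_⟩, ⟨GF4.w * m, ?_⟩⟩
  · rw [sympT_mulVec, one_mul, ← sf_eq]
    exact hl
  · have h1 : mat4 (reflU z) = reflMat (p4 z) := rfl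
    have h2 : GF4.w • rvec z x = (GF4.w * m) • p4 y := by rw [hm, smul_smul]
    rw [h1, reflMat_mulVec]
    exact h2

lemma z3_sq : ∀ l : Z3, l ≠ 0 → l ^ 2 = 1 := by decide

lemma z3_cases : ∀ a : Z3, a = 0 ∨ a = 1 ∨ a = -1 := by decide

lemma trans_mem (u : V3) (a : Z3) : ∃ h : SU4, (sympT u a, h) ∈ RR := by
  by_cases hu : u = 0
  · subst hu
    rw [sympT_zero_vec]
    exact ⟨1, RR.one_mem⟩
  obtain ⟨z, l, rfl⟩ := cover3 u hu
  have hl : l ≠ 0 := by
    rintro rfl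
    exact hu (by simp)
  rw [sympT_smul, z3_sq l hl, mul_one]
  rcases z3_cases a with rfl | rfl | rfl
  · rw [sympT_zero]
    exact ⟨1, RR.one_mem⟩
  · exact ⟨_, gen_mem z⟩
  · refine ⟨(reflU z)⁻¹, ?_⟩
    have := RR.inv_mem (gen_mem z)
    rw [Prod.inv_mk, sympT_inv] at this
    exact this

lemma exists_partner (g : Sp3) : ∃ h : SU4, (g, h) ∈ RR := by
  have htop := spTransGroup_eq_top (F := Z3) 2
  have hg : g ∈ RR.map (MonoidHom.fst Sp3 SU4) := by
    have hle : spTransGroup (Fin 2) Z3 ≤ RR.map (MonoidHom.fst Sp3 SU4) := by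
      rw [spTransGroup, Subgroup.closure_le]
      rintro _ ⟨⟨u, a⟩, rfl⟩
      obtain ⟨h, hh⟩ := trans_mem u a
      exact ⟨(sympT u a, h), hh, rfl⟩
    rw [htop] at hle
    exact hle (Subgroup.mem_top g)
  obtain ⟨⟨g', h⟩, hh, hg'⟩ := hg
  have : g' = g := hg'
  subst this
  exact ⟨h, hh⟩

lemma scalar_of_fix4 (h : Matrix (Fin 4) (Fin 4) GF4) (hf : ∀ x, ∃ m : GF4, h *ᵥ p4 x = m • p4 x) :
    ∃ μ : GF4, h = μ • 1 := by
  refine scalar_of_eigen h ?_ ?_ (by decide) 0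
  · intro j
    obtain ⟨x, hx⟩ := sing4 j
    rw [← hx]
    exact hf x
  · intro i j k hij hik hjk
    obtain ⟨x, c, hc, hx⟩ := tri4 i j k hij hik hjk
    obtain ⟨m, hm⟩ := hf x
    refine ⟨m, ?_⟩
    rw [← hx, Matrix.mulVec_smul, hm, smul_comm]

lemma scalar_of_fix3 (h : Matrix (Fin 2 ⊕ Fin 2) (Fin 2 ⊕ Fin 2) Z3)
    (hf : ∀ x, ∃ m : Z3, h *ᵥ p3 x = m • p3 x) :
    ∃ μ : Z3, h = μ • 1 := by
  refine scalar_of_eigen h ?_ ?_ (by decide) (Sum.inl 0)
  · intro j
    obtain ⟨x, hx⟩ := sing3 j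
    rw [← hx]
    exact hf x
  · intro i j k hij hik hjk
    obtain ⟨x, c, hc, hx⟩ := tri3 i j k hij hik hjk
    obtain ⟨m, hm⟩ := hf x
    refine ⟨m, ?_⟩
    rw [← hx, Matrix.mulVec_smul, hm, smul_comm]

lemma mu_one : ∀ μ : GF4, μ ^ 4 = 1 → μ = 1 := by decide

/-- uniqueness of the partner -/
lemma partner_unique {g : Sp3} {h h' : SU4} (h1 : (g, h) ∈ RR) (h2 : (g, h') ∈ RR) : h = h' := by
  have h3 : ((1 : Sp3), h⁻¹ * h') ∈ RR := by
    have := RR.mul_mem (RR.inv_mem h1) h2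
    simpa using this
  rw [mem_RR] at h3
  have hfix : ∀ x, ∃ m : GF4, mat4 (h⁻¹ * h') *ᵥ p4 x = m • p4 x := by
    intro x
    obtain ⟨y, ⟨l, hl⟩, ⟨m, hm⟩⟩ := h3 x
    have : x = y := by
      apply inj3 x y l
      have h4 : (1 : Sp3).1 = 1 := rfl
      rw [h4, Matrix.one_mulVec] at hl
      exact hl
    subst this
    exact ⟨m, hm⟩
  obtain ⟨μ, hμ⟩ := scalar_of_fix4 _ hfix
  have hdet : μ ^ 4 = 1 := by
    have h5 := (h⁻¹ * h' : SU4).1.2
    have h6 : mat4 (h⁻¹ * h') = ((h⁻¹ * h' : SU4).1 : Matrix (Fin 4) (Fin 4) GF4) := rfl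
    rw [← h6, hμ, Matrix.det_smul, Matrix.det_one, Fintype.card_fin, mul_one] at h5
    exact h5
  have hμ1 : μ = 1 := mu_one μ hdet
  have : h⁻¹ * h' = 1 := by
    apply mat4_inj
    rw [hμ, hμ1, one_smul, mat4_one]
  rw [inv_mul_eq_one] at this
  exact this

/-- the homomorphism `Sp₄(3) → SU₄(2)` -/
noncomputable def theta : Sp3 →* SU4 :=
  MonoidHom.mk' (fun g => (exists_partner g).choose) (by
    intro a b
    apply partner_unique (g := a * b) (exists_partner (a * b)).choose_spec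
    have := RR.mul_mem (exists_partner a).choose_spec (exists_partner b).choose_spec
    exact this)

lemma theta_mem (g : Sp3) : (g, theta g) ∈ RR := (exists_partner g).choose_spec

abbrev GU := Cfsg.PSU 4 GF4 2
abbrev GS := Cfsg.PSp 2 Z3

/-- the composite to `PSU₄(2)` -/
noncomputable def Theta : Sp3 →* GU := (QuotientGroup.mk' _).comp theta

lemma center_le : Subgroup.center Sp3 ≤ Theta.ker := by
  intro g hg
  obtain ⟨c, hc⟩ := center_scalar hg
  have h1 : (g, (1 : SU4)) ∈ RR := by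
    rw [mem_RR]
    intro x
    refine ⟨x, ⟨c, ?_⟩, ⟨1, ?_⟩⟩
    · rw [hc, Matrix.smul_mulVec, Matrix.one_mulVec]
    · rw [mat4_one, Matrix.one_mulVec, one_smul]
  have h2 : theta g = 1 := partner_unique (theta_mem g) h1
  rw [MonoidHom.mem_ker, Theta, MonoidHom.comp_apply, h2, map_one]

lemma ker_le : Theta.ker ≤ Subgroup.center Sp3 := by
  intro g hg
  have h1 : theta g ∈ Subgroup.center SU4 := by
    rw [MonoidHom.mem_ker, Theta, MonoidHom.comp_apply] at hg
    exact (QuotientGroup.eq_one_iff _).1 hg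
  have h2 := center_SU_scalar card_eq4 h1 0
  have hc0 : (theta g).1.1 0 0 ≠ 0 := by
    intro h0
    have h5 := (theta g).1.2
    rw [h2, h0, zero_smul, Matrix.det_zero] at h5
    exact zero_ne_one h5
  have hfix : ∀ x, ∃ m : Z3, g.1 *ᵥ p3 x = m • p3 x := by
    intro x
    obtain ⟨y, ⟨l, hl⟩, ⟨m, hm⟩⟩ := theta_mem g x
    have h3 : mat4 (theta g) = (theta g).1.1 0 0 • 1 := h2
    rw [h3, Matrix.smul_mulVec, Matrix.one_mulVec] at hm
    have : x = y := inj4 x y _ m hc0 hm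
    subst this
    exact ⟨l, hl⟩
  obtain ⟨μ, hμ⟩ := scalar_of_fix3 _ hfix
  rw [Subgroup.mem_center_iff]
  intro k
  apply Subtype.ext
  show k.1 * g.1 = g.1 * k.1
  rw [hμ, Matrix.mul_smul, Matrix.smul_mul, Matrix.mul_one, Matrix.one_mul]

lemma card_GU : Nat.card GU = 25920 := by
  have h := card_PSU (F := GF4) (q := 2) (n := 4) card_eq4 (by norm_num)
  have h2 : ∏ i ∈ Finset.range 4, (if Even i then 2 ^ (i + 1) + 1 else 2 ^ (i + 1) - 1) = 1215 := by
    decide
  rw [h2] at h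
  have h3 : Nat.gcd 4 (2 + 1) = 1 := by decide
  have h4 : 2 ^ (4 * (4 - 1) / 2) * 1215 = 77760 := by norm_num
  rw [h3, h4] at h
  have h5 : 1 * ((2 + 1) * Nat.card GU) = 77760 := h
  omega

lemma card_GS : Nat.card GS = 25920 := by
  have h1 := card_Sp (F := Z3) (q := 3) (by simp [ZMod.card]) 2
  have h2 := card_center_Sp (l := Fin 2) (F := Z3)
  have h3 := Subgroup.card_eq_card_quotient_mul_card_subgroup (Subgroup.center Sp3)
  have h4 : Fintype.card Z3 = 3 := by simp [ZMod.card]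
  rw [h4] at h2
  have h5 : Nat.gcd 2 (3 - 1) = 2 := by decide
  rw [h5] at h2
  have h6 : 3 ^ (2 ^ 2) * ∏ i ∈ Finset.range 2, (3 ^ (2 * (i + 1)) - 1) = 51840 := by decide
  rw [h6] at h1
  have h7 : Nat.card Sp3 = Nat.card GS * Nat.card (Subgroup.center Sp3) := h3
  have h2' : Nat.card (Subgroup.center Sp3) = 2 := h2
  rw [h2'] at h7
  have h8 : Nat.card Sp3 = 51840 := h1
  omega

theorem main_concrete : Nonempty (GU ≃* GS) := by
  let f : GS →* GU := QuotientGroup.lift (Subgroup.center Sp3) Theta center_le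
  have hf : Function.Injective f := by
    rw [injective_iff_map_eq_one]
    intro q hq
    obtain ⟨g, rfl⟩ := QuotientGroup.mk_surjective q
    have h1 : Theta g = 1 := hq
    exact (QuotientGroup.eq_one_iff _).2 (ker_le h1)
  have hb : Function.Bijective f :=
    (Nat.bijective_iff_injective_and_card f).2 ⟨hf, by rw [card_GU, card_GS]⟩
  exact ⟨(MulEquiv.ofBijective f hb).symm⟩

/-- `PSp` is functorial. -/
noncomputable def pspCongr {F F' : Type*} [Field F] [Field F'] (e : F ≃+* F') (m : ℕ) :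
    Cfsg.PSp m F ≃* Cfsg.PSp m F' :=
  QuotientGroup.congr _ _ (spCongr e) (by
    ext x
    constructor
    · rintro ⟨y, hy, rfl⟩
      rw [SetLike.mem_coe, Subgroup.mem_center_iff] at hy
      rw [Subgroup.mem_center_iff]
      intro g
      obtain ⟨g', rfl⟩ := (spCongr e).surjective g
      show (spCongr e) g' * (spCongr e) y = (spCongr e) y * (spCongr e) g'
      rw [← map_mul, ← map_mul, hy]
    · intro hx
      refine ⟨(spCongr e).symm x, ?_, by simp⟩
      rw [Subgroup.mem_center_iff] at hx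
      rw [SetLike.mem_coe, Subgroup.mem_center_iff]
      intro g
      obtain ⟨g', rfl⟩ := (spCongr e).symm.surjective g
      rw [← map_mul, ← map_mul, hx])

theorem main {F K : Type*} [Field F] [Fintype F] [Field K] [Fintype K] (hF : Fintype.card F = 4)
    (hK : Fintype.card K = 3) : Nonempty (Cfsg.PSU 4 F 2 ≃* Cfsg.PSp 2 K) := by
  obtain ⟨e⟩ := main_concrete
  have eK : K ≃+* Z3 := FiniteField.ringEquivOfCardEq (by rw [hK]; simp [ZMod.card])
  exact ⟨(psuCongr (equivGF4 hF) 4 2).trans (e.trans (pspCongr eK 2).symm)⟩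

end Cfsg.Agent.H03.U4S4
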