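import Mathlib
import Cfsg.Agent.Lib.H03.MaxP
import Cfsg.Agent.Lib.H03.JordanN
import Cfsg.Agent.Lib.H13.Basic

set_option autoImplicit false

namespace Cfsg.Agent.H03

open MulAction
open scoped Pointwise

section
variable {G : Type*} [Group G] [Finite G]

theorem mem_normalizer_of_conj {Q : Subgroup G} {g : G} (h : ∀ x ∈ Q, g * x * g⁻¹ ∈ Q) :
    g ∈ Subgroup.normalizer (Q : Set G) := by
  apply Cfsg.Agent.H13.mem_normalizer_of_map_conj_le
  rintro _ ⟨x, hx, rfl⟩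
  exact h x hx

theorem conj_inv_mem_of_normalizer {Q : Subgroup G} {g : G} (h : g ∈ Subgroup.normalizer (Q : Set G))
    {q : G} (hq : q ∈ Q) : g⁻¹ * q * g ∈ Q := by
  have h1 := (Subgroup.mem_normalizer_iff.mp (Subgroup.inv_mem _ h) q).mp hq
  simpa using h1

theorem conj_mem_of_normalizer {Q : Subgroup G} {g : G} (h : g ∈ Subgroup.normalizer (Q : Set G))
    {q : G} (hq : q ∈ Q) : g * q * g⁻¹ ∈ Q :=
  (Subgroup.mem_normalizer_iff.mp h q).mp hq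

/-- Frattini type lemma for largest `p`-subgroups -/
theorem frat {p : ℕ} [Fact p.Prime] {H Q : Subgroup G} (hQ : IsMaxP p H Q) (z : G)
    (hz : ∀ x ∈ Q, z * x * z⁻¹ ∈ H) :
    ∃ g ∈ H, z⁻¹ * g ∈ Subgroup.normalizer (Q : Set G) := by
  have hle : Q.map (MulAut.conj z).toMonoidHom ≤ H := by
    rintro _ ⟨x, hx, rfl⟩
    exact hz x hx
  obtain ⟨g, hgH, hg⟩ := hQ.exists_conj hle (hQ.2.1.map _) (Cfsg.Agent.H13.card_map_conj z Q)
  refine ⟨g, hgH, mem_normalizer_of_conj (fun x hx => ?_)⟩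
  obtain ⟨y, hy, hyx⟩ := hg x hx
  have hyx' : z * y * z⁻¹ = g * x * g⁻¹ := hyx
  have : z⁻¹ * g * x * (z⁻¹ * g)⁻¹ = y := by
    calc z⁻¹ * g * x * (z⁻¹ * g)⁻¹ = z⁻¹ * (g * x * g⁻¹) * z := by group
      _ = z⁻¹ * (z * y * z⁻¹) * z := by rw [hyx']
      _ = y := by group
  rw [this]
  exact hy

end

section
variable {G X : Type*} [Group G] [Finite G] [MulAction G X] [Finite X]

theorem mem_stabilizer_pair {a b : X} (g : G) :
    g ∈ stabilizer G ({a, b} : Set X) ↔ (g • a = a ∧ g • b = b) ∨ (g • a = b ∧ g • b = a) := by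
  rw [mem_stabilizer_iff, Set.smul_set_insert, Set.smul_set_singleton, Set.pair_eq_pair_iff]

theorem wagner_core (N : Subgroup G) [hNn : N.Normal]
    (h2N : ∀ x y x' y' : X, x ≠ y → x' ≠ y' → ∃ n ∈ N, n • x = x' ∧ n • y = y')
    (h3 : IsMultiplyPretransitive G X 3) (hodd : Odd (Nat.card X))
    (a b : X) (hab : a ≠ b) (c c' : X) (hca : c ≠ a) (hcb : c ≠ b) (hca' : c' ≠ a) (hcb' : c' ≠ b) :
    ∃ n ∈ N, n • a = a ∧ n • b = b ∧ n • c = c' := by
  classical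
  haveI : Fact (Nat.Prime 2) := ⟨Nat.prime_two⟩
  let M : Subgroup G := N ⊓ stabilizer G a ⊓ stabilizer G b
  have memM : ∀ g, g ∈ M ↔ g ∈ N ∧ g • a = a ∧ g • b = b := by
    intro g
    simp only [M, Subgroup.mem_inf, mem_stabilizer_iff]
    tauto
  obtain ⟨Q, hQ⟩ := exists_isMaxP 2 M
  have hQM := hQ.1
  have hQp := hQ.2.1
  have hQN : Q ≤ N := fun q hq => ((memM q).mp (hQM hq)).1
  let F : Set X := {x | ∀ q ∈ Q, q • x = x}
  have haF : a ∈ F := fun q hq => ((memM q).mp (hQM hq)).2.1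
  have hbF : b ∈ F := fun q hq => ((memM q).mp (hQM hq)).2.2
  let Y : Set X := F \ {a, b}
  -- |Y| is odd
  have hFodd : Odd F.ncard := by
    have h1 := hQp.card_modEq_card_fixedPoints X
    have hF : (fixedPoints Q X) = F := by
      ext x
      simp only [mem_fixedPoints, F, Set.mem_setOf_eq]
      constructor
      · intro h q hq
        exact h ⟨q, hq⟩
      · intro h q
        exact h q.1 q.2
    rw [hF, Nat.card_coe_set_eq] at h1
    rw [Nat.odd_iff] at hodd ⊢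
    rw [Nat.ModEq] at h1
    omega
  have hsubF : ({a, b} : Set X) ⊆ F := by
    rintro x (rfl | rfl)
    · exact haF
    · exact hbF
  have hYc : Y.ncard + 2 = F.ncard := by
    have := Set.ncard_sdiff_add_ncard_of_subset hsubF (Set.toFinite _)
    rwa [Set.ncard_pair hab] at this
  have hYodd : Odd Y.ncard := by
    rw [Nat.odd_iff] at hFodd ⊢
    omega
  -- swap element normalising Q
  obtain ⟨w₀, hw₀N, hw₀a, hw₀b⟩ := h2N a b b a hab hab.symm
  have hw₀ia : w₀⁻¹ • a = b := by rw [inv_smul_eq_iff, hw₀b]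
  have hw₀ib : w₀⁻¹ • b = a := by rw [inv_smul_eq_iff, hw₀a]
  obtain ⟨g₁, hg₁M, hg₁⟩ := frat hQ w₀ (by
    intro x hx
    rw [memM]
    have hxM := (memM x).mp (hQM hx)
    refine ⟨hNn.conj_mem x hxM.1 w₀, ?_, ?_⟩
    · rw [mul_smul, mul_smul, hw₀ia, hxM.2.2, hw₀b]
    · rw [mul_smul, mul_smul, hw₀ib, hxM.2.1, hw₀a])
  obtain ⟨w, hw⟩ : ∃ w, w = w₀⁻¹ * g₁ := ⟨_, rfl⟩
  have hwN : w ∈ N := by
    rw [hw]
    exact N.mul_mem (N.inv_mem hw₀N) ((memM g₁).mp hg₁M).1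
  have hwa : w • a = b := by
    rw [hw, mul_smul, ((memM g₁).mp hg₁M).2.1, hw₀ia]
  have hwb : w • b = a := by
    rw [hw, mul_smul, ((memM g₁).mp hg₁M).2.2, hw₀ib]
  -- a 2-element
  obtain ⟨k, o, hoOdd, hord⟩ := Nat.exists_eq_two_pow_mul_odd (n := orderOf w) (orderOf_pos w).ne'
  let u := w ^ o
  have hu2 : IsPGroup 2 (Subgroup.zpowers u) := by
    rw [IsPGroup.iff_card]
    refine ⟨k, ?_⟩
    rw [Nat.card_zpowers, orderOf_pow_of_dvd hoOdd.pos.ne' (hord ▸ dvd_mul_left _ _), hord]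
    exact Nat.mul_div_cancel _ hoOdd.pos
  have hev : ∀ t : ℕ, w ^ (2 * t) • a = a ∧ w ^ (2 * t) • b = b := by
    intro t
    induction t with
    | zero => simp
    | succ t ih =>
      have : w ^ (2 * (t + 1)) = w ^ (2 * t) * w * w := by
        rw [mul_add, pow_add, pow_two, mul_assoc]
      constructor
      · rw [this, mul_smul, mul_smul, hwa, hwb]
        exact ih.1
      · rw [this, mul_smul, mul_smul, hwb, hwa]
        exact ih.2
  have hua : u • a = b ∧ u • b = a := by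
    obtain ⟨t, ht⟩ := hoOdd
    have : u = w ^ (2 * t) * w := by
      simp only [u]
      rw [ht, pow_succ]
    rw [this, mul_smul, mul_smul, hwa, hwb]
    exact ⟨(hev t).2, (hev t).1⟩
  have huN : u ∈ N := N.pow_mem hwN o
  have hwNQ : w ∈ Subgroup.normalizer (Q : Set G) := by rw [hw]; exact hg₁
  have huNQ : u ∈ Subgroup.normalizer (Q : Set G) := Subgroup.pow_mem _ hwNQ o
  let T : Subgroup G := Q ⊔ Subgroup.zpowers u
  have hTp : IsPGroup 2 T := by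
    apply hQp.to_sup_of_normal_left' hu2
    rw [Subgroup.zpowers_le]
    exact huNQ
  have hQT : Q ≤ T := le_sup_left
  have huT : u ∈ T := (le_sup_right : Subgroup.zpowers u ≤ T) (Subgroup.mem_zpowers u)
  -- the group W
  let W : Subgroup G := N ⊓ Subgroup.normalizer (Q : Set G) ⊓ stabilizer G ({a, b} : Set X)
  have memW : ∀ g, g ∈ W ↔ g ∈ N ∧ g ∈ Subgroup.normalizer (Q : Set G) ∧
      ((g • a = a ∧ g • b = b) ∨ (g • a = b ∧ g • b = a)) := by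
    intro g
    simp only [W, Subgroup.mem_inf, mem_stabilizer_pair]
    tauto
  have hQW : Q ≤ W := by
    intro q hq
    rw [memW]
    have hqM := (memM q).mp (hQM hq)
    exact ⟨hqM.1, Subgroup.le_normalizer hq, Or.inl hqM.2⟩
  have huW : u ∈ W := by
    rw [memW]
    exact ⟨huN, huNQ, Or.inr hua⟩
  have hTW : T ≤ W := by
    apply sup_le hQW
    rw [Subgroup.zpowers_le]
    exact huW
  have hTN : T ≤ N := fun t ht => ((memW t).mp (hTW ht)).1
  have hcardT : Nat.card Q < Nat.card T := by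
    by_contra hle
    push Not at hle
    have : Q = T := Subgroup.eq_of_le_of_card_ge hQT hle
    have hb' : u • a = a := haF u (by rw [this]; exact huT)
    rw [hua.1] at hb'
    exact hab hb'.symm
  -- uniqueness of T-fixed points
  have huniq : ∀ d e : X, (∀ t ∈ T, t • d = d) → (∀ t ∈ T, t • e = e) → d = e := by
    intro d e hd he
    by_contra hne
    obtain ⟨h, hhN, hhd, hhe⟩ := h2N d e a b hne hab
    have hle : T.map (MulAut.conj h).toMonoidHom ≤ M := by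
      rintro _ ⟨t, ht, rfl⟩
      rw [memM]
      refine ⟨N.mul_mem (N.mul_mem hhN (hTN ht)) (N.inv_mem hhN), ?_, ?_⟩
      · change (h * t * h⁻¹) • a = a
        rw [← hhd, mul_smul, mul_smul, inv_smul_smul, hd t ht]
      · change (h * t * h⁻¹) • b = b
        rw [← hhe, mul_smul, mul_smul, inv_smul_smul, he t ht]
    have := hQ.2.2 _ hle (hTp.map _)
    rw [Cfsg.Agent.H13.card_map_conj] at this
    omega
  -- W preserves Y
  have hWY : ∀ g ∈ W, ∀ y ∈ Y, g • y ∈ Y := by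
    intro g hg y hy
    obtain ⟨hgN, hgQ, hgab⟩ := (memW g).mp hg
    obtain ⟨hyF, hyab⟩ := hy
    simp only [Set.mem_insert_iff, Set.mem_singleton_iff, not_or] at hyab
    refine ⟨fun q hq => ?_, ?_⟩
    · have h1 := conj_inv_mem_of_normalizer hgQ hq
      have h2 := hyF _ h1
      rw [mul_smul, mul_smul] at h2
      exact inv_smul_eq_iff.mp h2
    · simp only [Set.mem_insert_iff, Set.mem_singleton_iff, not_or]
      rcases hgab with ⟨h1, h2⟩ | ⟨h1, h2⟩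
      · exact ⟨fun h => hyab.1 (smul_left_cancel g (h.trans h1.symm)), fun h => hyab.2 (smul_left_cancel g (h.trans h2.symm))⟩
      · exact ⟨fun h => hyab.2 (smul_left_cancel g (h.trans h2.symm)), fun h => hyab.1 (smul_left_cancel g (h.trans h1.symm))⟩
  -- F2
  have hF2 : ∀ c₁ ∈ Y, ∀ c₂ ∈ Y, ∃ g : G, g • c₁ = c₂ ∧ ∀ x ∈ W, g * x * g⁻¹ ∈ W := by
    intro c₁ hc₁ c₂ hc₂
    obtain ⟨hc₁F, hc₁ab⟩ := hc₁
    obtain ⟨hc₂F, hc₂ab⟩ := hc₂
    simp only [Set.mem_insert_iff, Set.mem_singleton_iff, not_or] at hc₁ab hc₂ab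
    obtain ⟨g₀, hg₀a, hg₀b, hg₀c⟩ := exists_smul_three h3 hab (Ne.symm hc₂ab.1) (Ne.symm hc₂ab.2) hab (Ne.symm hc₁ab.1) (Ne.symm hc₁ab.2)
    have hg₀ia : g₀⁻¹ • a = a := by rw [inv_smul_eq_iff, hg₀a]
    have hg₀ib : g₀⁻¹ • b = b := by rw [inv_smul_eq_iff, hg₀b]
    have hg₀ic : g₀⁻¹ • c₁ = c₂ := by rw [inv_smul_eq_iff, hg₀c]
    have hQH : IsMaxP 2 (M ⊓ stabilizer G c₁) Q :=
      hQ.mono inf_le_left (le_inf hQM (fun q hq => hc₁F q hq))
    obtain ⟨g₂, hg₂H, hg₂⟩ := frat hQH g₀ (by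
      intro x hx
      have hxM := (memM x).mp (hQM hx)
      rw [Subgroup.mem_inf, memM]
      refine ⟨⟨hNn.conj_mem x hxM.1 g₀, ?_, ?_⟩, ?_⟩
      · rw [mul_smul, mul_smul, hg₀ia, hxM.2.1, hg₀a]
      · rw [mul_smul, mul_smul, hg₀ib, hxM.2.2, hg₀b]
      · rw [mem_stabilizer_iff, mul_smul, mul_smul, hg₀ic, hc₂F x hx, hg₀c])
    have hg₂M := (memM g₂).mp (Subgroup.mem_inf.mp hg₂H).1
    have hg₂c : g₂ • c₁ = c₁ := (Subgroup.mem_inf.mp hg₂H).2
    refine ⟨g₀⁻¹ * g₂, ?_, ?_⟩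
    · rw [mul_smul, hg₂c, hg₀ic]
    · intro x hx
      obtain ⟨hxN, hxQ, hxab⟩ := (memW x).mp hx
      set ν := g₀⁻¹ * g₂ with hν
      have hνa : ν • a = a := by rw [hν, mul_smul, hg₂M.2.1, hg₀ia]
      have hνb : ν • b = b := by rw [hν, mul_smul, hg₂M.2.2, hg₀ib]
      have hνia : ν⁻¹ • a = a := by rw [inv_smul_eq_iff, hνa]
      have hνib : ν⁻¹ • b = b := by rw [inv_smul_eq_iff, hνb]
      rw [memW]
      refine ⟨hNn.conj_mem x hxN ν, Subgroup.mul_mem _ (Subgroup.mul_mem _ hg₂ hxQ) (Subgroup.inv_mem _ hg₂), ?_⟩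
      rcases hxab with ⟨h1, h2⟩ | ⟨h1, h2⟩
      · left
        constructor
        · rw [mul_smul, mul_smul, hνia, h1, hνa]
        · rw [mul_smul, mul_smul, hνib, h2, hνb]
      · right
        constructor
        · rw [mul_smul, mul_smul, hνia, h1, hνb]
        · rw [mul_smul, mul_smul, hνib, h2, hνa]
  -- T fixed point in each W orbit on Y
  have hfix : ∀ c₁ ∈ Y, ∃ x ∈ W, ∀ t ∈ T, t • (x • c₁) = x • c₁ := by
    intro c₁ hc₁
    have hdvd := ncard_orbit_dvd W Y hWY hF2 hc₁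
    have hnd : ¬ 2 ∣ (orbit W c₁).ncard := by
      intro h2
      have : 2 ∣ Y.ncard := h2.trans hdvd
      rw [Nat.odd_iff] at hYodd
      omega
    obtain ⟨y, ⟨x, hx⟩, hy⟩ := exists_fixed_of_not_dvd T hTp (orbit W c₁) (by
      rintro t ht _ ⟨x, rfl⟩
      refine ⟨⟨t, hTW ht⟩ * x, ?_⟩
      exact mul_smul _ _ _) hnd
    refine ⟨x, x.2, fun t ht => ?_⟩
    have hx' : (x : G) • c₁ = y := hx
    rw [hx']
    exact hy t ht
  have hWM : ∀ (y : X), (∀ t ∈ T, t • y = y) → ∀ z ∈ W, ∃ m ∈ M, m • y = z • y := by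
    intro y hy z hz
    obtain ⟨hzN, _, hzab⟩ := (memW z).mp hz
    rcases hzab with ⟨h1, h2⟩ | ⟨h1, h2⟩
    · exact ⟨z, (memM z).mpr ⟨hzN, h1, h2⟩, rfl⟩
    · refine ⟨z * u, (memM _).mpr ⟨N.mul_mem hzN huN, ?_, ?_⟩, ?_⟩
      · rw [mul_smul, hua.1, h2]
      · rw [mul_smul, hua.2, h1]
      · rw [mul_smul, hy u huT]
  -- transitivity on Y
  have hA : ∀ c₁ ∈ Y, ∀ c₂ ∈ Y, ∃ m ∈ M, m • c₁ = c₂ := by
    intro c₁ hc₁ c₂ hc₂
    obtain ⟨x₁, hx₁, hfx₁⟩ := hfix c₁ hc₁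
    obtain ⟨x₂, hx₂, hfx₂⟩ := hfix c₂ hc₂
    have heq := huniq _ _ hfx₁ hfx₂
    obtain ⟨m₁, hm₁, hm₁y⟩ := hWM _ hfx₁ x₁⁻¹ (W.inv_mem hx₁)
    obtain ⟨m₂, hm₂, hm₂y⟩ := hWM _ hfx₂ x₂⁻¹ (W.inv_mem hx₂)
    rw [inv_smul_smul] at hm₁y hm₂y
    refine ⟨m₂ * m₁⁻¹, M.mul_mem hm₂ (M.inv_mem hm₁), ?_⟩
    rw [mul_smul, ← hm₁y, inv_smul_smul, heq, hm₂y]
  -- each M orbit meets Y
  have hZ : ∀ c₁ : X, c₁ ≠ a → c₁ ≠ b → ∃ m ∈ M, m • c₁ ∈ Y := by
    intro c₁ h1 h2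
    let Z : Set X := ({a, b} : Set X)ᶜ
    have hc₁Z : c₁ ∈ Z := by simp [Z, h1, h2]
    have hZodd : Odd Z.ncard := by
      have h3 : ({a, b} : Set X).ncard + Z.ncard = Nat.card X := Set.ncard_add_ncard_compl _
      rw [Set.ncard_pair hab] at h3
      rw [Nat.odd_iff] at hodd ⊢
      omega
    have hMZ : ∀ g ∈ M, ∀ y ∈ Z, g • y ∈ Z := by
      intro g hg y hy
      have hgM := (memM g).mp hg
      simp only [Z, Set.mem_compl_iff, Set.mem_insert_iff, Set.mem_singleton_iff, not_or] at hy ⊢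
      exact ⟨fun h => hy.1 (smul_left_cancel g (h.trans hgM.2.1.symm)), fun h => hy.2 (smul_left_cancel g (h.trans hgM.2.2.symm))⟩
    have hconj : ∀ y ∈ Z, ∀ y' ∈ Z, ∃ g : G, g • y = y' ∧ ∀ x ∈ M, g * x * g⁻¹ ∈ M := by
      intro y hy y' hy'
      simp only [Z, Set.mem_compl_iff, Set.mem_insert_iff, Set.mem_singleton_iff, not_or] at hy hy'
      obtain ⟨g, hga, hgb, hgy⟩ := exists_smul_three h3 hab (Ne.symm hy.1) (Ne.symm hy.2) hab (Ne.symm hy'.1) (Ne.symm hy'.2)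
      have hgia : g⁻¹ • a = a := by rw [inv_smul_eq_iff, hga]
      have hgib : g⁻¹ • b = b := by rw [inv_smul_eq_iff, hgb]
      refine ⟨g, hgy, fun x hx => ?_⟩
      have hxM := (memM x).mp hx
      rw [memM]
      refine ⟨hNn.conj_mem x hxM.1 g, ?_, ?_⟩
      · rw [mul_smul, mul_smul, hgia, hxM.2.1, hga]
      · rw [mul_smul, mul_smul, hgib, hxM.2.2, hgb]
    have hdvd := ncard_orbit_dvd M Z hMZ hconj hc₁Z
    have hnd : ¬ 2 ∣ (orbit M c₁).ncard := by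
      intro h2
      have : 2 ∣ Z.ncard := h2.trans hdvd
      rw [Nat.odd_iff] at hZodd
      omega
    obtain ⟨y, ⟨x, hx⟩, hy⟩ := exists_fixed_of_not_dvd Q hQp (orbit M c₁) (by
      rintro t ht _ ⟨x, rfl⟩
      refine ⟨⟨t, hQM ht⟩ * x, ?_⟩
      exact mul_smul _ _ _) hnd
    have hx' : (x : G) • c₁ = y := hx
    refine ⟨x, x.2, ?_⟩
    rw [hx']
    have hyZ : y ∈ Z := by
      rw [← hx']
      exact hMZ _ x.2 _ hc₁Z
    refine ⟨hy, ?_⟩
    simpa [Z] using hyZ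
  obtain ⟨m₁, hm₁, hm₁c⟩ := hZ c hca hcb
  obtain ⟨m₂, hm₂, hm₂c⟩ := hZ c' hca' hcb'
  obtain ⟨m₃, hm₃, hm₃c⟩ := hA _ hm₁c _ hm₂c
  refine ⟨m₂⁻¹ * m₃ * m₁, ?_⟩
  have hM : m₂⁻¹ * m₃ * m₁ ∈ M := M.mul_mem (M.mul_mem (M.inv_mem hm₂) hm₃) hm₁
  have hM' := (memM _).mp hM
  refine ⟨hM'.1, hM'.2.1, hM'.2.2, ?_⟩
  rw [mul_smul, mul_smul, hm₃c, inv_smul_smul]

theorem wagner_trans (N : Subgroup G) [hNn : N.Normal]
    (h2 : IsMultiplyPretransitive N X 2)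
    (h3 : IsMultiplyPretransitive G X 3) (hodd : Odd (Nat.card X)) :
    IsMultiplyPretransitive N X 3 := by
  classical
  have h2' : ∀ {a b c d : X} (_ : a ≠ b) (_ : c ≠ d), ∃ g : N, g • a = c ∧ g • b = d :=
    is_two_pretransitive_iff.mp h2
  have h2N : ∀ x y x' y' : X, x ≠ y → x' ≠ y' → ∃ n ∈ N, n • x = x' ∧ n • y = y' := by
    intro x y x' y' h h'
    obtain ⟨g, hg1, hg2⟩ := h2' h h'
    exact ⟨g, g.2, hg1, hg2⟩
  refine ⟨fun x y => ?_⟩
  have hx01 : x 0 ≠ x 1 := fun h => by simpa using x.injective h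
  have hx02 : x 0 ≠ x 2 := fun h => by simpa using x.injective h
  have hx12 : x 1 ≠ x 2 := fun h => by simpa using x.injective h
  have hy01 : y 0 ≠ y 1 := fun h => by simpa using y.injective h
  have hy02 : y 0 ≠ y 2 := fun h => by simpa using y.injective h
  have hy12 : y 1 ≠ y 2 := fun h => by simpa using y.injective h
  obtain ⟨n₁, hn₁, h10, h11⟩ := h2N _ _ _ _ hx01 hy01
  have hd0 : n₁ • x 2 ≠ y 0 := fun h => hx02 (smul_left_cancel n₁ (h10.trans h.symm))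
  have hd1 : n₁ • x 2 ≠ y 1 := fun h => hx12 (smul_left_cancel n₁ (h11.trans h.symm))
  obtain ⟨n₂, hn₂, h20, h21, h22⟩ := wagner_core N h2N h3 hodd (y 0) (y 1) hy01 (n₁ • x 2) (y 2) hd0 hd1 hy02.symm hy12.symm
  refine ⟨⟨n₂ * n₁, N.mul_mem hn₂ hn₁⟩, ?_⟩
  ext i
  change (n₂ * n₁) • x i = y i
  fin_cases i
  · change (n₂ * n₁) • x 0 = y 0
    rw [mul_smul, h10, h20]
  · change (n₂ * n₁) • x 1 = y 1
    rw [mul_smul, h11, h21]
  · change (n₂ * n₁) • x 2 = y 2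
    rw [mul_smul, h22]

end

end Cfsg.Agent.H03
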