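import Mathlib

set_option autoImplicit false

namespace Cfsg.Agent.H03

open Module

variable {F : Type*} [Field F] {V : Type*} [AddCommGroup V] [Module F V] [FiniteDimensional F V]

/-- The induction in Witt's lemma. -/
theorem witt_skeleton (I : Subgroup (V ≃ₗ[F] V))
    (Compat : ∀ X : Submodule F V, (X →ₗ[F] V) → Prop)
    (hres : ∀ (X X₀ : Submodule F V) (h : X₀ ≤ X) (f : X →ₗ[F] V), Compat X f →
      Compat X₀ (f.comp (Submodule.inclusion h)))
    (hcomp : ∀ (X : Submodule F V) (f : X →ₗ[F] V) (g : V ≃ₗ[F] V), g ∈ I → Compat X f →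
      Compat X (g.toLinearMap.comp f))
    (hstep : ∀ (X X₀ : Submodule F V) (h : X₀ ≤ X) (x : X) (f : X →ₗ[F] V), (x : V) ∉ X₀ → Function.Injective f →
      Compat X f → (∀ u : X₀, f (Submodule.inclusion h u) = u) → ∃ g ∈ I, (∀ u ∈ X₀, g u = u) ∧ g x = f x) :
    ∀ (n : ℕ) (X : Submodule F V), finrank F X = n → ∀ f : X →ₗ[F] V, Function.Injective f → Compat X f →
      ∃ g ∈ I, ∀ x : X, g x = f x := by
  intro n
  induction n using Nat.strong_induction_on with
  | _ n ih =>
    intro X hX f hf hC
    by_cases hbot : X = ⊥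
    · subst hbot
      refine ⟨1, I.one_mem, ?_⟩
      rintro ⟨x, hx⟩
      have hx0 : x = 0 := by simpa using hx
      subst hx0
      have : (⟨0, hx⟩ : (⊥ : Submodule F V)) = 0 := rfl
      rw [this, map_zero]
      simp
    · obtain ⟨x₀, hx₀, hx₀0⟩ := Submodule.exists_mem_ne_zero_of_ne_bot hbot
      let x : X := ⟨x₀, hx₀⟩
      have hx0 : x ≠ 0 := fun h => hx₀0 (congrArg Subtype.val h)
      obtain ⟨C, hC1⟩ := Submodule.exists_isCompl (Submodule.span F {x})
      let X₀ : Submodule F V := C.map X.subtype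
      have hle : X₀ ≤ X := by
        rintro _ ⟨c, _, rfl⟩
        exact c.2
      have hmemX₀ : ∀ c : X, (c : V) ∈ X₀ ↔ c ∈ C := by
        intro c
        constructor
        · rintro ⟨c', hc', he⟩
          have : c' = c := Subtype.ext he
          rwa [← this]
        · intro hc
          exact ⟨c, hc, rfl⟩
      have hxnot : (x : V) ∉ X₀ := by
        intro h
        rw [hmemX₀] at h
        have : x ∈ Submodule.span F {x} ⊓ C := ⟨Submodule.mem_span_singleton_self x, h⟩
        rw [hC1.inf_eq_bot] at this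
        exact hx0 (by simpa using this)
      have hlt : finrank F X₀ < n := by
        have hltt : X₀ < X := lt_of_le_of_ne hle (fun h => hxnot (by rw [h]; exact x.2))
        rw [← hX]
        exact Submodule.finrank_lt_finrank_of_lt hltt
      have hf₀ : Function.Injective (f.comp (Submodule.inclusion hle)) :=
        hf.comp (Submodule.inclusion_injective hle)
      obtain ⟨g₀, hg₀, hg₀e⟩ := ih _ hlt X₀ rfl _ hf₀ (hres X X₀ hle f hC)
      -- modify
      let f₁ : X →ₗ[F] V := g₀.symm.toLinearMap.comp f
      have hf₁ : Function.Injective f₁ := g₀.symm.injective.comp hf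
      have hC₁ : Compat X f₁ := hcomp X f g₀.symm (by
        have := I.inv_mem hg₀
        exact this) hC
      have hfix : ∀ u : X₀, f₁ (Submodule.inclusion hle u) = u := by
        intro u
        have := hg₀e u
        change g₀.symm (f (Submodule.inclusion hle u)) = u
        rw [LinearEquiv.symm_apply_eq]
        exact this.symm
      obtain ⟨h, hh, hhfix, hhx⟩ := hstep X X₀ hle x f₁ hxnot hf₁ hC₁ hfix
      refine ⟨g₀ * h, I.mul_mem hg₀ hh, ?_⟩
      -- equality on all of X
      have hspan : (⊤ : Submodule F X) = Submodule.span F {x} ⊔ C := hC1.sup_eq_top.symm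
      intro w
      have hw : w ∈ Submodule.span F {x} ⊔ C := by
        rw [← hspan]; trivial
      obtain ⟨p, hp, c, hc, rfl⟩ := Submodule.mem_sup.mp hw
      obtain ⟨a, rfl⟩ := Submodule.mem_span_singleton.mp hp
      have h1 : ((a • x + c : X) : V) = a • (x : V) + (c : V) := rfl
      rw [h1, map_add, map_smul, map_add, map_smul]
      have h2 : (g₀ * h) (x : V) = f x := by
        change g₀ (h (x : V)) = f x
        rw [hhx]
        change g₀ (g₀.symm (f x)) = f x
        simp
      have hcX : (c : V) ∈ X₀ := (hmemX₀ c).mpr hc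
      have h3 : (g₀ * h) (c : V) = f c := by
        change g₀ (h (c : V)) = f c
        rw [hhfix _ hcX]
        exact hg₀e ⟨c, hcX⟩
      rw [h2, h3]

/-- the separation property -/
theorem exists_sep (S : Submodule F V) {x : V} (hx : x ∉ S) :
    ∃ l : Module.Dual F V, (∀ s ∈ S, l s = 0) ∧ l x = 1 := by
  obtain ⟨f, hf, hS⟩ := Submodule.exists_dual_map_eq_bot_of_notMem hx inferInstance
  refine ⟨(f x)⁻¹ • f, ?_, ?_⟩
  · intro s hs
    have : f s ∈ S.map f := ⟨s, hs, rfl⟩
    rw [hS] at this
    simp [(Submodule.mem_bot F).mp this]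
  · simp [hf]

end Cfsg.Agent.H03
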