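import Mathlib
import Cfsg.Agent.Lib.H18.Join

/-! Ambient subnormality and the generation theorem for subgroups with full normal closure. -/

set_option autoImplicit false

namespace Cfsg.Agent.H03.ZP

open Subgroup

variable {G : Type*} [Group G]

/-- `H` is normal in `K`, ambient form. -/
def NI (H K : Subgroup G) : Prop := H ≤ K ∧ ∀ k ∈ K, ∀ h ∈ H, k * h * k⁻¹ ∈ H

/-- `H` is subnormal in `T`, ambient form. -/
inductive SN (T : Subgroup G) : Subgroup G → Prop
  | refl : SN T T
  | step {H K : Subgroup G} : SN T K → NI H K → SN T H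

/-- The conjugate `g H g⁻¹`. -/
def cj (g : G) (H : Subgroup G) : Subgroup G := H.map (MulAut.conj g).toMonoidHom

lemma mem_cj {g x : G} {H : Subgroup G} : x ∈ cj g H ↔ g⁻¹ * x * g ∈ H := by
  constructor
  · rintro ⟨y, hy, rfl⟩
    have : g⁻¹ * (MulAut.conj g).toMonoidHom y * g = y := by
      simp [MulAut.conj_apply, mul_assoc]
    rwa [this]
  · intro h
    exact ⟨_, h, by simp [MulAut.conj_apply, mul_assoc]⟩

lemma conj_mem_cj {g x : G} {H : Subgroup G} (h : x ∈ H) : g * x * g⁻¹ ∈ cj g H := by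
  rw [mem_cj]; simpa [mul_assoc] using h

lemma cj_one (H : Subgroup G) : cj 1 H = H := by
  ext x; simp [mem_cj]

lemma cj_mul (g h : G) (H : Subgroup G) : cj (g * h) H = cj g (cj h H) := by
  ext x; simp [mem_cj, mul_assoc]

lemma cj_inv_cj (g : G) (H : Subgroup G) : cj g⁻¹ (cj g H) = H := by
  rw [← cj_mul, inv_mul_cancel, cj_one]

lemma cj_cj_inv (g : G) (H : Subgroup G) : cj g (cj g⁻¹ H) = H := by
  rw [← cj_mul, mul_inv_cancel, cj_one]

lemma cj_mono {g : G} {H K : Subgroup G} (h : H ≤ K) : cj g H ≤ cj g K := Subgroup.map_mono h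

lemma cj_le_iff {g : G} {H K : Subgroup G} : cj g H ≤ K ↔ H ≤ cj g⁻¹ K := by
  constructor
  · intro h
    have := cj_mono (g := g⁻¹) h
    rwa [cj_inv_cj] at this
  · intro h
    have := cj_mono (g := g) h
    rwa [cj_cj_inv] at this

lemma cj_top (g : G) : cj g (⊤ : Subgroup G) = ⊤ := by
  ext x; simp [mem_cj]

lemma cj_self {g : G} {T : Subgroup G} (hg : g ∈ T) : cj g T = T := by
  ext x; rw [mem_cj]; constructor
  · intro h
    have := T.mul_mem (T.mul_mem hg h) (T.inv_mem hg)
    simpa [mul_assoc] using this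
  · intro h
    exact T.mul_mem (T.mul_mem (T.inv_mem hg) h) hg

lemma card_cj (g : G) (H : Subgroup G) : Nat.card (cj g H) = Nat.card H :=
  Subgroup.card_map_of_injective (MulAut.conj g).injective

lemma isCoatom_cj {M : Subgroup G} (h : IsCoatom M) (g : G) : IsCoatom (cj g M) := by
  refine ⟨?_, ?_⟩
  · intro e
    apply h.1
    have := congrArg (cj g⁻¹) e
    rwa [cj_inv_cj, cj_top] at this
  · intro K hK
    have h1 : M < cj g⁻¹ K := by
      refine lt_of_le_of_ne ?_ ?_
      · have := cj_mono (g := g⁻¹) hK.le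
        rwa [cj_inv_cj] at this
      · intro e
        apply hK.ne
        rw [e, cj_cj_inv]
    have h2 := h.2 _ h1
    have := congrArg (cj g) h2
    rwa [cj_cj_inv, cj_top] at this

lemma card_lt [Finite G] {H K : Subgroup G} (h : H < K) : Nat.card H < Nat.card K := by
  by_contra hc
  exact h.ne (Subgroup.eq_of_le_of_card_ge h.le (not_lt.1 hc))

lemma mem_norm_of_cj_eq {M : Subgroup G} {z : G} (e : cj z M = M) :
    z ∈ normalizer (M : Set G) := by
  rw [Subgroup.mem_normalizer_iff]; intro h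
  have : z * h * z⁻¹ ∈ cj z M ↔ h ∈ M := by rw [mem_cj]; simp [mul_assoc]
  rw [e] at this; exact this.symm

lemma mem_of_cj_eq {M : Subgroup G} (hM : IsCoatom M) (hn : ¬ M.Normal) {z : G}
    (e : cj z M = M) : z ∈ M := by
  have hz := mem_norm_of_cj_eq e
  have hle : M ≤ normalizer (M : Set G) := Subgroup.le_normalizer
  rcases hle.lt_or_eq with hlt | heq
  · have := hM.2 _ hlt
    exact absurd (Subgroup.normalizer_eq_top_iff.1 this) hn
  · rw [heq]; exact hz

lemma NI.cjg {H K : Subgroup G} (h : NI H K) (g : G) : NI (cj g H) (cj g K) := by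
  refine ⟨cj_mono h.1, ?_⟩
  intro k hk x hx
  rw [mem_cj] at hk hx ⊢
  have := h.2 _ hk _ hx
  convert this using 1
  group

lemma SN.le {T H : Subgroup G} (h : SN T H) : H ≤ T := by
  induction h with
  | refl => exact le_rfl
  | step _ hN ih => exact hN.1.trans ih

lemma SN.trans {T K H : Subgroup G} (h1 : SN T K) (h2 : SN K H) : SN T H := by
  induction h2 with
  | refl => exact h1
  | step _ hN ih => exact SN.step ih hN

lemma NI.inf {H K : Subgroup G} (h : NI H K) (U : Subgroup G) : NI (H ⊓ U) (K ⊓ U) := by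
  refine ⟨inf_le_inf_right _ h.1, ?_⟩
  rintro k ⟨hk, hkU⟩ x ⟨hx, hxU⟩
  exact ⟨h.2 k hk x hx, U.mul_mem (U.mul_mem hkU hxU) (U.inv_mem hkU)⟩

lemma SN.inf {T H : Subgroup G} (h : SN T H) (U : Subgroup G) : SN (T ⊓ U) (H ⊓ U) := by
  induction h with
  | refl => exact SN.refl
  | step _ hN ih => exact SN.step ih (hN.inf U)

lemma SN.of_le {T H U : Subgroup G} (h : SN T H) (hHU : H ≤ U) (hUT : U ≤ T) : SN U H := by
  have := h.inf U
  rwa [inf_eq_right.2 hUT, inf_eq_left.2 hHU] at this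

lemma SN.dec {T H : Subgroup G} (h : SN T H) :
    H = T ∨ ∃ N, NI N T ∧ N ≠ T ∧ H ≤ N ∧ SN N H := by
  induction h with
  | refl => exact Or.inl rfl
  | @step H K hK hN ih =>
    rcases ih with rfl | ⟨N, h1, h2, h3, h4⟩
    · by_cases e : H = K
      · exact Or.inl e
      · exact Or.inr ⟨H, hN, e, le_rfl, SN.refl⟩
    · exact Or.inr ⟨N, h1, h2, hN.1.trans h3, SN.step h4 hN⟩

lemma SN.cjg {T H : Subgroup G} (h : SN T H) (g : G) : SN (cj g T) (cj g H) := by
  induction h with
  | refl => exact SN.refl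
  | step _ hN ih => exact SN.step ih (hN.cjg g)

lemma SN.cj_mem {T H : Subgroup G} (h : SN T H) {g : G} (hg : g ∈ T) : SN T (cj g H) := by
  have := h.cjg g
  rwa [cj_self hg] at this

lemma SN.isSubnormal {T H : Subgroup G} (h : SN T H) : (H.subgroupOf T).IsSubnormal := by
  induction h with
  | refl => rw [Subgroup.subgroupOf_self]; exact Subgroup.IsSubnormal.top
  | @step H K hK hN ih =>
    refine Subgroup.IsSubnormal.step _ (K.subgroupOf T) (fun x hx => hN.1 hx) ih ?_
    constructor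
    rintro ⟨⟨x, hxT⟩, hxK⟩ hx ⟨⟨k, hkT⟩, hkK⟩
    exact hN.2 k hkK x hx

lemma sn_of_isSubnormal {T : Subgroup G} {X : Subgroup T} (h : X.IsSubnormal) :
    SN T (X.map T.subtype) := by
  induction h with
  | top =>
    have : (⊤ : Subgroup T).map T.subtype = T := by
      ext x; simp
    rw [this]; exact SN.refl
  | step H K h_le hS hN ih =>
    refine SN.step ih ⟨Subgroup.map_mono h_le, ?_⟩
    rintro _ ⟨k, hk, rfl⟩ _ ⟨x, hx, rfl⟩
    have := hN.conj_mem ⟨x, h_le hx⟩ hx ⟨k, hk⟩
    exact ⟨k * x * k⁻¹, this, by simp⟩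

lemma SN.sup [Finite G] {T H K : Subgroup G} (h1 : SN T H) (h2 : SN T K) : SN T (H ⊔ K) := by
  have := sn_of_isSubnormal (H18.isSubnormal_sup h1.isSubnormal h2.isSubnormal)
  rwa [H18.sup_map_subtype_subgroupOf h1.le h2.le] at this

lemma SN.bot (T : Subgroup G) : SN T ⊥ := SN.step SN.refl ⟨bot_le, by
  intro k _ h hh
  rw [Subgroup.mem_bot] at hh ⊢
  simp [hh]⟩

lemma SN.sSup [Finite G] {T : Subgroup G} {𝓖 : Set (Subgroup G)} (h : ∀ C ∈ 𝓖, SN T C) :
    SN T (sSup 𝓖) := by
  have hf : 𝓖.Finite := Set.toFinite _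
  induction 𝓖, hf using Set.Finite.induction_on with
  | empty => simpa using SN.bot T
  | @insert C S _ _ ih =>
    rw [sSup_insert]
    exact SN.sup (h C (Set.mem_insert _ _)) (ih fun D hD => h D (Set.mem_insert_of_mem _ hD))

end Cfsg.Agent.H03.ZP
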