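import Mathlib
import Cfsg.Agent.Lib.H03.ZP1

/-! The generation theorem for subgroups with full normal closure. -/

set_option autoImplicit false

namespace Cfsg.Agent.H03.ZP

open Subgroup

variable {G : Type*} [Group G]

/-- `A` lies in no proper normal subgroup. -/
def NG (A : Subgroup G) : Prop := ∀ N : Subgroup G, N.Normal → A ≤ N → N = ⊤

/-- `C` lies in no proper normal subgroup of `H`. -/
def GenBy (C H : Subgroup G) : Prop := ∀ N, NI N H → C ≤ N → N = H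

/-- Proper overgroups of `C` in which `C` has full normal closure. -/
def SS (C : Subgroup G) : Set (Subgroup G) := {H | C ≤ H ∧ H ≠ ⊤ ∧ GenBy C H}

lemma NG.mono {A B : Subgroup G} (h : NG A) (hAB : A ≤ B) : NG B :=
  fun N hN hB => h N hN (hAB.trans hB)

lemma cj_normal {N : Subgroup G} (hN : N.Normal) (g : G) : cj g N = N := by
  ext x; rw [mem_cj]; constructor
  · intro h
    have := hN.conj_mem _ h g
    simpa [mul_assoc] using this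
  · intro h
    have := hN.conj_mem _ h g⁻¹
    simpa using this

lemma NG.cjg {A : Subgroup G} (h : NG A) (g : G) : NG (cj g A) := by
  intro N hN hA
  apply h N hN
  rw [cj_le_iff, cj_normal hN] at hA
  exact hA

lemma eq_of_SN_GenBy {T C : Subgroup G} (h : SN T C) (hg : GenBy C T) : C = T := by
  rcases h.dec with e | ⟨N, h1, h2, h3, _⟩
  · exact e
  · exact absurd (hg N h1 h3) h2

lemma gen_S [Finite G] {C T : Subgroup G} (hCT : C ≤ T) :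
    ∃ S, C ≤ S ∧ S ≤ T ∧ SN T S ∧ GenBy C S := by
  let P : Set (Subgroup G) := {X | C ≤ X ∧ SN T X}
  have hP : P.Nonempty := ⟨T, hCT, SN.refl⟩
  obtain ⟨S, hS⟩ := P.toFinite.exists_minimal hP
  refine ⟨S, hS.1.1, hS.1.2.le, hS.1.2, ?_⟩
  intro N hN hC
  have hmem : N ∈ P := ⟨hC, SN.step hS.1.2 hN⟩
  exact le_antisymm hN.1 (hS.2 hmem hN.1)

lemma SS_subset {A S : Subgroup G} (hS : S ∈ SS A) : SS S ⊆ SS A := by
  rintro H ⟨h1, h2, h3⟩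
  refine ⟨hS.1.trans h1, h2, ?_⟩
  intro N hN hAN
  have h4 : NI (N ⊓ S) (H ⊓ S) := hN.inf S
  rw [inf_eq_right.2 h1] at h4
  have h5 := hS.2.2 _ h4 (le_inf hAN hS.1)
  exact h3 N hN (inf_eq_right.1 h5)

/-- `C` lies in the coatom `δ` and is not subnormal in it. -/
def Bad (C δ : Subgroup G) : Prop := C ≤ δ ∧ IsCoatom δ ∧ ¬ SN δ C

lemma Bad.cjg {C δ : Subgroup G} (h : Bad C δ) (g : G) : Bad (cj g C) (cj g δ) := by
  refine ⟨cj_mono h.1, isCoatom_cj h.2.1 g, ?_⟩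
  intro hs
  apply h.2.2
  have := hs.cjg g⁻¹
  rwa [cj_inv_cj, cj_inv_cj] at this

/-- `C` is a conjugate of `A`. -/
def CJ (A C : Subgroup G) : Prop := ∃ g, C = cj g A

lemma CJ.cjg {A C : Subgroup G} (h : CJ A C) (g : G) : CJ A (cj g C) := by
  obtain ⟨x, rfl⟩ := h; exact ⟨g * x, (cj_mul _ _ _).symm⟩

lemma CJ.ng {A C : Subgroup G} (h : CJ A C) (hA : NG A) : NG C := by
  obtain ⟨x, rfl⟩ := h; exact hA.cjg x

lemma CJ.card {A C : Subgroup G} (h : CJ A C) : Nat.card C = Nat.card A := by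
  obtain ⟨x, rfl⟩ := h; exact card_cj x A

/-- Standing hypotheses of the induction. -/
structure Hyp (A : Subgroup G) : Prop where
  ng : NG A
  ne : A ≠ ⊤
  ih : ∀ B : Subgroup G, Nat.card A < Nat.card B → NG B → B ≠ ⊤ →
    sSup (SS B) = ⊤ ∨ ∃! M : Subgroup G, IsCoatom M ∧ B ≤ M
  hY : sSup (SS A) ≠ ⊤

lemma Hyp.P1a [Finite G] {A : Subgroup G} (h : Hyp A) {M₀ δ : Subgroup G} (hM₀ : IsCoatom M₀)
    (hM : sSup (SS A) ≤ M₀) (hb : Bad A δ) : δ = M₀ := by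
  obtain ⟨S, hAS, hSδ, hSN, hG⟩ := gen_S hb.1
  have hSne : S ≠ ⊤ := by
    intro e; apply hb.2.1.1; rw [eq_top_iff, ← e]; exact hSδ
  have hSmem : S ∈ SS A := ⟨hAS, hSne, hG⟩
  have hne : A ≠ S := by
    rintro rfl; exact hb.2.2 hSN
  have hcard : Nat.card A < Nat.card S := card_lt (lt_of_le_of_ne hAS hne)
  rcases h.ih S hcard (h.ng.mono hAS) hSne with e | ⟨M, hM1, hM2⟩
  · exfalso; apply h.hY; rw [eq_top_iff, ← e]; exact sSup_le_sSup (SS_subset hSmem)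
  · have e1 := hM2 δ ⟨hb.2.1, hSδ⟩
    have e2 := hM2 M₀ ⟨hM₀, (le_sSup hSmem).trans hM⟩
    rw [e1, e2]

lemma Hyp.P1 [Finite G] {A C δ δ' : Subgroup G} (h : Hyp A) (hC : CJ A C) (h1 : Bad C δ)
    (h2 : Bad C δ') : δ = δ' := by
  obtain ⟨g, rfl⟩ := hC
  obtain ⟨M₀, hM₀, hM⟩ := (eq_top_or_exists_le_coatom _).resolve_left h.hY
  have h1' := h1.cjg g⁻¹
  have h2' := h2.cjg g⁻¹
  rw [cj_inv_cj] at h1' h2'
  have e1 := h.P1a hM₀ hM h1'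
  have e2 := h.P1a hM₀ hM h2'
  have := congrArg (cj g) (e1.trans e2.symm)
  rwa [cj_cj_inv, cj_cj_inv] at this

lemma Hyp.sup_top [Finite G] {A C C' M₁ M₂ : Subgroup G} (h : Hyp A) (hC : CJ A C) (hC' : CJ A C')
    (hne : C ≠ C') (hM₁ : IsCoatom M₁) (hM₂ : IsCoatom M₂) (hMne : M₁ ≠ M₂) (h1 : C ⊔ C' ≤ M₁)
    (h2 : C ⊔ C' ≤ M₂) : sSup (SS (C ⊔ C')) = ⊤ := by
  have hBne : C ⊔ C' ≠ ⊤ := by
    intro e; apply hM₁.1; rw [eq_top_iff, ← e]; exact h1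
  have hcard : Nat.card A < Nat.card ↥(C ⊔ C') := by
    rw [← hC.card]
    apply card_lt
    refine lt_of_le_of_ne le_sup_left ?_
    intro e
    have h3 : C' ≤ C := le_sup_right.trans e.symm.le
    have h4 : Nat.card C ≤ Nat.card C' := by rw [hC.card, hC'.card]
    exact hne (Subgroup.eq_of_le_of_card_ge h3 h4).symm
  rcases h.ih _ hcard ((hC.ng h.ng).mono le_sup_left) hBne with e | ⟨M, _, hu⟩
  · exact e
  · exact absurd ((hu M₁ ⟨hM₁, h1⟩).trans (hu M₂ ⟨hM₂, h2⟩).symm) hMne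

lemma K2 [Finite G] {C C' δ₀ : Subgroup G} (h : sSup (SS (C ⊔ C')) = ⊤) (hδ₀ : IsCoatom δ₀)
    (hB : C ⊔ C' ≤ δ₀) :
    ∃ X δ, (X = C ∨ X = C') ∧ IsCoatom δ ∧ C ⊔ C' ≤ δ ∧ δ ≠ δ₀ ∧ Bad X δ := by
  have : ∃ H ∈ SS (C ⊔ C'), ¬ H ≤ δ₀ := by
    by_contra hc
    push Not at hc
    apply hδ₀.1
    rw [eq_top_iff, ← h]
    exact sSup_le hc
  obtain ⟨H, ⟨hBH, hHne, hG⟩, hHδ⟩ := this
  obtain ⟨δ, hδ, hHδ'⟩ := (eq_top_or_exists_le_coatom H).resolve_left hHne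
  have hδne : δ ≠ δ₀ := by
    rintro rfl; exact hHδ hHδ'
  by_cases h1 : SN H C
  · by_cases h2 : SN H C'
    · exfalso
      have := eq_of_SN_GenBy (h1.sup h2) hG
      apply hHδ; rw [← this]; exact hB
    · refine ⟨C', δ, Or.inr rfl, hδ, hBH.trans hHδ', hδne, (le_sup_right.trans hBH).trans hHδ',
        hδ, ?_⟩
      intro hs; exact h2 (hs.of_le (le_sup_right.trans hBH) hHδ')
  · refine ⟨C, δ, Or.inl rfl, hδ, hBH.trans hHδ', hδne, (le_sup_left.trans hBH).trans hHδ',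
      hδ, ?_⟩
    intro hs; exact h1 (hs.of_le (le_sup_left.trans hBH) hHδ')

lemma Hyp.E [Finite G] {A C C' M₁ M₂ : Subgroup G} (h : Hyp A) (hC : CJ A C) (hC' : CJ A C')
    (hne : C ≠ C') (hM₁ : IsCoatom M₁) (hM₂ : IsCoatom M₂) (hMne : M₁ ≠ M₂) (h1 : C ⊔ C' ≤ M₁)
    (h2 : C ⊔ C' ≤ M₂) :
    ∃ δ₁ δ₂, δ₁ ≠ δ₂ ∧ Bad C δ₁ ∧ Bad C' δ₂ ∧ C ⊔ C' ≤ δ₁ ∧ C ⊔ C' ≤ δ₂ := by
  have ht := h.sup_top hC hC' hne hM₁ hM₂ hMne h1 h2
  obtain ⟨X₁, δ₁, hX₁, hδ₁, hB₁, -, hb₁⟩ := K2 ht hM₁ h1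
  obtain ⟨X₂, δ₂, hX₂, hδ₂, hB₂, hne₂, hb₂⟩ := K2 ht hδ₁ hB₁
  rcases hX₁ with e1 | e1 <;> rcases hX₂ with e2 | e2 <;> subst e1 <;> subst e2
  · exact absurd (h.P1 hC hb₂ hb₁) hne₂
  · exact ⟨δ₁, δ₂, hne₂.symm, hb₁, hb₂, hB₁, hB₂⟩
  · exact ⟨δ₂, δ₁, hne₂, hb₂, hb₁, hB₂, hB₁⟩
  · exact absurd (h.P1 hC' hb₂ hb₁) hne₂

lemma Hyp.U1 [Finite G] {A C C' δ δ'' : Subgroup G} (h : Hyp A) (hC : CJ A C) (hC' : CJ A C')
    (hb : Bad C δ) (hb' : Bad C' δ) (hδ'' : IsCoatom δ'') (hne : δ'' ≠ δ) (hle : C ⊔ C' ≤ δ'') :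
    C = C' := by
  by_contra hCC
  obtain ⟨δ₁, δ₂, h12, hb₁, hb₂, -, -⟩ :=
    h.E hC hC' hCC hb.2.1 hδ'' hne.symm (sup_le hb.1 hb'.1) hle
  exact h12 ((h.P1 hC hb₁ hb).trans (h.P1 hC' hb₂ hb').symm)

lemma grow [Finite G] {δ D : Subgroup G} {𝓖 : Set (Subgroup G)}
    (hcl : ∀ C ∈ 𝓖, ∀ t ∈ δ, cj t C ≤ D → cj t C ∈ 𝓖) (hZ : sSup 𝓖 ≤ D) :
    ∀ (n : ℕ) (T : Subgroup G), Nat.card T = n → T ≤ δ → SN T (sSup 𝓖) → ¬ T ≤ D →
      ∃ z ∈ T, z ∉ D ∧ ∀ C ∈ 𝓖, cj z C ∈ 𝓖 := by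
  intro n
  induction n using Nat.strong_induction_on with
  | _ n ih =>
    intro T hn hTδ hSN hTD
    rcases hSN.dec with e | ⟨N, h1, h2, h3, h4⟩
    · exact absurd (e ▸ hZ) hTD
    · by_cases hND : N ≤ D
      · obtain ⟨z, hzT, hzD⟩ := SetLike.not_le_iff_exists.1 hTD
        refine ⟨z, hzT, hzD, ?_⟩
        intro C hC
        apply hcl C hC z (hTδ hzT)
        refine le_trans ?_ hND
        intro x hx
        rw [mem_cj] at hx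
        have h5 : z⁻¹ * x * z ∈ N := h3 (le_sSup hC hx)
        have := h1.2 z hzT _ h5
        simpa [mul_assoc] using this
      · have hlt : Nat.card N < n := by
          rw [← hn]; exact card_lt (lt_of_le_of_ne h1.1 h2)
        obtain ⟨z, hzN, hzD, hz⟩ := ih _ hlt N rfl (h1.1.trans hTδ) h4 hND
        exact ⟨z, h1.1 hzN, hzD, hz⟩

/-- Conjugates of `A` inside `D`. -/
def SC (A D : Subgroup G) : Set (Subgroup G) := {C | CJ A C ∧ C ≤ D}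

/-- Conjugates of `A` inside `D` subnormal in `M`. -/
def SCM (A D M : Subgroup G) : Set (Subgroup G) := {C | CJ A C ∧ C ≤ D ∧ SN M C}

lemma exists_z [Finite G] {A D M : Subgroup G} (hDM : ¬ M ≤ D) :
    ∃ z ∈ M, z ∉ D ∧ ∀ C ∈ SCM A D M, cj z C ∈ SCM A D M := by
  have hcl : ∀ C ∈ SCM A D M, ∀ t ∈ M, cj t C ≤ D → cj t C ∈ SCM A D M := by
    rintro C ⟨h1, h2, h3⟩ t ht hle
    exact ⟨h1.cjg t, hle, h3.cj_mem ht⟩
  have hZ : sSup (SCM A D M) ≤ D := sSup_le fun C hC => hC.2.1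
  have hSN : SN M (sSup (SCM A D M)) := SN.sSup fun C hC => hC.2.2
  exact grow hcl hZ _ M rfl le_rfl hSN hDM

lemma Hyp.nonempty_SCM [Finite G] {A D M M' : Subgroup G} (h : Hyp A) (hM : IsCoatom M)
    (hM' : IsCoatom M') (hne : M ≠ M') (hDe : D = M ⊓ M') (hMD' : ¬ M' ≤ D) {C₁ : Subgroup G}
    (hC₁ : C₁ ∈ SC A D) : (SCM A D M).Nonempty := by
  by_contra hE
  rw [Set.not_nonempty_iff_eq_empty] at hE
  have hDM : D ≤ M := hDe ▸ inf_le_left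
  have hDM' : D ≤ M' := hDe ▸ inf_le_right
  have hbad : ∀ C ∈ SC A D, Bad C M := by
    intro C hC
    refine ⟨hC.2.trans hDM, hM, ?_⟩
    intro hs
    have hmem : C ∈ SCM A D M := ⟨hC.1, hC.2, hs⟩
    rw [hE] at hmem
    exact hmem
  have hs' : SN M' C₁ := by
    by_contra hc
    exact hne (h.P1 hC₁.1 (hbad _ hC₁) ⟨hC₁.2.trans hDM', hM', hc⟩)
  have huniq : ∀ C ∈ SC A D, C = C₁ := by
    intro C hC
    exact h.U1 hC.1 hC₁.1 (hbad _ hC) (hbad _ hC₁) hM' hne.symm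
      (sup_le (hC.2.trans hDM') (hC₁.2.trans hDM'))
  obtain ⟨z, hzM', hzD, hz⟩ := exists_z (A := A) hMD'
  have hC₁mem : C₁ ∈ SCM A D M' := ⟨hC₁.1, hC₁.2, hs'⟩
  have h2 := hz C₁ hC₁mem
  have e : cj z C₁ = C₁ := huniq _ ⟨h2.1, h2.2.1⟩
  have h3 := (hbad _ hC₁).cjg z
  rw [e] at h3
  have e2 : cj z M = M := h.P1 hC₁.1 h3 (hbad _ hC₁)
  have hnn : ¬ M.Normal := by
    intro hn
    exact hM.1 ((hC₁.1.ng h.ng) M hn (hC₁.2.trans hDM))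
  have hzM : z ∈ M := mem_of_cj_eq hM hnn e2
  exact hzD (hDe ▸ ⟨hzM, hzM'⟩)

lemma Hyp.perm [Finite G] {A D M M' : Subgroup G} (h : Hyp A) (hM : IsCoatom M)
    (hM' : IsCoatom M') (hne : M ≠ M') (hDM : D ≤ M) (hDM' : D ≤ M')
    (hne' : (SCM A D M).Nonempty) {z : G} (hzM : z ∈ M)
    (hz : ∀ C ∈ SCM A D M, cj z C ∈ SCM A D M) : ∀ C ∈ SC A D, cj z C ∈ SC A D := by
  intro C hC
  by_cases hs : SN M C
  · have := hz C ⟨hC.1, hC.2, hs⟩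
    exact ⟨this.1, this.2.1⟩
  · have hbC : Bad C M := ⟨hC.2.trans hDM, hM, hs⟩
    obtain ⟨C₀, hC₀⟩ := hne'
    have hne0 : C ≠ C₀ := by
      rintro rfl; exact hs hC₀.2.2
    have hC' := hz C₀ hC₀
    have hne1 : C ≠ cj z C₀ := by
      intro e; rw [← e] at hC'; exact hs hC'.2.2
    have hle0 : C ⊔ C₀ ≤ D := sup_le hC.2 hC₀.2.1
    obtain ⟨δ₁, δ, h12, hb₁, hb₂, hB₁, hB₂⟩ :=
      h.E hC.1 hC₀.1 hne0 hM hM' hne (hle0.trans hDM) (hle0.trans hDM')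
    have hle1 : C ⊔ cj z C₀ ≤ D := sup_le hC.2 hC'.2.1
    obtain ⟨δ₁', δ', h12', hb₁', hb₂', hB₁', hB₂'⟩ :=
      h.E hC.1 hC'.1 hne1 hM hM' hne (hle1.trans hDM) (hle1.trans hDM')
    have e1 : δ₁ = M := h.P1 hC.1 hb₁ hbC
    have hδM : δ ≠ M := by
      rw [← e1]; exact h12.symm
    have e2 : δ' = cj z δ := h.P1 hC'.1 hb₂' (hb₂.cjg z)
    have hCle : C ≤ cj z δ := by
      rw [← e2]; exact le_sup_left.trans hB₂'
    have hC'' : cj z⁻¹ C ≤ δ := by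
      rw [cj_le_iff, inv_inv]; exact hCle
    have hb'' : Bad (cj z⁻¹ C) M := by
      have := hbC.cjg z⁻¹
      rwa [cj_self (M.inv_mem hzM)] at this
    have hCCJ : CJ A (cj z⁻¹ C) := hC.1.cjg _
    have e3 : cj z⁻¹ C = C :=
      h.U1 hCCJ hC.1 hb'' hbC hb₂.2.1 hδM (sup_le hC'' (le_sup_left.trans hB₂))
    have e4 : cj z C = C := by
      have := congrArg (cj z) e3
      rw [cj_cj_inv] at this; exact this.symm
    rw [e4]; exact hC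

end Cfsg.Agent.H03.ZP
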