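import Mathlib
import Cfsg.Agent.Lib.H03.ZP2

/-! The generation theorem for subgroups with full normal closure: conclusion. -/

set_option autoImplicit false

namespace Cfsg.Agent.H03.ZP

open Subgroup

variable {G : Type*} [Group G]

lemma mem_norm_of_perm [Finite G] {𝓒 : Set (Subgroup G)} {z : G}
    (hz : ∀ C ∈ 𝓒, cj z C ∈ 𝓒) : z ∈ normalizer ((sSup 𝓒 : Subgroup G) : Set G) := by
  apply mem_norm_of_cj_eq
  have h1 : cj z (sSup 𝓒) ≤ sSup 𝓒 := by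
    rw [cj_le_iff]
    refine sSup_le fun C hC => ?_
    rw [← cj_le_iff]
    exact le_sSup (hz C hC)
  exact Subgroup.eq_of_le_of_card_ge h1 (by rw [card_cj])

theorem Hyp.no_two [Finite G] {A M₁ M₂ : Subgroup G} (h : Hyp A) (hM₁ : IsCoatom M₁)
    (hM₂ : IsCoatom M₂) (hne : M₁ ≠ M₂) (h1 : A ≤ M₁) (h2 : A ≤ M₂) : False := by
  classical
  let PS : Set (Subgroup G × Subgroup G) :=
    {p | IsCoatom p.1 ∧ IsCoatom p.2 ∧ p.1 ≠ p.2 ∧ ∃ C, CJ A C ∧ C ≤ p.1 ∧ C ≤ p.2}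
  have hPS : PS.Nonempty := ⟨(M₁, M₂), hM₁, hM₂, hne, A, ⟨1, (cj_one A).symm⟩, h1, h2⟩
  obtain ⟨⟨K, L⟩, hp, hmax⟩ :=
    Set.exists_max_image PS (fun p => Nat.card ↥(p.1 ⊓ p.2)) PS.toFinite hPS
  obtain ⟨hK, hL, hKL, C₁, hC₁, hC₁K, hC₁L⟩ := hp
  dsimp only at hK hL hKL hC₁K hC₁L
  have hD : K ⊓ L = K ⊓ L := rfl
  generalize hDdef : K ⊓ L = D at hD hmax
  have hDK : D ≤ K := hDdef ▸ inf_le_left
  have hDL : D ≤ L := hDdef ▸ inf_le_right
  have hKD : ¬ K ≤ D := fun hc => hKL ((hK.le_iff_eq hL.1).1 (hc.trans hDL)).symm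
  have hLD : ¬ L ≤ D := fun hc => hKL ((hL.le_iff_eq hK.1).1 (hc.trans hDK))
  have hC₁D : C₁ ∈ SC A D := ⟨hC₁, hDdef ▸ le_inf hC₁K hC₁L⟩
  have hneK := h.nonempty_SCM hK hL hKL hDdef.symm hLD hC₁D
  have hneL := h.nonempty_SCM hL hK hKL.symm (by rw [← hDdef, inf_comm]) hKD hC₁D
  obtain ⟨z₁, hz₁K, hz₁D, hz₁⟩ := exists_z (A := A) hKD
  obtain ⟨z₂, hz₂L, hz₂D, hz₂⟩ := exists_z (A := A) hLD
  have hp₁ := h.perm hK hL hKL hDK hDL hneK hz₁K hz₁
  have hp₂ := h.perm hL hK hKL.symm hDL hDK hneL hz₂L hz₂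
  have hWD : sSup (SC A D) ≤ D := sSup_le fun C hC => hC.2
  have hdn : ∀ d ∈ D, ∀ C ∈ SC A D, cj d C ∈ SC A D := by
    intro d hd C hC
    refine ⟨hC.1.cjg d, ?_⟩
    have := cj_mono (g := d) hC.2
    rwa [cj_self hd] at this
  have hNne : normalizer ((sSup (SC A D) : Subgroup G) : Set G) ≠ ⊤ := by
    intro e
    have hn := Subgroup.normalizer_eq_top_iff.1 e
    have htop := (hC₁.ng h.ng) _ hn (le_sSup hC₁D)
    rw [htop, top_le_iff] at hWD
    exact hK.1 (by rw [eq_top_iff, ← hWD]; exact hDK)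
  obtain ⟨M₃, hM₃, hNM₃⟩ := (eq_top_or_exists_le_coatom _).resolve_left hNne
  have hDM₃ : D ≤ M₃ := fun d hd => hNM₃ (mem_norm_of_perm (hdn d hd))
  have hz₁M₃ := hNM₃ (mem_norm_of_perm hp₁)
  have hz₂M₃ := hNM₃ (mem_norm_of_perm hp₂)
  have hM₃K : M₃ = K := by
    by_contra hc
    have hmem : (M₃, K) ∈ PS := ⟨hM₃, hK, hc, C₁, hC₁, hC₁D.2.trans hDM₃, hC₁K⟩
    have hle := hmax _ hmem
    have hlt : D < M₃ ⊓ K :=
      lt_of_le_of_ne (le_inf hDM₃ hDK) (fun e => hz₁D (e ▸ ⟨hz₁M₃, hz₁K⟩))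
    exact absurd (card_lt hlt) (not_lt.2 hle)
  have hM₃L : M₃ = L := by
    by_contra hc
    have hmem : (M₃, L) ∈ PS := ⟨hM₃, hL, hc, C₁, hC₁, hC₁D.2.trans hDM₃, hC₁L⟩
    have hle := hmax _ hmem
    have hlt : D < M₃ ⊓ L :=
      lt_of_le_of_ne (le_inf hDM₃ hDL) (fun e => hz₂D (e ▸ ⟨hz₂M₃, hz₂L⟩))
    exact absurd (card_lt hlt) (not_lt.2 hle)
  exact hKL (hM₃K.symm.trans hM₃L)

theorem core_aux [Finite G] : ∀ (n : ℕ) (A : Subgroup G), Nat.card G - Nat.card A = n → NG A →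
    A ≠ ⊤ → sSup (SS A) = ⊤ ∨ ∃! M : Subgroup G, IsCoatom M ∧ A ≤ M := by
  intro n
  induction n using Nat.strong_induction_on with
  | _ n ih =>
    intro A hn hNG hne
    by_cases hY : sSup (SS A) = ⊤
    · exact Or.inl hY
    · right
      have hyp : Hyp A := by
        refine ⟨hNG, hne, ?_, hY⟩
        intro B hB hNB hBne
        have h3 := Subgroup.card_le_card_group B
        exact ih _ (by omega) B rfl hNB hBne
      obtain ⟨M, hM, hAM⟩ := (eq_top_or_exists_le_coatom A).resolve_left hne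
      refine ⟨M, ⟨hM, hAM⟩, ?_⟩
      rintro M' ⟨hM', hAM'⟩
      by_contra hc
      exact hyp.no_two hM hM' (Ne.symm hc) hAM hAM'

/-- The generation theorem, ambient form. -/
theorem core [Finite G] (A : Subgroup G) (h : NG A) (hne : A ≠ ⊤) :
    sSup (SS A) = ⊤ ∨ ∃! M : Subgroup G, IsCoatom M ∧ A ≤ M :=
  core_aux _ A rfl h hne

lemma map_normal_NI {H : Subgroup G} {N' : Subgroup H} (hN' : N'.Normal) :
    NI (N'.map H.subtype) H := by
  refine ⟨Subgroup.map_subtype_le _, ?_⟩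
  rintro k hk _ ⟨n, hn, rfl⟩
  have := hN'.conj_mem n hn ⟨k, hk⟩
  exact ⟨_, this, by simp⟩

lemma genBy_iff {A H : Subgroup G} (hAH : A ≤ H) :
    Subgroup.normalClosure ((A.subgroupOf H : Subgroup ↥H) : Set ↥H) = ⊤ ↔ GenBy A H := by
  constructor
  · intro h N hN hAN
    have hn : (N.subgroupOf H).Normal := by
      constructor
      rintro ⟨x, hxH⟩ hx ⟨k, hkH⟩
      exact hN.2 k hkH x hx
    have hle : A.subgroupOf H ≤ N.subgroupOf H := fun x hx => hAN hx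
    have h1 := Subgroup.normalClosure_le_normal (N := N.subgroupOf H) hle
    rw [h, top_le_iff] at h1
    refine le_antisymm hN.1 ?_
    intro x hx
    have : (⟨x, hx⟩ : H) ∈ N.subgroupOf H := by rw [h1]; trivial
    exact this
  · intro h
    set N' := Subgroup.normalClosure ((A.subgroupOf H : Subgroup ↥H) : Set ↥H) with hN'
    have hn : N'.Normal := by rw [hN']; infer_instance
    have h1 := h _ (map_normal_NI hn) (by
      intro a ha
      refine ⟨⟨a, hAH ha⟩, ?_, rfl⟩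
      exact Subgroup.le_normalClosure (show (⟨a, hAH ha⟩ : H) ∈ A.subgroupOf H from ha))
    rw [eq_top_iff]
    rintro ⟨x, hx⟩ -
    rw [← h1] at hx
    obtain ⟨y, hy, e⟩ := hx
    have : y = ⟨x, by rw [← e]; exact y.2⟩ := Subtype.ext e
    rwa [← this]

end Cfsg.Agent.H03.ZP
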