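import Mathlib
import Cfsg.Agent.Lib.H03.ZP3

/-! Iterated commutators with an element whose normal closure is the whole group. -/

set_option autoImplicit false

namespace Cfsg.Agent.H03.ZP

open Subgroup

universe u

/-- The commutator map `g ↦ [g, a]`. -/
def FF {X : Type*} [Group X] (a g : X) : X := g * a * g⁻¹ * a⁻¹

theorem T2_aux : ∀ (n : ℕ) (X : Type u) [Group X] [Finite X], Nat.card X = n → ∀ a : X,
    (∀ N : Subgroup X, N.Normal → a ∈ N → N = ⊤) → ∀ k : ℕ,
    Subgroup.closure (insert a (Set.range ((FF a)^[k]))) = ⊤ := by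
  intro n
  induction n using Nat.strong_induction_on with
  | _ n ih =>
  intro X _ _ hn a ha k
  set R := Subgroup.closure (insert a (Set.range ((FF a)^[k]))) with hR
  have haR : a ∈ R := Subgroup.subset_closure (Set.mem_insert _ _)
  have hkR : ∀ g, (FF a)^[k] g ∈ R :=
    fun g => Subgroup.subset_closure (Set.mem_insert_of_mem _ ⟨g, rfl⟩)
  by_cases hA : Subgroup.zpowers a = ⊤
  · rw [eq_top_iff, ← hA, Subgroup.zpowers_le]; exact haR
  have hNG : NG (Subgroup.zpowers a) := fun N hN hle => ha N hN (Subgroup.zpowers_le.1 hle)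
  rcases core _ hNG hA with hS | ⟨M, ⟨hM, hAM⟩, hu⟩
  · rw [eq_top_iff, ← hS]
    refine sSup_le ?_
    rintro H ⟨hAH, hHne, hG⟩
    have haH : a ∈ H := hAH (Subgroup.mem_zpowers a)
    have hcard : Nat.card H < n := by
      rw [← hn]
      have h1 := Subgroup.card_le_card_group H
      refine lt_of_le_of_ne h1 ?_
      intro e
      exact hHne (Subgroup.eq_top_of_card_eq H e)
    have hN' : ∀ N : Subgroup H, N.Normal → (⟨a, haH⟩ : H) ∈ N → N = ⊤ := by
      intro N hN hmem
      have h1 := hG _ (map_normal_NI hN) (by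
        rw [Subgroup.zpowers_le]
        exact ⟨⟨a, haH⟩, hmem, rfl⟩)
      rw [eq_top_iff]
      rintro ⟨x, hx⟩ -
      rw [← h1] at hx
      obtain ⟨y, hy, e⟩ := hx
      have : y = ⟨x, by rw [← e]; exact y.2⟩ := Subtype.ext e
      rwa [← this]
    have h2 := ih _ hcard H rfl ⟨a, haH⟩ hN' k
    intro x hx
    have hmem : (⟨x, hx⟩ : H) ∈ Subgroup.closure
        (insert (⟨a, haH⟩ : H) (Set.range ((FF (⟨a, haH⟩ : H))^[k]))) := by
      rw [h2]; trivial
    have hmap : Subgroup.closure
        (insert (⟨a, haH⟩ : H) (Set.range ((FF (⟨a, haH⟩ : H))^[k]))) ≤ R.subgroupOf H := by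
      rw [Subgroup.closure_le]
      rintro y (rfl | ⟨g, rfl⟩)
      · exact haR
      · have hsemi : Function.Semiconj (Subtype.val : H → X) (FF ⟨a, haH⟩) (FF a) := by
          intro g; rfl
        show (((FF ⟨a, haH⟩)^[k] g : H) : X) ∈ R
        rw [(hsemi.iterate_right k) g]
        exact hkR _
    exact hmap hmem
  · by_contra hRne
    obtain ⟨M₀, hM₀, hRM₀⟩ := (eq_top_or_exists_le_coatom R).resolve_left hRne
    have hM₀M : M₀ = M := hu M₀ ⟨hM₀, Subgroup.zpowers_le.2 (hRM₀ haR)⟩
    subst hM₀M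
    have hex : ∃ g, g ∉ M₀ := by
      by_contra hc
      push Not at hc
      exact hM₀.1 (eq_top_iff.2 fun x _ => hc x)
    obtain ⟨g, hg⟩ := hex
    have haM : a ∈ M₀ := hRM₀ haR
    have hnn : ¬ M₀.Normal := fun hn' => hM₀.1 (ha _ hn' haM)
    have hstep : ∀ g', g' ∉ M₀ → FF a g' ∉ M₀ := by
      intro g' hg' hF
      have h1 : g' * a * g'⁻¹ ∈ M₀ := by
        have := M₀.mul_mem hF haM
        simpa [FF] using this
      have h2 : Subgroup.zpowers a ≤ cj g'⁻¹ M₀ := by
        rw [Subgroup.zpowers_le, mem_cj]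
        simpa using h1
      have h3 := hu _ ⟨isCoatom_cj hM₀ g'⁻¹, h2⟩
      have h4 := mem_of_cj_eq hM₀ hnn h3
      exact hg' (by simpa using M₀.inv_mem h4)
    have hit : ∀ (j : ℕ) (g' : X), g' ∉ M₀ → (FF a)^[j] g' ∉ M₀ := by
      intro j
      induction j with
      | zero => intro g' h; exact h
      | succ j ih =>
        intro g' h
        rw [Function.iterate_succ_apply']
        exact hstep _ (ih g' h)
    exact hit k g hg (hRM₀ (hkR g))

/-- `a` with full normal closure: `a` and the values of the iterated commutator map generate. -/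
theorem T2 {X : Type u} [Group X] [Finite X] (a : X)
    (ha : ∀ N : Subgroup X, N.Normal → a ∈ N → N = ⊤) (k : ℕ) :
    Subgroup.closure (insert a (Set.range ((FF a)^[k]))) = ⊤ :=
  T2_aux _ X rfl a ha k

end Cfsg.Agent.H03.ZP
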