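import Mathlib
import Cfsg.Agent.Lib.H03.ZP4

/-! Iterated commutators with an automorphism, via the semidirect product. -/

set_option autoImplicit false

namespace Cfsg.Agent.H03.ZP

open Subgroup SemidirectProduct

universe u

variable {G : Type u} [Group G] (α : MulAut G)

/-- The semidirect product of `G` with the cyclic group generated by `α`. -/
abbrev Hol : Type u := G ⋊[(Subgroup.zpowers α).subtype] (Subgroup.zpowers α)

/-- The element of the semidirect product corresponding to `α`. -/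
def aa : Hol α := inr ⟨α, Subgroup.mem_zpowers α⟩

/-- The map `c ↦ c * (α c)⁻¹`. -/
def ff (c : G) : G := c * (α c)⁻¹

lemma aa_conj (g : G) : aa α * inl g * (aa α)⁻¹ = inl (α g) := by
  have := inl_aut (φ := (Subgroup.zpowers α).subtype) ⟨α, mem_zpowers α⟩ g
  rw [map_inv] at this
  exact this.symm

lemma FF_inl (g : G) : FF (aa α) (inl g) = inl (ff α g) := by
  unfold FF ff
  have h1 : aa α * (inl g)⁻¹ * (aa α)⁻¹ = inl (α g⁻¹) := by
    rw [← map_inv]; exact aa_conj α g⁻¹
  calc inl g * aa α * (inl g)⁻¹ * (aa α)⁻¹ = inl g * (aa α * (inl g)⁻¹ * (aa α)⁻¹) := by group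
    _ = inl (g * (α g)⁻¹) := by rw [h1, map_inv, map_mul]

lemma aa_comm (r : Subgroup.zpowers α) : inr r * aa α = aa α * inr r := by
  obtain ⟨β, hβ⟩ := r
  obtain ⟨n, rfl⟩ := hβ
  unfold aa
  rw [← map_mul, ← map_mul]
  congr 1
  apply Subtype.ext
  exact (Commute.refl α).zpow_left n

lemma FF_gen (x : Hol α) : FF (aa α) x = inl (ff α x.left) := by
  have hx : FF (aa α) (inl x.left * inr x.right) = FF (aa α) (inl x.left) := by
    have hc := aa_comm α x.right
    unfold FF
    generalize (inl x.left : Hol α) = l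
    generalize (inr x.right : Hol α) = r at hc
    calc l * r * aa α * (l * r)⁻¹ * (aa α)⁻¹
        = l * (r * aa α) * r⁻¹ * l⁻¹ * (aa α)⁻¹ := by group
      _ = l * (aa α * r) * r⁻¹ * l⁻¹ * (aa α)⁻¹ := by rw [hc]
      _ = l * aa α * l⁻¹ * (aa α)⁻¹ := by group
  rw [inl_left_mul_inr_right] at hx
  rw [hx, FF_inl]

lemma iter_FF (j : ℕ) (x : Hol α) :
    (FF (aa α))^[j + 1] x = inl ((ff α)^[j + 1] x.left) := by
  rw [Function.iterate_succ_apply, Function.iterate_succ_apply, FF_gen]
  have hsemi : Function.Semiconj (⇑(inl : G →* Hol α)) (ff α) (FF (aa α)) :=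
    fun g => (FF_inl α g).symm
  exact ((hsemi.iterate_right j) _).symm

lemma ng_aa (hG : Subgroup.closure (Set.range (ff α)) = ⊤) (N : Subgroup (Hol α))
    (hN : N.Normal) (ha : aa α ∈ N) : N = ⊤ := by
  have h1 : ∀ g, (inl (ff α g) : Hol α) ∈ N := by
    intro g
    rw [← FF_inl]
    unfold FF
    exact N.mul_mem (hN.conj_mem _ ha _) (N.inv_mem ha)
  have h2 : ∀ g, (inl g : Hol α) ∈ N := by
    have hle : Subgroup.closure (Set.range (ff α)) ≤ N.comap (inl : G →* Hol α) :=
      (Subgroup.closure_le _).2 (by rintro _ ⟨g, rfl⟩; exact h1 g)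
    rw [hG, top_le_iff] at hle
    intro g
    have : g ∈ N.comap (inl : G →* Hol α) := by rw [hle]; trivial
    exact this
  have h3 : ∀ r : Subgroup.zpowers α, (inr r : Hol α) ∈ N := by
    rintro ⟨β, hβ⟩
    obtain ⟨n, rfl⟩ := hβ
    have e : (⟨(fun x : ℤ => α ^ x) n, ⟨n, rfl⟩⟩ : Subgroup.zpowers α)
        = (⟨α, mem_zpowers α⟩ : Subgroup.zpowers α) ^ n := Subtype.ext (by simp)
    rw [e, map_zpow]
    exact N.zpow_mem ha n
  rw [eq_top_iff]
  intro x _
  rw [← inl_left_mul_inr_right x]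
  exact N.mul_mem (h2 _) (h3 _)

lemma inv_H (k : ℕ) (β : Subgroup.zpowers α) :
    ∀ x ∈ Subgroup.closure (Set.range ((ff α)^[k])),
      (β : MulAut G) x ∈ Subgroup.closure (Set.range ((ff α)^[k])) := by
  have hc : (β : MulAut G) * α = α * β := by
    obtain ⟨β, hβ⟩ := β
    obtain ⟨n, rfl⟩ := hβ
    exact (Commute.refl α).zpow_left n
  have hsemi : Function.Semiconj (⇑(β : MulAut G)) (ff α) (ff α) := by
    intro c
    unfold ff
    have h1 : (β : MulAut G) (α c) = α ((β : MulAut G) c) := by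
      have := congrArg (fun f : MulAut G => f c) hc
      simpa [MulAut.mul_apply] using this
    rw [map_mul, map_inv, h1]
  have hle : Subgroup.closure (Set.range ((ff α)^[k])) ≤
      (Subgroup.closure (Set.range ((ff α)^[k]))).comap (β : MulAut G).toMonoidHom := by
    refine (Subgroup.closure_le _).2 ?_
    rintro _ ⟨c, rfl⟩
    exact Subgroup.subset_closure ⟨(β : MulAut G) c, ((hsemi.iterate_right k) c).symm⟩
  exact fun x hx => hle hx

/-- Elements of the semidirect product whose `G`-part lies in an invariant subgroup. -/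
def LL (H : Subgroup G) (hH : ∀ β : Subgroup.zpowers α, ∀ x ∈ H, (β : MulAut G) x ∈ H) :
    Subgroup (Hol α) where
  carrier := {x | x.left ∈ H}
  mul_mem' := by
    intro x y hx hy
    show (x * y).left ∈ H
    rw [mul_left]
    exact H.mul_mem hx (hH _ _ hy)
  one_mem' := H.one_mem
  inv_mem' := by
    intro x hx
    show x⁻¹.left ∈ H
    rw [inv_left]
    exact hH x.right⁻¹ _ (H.inv_mem hx)

theorem iter_main [Finite G] (hG : Subgroup.closure (Set.range (ff α)) = ⊤) (k : ℕ)
    (hk : 1 ≤ k) : Subgroup.closure (Set.range ((ff α)^[k])) = ⊤ := by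
  obtain ⟨j, rfl⟩ : ∃ j, k = j + 1 := ⟨k - 1, by omega⟩
  haveI : Finite (Hol α) := Finite.of_equiv _ SemidirectProduct.equivProd.symm
  have h := T2 (aa α) (ng_aa α hG) (j + 1)
  have hle : Subgroup.closure (insert (aa α) (Set.range ((FF (aa α))^[j + 1]))) ≤
      LL α (Subgroup.closure (Set.range ((ff α)^[j + 1]))) (inv_H α (j + 1)) := by
    refine (Subgroup.closure_le _).2 ?_
    rintro y (rfl | ⟨x, rfl⟩)
    · exact (Subgroup.closure (Set.range ((ff α)^[j + 1]))).one_mem
    · show ((FF (aa α))^[j + 1] x).left ∈ Subgroup.closure (Set.range ((ff α)^[j + 1]))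
      rw [iter_FF]
      exact Subgroup.subset_closure ⟨x.left, rfl⟩
  rw [h, top_le_iff] at hle
  rw [eq_top_iff]
  intro g _
  have : (inl g : Hol α) ∈ LL α (Subgroup.closure (Set.range ((ff α)^[j + 1]))) (inv_H α (j + 1)) := by
    rw [hle]; trivial
  exact this

end Cfsg.Agent.H03.ZP
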