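import Mathlib
import Cfsg.Agent.Lib.H03.PR9
import Cfsg.Agent.Lib.H13.CycOdd
import Cfsg.Agent.Lib.H13.CoprimeGen
import Cfsg.Agent.Lib.H19.CyclicSylow
import Cfsg.Agent.Lib.H01.Frob
import Cfsg.Prelude.Def_LieExceptional

/-!
Two-point stabilisers of odd order in Zassenhaus groups: the abstract group theory.
-/

set_option autoImplicit false

namespace Cfsg.Agent.H03.ZS

open MulAction
open scoped commutatorElement

variable {G : Type*} [Group G]

/-- An element acting on a cyclic `r`-group, `r` odd, with square centralising it, either centralises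
or inverts it. -/
theorem invert_of_cyclic {r : ℕ} [hr : Fact r.Prime] (hr2 : r ≠ 2) (R : Subgroup G) [Finite R]
    (hR : IsPGroup r R) (hc : IsCyclic R) (g : G) (hg : ∀ y ∈ R, g * y * g⁻¹ ∈ R)
    (hg2 : ∀ y ∈ R, (g * g) * y = y * (g * g)) (hng : ∃ y ∈ R, g * y ≠ y * g) :
    ∀ y ∈ R, g * y * g⁻¹ = y⁻¹ := by
  classical
  obtain ⟨⟨y₀, hy₀⟩, hgen⟩ := hc.exists_generator
  have hrp : r.Prime := hr.out
  have hgen' : ∀ y ∈ R, ∃ m : ℤ, y = y₀ ^ m := by
    intro y hy
    obtain ⟨m, hm⟩ := Subgroup.mem_zpowers_iff.1 (hgen ⟨y, hy⟩)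
    refine ⟨m, ?_⟩
    have := congrArg Subtype.val hm
    simpa using this.symm
  obtain ⟨k, hk⟩ := hgen' _ (hg y₀ hy₀)
  have hconjz : ∀ (m : ℤ), g * y₀ ^ m * g⁻¹ = (y₀ ^ k) ^ m := by
    intro m
    rw [← hk]
    exact (map_zpow (MulAut.conj g).toMonoidHom y₀ m)
  have h2 : y₀ ^ (k * k) = y₀ := by
    have h3 : g * (g * y₀ * g⁻¹) * g⁻¹ = y₀ := by
      have h4 := hg2 y₀ hy₀
      calc g * (g * y₀ * g⁻¹) * g⁻¹ = (g * g) * y₀ * (g * g)⁻¹ := by group
        _ = y₀ * (g * g) * (g * g)⁻¹ := by rw [h4]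
        _ = y₀ := by group
    rw [hk, hconjz k, ← zpow_mul] at h3
    exact h3
  obtain ⟨v, hv⟩ : ∃ v : ℕ, orderOf y₀ = r ^ v := by
    have := (IsPGroup.iff_orderOf.1 hR) ⟨y₀, hy₀⟩
    obtain ⟨v, hv⟩ := this
    exact ⟨v, by simpa using hv⟩
  have h5 : ((r ^ v : ℕ) : ℤ) ∣ (k - 1) * (k + 1) := by
    rw [← hv, orderOf_dvd_iff_zpow_eq_one]
    have : (k - 1) * (k + 1) = k * k - 1 := by ring
    rw [this, zpow_sub, h2]
    simp
  have hrz : Prime (r : ℤ) := Nat.prime_iff_prime_int.1 hrp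
  by_cases hr1 : (r : ℤ) ∣ k - 1
  · -- then `r` does not divide `k + 1`
    have hr3 : ¬ (r : ℤ) ∣ k + 1 := by
      intro h3
      have h4 : (r : ℤ) ∣ 2 := by
        have := dvd_sub h3 hr1
        have h6 : k + 1 - (k - 1) = 2 := by ring
        rwa [h6] at this
      have h6 : r ∣ 2 := by exact_mod_cast h4
      exact hr2 ((Nat.prime_dvd_prime_iff_eq hrp Nat.prime_two).1 h6)
    have hcop : IsCoprime ((r ^ v : ℕ) : ℤ) (k + 1) := by
      push_cast
      apply IsCoprime.pow_left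
      exact (Prime.coprime_iff_not_dvd hrz).2 hr3
    have h6 : ((r ^ v : ℕ) : ℤ) ∣ k - 1 := hcop.dvd_of_dvd_mul_right h5
    exfalso
    obtain ⟨y, hy, hne⟩ := hng
    apply hne
    have h7 : y₀ ^ k = y₀ := by
      rw [← hv] at h6
      have h8 := (orderOf_dvd_iff_zpow_eq_one).1 h6
      rw [zpow_sub, zpow_one] at h8
      exact mul_inv_eq_one.1 h8
    obtain ⟨m, rfl⟩ := hgen' y hy
    have h8 := hconjz m
    rw [h7] at h8
    exact mul_inv_eq_iff_eq_mul.1 h8
  · have hcop : IsCoprime ((r ^ v : ℕ) : ℤ) (k - 1) := by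
      push_cast
      apply IsCoprime.pow_left
      exact (Prime.coprime_iff_not_dvd hrz).2 hr1
    have h6 : ((r ^ v : ℕ) : ℤ) ∣ k + 1 := hcop.dvd_of_dvd_mul_left h5
    have h7 : y₀ ^ k = y₀⁻¹ := by
      rw [← hv] at h6
      have h8 := (orderOf_dvd_iff_zpow_eq_one).1 h6
      rw [zpow_add, zpow_one] at h8
      exact mul_eq_one_iff_eq_inv.1 h8
    intro y hy
    obtain ⟨m, rfl⟩ := hgen' y hy
    rw [hconjz m, h7, inv_zpow]

/-- A subgroup of `H` containing a Sylow subgroup for every prime is everything. -/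
theorem eq_top_of_forall_sylow {H : Type*} [Group H] [Finite H] (C : Subgroup H)
    (hC : ∀ r : ℕ, r.Prime → r ∣ Nat.card H → ¬ r ∣ C.index) : C = ⊤ := by
  by_contra hne
  have h1 : C.index ≠ 1 := by
    intro h
    exact hne (Subgroup.index_eq_one.1 h)
  obtain ⟨r, hr, hrd⟩ := Nat.exists_prime_and_dvd h1
  exact hC r hr (hrd.trans (Subgroup.index_dvd_card C)) hrd

/-- A normal cyclic subgroup, and an injective endomorphism inverting an element of odd order. -/
theorem centralizes_of_inverted {H : Type*} [Group H] [Finite H] (D : Subgroup H) [D.Normal]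
    (hD : IsCyclic D) (φ : H →* H) (hφ : Function.Injective φ) (hφD : ∀ c ∈ D, φ c ∈ D)
    (y : H) (hy : φ y = y⁻¹) (hodd : Odd (orderOf y)) : ∀ c ∈ D, c * y = y * c := by
  classical
  let σ : D →* D := (MulAut.conjNormal y).toMonoidHom
  have hσ : ∀ c : D, ((σ c : D) : H) = y * c * y⁻¹ := fun c => by
    show ((MulAut.conjNormal y c : D) : H) = _
    simp
  obtain ⟨k, hk⟩ := MonoidHom.map_cyclic σ
  let ψ : D → D := fun c => ⟨φ c, hφD c c.2⟩
  have hψ : Function.Injective ψ := by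
    intro a b hab
    exact Subtype.ext (hφ (congrArg Subtype.val hab))
  have hψs : Function.Surjective ψ := Finite.surjective_of_injective hψ
  have h1 : ∀ c ∈ D, y⁻¹ * c * y = y * c * y⁻¹ := by
    intro c hc
    obtain ⟨c₀, hc₀⟩ := hψs ⟨c, hc⟩
    have hc₁ : φ (c₀ : H) = c := congrArg Subtype.val hc₀
    have h2 : (y * c₀ * y⁻¹ : H) = (c₀ : H) ^ k := by
      have := congrArg Subtype.val (hk c₀)
      rw [hσ] at this
      simpa using this
    have h3 : (y * c * y⁻¹ : H) = c ^ k := by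
      have := congrArg Subtype.val (hk ⟨c, hc⟩)
      rw [hσ] at this
      simpa using this
    have h4 : φ (y * c₀ * y⁻¹) = y⁻¹ * c * y := by
      simp [map_mul, hy, hc₁]
    rw [h3, ← h4, h2, map_zpow, hc₁]
  intro c hc
  have h2 : Commute c (y * y) := by
    have h3 := h1 c hc
    have h4 : c * (y * y) = y * (y⁻¹ * c * y) * y := by group
    rw [Commute, SemiconjBy, h4, h3]
    group
  obtain ⟨m, hm⟩ := hodd
  have h5 : y = (y * y) ^ (m + 1) := by
    rw [← pow_two, ← pow_mul]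
    have h6 : y ^ orderOf y = 1 := pow_orderOf_eq_one y
    rw [hm] at h6
    calc y = y ^ (2 * m + 1) * y := by rw [h6, one_mul]
      _ = y ^ (2 * (m + 1)) := by rw [← pow_succ, mul_add, mul_one]
  have h6 : Commute c y := by
    rw [h5]
    exact h2.pow_right _
  exact h6

/-- Main abstract lemma. -/
theorem abstract_main [Finite G] (H : Subgroup G) (hodd : Odd (Nat.card H)) (hZ : IsZGroup H)
    (S : Set G) (hSne : S.Nonempty)
    (hSn : ∀ s ∈ S, ∀ h ∈ H, s * h * s⁻¹ ∈ H)
    (hS2 : ∀ s ∈ S, s * s ∈ H)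
    (hSS : ∀ s ∈ S, ∀ s' ∈ S, s⁻¹ * s' ∈ H)
    (hP : ∀ (r : ℕ) [Fact r.Prime], r ∣ Nat.card H → ∀ P : Sylow r H,
        ∃ g, (g ∈ H ∨ g ∈ S) ∧ (∀ y ∈ P, g * (y : G) * g⁻¹ ∈ (P : Subgroup H).map H.subtype) ∧
          ∃ y ∈ P, g * (y : G) ≠ (y : G) * g) :
    IsCyclic H ∧ ∀ s ∈ S, ∀ h ∈ H, s * h * s⁻¹ = h⁻¹ := by
  classical
  have hr2 : ∀ r : ℕ, r.Prime → r ∣ Nat.card H → r ≠ 2 := by
    rintro r hr hrd rfl
    exact (Nat.not_even_iff_odd.2 hodd) (even_iff_two_dvd.2 hrd)
  set D : Subgroup H := commutator H with hDdef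
  have hDcyc : IsCyclic D := IsZGroup.isCyclic_commutator H
  have hDcop : (Nat.card D).Coprime D.index := IsZGroup.coprime_commutator_index H
  -- inversion of Sylow subgroups for primes not dividing `D`
  have hA1 : ∀ (r : ℕ) [Fact r.Prime], r ∣ Nat.card H → ¬ r ∣ Nat.card D → ∀ P : Sylow r H,
      ∃ g ∈ S, ∀ y ∈ P, g * (y : G) * g⁻¹ = (y : G)⁻¹ := by
    intro r _ hrd hrD P
    have hrp : r.Prime := Fact.out
    -- normaliser in `H` centralises
    have hNC : ∀ g : H, (∀ y ∈ P, g * y * g⁻¹ ∈ P) → ∀ y ∈ P, g * y = y * g := by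
      intro g hg y hy
      have h1 : g * y * g⁻¹ * y⁻¹ ∈ P := P.1.mul_mem (hg y hy) (P.1.inv_mem hy)
      have h2 : g * y * g⁻¹ * y⁻¹ ∈ D := by
        have : g * y * g⁻¹ * y⁻¹ = ⁅g, y⁆ := rfl
        rw [this]
        exact Subgroup.commutator_mem_commutator (Subgroup.mem_top g) (Subgroup.mem_top y)
      have h3 : orderOf (⟨_, h1⟩ : P.1) ∣ Nat.card P.1 := orderOf_dvd_natCard _
      have h4 : orderOf (⟨_, h2⟩ : D) ∣ Nat.card D := orderOf_dvd_natCard _
      have h5 : orderOf (g * y * g⁻¹ * y⁻¹) ∣ Nat.card P.1 := by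
        rwa [Subgroup.orderOf_mk] at h3
      have h6 : orderOf (g * y * g⁻¹ * y⁻¹) ∣ Nat.card D := by
        rwa [Subgroup.orderOf_mk] at h4
      obtain ⟨w, hw⟩ := IsPGroup.iff_card.1 P.2
      have h7 : Nat.Coprime (Nat.card P.1) (Nat.card D) := by
        rw [hw]
        exact Nat.Coprime.pow_left _ ((Nat.Prime.coprime_iff_not_dvd hrp).2 hrD)
      have h8 : orderOf (g * y * g⁻¹ * y⁻¹) = 1 := Nat.eq_one_of_dvd_coprimes h7 h5 h6
      have h9 := orderOf_eq_one_iff.1 h8
      have h10 : g * y * g⁻¹ = y := mul_inv_eq_one.1 h9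
      exact mul_inv_eq_iff_eq_mul.1 h10
    obtain ⟨g, hgHS, hgn, y₁, hy₁, hgy₁⟩ := hP r hrd P
    have hgn' : ∀ y ∈ P, ∃ y' ∈ P, g * (y : G) * g⁻¹ = (y' : G) := by
      intro y hy
      obtain ⟨y', hy', he⟩ := Subgroup.mem_map.1 (hgn y hy)
      exact ⟨y', hy', he.symm⟩
    have hgH : ∀ g' : H, (∀ y ∈ P, ∃ y' ∈ P, (g' : G) * (y : G) * (g' : G)⁻¹ = (y' : G)) →
        ∀ y ∈ P, (g' : G) * y = y * g' := by
      intro g' hg' y hy
      have h2 := hNC g' (by
        intro y hy
        obtain ⟨y', hy', he⟩ := hg' y hy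
        have : g' * y * g'⁻¹ = y' := Subtype.ext (by simpa using he)
        rw [this]; exact hy') y hy
      have h3 := congrArg Subtype.val h2
      simpa using h3
    have hgS : g ∈ S := by
      rcases hgHS with h | h
      · exfalso
        exact hgy₁ (hgH ⟨g, h⟩ hgn' y₁ hy₁)
      · exact h
    refine ⟨g, hgS, ?_⟩
    -- transfer to a subgroup of `G`
    set R : Subgroup G := (P : Subgroup H).map H.subtype with hR
    have hRcyc : IsCyclic R := by
      have : IsCyclic P.1 := inferInstance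
      exact isCyclic_of_surjective _
        (P.1.equivMapOfInjective H.subtype H.subtype_injective).surjective
    have hRp : IsPGroup r R := P.2.map H.subtype
    have hmemR : ∀ y : G, y ∈ R ↔ ∃ y' ∈ P, (y' : G) = y := fun y => by
      rw [hR, Subgroup.mem_map]
      exact Iff.rfl
    have hg2 : ∀ y ∈ R, (g * g) * y = y * (g * g) := by
      intro y hy
      obtain ⟨y', hy', rfl⟩ := (hmemR y).1 hy
      refine hgH ⟨g * g, hS2 g hgS⟩ ?_ y' hy'
      intro z hz
      obtain ⟨z₁, hz₁, hz₁e⟩ := hgn' z hz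
      obtain ⟨z₂, hz₂, hz₂e⟩ := hgn' z₁ hz₁
      refine ⟨z₂, hz₂, ?_⟩
      rw [← hz₂e, ← hz₁e]
      show g * g * (z : G) * (g * g)⁻¹ = _
      group
    have hinv := invert_of_cyclic (hr2 r hrp hrd) R hRp hRcyc g
      (fun y hy => by
        obtain ⟨y', hy', rfl⟩ := (hmemR y).1 hy
        exact hgn y' hy') hg2 ⟨y₁, (hmemR _).2 ⟨y₁, hy₁, rfl⟩, hgy₁⟩
    intro y hy
    exact hinv y ((hmemR _).2 ⟨y, hy, rfl⟩)
  -- conjugation endomorphisms
  obtain ⟨s₀, hs₀⟩ := hSne
  have hφ : ∀ s ∈ S, ∃ φ : H →* H, Function.Injective φ ∧ (∀ h : H, ((φ h : H) : G) = s * h * s⁻¹) := by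
    intro s hs
    refine ⟨((MulAut.conj s).toMonoidHom.comp H.subtype).codRestrict H
      (fun h => hSn s hs h h.2), ?_, fun h => rfl⟩
    intro a b hab
    have h1 : s * (a : G) * s⁻¹ = s * b * s⁻¹ := congrArg Subtype.val hab
    apply Subtype.ext
    simpa using h1
  have hφD : ∀ φ : H →* H, ∀ c ∈ D, φ c ∈ D := by
    intro φ c hc
    have h1 : D.map φ ≤ D := by
      rw [hDdef, commutator_def, Subgroup.map_commutator]
      exact Subgroup.commutator_mono le_top le_top
    exact h1 (Subgroup.mem_map_of_mem φ hc)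
  -- elements of Sylow subgroups for primes outside `D` centralise `D`
  have hA2 : ∀ (r : ℕ) [Fact r.Prime], r ∣ Nat.card H → ¬ r ∣ Nat.card D → ∀ P : Sylow r H,
      ∀ y ∈ P, ∀ c ∈ D, c * y = y * c := by
    intro r _ hrd hrD P y hy
    obtain ⟨g, hg, hinv⟩ := hA1 r hrd hrD P
    obtain ⟨φ, hφi, hφe⟩ := hφ g hg
    have h2 : φ y = y⁻¹ := Subtype.ext (by rw [hφe, hinv y hy]; simp)
    have hoddy : Odd (orderOf y) := Odd.of_dvd_nat hodd (orderOf_dvd_natCard y)
    exact centralizes_of_inverted D hDcyc φ hφi (hφD φ) y h2 hoddy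
  have hCtop : Subgroup.centralizer (D : Set H) = ⊤ := by
    apply eq_top_of_forall_sylow
    intro r hr hrd
    haveI : Fact r.Prime := ⟨hr⟩
    by_cases hrD : r ∣ Nat.card D
    · intro hri
      have h1 : D ≤ Subgroup.centralizer (D : Set H) := by
        intro c hc
        rw [Subgroup.mem_centralizer_iff]
        intro c' hc'
        have := (IsCyclic.isMulCommutative (α := D)).is_comm.comm ⟨c', hc'⟩ ⟨c, hc⟩
        exact congrArg Subtype.val this
      have h2 : (Subgroup.centralizer (D : Set H)).index ∣ D.index := Subgroup.index_dvd_of_le h1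
      have h3 : r ∣ Nat.gcd (Nat.card D) D.index := Nat.dvd_gcd hrD (hri.trans h2)
      rw [hDcop] at h3
      exact hr.one_lt.ne' (Nat.dvd_one.1 h3)
    · intro hri
      obtain ⟨P⟩ : Nonempty (Sylow r H) := inferInstance
      have h1 : P.1 ≤ Subgroup.centralizer (D : Set H) := by
        intro y hy
        rw [Subgroup.mem_centralizer_iff]
        intro c hc
        exact hA2 r hrd hrD P y hy c hc
      have h2 : (Subgroup.centralizer (D : Set H)).index ∣ P.1.index := Subgroup.index_dvd_of_le h1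
      exact P.not_dvd_index (hri.trans h2)
  have hnil : Group.IsNilpotent H := by
    rw [Subgroup.nilpotent_iff_lowerCentralSeries]
    refine ⟨2, ?_⟩
    show ⁅Subgroup.lowerCentralSeries (⊤ : Subgroup H) 1, (⊤ : Subgroup H)⁆ = ⊥
    have h1 : Subgroup.lowerCentralSeries (⊤ : Subgroup H) 1 = D :=
      Subgroup.top_lowerCentralSeries_one
    rw [h1, Subgroup.commutator_eq_bot_iff_le_centralizer]
    intro c hc
    rw [Subgroup.mem_centralizer_iff]
    intro h _
    have h2 : h ∈ Subgroup.centralizer (D : Set H) := by rw [hCtop]; trivial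
    exact (Subgroup.mem_centralizer_iff.1 h2 c hc).symm
  have hHcyc : IsCyclic H := inferInstance
  have hHcomm : ∀ a b : H, a * b = b * a := (IsCyclic.isMulCommutative (α := H)).is_comm.comm
  refine ⟨hHcyc, ?_⟩
  have hD1 : D = ⊥ := by
    rw [hDdef, commutator_def, Subgroup.commutator_eq_bot_iff_le_centralizer]
    intro a _
    rw [Subgroup.mem_centralizer_iff]
    intro b _
    exact hHcomm b a
  have hDc : Nat.card D = 1 := by rw [hD1]; simp
  intro s hs
  obtain ⟨φ, hφi, hφe⟩ := hφ s hs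
  let K : Subgroup H :=
    { carrier := {h | φ h = h⁻¹}
      mul_mem' := by
        intro a b ha hb
        simp only [Set.mem_ofPred_eq] at ha hb ⊢
        rw [map_mul, ha, hb, mul_inv_rev, hHcomm]
      one_mem' := by simp
      inv_mem' := by
        intro a ha
        simp only [Set.mem_ofPred_eq] at ha ⊢
        rw [map_inv, ha] }
  have hKtop : K = ⊤ := by
    apply eq_top_of_forall_sylow
    intro r hr hrd hri
    haveI : Fact r.Prime := ⟨hr⟩
    obtain ⟨P⟩ : Nonempty (Sylow r H) := inferInstance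
    have hrD : ¬ r ∣ Nat.card D := by
      rw [hDc]
      intro h
      exact hr.one_lt.ne' (Nat.dvd_one.1 h)
    have h1 : P.1 ≤ K := by
      intro y hy
      obtain ⟨g, hg, hinv⟩ := hA1 r hrd hrD P
      show φ y = y⁻¹
      apply Subtype.ext
      rw [hφe]
      -- `s = g * h`
      have hh : g⁻¹ * s ∈ H := hSS g hg s hs
      have h2 : (⟨g⁻¹ * s, hh⟩ : H) * y = y * ⟨g⁻¹ * s, hh⟩ := hHcomm _ _
      have h3 : g⁻¹ * s * (y : G) = y * (g⁻¹ * s) := congrArg Subtype.val h2
      have h4 : s * (y : G) * s⁻¹ = g * (y : G) * g⁻¹ := by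
        have h5 : s * (y : G) = g * (g⁻¹ * s * y) := by group
        rw [h5, h3]
        group
      rw [h4, hinv y hy]
      simp
    exact P.not_dvd_index (hri.trans (Subgroup.index_dvd_of_le h1))
  intro h hh
  have h1 : (⟨h, hh⟩ : H) ∈ K := by rw [hKtop]; trivial
  have h2 : φ ⟨h, hh⟩ = (⟨h, hh⟩ : H)⁻¹ := h1
  have h3 := congrArg Subtype.val h2
  rw [hφe] at h3
  simpa using h3

section Zass

variable {Ω : Type*} [MulAction G Ω]

/-- The Zassenhaus conditions in elementary form. -/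
theorem zass_facts (hZ : Cfsg.IsZassenhausGroup G Ω) :
    (∀ g : G, (∀ x : Ω, g • x = x) → g = 1) ∧
    (∀ a b c d : Ω, a ≠ b → c ≠ d → ∃ g : G, g • a = c ∧ g • b = d) ∧
    (∀ (g : G) (x y z : Ω), x ≠ y → y ≠ z → x ≠ z → g • x = x → g • y = y → g • z = z → g = 1) ∧
    (∀ a b : Ω, a ≠ b → ∃ h : G, h ≠ 1 ∧ h • a = a ∧ h • b = b) := by
  obtain ⟨hf, h2t, h3, ⟨g₀, hg₀, a₀, b₀, hab₀, ha₀, hb₀⟩, -⟩ := hZ
  have hfaith : ∀ g : G, (∀ x : Ω, g • x = x) → g = 1 := by
    intro g hg
    apply hf.eq_of_smul_eq_smul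
    intro x
    rw [hg x, one_smul]
  rw [MulAction.is_two_pretransitive_iff] at h2t
  have h2 : ∀ a b c d : Ω, a ≠ b → c ≠ d → ∃ g : G, g • a = c ∧ g • b = d :=
    fun a b c d h h' => h2t h h'
  refine ⟨hfaith, h2, ?_, ?_⟩
  · intro g x y z hxy hyz hxz hx hy hz
    exact h3 g x y z hxy hyz hxz hx hy hz
  · intro a b hab
    obtain ⟨t, hta, htb⟩ := h2 a₀ b₀ a b hab₀ hab
    refine ⟨t * g₀ * t⁻¹, ?_, ?_, ?_⟩
    · intro h
      apply hg₀
      have : g₀ = t⁻¹ * (t * g₀ * t⁻¹) * t := by group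
      rw [this, h]
      group
    · rw [← hta]
      simp [mul_smul, ha₀]
    · rw [← htb]
      simp [mul_smul, hb₀]

/-- Order of a two-transitive group. -/
theorem card_two_trans [Finite G] [Fintype Ω]
    (h2 : ∀ a b c d : Ω, a ≠ b → c ≠ d → ∃ g : G, g • a = c ∧ g • b = d) {a b : Ω} (hab : a ≠ b) :
    (stabilizer G a ⊓ stabilizer G b : Subgroup G).index =
      Fintype.card Ω * (Fintype.card Ω - 1) := by
  classical
  set H := (stabilizer G a ⊓ stabilizer G b : Subgroup G) with hH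
  let L := stabilizer G a
  have h1 : L.index = Fintype.card Ω := by
    rw [MulAction.index_stabilizer]
    have : MulAction.orbit G a = Set.univ := by
      ext x
      simp only [Set.mem_univ, iff_true]
      by_cases hx : x = a
      · rw [hx]; exact MulAction.mem_orbit_self a
      · obtain ⟨g, hg, -⟩ := h2 a b x (if x = b then a else b) hab (by
          split_ifs with h
          · rw [h]; exact hab.symm
          · exact h)
        exact ⟨g, hg⟩
    rw [this, Set.ncard_univ, Nat.card_eq_fintype_card]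
  let K : Subgroup L := stabilizer L b
  have h3 : K.index = Fintype.card Ω - 1 := by
    rw [MulAction.index_stabilizer]
    have : MulAction.orbit L b = {x | x ≠ a} := by
      ext x
      constructor
      · rintro ⟨g, rfl⟩
        show (g : G) • b ≠ a
        intro h
        apply hab
        have h4 : (g : G) • a = a := g.2
        exact MulAction.injective (g : G) (h4.trans h.symm)
      · intro hx
        obtain ⟨g, hg1, hg2⟩ := h2 a b a x hab (Ne.symm hx)
        exact ⟨⟨g, hg1⟩, hg2⟩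
    rw [this]
    have h5 : ({x | x ≠ a} : Set Ω) = Set.univ \ {a} := by
      ext x; simp
    rw [h5, Set.ncard_sdiff_singleton_of_mem (Set.mem_univ _), Set.ncard_univ,
      Nat.card_eq_fintype_card]
  have h4 : K.map L.subtype = H := by
    ext g
    simp only [Subgroup.mem_map, hH, Subgroup.mem_inf]
    constructor
    · rintro ⟨k, hk, rfl⟩
      exact ⟨k.2, hk⟩
    · rintro ⟨h5, h6⟩
      exact ⟨⟨g, h5⟩, h6, rfl⟩
  rw [← h4, Subgroup.index_map_subtype, h1, h3, mul_comm]

/-- `H` acts freely on the remaining points. -/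
theorem card_dvd_sub_two [Finite G] [Fintype Ω]
    (h3 : ∀ (g : G) (x y z : Ω), x ≠ y → y ≠ z → x ≠ z → g • x = x → g • y = y → g • z = z → g = 1)
    {a b : Ω} (hab : a ≠ b) :
    Nat.card (stabilizer G a ⊓ stabilizer G b : Subgroup G) ∣ Fintype.card Ω - 2 := by
  classical
  set H := (stabilizer G a ⊓ stabilizer G b : Subgroup G) with hH
  let S : SubMulAction H Ω :=
    { carrier := {x | x ≠ a ∧ x ≠ b}
      smul_mem' := by
        rintro ⟨h, hha, hhb⟩ x ⟨hxa, hxb⟩
        constructor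
        · intro he
          apply hxa
          have h1 : h • x = h • a := he.trans (by rw [show h • a = a from hha])
          exact MulAction.injective h h1
        · intro he
          apply hxb
          have h1 : h • x = h • b := he.trans (by rw [show h • b = b from hhb])
          exact MulAction.injective h h1 }
  have h1 := Cfsg.Agent.H01.card_dvd_of_free (H := H) (X := S) (by
    rintro ⟨h, hha, hhb⟩ ⟨x, hxa, hxb⟩ he
    have h2 : h • x = x := congrArg Subtype.val he
    have := h3 h a b x hab (Ne.symm hxb) (Ne.symm hxa) hha hhb h2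
    exact Subtype.ext this)
  have h2 : Nat.card S = Fintype.card Ω - 2 := by
    have h5 : ((S : Set Ω)) = (Set.univ \ {a}) \ {b} := by
      ext x
      simp only [Set.mem_diff, Set.mem_univ, true_and, Set.mem_singleton_iff]
      exact Iff.rfl
    have h6 : Nat.card S = (S : Set Ω).ncard := rfl
    rw [h6, h5, Set.ncard_sdiff_singleton_of_mem (by simp [hab.symm]),
      Set.ncard_sdiff_singleton_of_mem (Set.mem_univ _), Set.ncard_univ,
      Nat.card_eq_fintype_card]
    omega
  rwa [h2] at h1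

/-- An element of `H` commuting with an element of the kernel. -/
theorem kernel_commute_eq_one
    (h3 : ∀ (g : G) (x y z : Ω), x ≠ y → y ≠ z → x ≠ z → g • x = x → g • y = y → g • z = z → g = 1)
    {a b : Ω} (hab : a ≠ b) (F : Subgroup G) (hFle : F ≤ stabilizer G a)
    (hreg : ∀ y z : Ω, y ≠ a → z ≠ a → ∃! u : F, (u : G) • y = z) {x u : G}
    (hxa : x • a = a) (hxb : x • b = b) (hx1 : x ≠ 1) (hu : u ∈ F) (hc : u * x = x * u) : u = 1 := by
  by_contra hu1
  have hua : u • a = a := hFle hu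
  have h1 : u • b ≠ a := by
    intro h
    apply hab
    exact MulAction.injective u (h.trans hua.symm).symm ▸ rfl
  have h2 : u • b ≠ b := by
    intro h
    obtain ⟨w, -, hw⟩ := hreg b b hab.symm hab.symm
    have e1 := hw ⟨u, hu⟩ h
    have e2 := hw 1 (by simp)
    exact hu1 (congrArg Subtype.val (e1.trans e2.symm))
  apply hx1
  refine h3 x a b (u • b) hab (Ne.symm h2) (Ne.symm h1) hxa hxb ?_
  rw [← mul_smul, ← hc, mul_smul, hxb]

end Zass

end Cfsg.Agent.H03.ZS
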